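import Cfsg.Agent.S2F.Base

/-!
Standard subgroups of type `²F₄(q)`: more lemmas on the frame.
-/

set_option autoImplicit false
set_option linter.unusedSectionVars false
set_option linter.unusedSimpArgs false
set_option maxRecDepth 20000

namespace Cfsg.Agent.S2F

open Subgroup Cfsg.Agent.Oct Cfsg.Agent.Fus
open scoped commutatorElement

variable {K : Type*} [Field K] [Tw K] {G : Type*} [Group G] [Finite K]

namespace Re

variable (R : Re K G)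

/-- `M` is perfect. -/
theorem C_perfect : ⁅R.C, R.C⁆ = R.C := by
  refine le_antisymm (commutator_le.2 fun a ha b hb => ?_) ?_
  · exact mul_mem (mul_mem (mul_mem ha hb) (inv_mem ha)) (inv_mem hb)
  obtain ⟨x, h0, h1⟩ := R.big
  set P := ⁅R.C, R.C⁆
  have cm : ∀ {a b}, a ∈ R.C → b ∈ R.C → a * b * a⁻¹ * b⁻¹ ∈ P := fun ha hb => commutator_mem_commutator ha hb
  have cj : ∀ {a b}, a ∈ R.C → b ∈ P → a * b * a⁻¹ ∈ P := fun {a b} ha hb => by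
    have := mul_mem (cm ha ((commutator_le.2 fun a ha b hb =>
      mul_mem (mul_mem (mul_mem ha hb) (inv_mem ha)) (inv_mem hb) : P ≤ R.C) hb)) hb
    simpa using this
  have hη : ∀ ν u, R.N (η ν u * u⁻¹) ∈ P := fun ν u => by
    rw [map_mul, map_inv, ← R.hN]; exact cm (R.h_mem ν) (R.N_mem u)
  have hc : ∀ u v, R.N (u * v * u⁻¹ * v⁻¹) ∈ P := fun u v => by
    simp only [map_mul, map_inv]; exact cm (R.N_mem u) (R.N_mem v)
  have hx := add_one_ne h1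
  have a7 : ∀ s, R.N (X7 s) ∈ P := fun s => by
    obtain ⟨ν, hν⟩ := exists_l2 h0
    have := hη ν (X7 (s / (x + 1)))
    rwa [show η ν (X7 (s / (x + 1))) * (X7 (s / (x + 1)))⁻¹ = X7 s by ext <;> simp only [UE, hν]; grind] at this
  have a1 : ∀ s, R.N (X1 s) ∈ P := fun s => R.wX7 s ▸ cj R.w_mem (a7 s)
  have a4 : ∀ s, R.N (X4 s) ∈ P := fun s => by
    have := hc (X1 1) (X6 s)
    rwa [show X1 1 * X6 s * (X1 1)⁻¹ * (X6 s)⁻¹ = X4 s by ext <;> simp only [UE]] at this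
  have a6 : ∀ s, R.N (X6 s) ∈ P := fun s => by
    have := hc (X8 1) (X3 s)
    rwa [show X8 1 * X3 s * (X8 1)⁻¹ * (X3 s)⁻¹ = X6 s by ext <;> simp only [UE]] at this
  have a2 : ∀ s, R.N (X2 s) ∈ P := fun s => R.wX6 s ▸ cj R.w_mem (a6 s)
  have a5 : ∀ s, R.N (X5 s) ∈ P := fun s => by
    have := mul_mem (mul_mem (hc (X8 1) (X2 s)) (a4 (σ s))) (a6 s)
    rwa [← map_mul, ← map_mul, show X8 1 * X2 s * (X8 1)⁻¹ * (X2 s)⁻¹ * X4 (σ s) * X6 s = X5 s by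
      ext <;> simp only [UE] <;> grind] at this
  have a3 : ∀ s, R.N (X3 s) ∈ P := fun s => R.wX5 s ▸ cj R.w_mem (a5 s)
  have b6 : ∀ s, R.N (Y6 s) ∈ P := fun s => by
    have := mul_mem (hη (Units.mk0 x h0) (Y6 (s / (x + 1))))
      (a6 (η (Units.mk0 x h0) (Y6 (s / (x + 1))) * (Y6 (s / (x + 1)))⁻¹).x6)
    rwa [← map_mul, show η (Units.mk0 x h0) (Y6 (s / (x + 1))) * (Y6 (s / (x + 1)))⁻¹ *
      X6 (η (Units.mk0 x h0) (Y6 (s / (x + 1))) * (Y6 (s / (x + 1)))⁻¹).x6 = Y6 s by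
        ext <;> simp only [UE, Units.val_mk0] <;> grind] at this
  have b2 : ∀ s, R.N (Y2 s) ∈ P := fun s => R.wY6 s ▸ cj R.w_mem (b6 s)
  have a8 : ∀ s, R.N (X8 s) ∈ P := fun s => by
    obtain ⟨ν, hν⟩ := exists_l4 h0
    have := hη ν (X8 (s / (x + 1)))
    rwa [show η ν (X8 (s / (x + 1))) * (X8 (s / (x + 1)))⁻¹ = X8 s by ext <;> simp only [UE]; grind] at this
  have b8 : ∀ s, R.N (Y8 s) ∈ P := fun s => by
    obtain ⟨ν, hν⟩ := exists_lσ h0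
    have := mul_mem (hη ν (Y8 (s / (x + 1)))) (a8 (η ν (Y8 (s / (x + 1))) * (Y8 (s / (x + 1)))⁻¹).x8)
    rwa [← map_mul, show η ν (Y8 (s / (x + 1))) * (Y8 (s / (x + 1)))⁻¹ *
      X8 (η ν (Y8 (s / (x + 1))) * (Y8 (s / (x + 1)))⁻¹).x8 = Y8 s by ext <;> simp only [UE, hν] <;> grind] at this
  have h4 : ∀ u : U K, u.y4 = 0 → R.N u ∈ P := fun u hu => by
    rw [decomp u, hu, Y4_zero, mul_one]
    simp only [map_mul]
    exact mul_mem (mul_mem (mul_mem (mul_mem (mul_mem (mul_mem (mul_mem (mul_mem (mul_mem (mul_mem (a1 _) (b2 _))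
      (a2 _)) (a3 _)) (a4 _)) (a5 _)) (b6 _)) (a6 _)) (a7 _)) (b8 _)) (a8 _)
  have hN : ∀ u, R.N u ∈ P := fun u => by
    have := mul_mem (hc (X8 u.y4) (X1 1)) (h4 ((X8 u.y4 * X1 1 * (X8 u.y4)⁻¹ * (X1 1)⁻¹)⁻¹ * u) (by
      simp only [UE]))
    rwa [← map_mul, mul_inv_cancel_left] at this
  refine Loc.C_le hN fun ν => cj (R.h_mem ν) ?_
  have := mul_mem (mul_mem (hN (Y8 1)) (cj R.w_mem (hN (X8 1)))) (inv_mem (hN (Y8 1)))
  rw [R.rel] at this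
  simpa [mul_assoc] using this

/-- `C_M(H₀) = U₄ H₀`. -/
theorem cenH {c : G} (hc : c ∈ R.C) (h : ∀ ν, c * R.h ν = R.h ν * c) :
    ∃ s r ν, c = R.N (Y4 s * X4 r) * R.h ν := by
  obtain ⟨x, h0, h1⟩ := R.big
  have hh : ∀ μ ν, R.h μ * R.h ν = R.h ν * R.h μ := fun μ ν => by rw [← map_mul, mul_comm, map_mul]
  rcases R.bru c hc with ⟨u, μ, rfl⟩ | ⟨u, v, μ, rfl⟩
  · have key : ∀ ν, η ν u = u := fun ν => R.inj (by
      have := h ν
      rw [mul_assoc, hh μ ν, ← mul_assoc, ← mul_assoc, mul_left_inj] at this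
      rw [← R.hN, ← this, mul_inv_cancel_right])
    refine ⟨u.y4, u.x4, μ, congrArg (· * _) (congrArg _ ?_)⟩
    obtain ⟨ν1, e1⟩ := exists_l2 h0
    obtain ⟨ν2, e2⟩ := exists_l4 h0
    obtain ⟨ν3, e3⟩ := exists_lσ h0
    have k1 := congrArg U.x1 (key ν1⁻¹)
    have k2 := congrArg U.y2 (key (Units.mk0 x h0)⁻¹)
    have k3 := congrArg U.x2 (key ν1⁻¹)
    have k4 := congrArg U.x3 (key (Units.mk0 x h0)⁻¹)
    have k5 := congrArg U.x5 (key (Units.mk0 x h0))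
    have k6 := congrArg U.y6 (key (Units.mk0 x h0))
    have k7 := congrArg U.x6 (key ν1)
    have k8 := congrArg U.x7 (key ν1)
    have k9 := congrArg U.y8 (key ν3)
    have k10 := congrArg U.x8 (key ν2)
    simp only [η, inv_inv, Units.val_mk0, e1, e3, mul_comm (σ (ν2 : K)), e2] at k1 k2 k3 k4 k5 k6 k7 k8 k9 k10
    ext <;> simp only [UE] <;> grind
  · exfalso
    set ν := Units.mk0 x h0
    have e := h ν
    have e0 : R.h ν * R.w = R.w * (R.h ν)⁻¹ := by rw [← R.wh, ← mul_assoc, ← mul_assoc, R.ww, one_mul, R.w_inv]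
    have e1 : R.w * R.N (u⁻¹ * η ν u) * R.w⁻¹ = R.N (v * (η ν v)⁻¹) * R.h (ν * ν) := by
      rw [mul_assoc, hh μ ν, ← mul_assoc, ← mul_assoc, mul_left_inj] at e
      simp only [map_mul, map_inv, ← R.hN]
      calc _ = R.w * (R.N u)⁻¹ * (R.h ν * (R.N u * R.w * R.N v)) * (R.N v)⁻¹ * (R.w⁻¹ * (R.h ν)⁻¹ * R.w⁻¹) := by group
        _ = _ := by
          rw [← e, R.w_inv, ← e0, mul_assoc (R.h ν) R.w, R.ww]
          calc _ = R.w * R.w * (R.N v * R.h ν * (R.N v)⁻¹ * R.h ν) := by group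
            _ = _ := by rw [R.ww]; group
    rw [R.wN _ (R.ti _ _ _ e1), eq_comm, ← eq_inv_mul_iff_mul_eq, ← map_inv, ← map_mul R.N] at e1
    have := congrArg Units.val (Loc.h_eq_N e1)
    simp only [ν, Units.val_mul, Units.val_mk0, Units.val_one] at this
    grind

/-- `L` is generated by the root groups `X_j`, `j` even. -/
theorem gen_even {P : Subgroup G} (h : ∀ (k : ℤ) s, R.ρ ^ k * R.N (X4 s) * (R.ρ ^ k)⁻¹ ∈ P) : R.L ≤ P := by
  obtain ⟨x, h0, h1⟩ := R.big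
  set Q := closure {y | ∃ (k : ℤ) (s : K), y = R.ρ ^ k * R.N (X4 s) * (R.ρ ^ k)⁻¹}
  refine le_trans ?_ ((closure_le P).2 (by rintro _ ⟨k, s, rfl⟩; exact h k s) : Q ≤ P)
  have hq : ∀ (k : ℤ) s, R.ρ ^ k * R.N (X4 s) * (R.ρ ^ k)⁻¹ ∈ Q := fun k s => subset_closure ⟨k, s, rfl⟩
  have cjQ : ∀ {g}, (∀ (k : ℤ) s, g * (R.ρ ^ k * R.N (X4 s) * (R.ρ ^ k)⁻¹) * g⁻¹ ∈ Q) → ∀ {y}, y ∈ Q → g * y * g⁻¹ ∈ Q :=
    fun {g} hg y hy => (closure_le (K := Q.comap (MulAut.conj g).toMonoidHom)).2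
      (by rintro _ ⟨k, s, rfl⟩; exact hg k s) hy
  have wρ : R.w * R.ρ * R.w⁻¹ = R.ρ⁻¹ := by rw [ρ, mul_inv_rev, R.n_inv, R.w_inv, mul_assoc, mul_assoc, R.ww, mul_one]
  have cw : ∀ {y}, y ∈ Q → R.w * y * R.w⁻¹ ∈ Q := cjQ fun k s => by
    have := hq (-k) s
    rw [zpow_neg, ← inv_zpow, ← wρ, conj_zpow, ← R.wX4] at this
    simpa [mul_assoc] using this
  have cρ : ∀ {y}, y ∈ Q → R.ρ * y * R.ρ⁻¹ ∈ Q := cjQ fun k s => by
    have := hq (1 + k) s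
    rw [zpow_add, zpow_one] at this
    simpa [mul_assoc] using this
  have cn : ∀ {y}, y ∈ Q → R.n * y * R.n⁻¹ ∈ Q := fun hy => by
    have := cρ (cw hy)
    rw [ρ, mul_inv_rev, R.w_inv] at this
    simpa [mul_assoc, ← mul_assoc R.w R.w, R.ww] using this
  have cN : ∀ {u v}, R.N u ∈ Q → R.N v ∈ Q → R.N (u * v) ∈ Q := fun a b => map_mul R.N _ _ ▸ mul_mem a b
  have a4 : ∀ s, R.N (X4 s) ∈ Q := fun s => by simpa using hq 0 s
  have a6 : ∀ s, R.N (X6 s) ∈ Q := fun s => R.nX4 s ▸ cn (a4 s)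
  have a2 : ∀ s, R.N (X2 s) ∈ Q := fun s => R.wX6 s ▸ cw (a6 s)
  have a8 : ∀ s, R.N (X8 s) ∈ Q := fun s => R.nX2 s ▸ cn (a2 s)
  have a5 : ∀ s, R.N (X5 s) ∈ Q := fun s => by
    have := cN (cN (cN (cN (cN (a8 1) (a2 s)) (a8 1)) (a2 s)) (a4 (σ s))) (a6 s)
    rwa [show X8 1 * X2 s * X8 1 * X2 s * X4 (σ s) * X6 s = X5 s by ext <;> simp only [UE] <;> grind] at this
  have a3 : ∀ s, R.N (X3 s) ∈ Q := fun s => R.wX5 s ▸ cw (a5 s)
  have a7 : ∀ s, R.N (X7 s) ∈ Q := fun s => R.nX3 s ▸ cn (a3 s)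
  have a1 : ∀ s, R.N (X1 s) ∈ Q := fun s => R.wX7 s ▸ cw (a7 s)
  have hA : ∀ u : U K, u.y2 = 0 → u.y4 = 0 → u.y6 = 0 → u.y8 = 0 → R.N u ∈ Q := fun u e2 e4 e6 e8 => by
    rw [decomp u, e2, e4, e6, e8]
    simp only [Y2_zero, Y4_zero, Y6_zero, Y8_zero, mul_one]
    exact cN (cN (cN (cN (cN (cN (cN (a1 _) (a2 _)) (a3 _)) (a4 _)) (a5 _)) (a6 _)) (a7 _)) (a8 _)
  have b4 : ∀ s, R.N (Y4 s) ∈ Q := fun s => by
    have hx : x + σ x ≠ 0 := fun e => σ_ne_self h0 h1 (by grind)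
    obtain ⟨p, rfl⟩ : ∃ p, s = p * (x + σ x) := ⟨s / (x + σ x), by field_simp⟩
    have h2 := cN (cN (cN (cN (cN (a8 (p * x)) (a1 1)) (a8 (p * x))) (a8 p)) (a1 x)) (a8 p)
    have := cN h2 (hA ((X8 (p * x) * X1 1 * X8 (p * x) * X8 p * X1 x * X8 p)⁻¹ * Y4 (p * (x + σ x)))
      (by simp only [UE]) (by simp only [UE]; grind) (by simp only [UE]) (by simp only [UE]))
    rwa [mul_inv_cancel_left] at this
  have b6 : ∀ s, R.N (Y6 s) ∈ Q := fun s => R.nY4 s ▸ cn (b4 s)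
  have b2 : ∀ s, R.N (Y2 s) ∈ Q := fun s => R.wY6 s ▸ cw (b6 s)
  have b8 : ∀ s, R.N (Y8 s) ∈ Q := fun s => R.nY2 s ▸ cn (b2 s)
  have hN : ∀ u, R.N u ∈ Q := fun u => by
    rw [decomp u]
    exact cN (cN (cN (cN (cN (cN (cN (cN (cN (cN (cN (a1 _) (b2 _)) (a2 _)) (a3 _)) (b4 _)) (a4 _)) (a5 _)) (b6 _))
      (a6 _)) (a7 _)) (b8 _)) (a8 _)
  refine R.gen Q hN ?_ fun s => cn (a1 s)
  have := mul_mem (mul_mem (hN (Y8 1)) (cw (hN (X8 1)))) (inv_mem (hN (Y8 1)))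
  rw [R.rel] at this
  simpa [mul_assoc] using this

variable [Finite G]

/-- The classes of involutions of `L`. -/
theorem inv_classes {x : G} (hx : x ∈ R.L) (h2 : x * x = 1) (h1 : x ≠ 1) :
    ∃ g ∈ R.L, g * x * g⁻¹ = R.N (X4 1) ∨ g * x * g⁻¹ = R.N (X5 1) := by
  obtain ⟨g, hg, e⟩ := R.syl.exists_conj (Two.of_sq h2).isPGroup (zpowers_le_of_mem hx)
  obtain ⟨u, hu⟩ := e x (mem_zpowers x)
  let J : U K → U K → Prop := fun a b => ∃ g ∈ R.L, g * R.N a * g⁻¹ = R.N b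
  have tr : ∀ {a b c}, J a b → J b c → J a c := fun ⟨g, hg, e⟩ ⟨k, hk, e'⟩ =>
    ⟨k * g, mul_mem hk hg, by rw [← e', ← e]; group⟩
  have cj : ∀ {a b}, R.toLoc.Cj a b → J a b := fun ⟨g, hg, e⟩ => ⟨g, R.C_le hg, e⟩
  have j6 : J (X6 1) (X4 1) := ⟨_, R.n_mem, R.nX6 1⟩
  have uu : u * u = 1 := R.inj (by
    rw [map_mul, hu, map_one]
    calc _ = g * (x * x) * g⁻¹ := by group
      _ = 1 := by rw [h2]; group)
  have key : J u (X4 1) ∨ J u (X5 1) := by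
    rcases Loc.classify (L := R.toLoc) uu with ((h | h | h) | h) | ⟨s, h⟩
    · have h4 : u.x4 ≠ 0 := fun e => h1 (by
        rw [eq_X4 h, e, X4_zero, map_one, eq_comm, conj_eq_one_iff] at hu; exact hu)
      obtain ⟨κ, hκ⟩ := exists_l4 (inv_ne_zero h4)
      refine .inl ⟨_, R.l_mem κ, ?_⟩
      rw [R.lN, eq_X4 h]
      exact congrArg _ (by ext <;> simp only [UE, ζ, hκ]; exact inv_mul_cancel₀ h4)
    · exact .inl (tr (cj h) j6)
    · exact .inr (cj h)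
    · exact .inr (tr (tr (cj h) ⟨_, R.n_mem, R.nX7 1⟩) ⟨_, R.w_mem_L, R.wX3 1⟩)
    · have j : J u (X2 1 * X6 s) := tr (cj h) ⟨_, R.n_mem, by
        rw [map_mul, map_mul, ← R.nX8, ← R.nX4]; group⟩
      by_cases hs : s = 0
      · rw [hs, X6_zero, mul_one] at j
        exact .inl (tr (tr j ⟨_, R.w_mem_L, R.wX2 1⟩) j6)
      · exact .inr (tr j (cj (Loc.sec0 (by simp only [mem_As, UE, and_self]) (by simp [UE]) (by simp only [UE])
          (by simp only [UE]) (by simpa only [UE] using hs))))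
  rcases key with ⟨k, hk, e⟩ | ⟨k, hk, e⟩
  · exact ⟨k * g, mul_mem hk hg, .inl (by rw [← e, hu]; group)⟩
  · exact ⟨k * g, mul_mem hk hg, .inr (by rw [← e, hu]; group)⟩

theorem exists_sqrt {x : G} (hx : x ∈ R.L) (h2 : x * x = 1) : ∃ y ∈ R.L, y * y = x := by
  by_cases h1 : x = 1
  · exact ⟨1, one_mem _, by simp [h1]⟩
  have key : ∀ g ∈ R.L, ∀ v, g * x * g⁻¹ = R.N (v * v) → ∃ y ∈ R.L, y * y = x := fun g hg v e =>
    ⟨g⁻¹ * R.N v * g, mul_mem (mul_mem (inv_mem hg) (R.N_mem_L v)) hg, by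
      calc _ = g⁻¹ * R.N (v * v) * g := by rw [map_mul]; group
        _ = _ := by rw [← e]; group⟩
  obtain ⟨g, hg, e | e⟩ := R.inv_classes hx h2 h1
  · exact key g hg (Y4 1) (e.trans (congrArg _ (by ext <;> simp only [UE])))
  · obtain ⟨c, hc, e'⟩ := (Loc.cls5 (L := R.toLoc) (a := X8 1 * X2 1 * (X8 1 * X2 1))
      (by simp only [mem_Ys, UE, and_self]) (by simp [UE])).symm
    exact key (c * g) (mul_mem (R.C_le hc) hg) _ (by rw [← e', ← e]; group)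

end Re

namespace Fz

variable (F : Fz K G) [Finite G]

omit [Finite G] in
theorem isPGroup_T : IsPGroup 2 F.T := by
  rintro ⟨_, u, rfl | rfl⟩
  · obtain ⟨k, hk⟩ := Loc.two_N (L := F.toLoc) u
    exact ⟨k, Subtype.ext hk⟩
  · obtain ⟨k, hk⟩ := Loc.two_N (L := F.toLoc) u
    refine ⟨k + 1, Subtype.ext ?_⟩
    change (F.N u * F.t) ^ 2 ^ (k + 1) = 1
    rw [(show Commute (F.N u) F.t from (F.tN u).symm).mul_pow, pow_succ, pow_mul, hk, mul_comm, pow_mul, pow_two F.t,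
      F.tt]
    simp

omit [Finite K] [Finite G] in
theorem T_le : F.T ≤ centralizer {F.t} := by
  rintro _ ⟨u, rfl | rfl⟩ <;> rw [mem_centralizer_singleton_iff]
  · exact (F.tN u).symm
  · rw [← mul_assoc, F.tN]

theorem sylT : SylIn 2 F.T (centralizer {F.t}) := by
  refine sylIn_of_max F.T_le F.isPGroup_T fun B hB h1 h2 => ?_
  have h3 : B ⊓ F.L = F.N.range := F.syl.eq_of_le (by rintro _ ⟨u, rfl⟩; exact F.N_mem_L u) (hB.to_le inf_le_left)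
    (by rintro _ ⟨u, rfl⟩; exact ⟨h1 ⟨u, .inl rfl⟩, F.N_mem_L u⟩) inf_le_right
  intro x hx
  obtain ⟨k, hk⟩ := hB ⟨x, hx⟩
  rcases F.two x (mem_centralizer_singleton_iff.1 (h2 hx)) ⟨k, congrArg Subtype.val hk⟩ with h | h
  · obtain ⟨u, hu⟩ := h3.le ⟨hx, h⟩
    exact ⟨u, .inl hu.symm⟩
  · obtain ⟨u, hu⟩ := h3.le ⟨mul_mem hx (h1 ⟨1, .inr (by simp)⟩), h⟩
    exact ⟨u, .inr (by rw [hu, mul_assoc, F.tt, mul_one])⟩

omit [Finite G] in
theorem card_T : Nat.card F.T = 2 * Nat.card K ^ 12 := by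
  rw [← card_U, two_mul, ← Nat.card_sum]
  refine (Nat.card_eq_of_bijective (Sum.elim (fun u => (⟨F.N u, u, .inl rfl⟩ : F.T))
    fun u => ⟨F.N u * F.t, u, .inr rfl⟩) ⟨?_, ?_⟩).symm
  · have key : ∀ u v, F.N u ≠ F.N v * F.t := fun u v e => F.t_ne_N (v⁻¹ * u) (by rw [map_mul, map_inv, e]; group)
    rintro (u | u) (v | v) e <;> replace e := congrArg Subtype.val e
    · exact congrArg _ (F.inj e)
    · exact absurd e (key u v)
    · exact absurd e.symm (key v u)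
    · exact congrArg _ (F.inj (mul_right_cancel e))
  · rintro ⟨_, u, rfl | rfl⟩
    exacts [⟨.inl u, rfl⟩, ⟨.inr u, rfl⟩]

theorem exists_normT : ∃ g, (∀ x ∈ F.T, g * x * g⁻¹ ∈ F.T) ∧ g * F.t * g⁻¹ = F.t * F.N (X4 1) := by
  obtain ⟨g, hg⟩ := F.fus
  obtain ⟨c, hc, e⟩ := F.sylT.exists_conj (B := F.T.map (MulAut.conj g⁻¹).toMonoidHom) (F.isPGroup_T.map _) (by
    rintro _ ⟨x, hx, rfl⟩
    have h1 : x * (F.t * F.N (X4 1)) = F.t * F.N (X4 1) * x := by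
      have h2 := mem_centralizer_singleton_iff.1 (F.T_le hx)
      have h3 : x * F.N (X4 1) = F.N (X4 1) * x := by
        obtain ⟨u, rfl | rfl⟩ := hx
        · exact Loc.comm_Z (F.N_mem u) 1
        · rw [mul_assoc, F.tN, ← mul_assoc, Loc.comm_Z (F.N_mem u) 1, mul_assoc]
      rw [← mul_assoc, h2, mul_assoc, h3, mul_assoc]
    rw [mem_centralizer_singleton_iff]
    change g⁻¹ * x * g⁻¹⁻¹ * F.t = F.t * (g⁻¹ * x * g⁻¹⁻¹)
    rw [← hg] at h1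
    calc _ = g⁻¹ * (x * (g * F.t * g⁻¹)) * g := by group
      _ = _ := by rw [h1]; group)
  have h1 : (c * g⁻¹) • F.T = F.T := smul_eq_of_conj fun x hx => by
    simpa [mul_assoc] using e _ ⟨x, hx, rfl⟩
  refine ⟨(c * g⁻¹)⁻¹, fun x hx => conj_mem_of_smul_eq (inv_smul_eq_iff.2 h1.symm) hx, ?_⟩
  rw [← hg]
  calc _ = g * (c⁻¹ * (F.t * c)) * g⁻¹ := by group
    _ = _ := by rw [← mem_centralizer_singleton_iff.1 hc]; group

end Fz

end Cfsg.Agent.S2F
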