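import Cfsg.Agent.S2F.Base

/-!
Standard subgroups of type `²F₄(q)`: basic lemmas on `Hat` and `Hat5`.
-/

set_option autoImplicit false
set_option linter.unusedSectionVars false
set_option linter.unusedSimpArgs false
set_option maxRecDepth 20000

namespace Cfsg.Agent.S2F

open Subgroup Cfsg.Agent.Oct Cfsg.Agent.Fus
open scoped commutatorElement

variable {K : Type*} [Field K] [Tw K] {G : Type*} [Group G] {R : Rt K G}

theorem conj_add {f : K → G} (hf : ∀ c d, f (c + d) = f c * f d) (g : G) (c d : K) :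
    g * f (c + d) * g⁻¹ = g * f c * g⁻¹ * (g * f d * g⁻¹) := by rw [hf]; group

theorem zero_of_add {f : K → G} (hf : ∀ c d, f (c + d) = f c * f d) : f 0 = 1 := by
  have := hf 0 0
  rwa [add_zero, left_eq_mul] at this

theorem sq_of_add {f : K → G} (hf : ∀ c d, f (c + d) = f c * f d) (c : K) : f c * f c = 1 := by
  rw [← hf, CharTwo.add_self_eq_zero, zero_of_add hf]

theorem comm_conj {g x y x' y' : G} (h : x * y = y * x) (hx : g * x * g⁻¹ = x') (hy : g * y * g⁻¹ = y') :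
    x' * y' = y' * x' := by
  rw [← hx, ← hy]
  calc _ = g * (x * y) * g⁻¹ := by group
    _ = _ := by rw [h]; group

theorem conj_conj {g x y z : G} (h : x * y * x⁻¹ = z) : g * x * g⁻¹ * (g * y * g⁻¹) * (g * x * g⁻¹)⁻¹ = g * z * g⁻¹ := by
  rw [← h]; group

theorem conj_t {g x : G} (hg : g ∈ R.L) {u v : U K} (h : x * R.t * x⁻¹ = R.t * R.N u) (e : g * R.N u * g⁻¹ = R.N v) :
    g * x * g⁻¹ * R.t * (g * x * g⁻¹)⁻¹ = R.t * R.N v := by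
  have := conj_conj (g := g) h
  rwa [R.t_conj hg, show g * (R.t * R.N u) * g⁻¹ = g * R.t * g⁻¹ * (g * R.N u * g⁻¹) by group, R.t_conj hg, e] at this

namespace Hat

variable (H : Hat R)

theorem a_zero : H.a 0 = 1 := zero_of_add H.add
theorem a_sq (c : K) : H.a c * H.a c = 1 := sq_of_add H.add c
theorem A6_add (c d : K) : H.A6 (c + d) = H.A6 c * H.A6 d := conj_add H.add _ c d
theorem A2_add (c d : K) : H.A2 (c + d) = H.A2 c * H.A2 d := conj_add H.A6_add _ c d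
theorem A8_add (c d : K) : H.A8 (c + d) = H.A8 c * H.A8 d := conj_add H.A2_add _ c d
theorem A6_zero : H.A6 0 = 1 := zero_of_add H.A6_add
theorem A2_zero : H.A2 0 = 1 := zero_of_add H.A2_add
theorem A8_zero : H.A8 0 = 1 := zero_of_add H.A8_add

theorem C_a {m : G} (hm : m ∈ R.C) (c : K) : m * H.a c * m⁻¹ = H.a c := by rw [H.aC c m hm, mul_inv_cancel_right]
theorem w_a (c : K) : R.w * H.a c * R.w⁻¹ = H.a c := H.C_a R.w_mem c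
theorem n_a (c : K) : R.n * H.a c * R.n⁻¹ = H.A6 c := rfl
theorem n_A6 (c : K) : R.n * H.A6 c * R.n⁻¹ = H.a c := Re.n_symm rfl
theorem w_A6 (c : K) : R.w * H.A6 c * R.w⁻¹ = H.A2 c := rfl
theorem w_A2 (c : K) : R.w * H.A2 c * R.w⁻¹ = H.A6 c := Re.w_symm rfl
theorem n_A2 (c : K) : R.n * H.A2 c * R.n⁻¹ = H.A8 c := rfl
theorem n_A8 (c : K) : R.n * H.A8 c * R.n⁻¹ = H.A2 c := Re.n_symm rfl

theorem tA6 (c : K) : H.A6 c * R.t * (H.A6 c)⁻¹ = R.t * R.N (X6 c) := conj_t R.n_mem (H.ta c) (R.nX4 c)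
theorem tA2 (c : K) : H.A2 c * R.t * (H.A2 c)⁻¹ = R.t * R.N (X2 c) := conj_t R.w_mem_L (H.tA6 c) (R.wX6 c)
theorem tA8 (c : K) : H.A8 c * R.t * (H.A8 c)⁻¹ = R.t * R.N (X8 c) := conj_t R.n_mem (H.tA2 c) (R.nX2 c)

theorem N_a (u : U K) (c : K) : R.N u * H.a c = H.a c * R.N u := H.aC c _ (R.N_mem u)

theorem N_A6 {u : U K} (hu : u ∈ Rs) (c : K) : R.N u * H.A6 c = H.A6 c * R.N u :=
  comm_conj (H.N_a (ψ u) c) (Re.n_symm (R.nN hu)) rfl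

theorem N_A2 {u : U K} (hu : u ∈ Qs) (h7 : u.x7 = 0) (c : K) : R.N u * H.A2 c = H.A2 c * R.N u :=
  comm_conj (H.N_A6 (u := ω u) h7 c) (Re.w_symm (R.wN u hu)) rfl

theorem N_A8 {u : U K} (h1 : u.x1 = 0) (h2 : u.y2 = 0) (h3 : u.x2 = 0) (h4 : u.x3 = 0) (c : K) :
    R.N u * H.A8 c = H.A8 c * R.N u :=
  comm_conj (H.N_A2 (u := ψ u) (by simp only [ψ, mem_Qs, UE, h2, h3, and_self]) (by simp only [ψ, UE, h2, h3, h4]) c)
    (Re.n_symm (R.nN h1)) rfl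

theorem a_A6 (c d : K) : H.a c * H.A6 d = H.A6 d * H.a c := H.a46 c d
theorem a_A2 (c d : K) : H.a c * H.A2 d = H.A2 d * H.a c := comm_conj (H.a_A6 c d) (H.w_a c) rfl
theorem A6_A8 (c d : K) : H.A6 c * H.A8 d = H.A8 d * H.A6 c := comm_conj (H.a_A2 c d) rfl rfl

theorem X1_A6 (c d : K) : R.N (X1 d) * H.A6 c * (R.N (X1 d))⁻¹ = H.A6 c * H.a (c * d) := H.L1 c d

theorem X7_A2 (c d : K) : R.N (X7 d) * H.A2 c * (R.N (X7 d))⁻¹ = H.A2 c * H.a (c * d) := by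
  have := conj_conj (g := R.w) (H.X1_A6 c d)
  rwa [R.wX1, H.w_A6, show R.w * (H.A6 c * H.a (c * d)) * R.w⁻¹ = R.w * H.A6 c * R.w⁻¹ * (R.w * H.a (c * d) * R.w⁻¹)
    by group, H.w_a] at this

theorem X3_A8 (c d : K) : R.N (X3 d) * H.A8 c * (R.N (X3 d))⁻¹ = H.A8 c * H.A6 (c * d) := by
  have := conj_conj (g := R.n) (H.X7_A2 c d)
  rwa [R.nX7, H.n_A2, show R.n * (H.A2 c * H.a (c * d)) * R.n⁻¹ = R.n * H.A2 c * R.n⁻¹ * (R.n * H.a (c * d) * R.n⁻¹)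
    by group] at this

theorem a_memD (c : K) : H.a c ∈ H.Dh := subset_closure (.inl (.inl ⟨c, rfl⟩))
theorem A6_memD (c : K) : H.A6 c ∈ H.Dh := subset_closure (.inl (.inr ⟨1, one_mem _, c, by simp⟩))
theorem A2_memD (c : K) : H.A2 c ∈ H.Dh := subset_closure (.inl (.inr ⟨_, R.w_mem, c, rfl⟩))
theorem X4_memD (s : K) : R.N (X4 s) ∈ H.Dh := subset_closure (.inr ⟨s, rfl⟩)
theorem N_memW {v : U K} (hv : v ∈ As) : R.N v ∈ H.Wh := subset_closure (.inr ⟨v, hv, rfl⟩)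

theorem Dh_le : H.Dh ≤ H.Wh := closure_mono (Set.union_subset_union_right _ (by
  rintro _ ⟨s, rfl⟩
  exact ⟨_, by simp only [mem_As, UE, and_self], rfl⟩))

theorem a_mem (c : K) : H.a c ∈ H.Wh := H.Dh_le (H.a_memD c)
theorem A6_mem (c : K) : H.A6 c ∈ H.Wh := H.Dh_le (H.A6_memD c)
theorem A2_mem (c : K) : H.A2 c ∈ H.Wh := H.Dh_le (H.A2_memD c)

theorem _root_.Cfsg.Agent.S2F.conj_mem_closure {s : Set G} {g : G} (h : ∀ x ∈ s, g * x * g⁻¹ ∈ closure s) {x : G}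
    (hx : x ∈ closure s) : g * x * g⁻¹ ∈ closure s :=
  (closure_le (K := (closure s).comap (MulAut.conj g).toMonoidHom)).2 h hx

theorem _root_.Cfsg.Agent.S2F.conj_As (R : Re K G) {m : G} (hm : m ∈ R.C) {v : U K} (hv : v ∈ As) :
    ∃ v' ∈ As, m * R.N v * m⁻¹ = R.N v' := by
  have h1 : ∀ a ν, a * η ν v * a⁻¹ ∈ As := fun a ν => by
    rw [mem_As] at hv
    simp only [mem_As, UE, hv]; grind
  have h2 : ∀ v : U K, v ∈ As → ∀ a, a * ω v * a⁻¹ ∈ As := fun v hv a => by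
    rw [mem_As] at hv
    simp only [mem_As, UE, hv]; grind
  rcases R.bru m hm with ⟨a, ν, rfl⟩ | ⟨a, b, ν, rfl⟩
  · exact ⟨_, h1 a ν, by simp only [map_mul, map_inv, ← R.hN]; group⟩
  · refine ⟨_, h2 _ (h1 b ν) a, ?_⟩
    rw [map_mul, map_mul, ← R.wN _ ⟨(h1 b ν).2.2.2.2.2.1, (h1 b ν).2.2.2.2.2.2⟩]
    simp only [map_mul, map_inv, ← R.hN]; group

theorem conj_memD {m x : G} (hm : m ∈ R.C) (hx : x ∈ H.Dh) : m * x * m⁻¹ ∈ H.Dh := by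
  refine conj_mem_closure ?_ hx
  rintro _ ((⟨c, rfl⟩ | ⟨m', hm', c, rfl⟩) | ⟨s, rfl⟩)
  · rw [H.C_a hm]; exact H.a_memD c
  · exact subset_closure (.inl (.inr ⟨m * m', mul_mem hm hm', c, by group⟩))
  · rw [Loc.comm_Z hm, mul_inv_cancel_right]; exact H.X4_memD s

theorem conj_memW {m x : G} (hm : m ∈ R.C) (hx : x ∈ H.Wh) : m * x * m⁻¹ ∈ H.Wh := by
  refine conj_mem_closure ?_ hx
  rintro _ ((⟨c, rfl⟩ | ⟨m', hm', c, rfl⟩) | ⟨v, hv, rfl⟩)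
  · rw [H.C_a hm]; exact H.a_mem c
  · exact subset_closure (.inl (.inr ⟨m * m', mul_mem hm hm', c, by group⟩))
  · obtain ⟨v', h1, h2⟩ := conj_As R.toRe hm hv
    exact h2 ▸ H.N_memW h1

theorem h_a (ν : Kˣ) (c : K) : R.h ν * H.a c * (R.h ν)⁻¹ = H.a c := H.C_a (R.h_mem ν) c

theorem T_a (κ ν : Kˣ) (c : K) :
    R.l κ * R.h ν * H.a c * (R.l κ * R.h ν)⁻¹ = H.a ((κ : K) ^ 2 * σ (κ : K) * c) := by
  rw [← H.la]
  conv_rhs => rw [← H.h_a ν c]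
  group

variable [Finite K]

theorem T_A6 (κ ν : Kˣ) (c : K) :
    R.l κ * R.h ν * H.A6 c * (R.l κ * R.h ν)⁻¹ = H.A6 ((κ : K) * ν * σ ((κ : K) * ν) * c) := by
  obtain ⟨κ', ν', h1, -, h3⟩ := R.exists_nT κ ν
  have := conj_conj (g := R.n) (H.T_a κ' ν' c)
  rwa [Re.n_symm h3, ← σσ, h1, mul_comm (σ _)] at this

theorem T_A2 (κ ν : Kˣ) (c : K) :
    R.l κ * R.h ν * H.A2 c * (R.l κ * R.h ν)⁻¹ = H.A2 ((κ : K) * (ν⁻¹ : Kˣ) * σ ((κ : K) * (ν⁻¹ : Kˣ)) * c) := by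
  have := conj_conj (g := R.w) (H.T_A6 κ ν⁻¹ c)
  rwa [show R.w * (R.l κ * R.h ν⁻¹) * R.w⁻¹ = R.l κ * R.h ν by
    rw [← mul_assoc, ← R.lw, mul_assoc, mul_assoc, ← mul_assoc R.w, R.wh, map_inv, inv_inv]] at this

theorem T_A8 (κ ν : Kˣ) (c : K) :
    R.l κ * R.h ν * H.A8 c * (R.l κ * R.h ν)⁻¹ = H.A8 (σ (ν : K) * (ν : K) ^ 2 * c) := by
  obtain ⟨κ', ν', h1, h2, h3⟩ := R.exists_nT κ ν
  have := conj_conj (g := R.n) (H.T_A2 κ' ν' c)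
  rw [Re.n_symm h3] at this
  refine this.trans (congrArg H.A8 (congrArg (· * c) ?_))
  have h4 : σ ((κ' : K) * (ν'⁻¹ : Kˣ)) = (ν : K) ^ 2 := by
    have := σu_ne ν'
    rw [map_mul, h1, ← h2, Units.val_inv_eq_inv_val, map_inv₀]
    field_simp
  rw [h4, σ_inj (h4.trans (σσ _).symm)]

theorem l_A6 (κ : Kˣ) (c : K) : R.l κ * H.A6 c * (R.l κ)⁻¹ = H.A6 ((κ : K) * σ (κ : K) * c) := by
  simpa using H.T_A6 κ 1 c
theorem h_A6 (ν : Kˣ) (c : K) : R.h ν * H.A6 c * (R.h ν)⁻¹ = H.A6 ((ν : K) * σ (ν : K) * c) := by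
  simpa using H.T_A6 1 ν c
theorem l_A2 (κ : Kˣ) (c : K) : R.l κ * H.A2 c * (R.l κ)⁻¹ = H.A2 ((κ : K) * σ (κ : K) * c) := by
  simpa using H.T_A2 κ 1 c
theorem h_A2 (ν : Kˣ) (c : K) :
    R.h ν * H.A2 c * (R.h ν)⁻¹ = H.A2 (((ν⁻¹ : Kˣ) : K) * σ ((ν⁻¹ : Kˣ) : K) * c) := by
  simpa using H.T_A2 1 ν c
theorem l_A8 (κ : Kˣ) (c : K) : R.l κ * H.A8 c * (R.l κ)⁻¹ = H.A8 c := by
  simpa using H.T_A8 κ 1 c
theorem h_A8 (ν : Kˣ) (c : K) : R.h ν * H.A8 c * (R.h ν)⁻¹ = H.A8 (σ (ν : K) * (ν : K) ^ 2 * c) := by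
  simpa using H.T_A8 1 ν c

theorem l_memD (κ : Kˣ) {x : G} (hx : x ∈ H.Dh) : R.l κ * x * (R.l κ)⁻¹ ∈ H.Dh := by
  refine conj_mem_closure ?_ hx
  rintro _ ((⟨c, rfl⟩ | ⟨m', hm', c, rfl⟩) | ⟨s, rfl⟩)
  · rw [H.la]; exact H.a_memD _
  · exact subset_closure (.inl (.inr ⟨_, R.l_conj_C κ hm', _, by rw [← H.l_A6 κ c]; group⟩))
  · rw [R.lN, show ζ κ (X4 s) = X4 (ζ κ (X4 s)).x4 by ext <;> simp only [UE, ζ]]; exact H.X4_memD _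

theorem l_memW (κ : Kˣ) {x : G} (hx : x ∈ H.Wh) : R.l κ * x * (R.l κ)⁻¹ ∈ H.Wh := by
  refine conj_mem_closure ?_ hx
  rintro _ ((⟨c, rfl⟩ | ⟨m', hm', c, rfl⟩) | ⟨v, hv, rfl⟩)
  · rw [H.la]; exact H.a_mem _
  · exact subset_closure (.inl (.inr ⟨_, R.l_conj_C κ hm', _, by rw [← H.l_A6 κ c]; group⟩))
  · rw [R.lN]
    rw [mem_As] at hv
    exact H.N_memW (by simp only [mem_As, UE, ζ, hv, and_self])

end Hat

namespace Hat5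

variable (H : Hat5 R)

theorem a5_zero : H.a5 0 = 1 := zero_of_add H.add5
theorem A3_add (c d : K) : H.A3 (c + d) = H.A3 c * H.A3 d := conj_add H.add5 _ c d
theorem A7_add (c d : K) : H.A7 (c + d) = H.A7 c * H.A7 d := conj_add H.A3_add _ c d
theorem A1_add (c d : K) : H.A1 (c + d) = H.A1 c * H.A1 d := conj_add H.A7_add _ c d
theorem A3_zero : H.A3 0 = 1 := zero_of_add H.A3_add
theorem A7_zero : H.A7 0 = 1 := zero_of_add H.A7_add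
theorem A1_zero : H.A1 0 = 1 := zero_of_add H.A1_add

theorem n_a5 (c : K) : R.n * H.a5 c * R.n⁻¹ = H.a5 c := by rw [H.n5, mul_inv_cancel_right]
theorem w_a5 (c : K) : R.w * H.a5 c * R.w⁻¹ = H.A3 c := rfl
theorem w_A3 (c : K) : R.w * H.A3 c * R.w⁻¹ = H.a5 c := Re.w_symm rfl
theorem n_A3 (c : K) : R.n * H.A3 c * R.n⁻¹ = H.A7 c := rfl
theorem n_A7 (c : K) : R.n * H.A7 c * R.n⁻¹ = H.A3 c := Re.n_symm rfl
theorem w_A7 (c : K) : R.w * H.A7 c * R.w⁻¹ = H.A1 c := rfl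
theorem w_A1 (c : K) : R.w * H.A1 c * R.w⁻¹ = H.A7 c := Re.w_symm rfl

theorem tA3 (c : K) : H.A3 c * R.t * (H.A3 c)⁻¹ = R.t * R.N (X3 c) := conj_t R.w_mem_L (H.ta5 c) (R.wX5 c)
theorem tA7 (c : K) : H.A7 c * R.t * (H.A7 c)⁻¹ = R.t * R.N (X7 c) := conj_t R.n_mem (H.tA3 c) (R.nX3 c)
theorem tA1 (c : K) : H.A1 c * R.t * (H.A1 c)⁻¹ = R.t * R.N (X1 c) := conj_t R.w_mem_L (H.tA7 c) (R.wX7 c)

theorem A3_mem (c : K) : H.A3 c ∈ H.Wh := H.conj_memW R.w_mem (H.mem5 c)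

theorem N_A3 {u : U K} (hu : u ∈ Qs) (h6 : u.y6 = 0) (c : K) : R.N u * H.A3 c = H.A3 c * R.N u :=
  comm_conj (H.c0 c (ω u) ⟨h6, rfl⟩) (Re.w_symm (R.wN u hu)) rfl

theorem N_A7 {u : U K} (h1 : u.x1 = 0) (h2 : u.y2 = 0) (h3 : u.x2 = 0) (h4 : u.y4 = 0) (c : K) :
    R.N u * H.A7 c = H.A7 c * R.N u :=
  comm_conj (H.N_A3 (u := ψ u) (by simp only [ψ, mem_Qs, UE, h2, h3, and_self]) (by simp only [ψ, UE, h2, h3, h4]) c)
    (Re.n_symm (R.nN h1)) rfl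

theorem N_A1 {u : U K} (hu : u ∈ Qs) (h1 : u.x7 = 0) (h2 : u.y6 = 0) (h3 : u.x6 = 0) (h4 : u.y4 = 0) (c : K) :
    R.N u * H.A1 c = H.A1 c * R.N u :=
  comm_conj (H.N_A7 (u := ω u) h1 h2 (by simp only [UE, h1, h3]) h4 c) (Re.w_symm (R.wN u hu)) rfl

/-- `Ŵ₆ = n Ŵ n⁻¹` is abelian. -/
theorem comm6 {x y x' y' : G} (hx : x ∈ H.Wh) (hy : y ∈ H.Wh) (e1 : R.n * x * R.n⁻¹ = x') (e2 : R.n * y * R.n⁻¹ = y') :
    x' * y' = y' * x' := comm_conj (H.w1.comm x hx y hy) e1 e2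

theorem A7_a (c d : K) : H.A7 c * H.a d = H.a d * H.A7 c := H.comm6 (H.A3_mem c) (H.A6_mem d) rfl (H.n_A6 d)
theorem A7_a5 (c d : K) : H.A7 c * H.a5 d = H.a5 d * H.A7 c := H.comm6 (H.A3_mem c) (H.mem5 d) rfl (H.n_a5 d)
theorem A7_A6 (c d : K) : H.A7 c * H.A6 d = H.A6 d * H.A7 c := H.comm6 (H.A3_mem c) (H.a_mem d) rfl rfl
theorem A7_A8 (c d : K) : H.A7 c * H.A8 d = H.A8 d * H.A7 c := H.comm6 (H.A3_mem c) (H.A2_mem d) rfl rfl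
theorem A8_a (c d : K) : H.A8 c * H.a d = H.a d * H.A8 c := H.comm6 (H.A2_mem c) (H.A6_mem d) rfl (H.n_A6 d)
theorem A8_a5 (c d : K) : H.A8 c * H.a5 d = H.a5 d * H.A8 c := H.comm6 (H.A2_mem c) (H.mem5 d) rfl (H.n_a5 d)

theorem hv_mem (v : U K) : H.hv v ∈ H.Wh :=
  mul_mem (mul_mem (mul_mem (mul_mem (H.A2_mem _) (H.A3_mem _)) (H.a_mem _)) (H.mem5 _)) (H.A6_mem _)

theorem t_mul {x y : G} (hx : x ∈ H.Wh) {u v : U K} (hv : v ∈ As) (e1 : x * R.t * x⁻¹ = R.t * R.N u)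
    (e2 : y * R.t * y⁻¹ = R.t * R.N v) : x * y * R.t * (x * y)⁻¹ = R.t * R.N (u * v) := by
  calc _ = x * (y * R.t * y⁻¹) * x⁻¹ := by group
    _ = x * R.t * x⁻¹ * (x * R.N v * x⁻¹) := by rw [e2]; group
    _ = _ := by rw [e1, H.w1.comm x hx _ (H.N_memW hv), mul_inv_cancel_right, map_mul, mul_assoc]

theorem t_hv {v : U K} (hv : v ∈ As) : H.hv v * R.t * (H.hv v)⁻¹ = R.t * R.N v := by
  have m1 := mul_mem (H.A2_mem v.x2) (H.A3_mem v.x3)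
  have m2 := mul_mem m1 (H.a_mem v.x4)
  have := H.t_mul (mul_mem m2 (H.mem5 v.x5)) (by simp only [mem_As, UE, and_self]) (H.t_mul m2
    (by simp only [mem_As, UE, and_self]) (H.t_mul m1 (by simp only [mem_As, UE, and_self]) (H.t_mul (H.A2_mem v.x2)
    (by simp only [mem_As, UE, and_self]) (H.tA2 v.x2) (H.tA3 v.x3)) (H.ta v.x4)) (H.ta5 v.x5)) (H.tA6 v.x6)
  rw [mem_As] at hv
  rwa [show X2 v.x2 * X3 v.x3 * X4 v.x4 * X5 v.x5 * X6 v.x6 = v by ext <;> simp only [UE, hv]] at this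

theorem hv_mul {v v' : U K} (hv : v ∈ As) (hv' : v' ∈ As) : H.hv (v * v') = H.hv v * H.hv v' := by
  rw [mem_As] at hv hv'
  letI : CommGroup H.Wh := { mul_comm := fun x y => Subtype.ext (H.w1.comm _ x.2 _ y.2) }
  have key : ∀ a b c d e a' b' c' d' e' : H.Wh, a * a' * (b * b') * (c * c') * (d * d') * (e * e') =
      a * b * c * d * e * (a' * b' * c' * d' * e') := fun _ _ _ _ _ _ _ _ _ _ => by ac_rfl
  simp only [hv_eq, UE, hv, hv', H.A2_add, H.A3_add, H.add, H.add5, H.A6_add]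
  exact congrArg Subtype.val (key ⟨_, H.A2_mem _⟩ ⟨_, H.A3_mem _⟩ ⟨_, H.a_mem _⟩ ⟨_, H.mem5 _⟩ ⟨_, H.A6_mem _⟩
    ⟨_, H.A2_mem _⟩ ⟨_, H.A3_mem _⟩ ⟨_, H.a_mem _⟩ ⟨_, H.mem5 _⟩ ⟨_, H.A6_mem _⟩)

theorem hv_one : H.hv 1 = 1 := by simp [hv_eq, H.A2_zero, H.A3_zero, H.a_zero, H.a5_zero, H.A6_zero]
theorem hv_X2 (c : K) : H.hv (X2 c) = H.A2 c := by simp [hv_eq, UE, H.A3_zero, H.a_zero, H.a5_zero, H.A6_zero]
theorem hv_X3 (c : K) : H.hv (X3 c) = H.A3 c := by simp [hv_eq, UE, H.A2_zero, H.a_zero, H.a5_zero, H.A6_zero]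
theorem hv_X4 (c : K) : H.hv (X4 c) = H.a c := by simp [hv_eq, UE, H.A2_zero, H.A3_zero, H.a5_zero, H.A6_zero]
theorem hv_X5 (c : K) : H.hv (X5 c) = H.a5 c := by simp [hv_eq, UE, H.A2_zero, H.A3_zero, H.a_zero, H.A6_zero]
theorem hv_X6 (c : K) : H.hv (X6 c) = H.A6 c := by simp [hv_eq, UE, H.A2_zero, H.A3_zero, H.a_zero, H.a5_zero]

theorem dec {x : G} (hx : x ∈ H.Wh) : ∃ v ∈ As, ∃ v' ∈ As, x = H.hv v * R.N v' := by
  obtain ⟨v, hv, e⟩ := H.w1.tau x hx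
  obtain ⟨v', hv', e'⟩ := H.w1.ker ((H.hv v)⁻¹ * x) (mul_mem (inv_mem (H.hv_mem v)) hx) (by
    rw [← H.t_hv hv] at e
    calc _ = (H.hv v)⁻¹ * (x * R.t * x⁻¹) * x := by group
      _ = _ := by rw [e]; group)
  exact ⟨v, hv, v', hv', by rw [← e']; group⟩

theorem t_dec {v v' : U K} (hv : v ∈ As) : H.hv v * R.N v' * R.t * (H.hv v * R.N v')⁻¹ = R.t * R.N v := by
  rw [← H.t_hv hv, mul_assoc (H.hv v), ← R.tN]; group

theorem dec_inj {v v' u u' : U K} (hv : v ∈ As) (hu : u ∈ As) (e : H.hv v * R.N v' = H.hv u * R.N u') :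
    v = u ∧ v' = u' := by
  have h1 := H.t_dec (v' := v') hv
  rw [e, H.t_dec hu, mul_right_inj] at h1
  obtain rfl := R.inj h1
  exact ⟨rfl, R.inj (mul_left_cancel e)⟩

theorem T_a5 (κ ν : Kˣ) (c : K) :
    R.l κ * R.h ν * H.a5 c * (R.l κ * R.h ν)⁻¹ = H.a5 ((κ : K) * σ (κ : K) * ν * c) := by
  rw [mul_assoc _ (ν : K), ← H.l5, ← H.h5]; group

theorem l_A3 (κ : Kˣ) (c : K) : R.l κ * H.A3 c * (R.l κ)⁻¹ = H.A3 ((κ : K) * σ (κ : K) * c) := by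
  have := conj_conj (g := R.w) (H.l5 κ c)
  rwa [← R.lw, mul_inv_cancel_right] at this

theorem h_A3 (ν : Kˣ) (c : K) : R.h ν * H.A3 c * (R.h ν)⁻¹ = H.A3 (((ν⁻¹ : Kˣ) : K) * c) := by
  have := conj_conj (g := R.w) (H.h5 ν⁻¹ c)
  rwa [R.wh, map_inv, inv_inv] at this

variable [Finite K]

theorem T_A7 (κ ν : Kˣ) (c : K) :
    R.l κ * R.h ν * H.A7 c * (R.l κ * R.h ν)⁻¹ = H.A7 ((κ : K) * (ν * σ (ν : K)) * c) := by
  obtain ⟨κ', ν', h1, h2, h3⟩ := R.exists_nT κ ν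
  have e : R.l κ' * R.h ν' * H.A3 c * (R.l κ' * R.h ν')⁻¹ = H.A3 ((κ' : K) * σ (κ' : K) * (((ν'⁻¹ : Kˣ) : K) * c)) := by
    rw [← H.l_A3, ← H.h_A3]; group
  have := conj_conj (g := R.n) e
  rw [Re.n_symm h3] at this
  refine this.trans (congrArg H.A7 ?_)
  have h4 : σ ((κ' : K) * (ν'⁻¹ : Kˣ)) = (ν : K) ^ 2 := by
    have := σu_ne ν'
    rw [map_mul, h1, ← h2, Units.val_inv_eq_inv_val, map_inv₀]
    field_simp
  rw [h1, ← σ_inj (h4.trans (σσ _).symm)]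
  ring

theorem l_A7 (κ : Kˣ) (c : K) : R.l κ * H.A7 c * (R.l κ)⁻¹ = H.A7 ((κ : K) * c) := by simpa using H.T_A7 κ 1 c
theorem h_A7 (ν : Kˣ) (c : K) : R.h ν * H.A7 c * (R.h ν)⁻¹ = H.A7 ((ν : K) * σ (ν : K) * c) := by
  simpa using H.T_A7 1 ν c

theorem l_A1 (κ : Kˣ) (c : K) : R.l κ * H.A1 c * (R.l κ)⁻¹ = H.A1 ((κ : K) * c) := by
  have := conj_conj (g := R.w) (H.l_A7 κ c)
  rwa [← R.lw, mul_inv_cancel_right] at this

theorem h_A1 (ν : Kˣ) (c : K) : R.h ν * H.A1 c * (R.h ν)⁻¹ = H.A1 (((ν⁻¹ : Kˣ) : K) * σ ((ν⁻¹ : Kˣ) : K) * c) := by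
  have := conj_conj (g := R.w) (H.h_A7 ν⁻¹ c)
  rwa [R.wh, map_inv, inv_inv] at this

theorem l_hv (κ : Kˣ) (v : U K) : R.l κ * H.hv v * (R.l κ)⁻¹ = H.hv (ζ κ v) := by
  simp only [hv_eq, ζ, ← H.l_A2, ← H.l_A3, ← H.la, ← H.l5, ← H.l_A6]; group

theorem h_hv (ν : Kˣ) (v : U K) : R.h ν * H.hv v * (R.h ν)⁻¹ = H.hv (η ν v) := by
  simp only [hv_eq, η, ← H.h_A2, ← H.h_A3, ← H.h5, ← H.h_A6]
  conv_rhs => rw [← H.h_a ν v.x4]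
  group

omit [Finite K] in
theorem w_hv {v : U K} (hv : v ∈ As) : R.w * H.hv v * R.w⁻¹ = H.hv (ω v) := by
  rw [mem_As] at hv
  letI : CommGroup H.Wh := { mul_comm := fun x y => Subtype.ext (H.w1.comm _ x.2 _ y.2) }
  have key : ∀ a b c d e : H.Wh, a * b * c * d * e = e * d * c * b * a := fun _ _ _ _ _ => by ac_rfl
  have : R.w * H.hv v * R.w⁻¹ = H.A6 v.x2 * H.a5 v.x3 * H.a v.x4 * H.A3 v.x5 * H.A2 v.x6 := by
    rw [← H.w_A2 v.x2, ← H.w_A3 v.x3, ← H.w_a5 v.x5, ← H.w_A6 v.x6, hv_eq]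
    conv_rhs => rw [← H.w_a]
    group
  rw [this]
  simp only [hv_eq, UE, hv]
  exact congrArg Subtype.val (key ⟨_, H.A6_mem _⟩ ⟨_, H.mem5 _⟩ ⟨_, H.a_mem _⟩ ⟨_, H.A3_mem _⟩ ⟨_, H.A2_mem _⟩)

end Hat5

end Cfsg.Agent.S2F
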