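import Cfsg.Agent.S2F.Base2
import Cfsg.Agent.Chev.StCT

/-!
The case `β = 1`: the relations between the root groups `A_i`, `B_i`.
-/

set_option autoImplicit false
set_option linter.unusedSectionVars false
set_option linter.unusedSimpArgs false
set_option maxRecDepth 20000

namespace Cfsg.Agent.S2F.F4a

open Subgroup Cfsg.Agent.Oct Cfsg.Agent.Fus Cfsg.Lie Cfsg.Agent.Chev

variable {K : Type*} [Field K] [Tw K] {G : Type*} [Group G] {R : Rt K G}

/-- Indices: `(b, p, k)` stands for `A_i` (`b = false`) or `B_i` (`b = true`), `i = 4 + p + 2 k`. -/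
abbrev I := Bool × Bool × Fin 8

/-- The index of `A_i`. -/
def iA (i : ℕ) : I := (false, i % 2 == 1, Fin.ofNat 8 ((i + 12) / 2))
/-- The index of `B_i`. -/
def iB (i : ℕ) : I := (true, i % 2 == 1, Fin.ofNat 8 ((i + 12) / 2))
/-- The action of `ρ ^ j`. -/
def sh (j : Fin 8) (x : I) : I := (x.1, x.2.1, j + x.2.2)
/-- The action of `t`. -/
def fl (x : I) : I := (!x.1, x.2)
/-- The action of `w`. -/
def rf (x : I) : I := (x.1, x.2.1, bif x.2.1 then -x.2.2 + 7 else -x.2.2)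

/-- Commutator relations. -/
abbrev Rl := I × I × List (I × ℕ)

/-- Moving a relation. -/
def mp (f : I → I) (r : Rl) : Rl := (f r.1, f r.2.1, r.2.2.map fun p => (f p.1, p.2))

/-- The orbit of a relation. -/
def orb (r : Rl) : List Rl :=
  [r, mp fl r, mp rf r, mp fl (mp rf r)].flatMap fun r => (List.finRange 8).map fun j => mp (sh j) r

/-- The three monomials. -/
def mon (k : ℕ) (c b : K) : K := if k = 0 then c * b else if k = 1 then c * σ b else σ c * b

variable (H : Rel R)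

/-- Powers of the rotation. -/
def P (R : Rt K G) (k : Fin 8) : G := R.ρ ^ k.val

theorem P_add (j k : Fin 8) : P R (j + k) = P R j * P R k := by
  rw [P, P, P, ← pow_add, Fin.val_add]
  exact (pow_eq_pow_mod _ R.nw8).symm

theorem P_neg (k : Fin 8) : P R (-k) = (P R k)⁻¹ :=
  eq_inv_of_mul_eq_one_left (by rw [← P_add, neg_add_cancel]; exact pow_zero _)

theorem P_mem (k : Fin 8) : P R k ∈ R.L := pow_mem (mul_mem R.n_mem R.w_mem_L) _

theorem ρ_inv : R.ρ⁻¹ = R.w * R.n := by rw [Re.ρ, mul_inv_rev, R.w_inv, R.n_inv]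

theorem w_P (k : Fin 8) : R.w * P R k * R.w⁻¹ = P R (-k) := by
  rw [P_neg, P, ← conj_pow, ← inv_pow, ρ_inv, Re.ρ, mul_assoc, mul_inv_cancel_right]

theorem P_seven : P R 7 = R.w * R.n := by
  rw [show (7 : Fin 8) = -1 from rfl, P_neg, ← ρ_inv]
  exact congrArg _ (pow_one _)

/-- The groups `A_i`. -/
def E0 (x : Bool × Fin 8) (c : K) : G := P R x.2 * (bif x.1 then H.a5 c else H.a c) * (P R x.2)⁻¹

/-- The groups `A_i`, `B_i`. -/
def E (x : I) (c : K) : G := bif x.1 then R.t * E0 H x.2 c * R.t⁻¹ else E0 H x.2 c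

theorem conj_E {g : G} (hg : g ∈ R.L) {x y : I} (e : x.1 = y.1) (c : K) (h : g * E0 H x.2 c * g⁻¹ = E0 H y.2 c) :
    MulAut.conj g (E H x c) = E H y c := by
  rw [MulAut.conj_apply, E, E, ← e]
  cases x.1
  · exact h
  · rw [← h, cond_true, cond_true, ← mul_assoc, ← mul_assoc, ← R.tL g hg, mul_assoc, ← mul_inv_rev, ← R.tL g hg]
    group

theorem sh_E (j : Fin 8) (x : I) (c : K) : MulAut.conj (P R j) (E H x c) = E H (sh j x) c :=
  conj_E H (x := x) (y := sh j x) (P_mem j) rfl c (by simp only [E0, sh, P_add]; group)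

theorem fl_E (x : I) (c : K) : MulAut.conj R.t (E H x c) = E H (fl x) c := by
  obtain ⟨_ | _, x⟩ := x
  · rfl
  · change R.t * (R.t * E0 H x c * R.t⁻¹) * R.t⁻¹ = E0 H x c
    rw [← mul_assoc, ← mul_assoc, R.tt, one_mul, mul_assoc, ← mul_inv_rev, R.tt, inv_one, mul_one]

theorem n_a5 (c : K) : R.n * H.a5 c * R.n⁻¹ = H.a5 c := by rw [H.n5, mul_inv_cancel_right]

theorem rf_E (x : I) (c : K) : MulAut.conj R.w (E H x c) = E H (rf x) c := by
  refine conj_E H (x := x) (y := rf x) R.w_mem_L rfl c ?_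
  obtain ⟨b, _ | _, k⟩ := x
  · simp only [E0, rf, cond_false, ← w_P]
    conv_rhs => rw [← H.w_a]
    group
  · simp only [E0, rf, cond_true, P_add, ← w_P, P_seven]
    conv_lhs => rw [← n_a5]
    group

theorem E_add (x : I) (c d : K) : E H x (c + d) = E H x c * E H x d := by
  have h : ∀ y, E0 H y (c + d) = E0 H y c * E0 H y d := by
    rintro ⟨_ | _, k⟩
    exacts [conj_add H.add _ c d, conj_add H.add5 _ c d]
  obtain ⟨_ | _, x⟩ := x
  · exact h x
  · change R.t * _ * _ = R.t * _ * _ * (R.t * _ * _)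
    rw [h]; group

/-- A valid relation. -/
def Val (r : Rl) : Prop := ∀ c b, E H r.1 c * E H r.2.1 b =
  E H r.2.1 b * E H r.1 c * (r.2.2.map fun p => E H p.1 (mon p.2 c b)).prod

variable {H}

theorem Val.mp {r : Rl} (h : Val H r) {f : I → I} (φ : G ≃* G) (hf : ∀ x c, φ (E H x c) = E H (f x) c) :
    Val H (mp f r) := fun c b => by
  have := congrArg φ (h c b)
  simp only [map_mul, map_list_prod, List.map_map, Function.comp_def, hf] at this
  simpa only [F4a.mp, List.map_map, Function.comp_def] using this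

theorem Val.orb {r r' : Rl} (h : Val H r) (e : r' ∈ orb r) : Val H r' := by
  simp only [F4a.orb, List.mem_flatMap, List.mem_map] at e
  obtain ⟨s, hs, j, -, rfl⟩ := e
  refine Val.mp ?_ _ (sh_E H j)
  simp only [List.mem_cons, List.not_mem_nil, or_false] at hs
  rcases hs with rfl | rfl | rfl | rfl
  exacts [h, h.mp _ (fl_E H), h.mp _ (rf_E H), (h.mp _ (rf_E H)).mp _ (fl_E H)]

theorem val_cm {x y : I} : Val H (x, y, []) ↔ ∀ c b, Commute (E H x c) (E H y b) := by
  simp only [Val, List.map_nil, List.prod_nil, mul_one, commute_iff_eq]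

theorem Val.cm {r : Rl} (h : Val H r) (x y : I) (e : (x, y, []) ∈ F4a.orb r := by decide) (c b : K) :
    Commute (E H x c) (E H y b) := val_cm.1 (h.orb e) c b

theorem val_r1 {x y z : I} : Val H (x, y, [(z, 0)]) ↔ ∀ c b, E H x c * E H y b = E H y b * E H x c * E H z (c * b) := by
  simp only [Val, List.map_cons, List.map_nil, List.prod_cons, List.prod_nil, mul_one, mon, if_true]

theorem swap {x y z : G} (h : x * y = y * x * z) (hz : z * z = 1) : y * x = x * y * z := by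
  rw [h, mul_assoc, hz, mul_one]

theorem t_of {x u : G} (h : x * R.t * x⁻¹ = R.t * u) : R.t * x * R.t⁻¹ = u * x := by
  rw [R.t_inv]
  calc _ = R.t * (x * R.t * x⁻¹) * x := by group
    _ = _ := by rw [h, ← mul_assoc, R.tt, one_mul]

variable (H)

theorem E_sq (x : I) (c : K) : E H x c * E H x c = 1 := sq_of_add (E_add H x) c

theorem A4 (c : K) : E H (iA 4) c = H.a c := by
  change R.ρ ^ 0 * H.a c * (R.ρ ^ 0)⁻¹ = _
  simp
theorem A5 (c : K) : E H (iA 5) c = H.a5 c := by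
  change R.ρ ^ 0 * H.a5 c * (R.ρ ^ 0)⁻¹ = _
  simp
theorem n_E (x : I) (c : K) : R.n * E H x c * R.n⁻¹ = E H (sh 1 (rf x)) c := by
  rw [← sh_E, ← rf_E, P, Re.ρ, Fin.val_one, pow_one, ← MulAut.mul_apply, ← map_mul, mul_assoc R.n R.w, R.ww, mul_one]
  rfl
theorem A6 (c : K) : E H (iA 6) c = H.A6 c := by rw [Hat.A6, ← A4, n_E]; rfl
theorem A2 (c : K) : E H (iA 2) c = H.A2 c := by rw [Hat.A2, ← A6]; exact (rf_E H (iA 6) c).symm
theorem A8 (c : K) : E H (iA 8) c = H.A8 c := by rw [Hat.A8, ← A2, n_E]; rfl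
theorem A3 (c : K) : E H (iA 3) c = R.w * H.a5 c * R.w⁻¹ := by rw [← A5]; exact (rf_E H (iA 5) c).symm
theorem B_eq (i : ℕ) (c : K) : E H (iB i) c = R.t * E H (iA i) c * R.t⁻¹ := rfl
theorem B4 (c : K) : E H (iB 4) c = R.N (X4 c) * H.a c := by rw [B_eq, A4, t_of (H.ta c)]
theorem B5 (c : K) : E H (iB 5) c = R.N (X5 c) * H.a5 c := by rw [B_eq, A5, t_of (H.ta5 c)]
theorem B6 (c : K) : E H (iB 6) c = R.N (X6 c) * H.A6 c := by rw [B_eq, A6, t_of (H.tA6 c)]
theorem B8 (c : K) : E H (iB 8) c = R.N (X8 c) * H.A8 c := by rw [B_eq, A8, t_of (H.tA8 c)]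
theorem B3 (c : K) : E H (iB 3) c = R.N (X3 c) * E H (iA 3) c := by
  rw [B_eq, A3, t_of (conj_t R.w_mem_L (H.ta5 c) (R.wX5 c))]

theorem v46 : Val H (iA 4, iA 6, []) := val_cm.2 fun c b => by rw [A4, A6]; exact H.a_A6 c b

theorem v46' : Val H (iA 4, iB 6, []) := val_cm.2 fun c b => by
  rw [A4, B6]; exact Commute.mul_right (H.N_a _ c).symm (H.a_A6 c b)

theorem v45 : Val H (iA 4, iA 5, []) := val_cm.2 fun c b => by rw [A4, A5]; exact H.c45 c b

theorem v25 : Val H (iA 2, iA 5, []) := val_cm.2 fun c b => by rw [A2, A5]; exact H.c25 c b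

theorem v25' : Val H (iA 2, iB 5, []) := val_cm.2 fun c b => by
  rw [A2, B5]
  exact Commute.mul_right (H.N_A2 (by simp only [mem_Qs, UE, and_self]) (by simp only [UE]) c).symm (H.c25 c b)

theorem v26 : Val H (iA 2, iA 6, []) := val_cm.2 fun c b => by rw [A2, A6]; exact H.c26 c b

theorem v55 : Val H (iA 5, iB 5, []) := val_cm.2 fun c b => by
  rw [A5, B5]
  refine Commute.mul_right (H.c0 c _ (by simp only [mem_U0, UE, and_self])).symm ?_
  rw [commute_iff_eq, ← H.add5, ← H.add5, add_comm]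

theorem v836 : Val H (iA 8, iA 3, [(iA 6, 0)]) := val_r1.2 fun c b => by
  rw [mul_assoc, ← ((v46 H).cm (iA 6) (iA 8) (c := c * b) (b := c)).eq, ← mul_assoc, A8, A3, A6, ← H.R5,
    inv_mul_cancel_right]

theorem v386 : Val H (iA 3, iA 8, [(iA 6, 0)]) := val_r1.2 fun c b => by
  rw [mul_comm c]; exact swap (val_r1.1 (v836 H) b c) (E_sq H _ _)

theorem v83 : Val H (iA 8, iB 3, []) := val_cm.2 fun c b => by
  have h1 := H.X3_A8 c b
  have h2 := H.N_A6 (u := X3 b) (by simp only [mem_Rs, UE]) (c * b)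
  rw [← A8, ← A6, mul_inv_eq_iff_eq_mul] at h1
  rw [← A6] at h2
  rw [commute_iff_eq, B3, mul_assoc (R.N _), val_r1.1 (v386 H), mul_comm b,
    ← mul_assoc (R.N _), ← mul_assoc (R.N _), h1, mul_assoc _ _ (R.N _), ← h2, mul_assoc _ (E H (iA 3) b),
    ← ((v25 H).cm (iA 6) (iA 3) (c := c * b) (b := b)).eq]
  simp only [mul_assoc]
  rw [← mul_assoc (E H (iA 6) _), E_sq, one_mul]

variable (hβ : H.β = 1)
include hβ

theorem R6' (b c : K) : H.A8 c * H.A2 b * (H.A8 c)⁻¹ = H.A2 b * H.a5 (c * b) := by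
  rw [H.R6, hβ, CharTwo.add_self_eq_zero, zero_mul, zero_mul, H.a_zero, H.A6_zero, mul_one, mul_one]

theorem v825 : Val H (iA 8, iA 2, [(iA 5, 0)]) := val_r1.2 fun c b => by
  rw [mul_assoc, ((v25 H).cm (iA 8) (iA 5) (c := c) (b := c * b)).eq, ← mul_assoc, A8, A2, A5, ← R6' H hβ,
    inv_mul_cancel_right]

theorem v135 : Val H (iA 13, iB 5, []) := val_cm.2 fun c b => by
  have h := val_r1.1 ((v825 H hβ).orb (r' := (iA 0, iA 10, [(iA 13, 0)])) (by decide)) c 1
  rw [mul_one, ← inv_mul_eq_iff_eq_mul] at h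
  have h1 := (v83 H).cm (iA 0) (iB 5) (c := c) (b := b)
  have h2 := (v83 H).cm (iA 10) (iB 5) (c := 1) (b := b)
  exact h ▸ (h2.mul_left h1).inv_left.mul_left (h1.mul_left h2)

theorem v82 (c b : K) : E H (iB 8) c * E H (iA 2) b =
    E H (iA 2) b * E H (iB 8) c * (E H (iB 4) (c * σ b) * E H (iA 6) (σ c * b)) := by
  have h1 := (v26 H).cm (iB 4) (iB 8) (c := c * σ b) (b := c)
  have h2 := (v46' H).cm (iB 8) (iA 6) (c := c) (b := σ c * b)
  have h3 := (v45 H).cm (iA 6) (iA 5) (c := σ c * b) (b := c * b)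
  have h4 := H.c0 (c * b) (X8 c) (by simp only [mem_U0, UE, and_self])
  have h5 := H.L2 b c
  rw [A5, A6] at h3
  rw [mul_assoc, (h1.symm.mul_right h2).eq, B8, B4, A2, A6, H.N_a]
  rw [hβ, one_mul, mul_assoc _ (H.a5 _), ← h3.eq] at h5
  calc _ = R.N (X8 c) * (H.A8 c * H.A2 b * (H.A8 c)⁻¹) * H.A8 c := by group
    _ = R.N (X8 c) * H.A2 b * (R.N (X8 c))⁻¹ * (R.N (X8 c) * H.a5 (c * b)) * H.A8 c := by rw [R6' H hβ]; group
    _ = _ := by
      rw [h4, h5]
      simp only [mul_assoc]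
      rw [← mul_assoc (H.a5 _), sq_of_add H.add5, one_mul]

/-- Representatives of the relations. -/
def base : List Rl :=
  [(iA 4, iA 6, []), (iA 4, iB 6, []), (iA 2, iA 5, []), (iA 5, iA 2, []), (iA 2, iB 5, []), (iB 5, iA 2, []),
    (iA 2, iA 6, []), (iA 5, iB 5, []), (iA 8, iB 3, []), (iB 3, iA 8, []), (iA 13, iB 5, []),
    (iA 8, iA 3, [(iA 6, 0)]), (iA 3, iA 8, [(iA 6, 0)]), (iA 8, iA 2, [(iA 5, 0)]),
    (iB 8, iA 2, [(iB 4, 1), (iA 6, 2)]), (iA 2, iB 8, [(iB 4, 2), (iA 6, 1)])]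

theorem val_base : ∀ r ∈ base, Val H r := by
  have sy : ∀ {x y : I}, Val H (x, y, []) → Val H (y, x, []) := fun h => val_cm.2 fun c b => (val_cm.1 h b c).symm
  simp only [base, List.forall_mem_cons, List.not_mem_nil, false_imp_iff, implies_true, and_true]
  refine ⟨v46 H, v46' H, v25 H, sy (v25 H), v25' H, sy (v25' H), v26 H, v55 H, v83 H, sy (v83 H), v135 H hβ, v836 H,
    v386 H, v825 H hβ, fun c b => ?_, fun c b => ?_⟩
  · simpa [mon] using v82 H hβ c b
  · have := swap (v82 H hβ b c) (by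
      rw [((v46' H).cm (iA 6) (iB 4) (b := b * σ c) (c := σ b * c)).mul_mul_mul_comm, E_sq, E_sq, one_mul])
    simpa [mon, mul_comm b, mul_comm (σ b)] using this

omit hβ

/-- Long roots. -/
def lng (r : ℕ) : Bool := r ∈ [17, 22, 25, 30, 21, 23, 24, 26]

/-- The root groups attached to the roots. -/
def idx : ℕ → I
  | 13 => iB 2 | 14 => iB 5 | 20 => iB 0 | 27 => iB 8 | 33 => iB 13 | 34 => iB 10 | 19 => iB 12 | 28 => iB 4
  | 17 => iA 14 | 22 => iA 10 | 25 => iA 2 | 30 => iA 6 | 21 => iA 8 | 23 => iA 5 | 24 => iA 13 | _ => iA 0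

/-- The admissible terms. -/
def good (a b k : Bool) (i j : ℕ) : Prop :=
  (a = b ∧ k = a ∧ i = 1 ∧ j = 1) ∨ (a = !b ∧ k = false ∧ i = 1 ∧ j = 1) ∨
    (a = false ∧ b = true ∧ k = true ∧ i = 2 ∧ j = 1) ∨ (a = true ∧ b = false ∧ k = true ∧ i = 1 ∧ j = 2)

instance (a b k : Bool) (i j : ℕ) : Decidable (good a b k i j) := by unfold good; infer_instance

/-- The monomial attached to a term. -/
def kind (a b k : Bool) : ℕ := if a = b then 0 else if a = k then 2 else 1

/-- The relation attached to a pair of roots. -/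
def rel (r s : ℕ) : Rl := (idx s, idx r, ((chevF4.commTerms r s).filter fun c => c.2.1 % 2 = 1).map fun c =>
  (idx c.1, kind (lng r) (lng s) (lng c.1)))

/-- The standard rank two subsystems. -/
def Ls : List (List ℕ) := [[13, 14, 20, 27, 33, 34], [14, 22, 25, 33], [14, 23, 24, 33],
  [17, 19, 20, 22, 25, 27, 28, 30], [20, 23, 24, 27], [21, 22, 23, 24, 25, 26]]

instance (i j r : ℕ) : Decidable (chevF4.InRankTwoSub i j r) := by unfold ChevalleyDatum.InRankTwoSub; infer_instance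

theorem phi_sub : ∀ i j : Fin chevF4.rank, ∃ l ∈ Ls, ∀ r < 48, chevF4.InRankTwoSub i j r → r ∈ l := by decide +kernel

set_option synthInstance.maxSize 2000 in
theorem chk : ∀ l ∈ Ls, ∀ r ∈ l, ∀ s ∈ l, s ≠ r → s ≠ chevF4.neg r → (∃ r0 ∈ base, rel r s ∈ orb r0) ∧
    ∀ c ∈ chevF4.commTerms r s, c.2.1 % 2 = 1 → good (lng r) (lng s) (lng c.1) c.2.2.1 c.2.2.2 := by decide +kernel

variable [Finite K]

/-- The parameter. -/
noncomputable def pa (a : Bool) (t : K) : K := bif a then θ t else t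

theorem pa_add (a : Bool) (t u : K) : pa a (t + u) = pa a t + pa a u := by cases a <;> simp [pa]

theorem pa_good {a b k : Bool} {i j : ℕ} (h : good a b k i j) (t u : K) :
    pa k (t ^ i * u ^ j) = mon (kind a b k) (pa b u) (pa a t) := by
  have e : ∀ t : K, θ t ^ 2 = σ t := fun t => (σ_eq t).symm
  rcases h with ⟨rfl, rfl, rfl, rfl⟩ | ⟨rfl, rfl, rfl, rfl⟩ | ⟨rfl, rfl, rfl, rfl, rfl⟩ | ⟨rfl, rfl, rfl, rfl, rfl⟩
  · cases k <;> simp [pa, mon, kind, mul_comm]
  · cases b <;> simp [pa, mon, kind, mul_comm, σθ]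
  · simp [pa, mon, kind, mul_comm, e]
  · simp [pa, mon, kind, mul_comm, e]

/-- The root elements. -/
noncomputable def y (r : ℕ) (t : K) : G := E H (idx r) (pa (lng r) t)

theorem y_add (r : ℕ) (t u : K) : y H r t * y H r u = y H r (t + u) := by rw [y, y, y, pa_add, E_add]

theorem word_y (a b : Bool) (t u : K) (l : List (ℕ × ℤ × ℕ × ℕ))
    (h : ∀ c ∈ l, c.2.1 % 2 = 1 → good a b (lng c.1) c.2.2.1 c.2.2.2) :
    word (y H) (l.map fun c => (c.1, (c.2.1 : K) * (-t) ^ c.2.2.1 * u ^ c.2.2.2)) =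
      ((((l.filter fun c => c.2.1 % 2 = 1).map fun c => (idx c.1, kind a b (lng c.1))).map
        fun p => E H p.1 (mon p.2 (pa b u) (pa a t)))).prod := by
  induction l with
  | nil => rfl
  | cons c l ih =>
    have e := CharP.intCast_eq_intCast_mod K 2 (a := c.2.1)
    rw [List.forall_mem_cons] at h
    rw [word, List.map_cons, List.map_cons, List.prod_cons, ← word, ih h.2, List.filter_cons, e]
    rcases Int.emod_two_eq_zero_or_one c.2.1 with h0 | h0
    · simp [h0, zero_of_add fun c d => (y_add H _ c d).symm]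
    · simp [h0, y, CharTwo.neg_eq, pa_good (h.1 h0)]

theorem isStOn (hβ : H.β = 1) (i j : Fin chevF4.rank) : IsStOn chevF4 (y H) (Phi chevF4 i j) := by
  obtain ⟨l, hl, h⟩ := phi_sub i j
  have h' : ∀ r ∈ Phi chevF4 i j, r ∈ l := fun r hr => h r (mem_Phi_iff.1 hr).1 (mem_Phi_iff.1 hr)
  refine ⟨fun r hr => (mem_Phi_iff.1 hr).1, fun r _ => y_add H r, fun r hr s hs h1 h2 t u => ?_⟩
  obtain ⟨⟨r0, h3, h4⟩, h5⟩ := chk l hl r (h' r hr) s (h' s hs) h1 h2
  rw [ChevalleyDatum.commWord, word_y H _ _ t u _ h5]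
  exact (val_base H hβ r0 h3).orb h4 _ _

end Cfsg.Agent.S2F.F4a
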