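import Cfsg.Agent.S2F.Base1
import Cfsg.Agent.Transfer.ThompsonTransfer
import Cfsg.Prelude.Def_Quasithin
import Cfsg.Agent.QT.Basic
import Cfsg.Agent.PLocal.SylowIn

/-!
The final transfer argument.

General remarks (all S2F stubs): read `S2F/Def.lean` (definitions, conventions) and `S2F/Base*.lean` first. Identities in `U K`
are proved by `ext <;> simp only [UE, ...hypotheses] <;> grind` (add `ζ`, `ψ`, `pr` to the simp set); conjugation is `g * x * g⁻¹`.
Keep the statements; add lemmas / extra files freely (unique names).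

Let `G₀, S₀` be as in `Out`.  No conjugate of `t` lies in `S₀` (it would be a square, `Fz.not_sq`).  `S = S₀ ⊔ ⟨t⟩ = S₀ ∪ t S₀` is a `2`-group,
`S₀.relIndex S = 2`.  `S` is Sylow in `G`: otherwise there is a `2`-group `S₁ > S` and `x ∈ N_{S₁}(S) - S` (normaliser condition).
`x t x⁻¹ = t s`, `s ∈ S₀`, so `x t x⁻¹ = r t r⁻¹`, `r ∈ S₀`, and `y = r⁻¹ x ∈ S₁ ∩ C(t)`.  `S ∩ C(t) ⊇ (S₀ ∩ C(t)) ∪ t (S₀ ∩ C(t))` has order
`≥ 2 q¹² = |T|` (`card_T`), and `S₁ ∩ C(t)` has order `≤ |T|` (`sylT`, `SylIn.card_le`), so `y ∈ S`, `x ∈ S`, contradiction.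
`thompson_transfer` gives `M` normal of index `2` with `t ∉ M`; `H = oddGenerated ⊤ ≤ M` (elements of odd order lie in `M`).  `H` is normal,
`G ⧸ H` is a `2`-group (`g = 2-part * odd part`), hence solvable, so the perfect `G₀` lies in `H`.  `S ⊓ H` is Sylow in `H`
(`SylIn.inf_normal`), `S₀ ≤ S ⊓ H ∌ t`, so `S ⊓ H = S₀`; thus `S₀.relIndex H` is odd and so is `G₀.relIndex H` (`relIndex_mul_relIndex`).
-/

set_option autoImplicit false
set_option linter.unusedSectionVars false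
set_option linter.unusedSimpArgs false
set_option maxRecDepth 20000

namespace Cfsg.Agent.S2F

open Subgroup Cfsg.Agent.Oct Cfsg.Agent.Fus
open scoped commutatorElement

variable {K : Type*} [Field K] [Tw K] [Finite K] {G : Type*} [Group G] [Finite G]

/-- `S₀ ∪ t S₀`. -/
def finS (S₀ : Subgroup G) (t : G) (tt : t * t = 1) (nt : ∀ s ∈ S₀, t * s * t⁻¹ ∈ S₀) : Subgroup G where
  carrier := {x | x ∈ S₀ ∨ t * x ∈ S₀}
  one_mem' := .inl (one_mem _)
  mul_mem' := by
    have ti : t⁻¹ = t := inv_eq_of_mul_eq_one_right tt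
    rintro a b (ha | ha) (hb | hb)
    · exact .inl (mul_mem ha hb)
    · exact .inr (by simpa only [mul_assoc, inv_mul_cancel_left] using mul_mem (nt a ha) hb)
    · exact .inr (mul_assoc t a b ▸ mul_mem ha hb)
    · refine .inl ?_
      have := mul_mem (nt _ ha) hb
      rwa [← mul_assoc t t, tt, one_mul, mul_assoc, inv_mul_cancel_left] at this
  inv_mem' := by
    rintro a (ha | ha)
    · exact .inl (inv_mem ha)
    · refine .inr ?_
      have := inv_mem (nt _ ha)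
      rwa [← mul_assoc t t, tt, one_mul, mul_inv_rev, inv_inv] at this

theorem Fz.final (F : Fz K G) {X : Type*} [Group X] (h : Out F.toRt X) :
    ∃ G₀ : Subgroup G, G₀ ≤ oddGenerated (⊤ : Subgroup G) ∧ Odd (G₀.relIndex (oddGenerated (⊤ : Subgroup G))) ∧
      Nonempty (G₀ ≃* X) := by
  obtain ⟨G₀, S₀, le, p, nt, sq, cj, cd, pf, iso⟩ := h
  have tt := F.tt
  have t1 : F.t ≠ 1 := fun e => F.t_not (e ▸ one_mem _)
  have nc : ∀ g, g * F.t * g⁻¹ ∉ S₀ := fun g hg => by
    obtain ⟨y, hy⟩ := sq _ hg (by rw [conj_mul, tt, mul_one, mul_inv_cancel])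
    exact F.not_sq (isConj_iff.2 ⟨g, rfl⟩) y hy
  have t0 : F.t ∉ S₀ := by simpa using nc 1
  set S := finS S₀ F.t tt nt
  have mS : ∀ {x}, x ∈ S ↔ x ∈ S₀ ∨ F.t * x ∈ S₀ := Iff.rfl
  have tS : F.t ∈ S := mS.2 (.inr (tt ▸ one_mem _))
  have lS : S₀ ≤ S := fun x hx => mS.2 (.inl hx)
  have i2 : S₀.relIndex S = 2 :=
    relIndex_eq_two_iff_exists_notMem_and'.2 ⟨_, tS, t0, fun b hb => (mS.1 hb).symm⟩
  have pS : IsPGroup 2 S := PLocal.Amb.isPGroup_iff.2 fun x hx => by
    obtain ⟨k, hk⟩ := PLocal.Amb.isPGroup_iff.1 p (x ^ 2) (sq_mem_of_index_two (H := S₀.subgroupOf S) i2 ⟨x, hx⟩)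
    exact ⟨k + 1, by rwa [pow_succ', pow_mul]⟩
  have tC : F.t ∈ centralizer {F.t} := mem_centralizer_singleton_iff.2 rfl
  have j2 : (S₀ ⊓ centralizer {F.t}).relIndex (S ⊓ centralizer {F.t}) = 2 :=
    relIndex_eq_two_iff_exists_notMem_and'.2 ⟨_, ⟨tS, tC⟩, fun h => t0 h.1, fun b hb =>
      (mS.1 hb.1).symm.imp (fun h => ⟨h, mul_mem tC hb.2⟩) fun h => ⟨h, hb.2⟩⟩
  have sC : SylIn 2 (S ⊓ centralizer {F.t}) (centralizer {F.t}) := by
    refine F.sylT.of_card_ge (fun x hx => mem_centralizer_singleton_iff.2 ?_) (pS.to_le inf_le_left) inf_le_right ?_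
    · obtain ⟨u, rfl | rfl⟩ := (Rt.mem_T _).1 hx
      · exact (F.toRt.tN u).symm
      · rw [← mul_assoc, F.toRt.tN]
    · rw [F.card_T, ← card_mul_index ((S₀ ⊓ centralizer {F.t}).subgroupOf (S ⊓ centralizer {F.t})),
        Nat.card_congr (subgroupOfEquivOfLe (inf_le_inf_right _ lS)).toEquiv, mul_comm]
      exact Nat.mul_le_mul cd j2.ge
  have sS : SylIn 2 S ⊤ := sylIn_of_max le_top pS fun B hB l _ => by
    by_contra n
    obtain ⟨x, hx, h1, h2⟩ := PLocal.exists_mem_normalizer_not_mem hB l fun e => n e.ge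
    have h3 := (mS.1 ((mem_normalizer_iff.1 h1 _).1 tS)).resolve_left (nc x)
    obtain ⟨r, hr, e⟩ := cj _ h3 (by
      rw [← mul_assoc F.t F.t, tt, one_mul, conj_mul, tt, mul_one, mul_inv_cancel])
    rw [← mul_assoc, tt, one_mul] at e
    have h4 : r⁻¹ * x ∈ B ⊓ centralizer {F.t} := ⟨B.mul_mem (B.inv_mem (l (lS hr))) hx,
      mem_centralizer_singleton_iff.2 (by
        rw [mul_assoc, eq_mul_of_mul_inv_eq e]; group)⟩
    rw [sC.eq_of_le inf_le_right (hB.to_le inf_le_left) (inf_le_inf_right _ l) inf_le_right] at h4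
    exact h2 ((mul_mem_cancel_left (inv_mem (lS hr))).1 h4.1)
  obtain ⟨M, -, m2, tM⟩ := (Transfer.thompson_transfer (u := F.t)
    (Nat.not_even_iff_odd.1 fun e => sS.not_dvd_relIndex (by rw [relIndex_top_right]; exact e.two_dvd)) i2
    (orderOf_eq_prime (by rw [pow_two, tt]) t1)).resolve_right fun ⟨g, hg⟩ => nc g hg
  have hM : oddGenerated (⊤ : Subgroup G) ≤ M := (closure_le _).2 fun x ⟨_, k, hk⟩ => by
    have := pow_orderOf_eq_one x
    rw [hk, pow_succ, pow_mul] at this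
    exact (mul_mem_cancel_left (pow_mem (sq_mem_of_index_two m2 x) k)).1 (this ▸ one_mem _)
  have hG : G₀ ≤ oddGenerated (⊤ : Subgroup G) := by
    rw [← QT.pRes_eq_of_perfect 2 pf, ← QT.oddGenerated_eq]
    exact closure_mono fun x hx => ⟨mem_top _, hx.2⟩
  have hN : ∀ g ∈ (⊤ : Subgroup G), ∀ n ∈ oddGenerated (⊤ : Subgroup G), g * n * g⁻¹ ∈ oddGenerated (⊤ : Subgroup G) :=
    fun g _ n hn => by
      induction hn using closure_induction with
      | mem x hx =>
        exact subset_closure ⟨mem_top _, by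
          rw [show g * x * g⁻¹ = MulAut.conj g x from rfl, MulEquiv.orderOf_eq]; exact hx.2⟩
      | one => simp
      | mul x y _ _ hx hy => rw [← conj_mul]; exact mul_mem hx hy
      | inv x _ hx => rw [← conj_inv]; exact inv_mem hx
  have s0 := sS.inf_normal le_top le_top hN
  rw [show S ⊓ oddGenerated ⊤ = S₀ from le_antisymm (fun x hx => (mS.1 hx.1).elim id fun h => absurd
    ((mul_mem_cancel_right (hM hx.2)).1 (hM (hG (le h)))) tM) (le_inf lS (le.trans hG))] at s0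
  refine ⟨G₀, hG, Nat.not_even_iff_odd.1 fun e => s0.not_dvd_relIndex ?_, iso⟩
  exact e.two_dvd.trans (relIndex_dvd_of_le_left _ le)

end Cfsg.Agent.S2F
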