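import Cfsg.Agent.S2F.Base2

/-!
The structure of `Ŵ`.

General remarks (all S2F stubs): read `S2F/Def.lean` (definitions, conventions) and `S2F/Base.lean`, `Base2.lean` first. Identities in `U K`
are proved by `ext <;> simp only [UE, ...hypotheses] <;> grind` (add `ζ`, `ψ`, `pr` to the simp set); conjugation is `g * x * g⁻¹`;
we write `X4 s` for `F.N (X4 s)` etc., `Ŵ = H.Wh`, `τ x = v` if `x t x⁻¹ = t N v`.  Weight arguments: `wt_inv`, `wtA`, `wtB` with `x` from `F.big` and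
`σ_ne_self`, `σ_ne_sq`, `cub_ne`; `exists_l2`, `exists_l4`, `exists_lσ` give torus elements with a prescribed weight; `T_A2`, `T_A6`, `l_hv`, … give
the torus action.  In an abelian subgroup use a local `CommGroup` instance as in `Hat5.hv_mul`.
Keep the statements; add lemmas / extra files freely (unique names).

Generators: `a c`, `m (A6 c) m⁻¹` (`m ∈ C`), `N v` (`v ∈ As`); use `closure_induction`.  `V̂₄ = {a c * X4 s}` is central in `⟨C, a⟩` and in `Ŵ` (`a46`, `aC`).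
(1) `cP`: `A6` commutes with `N(Rs) ⊇ N(Ps)`, `N(Ps)` is normalised by `C` (as `conj_As`), `As` commutes with `Ps`.  `tau`: as `Hat5.t_mul`, using `cP` (`As ≤ Ps`).
`cQ`: `N q (A6 c) (N q)⁻¹ = A6 c * a (c q.x1)` for every `q ∈ U` (`q = X1 q.x1 * r`, `r ∈ Rs`, `X1_A6`, `N_A6`); `C` normalises `N(Qs)` (`Loc.conj_Q`); `comm_pr`.
(2) `k b d = A2 b A6 d (A2 b)⁻¹ (A6 d)⁻¹` centralises `t` and `N u` for `u.x1 = u.x7 = u.y8 = u.x8 = 0` (`N_A6`, `N_A2`), so (`cen6`) `k = N u` or `N u t` with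
`u ∈ X2 X4 X6`.  The `t`-part is additive in `b` (`k (b+b') d = A2 b (k b' d) (A2 b)⁻¹ k b d`) and invariant under `l κ * h κ⁻¹` (fixes `A6 d`, scales `b` by
`(κ σ κ)²`, onto), so trivial (`wt_inv`); then `k` is biadditive and central in `⟨A2, A6⟩`; the same torus kills `u.x6`, and `l κ * h κ` kills `u.x2`;
`u.x4 = Φ b d` with `Φ ((κ/ν) σ(κ/ν) b) ((κ ν) σ(κ ν) d) = κ² σ κ Φ b d`, so `Φ b d = f₀ θ (b d)` (`κ = ν`: `Φ b (κ² σ κ² d) = κ² σ κ Φ b d`, and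
`θ (κ² (σ κ)²) = σ κ κ²`; `ν = κ⁻¹` likewise).
(3) Any two generators commute modulo `V₄`: by `bru`, `m⁻¹ m' = N u h ν` or `N u w N v h ν`, and `N u h ν` normalises `{A6 c * a c'}` (by (1)), so the pair is conjugate
to a pair in `A6·a` or to a pair (`A6·a`, `A2·a`).  Hence `⁅x, y⁆ = X4 (Φ' x y)` for `x, y ∈ Ŵ` and `x² = X4 (Sq x)` (generators have square `1`).
`ker`: if `x ∈ Ŵ` commutes with `t` then `x = N u` or `N u t` (`cen6`), `u ∈ C_U(Ps) = As`; in the second case `t ∈ Ŵ`, but `⁅A6 1, t⁆ = X6 1 ∉ V₄`.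
So `Φ' x y`, `Sq x` depend only on `τ x`, `τ y`; `Φ'` is biadditive and `C`-invariant, `Sq (x y) = Sq x + Sq y + Φ' x y`.
(4) `f₀ = 0`.  Let `y = X8 a (A2 b) (X8 a)⁻¹`, `τ y = X2 b X4 (a σ b) X5 (a b) X6 (σ a b)`, `y² = 1`.  `x₅ := y * A2 b * a (a σ b) * A6 (σ a b)` has `τ = X5 (a b)`.
`X8 a` fixes `A6 d`, so `Φ' y (A6 d) = Φ' (A2 b) (A6 d)`, whence `Φ' x₅ (A6 d) = 0`: `Φ'(X5, X6) = 0`.  Conjugating by `Y8 s` (`τ = X2 b X3 (s b) X5 X6 X4`):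
`Φ'(X3, X6) = 0`; by `w`: `Φ'(X5, X2) = 0`.  So `0 = Sq y = Sq(X5 (a b)) + Φ b (σ a b)`, `Sq (X5 (a b)) = f₀ a σ b`; `(a,b) = (1,x), (x,1)`: `f₀ σ x = f₀ x`, `f₀ = 0`.
So the generators commute: `comm`, `sq`.
-/

set_option autoImplicit false
set_option linter.unusedSectionVars false
set_option linter.unusedSimpArgs false
set_option maxRecDepth 20000

namespace Cfsg.Agent.S2F

open Subgroup Cfsg.Agent.Oct Cfsg.Agent.Fus
open scoped commutatorElement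

variable {K : Type*} [Field K] [Tw K] [Finite K] {G : Type*} [Group G] [Finite G]

namespace IIa

theorem x4a (a d : K) : X4 (a + d) = X4 a * X4 d := by ext <;> simp only [UE]
theorem m2 (c : K) : X2 c ∈ As := ⟨rfl, rfl, rfl, rfl, rfl, rfl, rfl⟩
theorem m3 (c : K) : X3 c ∈ As := ⟨rfl, rfl, rfl, rfl, rfl, rfl, rfl⟩
theorem m4 (c : K) : X4 c ∈ As := ⟨rfl, rfl, rfl, rfl, rfl, rfl, rfl⟩
theorem m5 (c : K) : X5 c ∈ As := ⟨rfl, rfl, rfl, rfl, rfl, rfl, rfl⟩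
theorem m6 (c : K) : X6 c ∈ As := ⟨rfl, rfl, rfl, rfl, rfl, rfl, rfl⟩
theorem As_Ps {v : U K} (h : v ∈ As) : v ∈ Ps := ⟨h.1, h.2.1, h.2.2.2.1, h.2.2.2.2.1, h.2.2.2.2.2.1, h.2.2.2.2.2.2⟩
theorem As_Qs {v : U K} (h : v ∈ As) : v ∈ Qs := ⟨h.2.2.2.2.2.1, h.2.2.2.2.2.2⟩

theorem As_sq {v : U K} (h : v ∈ As) : v * v = 1 := by
  rw [mem_As] at h
  ext <;> simp only [UE, h]

theorem As_comm {u v : U K} (hu : u ∈ Ps) (h : v ∈ As) : u * v = v * u := by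
  rw [mem_As] at h
  rw [mem_Ps] at hu
  ext <;> simp only [UE, h, hu] <;> grind

theorem conj_As' {v : U K} (h : v ∈ As) (u : U K) : u * v * u⁻¹ ∈ As := by
  rw [mem_As] at h
  simp only [mem_As, UE, h]; grind

theorem mem_Ps_of {u : U K} (h : ∀ v ∈ As, u * v = v * u) : u ∈ Ps := by
  have h1 := congrArg U.x4 (h _ (m6 1))
  have h2 := congrArg U.x4 (h _ (m5 1))
  have h3 := congrArg U.x6 (h _ (m5 1))
  have h4 := congrArg U.x6 (h _ (m3 1))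
  have h5 := congrArg U.x4 (h _ (m3 1))
  have h8 := congrArg U.x4 (h _ (m2 1))
  simp only [UE] at h1 h2 h3
  have e1 : u.x1 = 0 := by grind
  have e2 : u.y2 = 0 := by grind
  have e3 : u.y8 = 0 := by grind
  simp only [UE, e1, e2, e3] at h4 h5
  have e4 : u.x8 = 0 := by grind
  have e5 : u.y6 = 0 := by grind
  simp only [UE, e1, e2, e3, e4, e5] at h8
  exact ⟨e1, e2, e5, by grind, e3, e4⟩

theorem mem_As_of (big : ∃ x : K, x ≠ 0 ∧ x ≠ 1) {u : U K} (h : ∀ v ∈ Ps, u * v = v * u) : u ∈ As := by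
  obtain ⟨e1, e2, e3, e4, e5, e6⟩ := mem_Ps_of fun v hv => h v (As_Ps hv)
  have key : ∀ b, u.y4 * σ b = b * σ u.y4 := fun b => by
    have := congrArg U.x4 (h (Y4 b) ⟨rfl, rfl, rfl, rfl, rfl, rfl⟩)
    simp only [UE, e1, e2, e3, e4, e5, e6] at this
    grind
  obtain ⟨x, h0, h1⟩ := big
  have k1 := key 1
  have k2 := key x
  have := σ_ne_self h0 h1
  rw [map_one] at k1
  exact ⟨e1, e2, by grind, e3, e4, e5, e6⟩

theorem conj_Ps (R : Re K G) {m : G} (hm : m ∈ R.C) {u : U K} (hu : u ∈ Ps) :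
    ∃ u' ∈ Ps, m * R.N u * m⁻¹ = R.N u' := by
  obtain ⟨u', -, e⟩ := Loc.conj_Q hm (u := u) ⟨hu.2.2.2.2.1, hu.2.2.2.2.2⟩
  refine ⟨u', mem_Ps_of fun v hv => R.inj ?_, e⟩
  obtain ⟨v', h1, h2⟩ := conj_As R (inv_mem hm) hv
  rw [map_mul, map_mul]
  exact comm_conj (g := m) (y := R.N v') (by rw [← map_mul, ← map_mul, As_comm hu h1]) e (by rw [← h2]; group)

variable {R : Rt K G} (H : Hat R) {x y m : G} {u v : U K}

theorem N_A6' (u : U K) (c : K) : R.N u * H.A6 c * (R.N u)⁻¹ = H.A6 c * H.a (c * u.x1) := by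
  have := H.N_A6 (u := (X1 u.x1)⁻¹ * u) (by simp only [mem_Rs, UE]) c
  rw [← H.X1_A6, ← mul_inv_cancel_left (X1 u.x1) u, map_mul, mul_assoc (R.N _), this, mul_inv_cancel_left]
  group

variable {H}

theorem ind {p : G → Prop} (h1 : ∀ c, p (H.a c)) (h2 : ∀ m ∈ R.C, ∀ c, p (m * H.A6 c * m⁻¹)) (h3 : ∀ v ∈ As, p (R.N v))
    (h4 : ∀ x ∈ H.Wh, ∀ y ∈ H.Wh, p x → p y → p (x * y)) (h5 : ∀ x ∈ H.Wh, p x → p x⁻¹) (hx : x ∈ H.Wh) : p x := by
  induction hx using closure_induction with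
  | mem x hx =>
    obtain (⟨c, rfl⟩ | ⟨m, hm, c, rfl⟩) | ⟨v, hv, rfl⟩ := hx
    exacts [h1 c, h2 m hm c, h3 v hv]
  | one => simpa using h3 1 (one_mem _)
  | mul x y hx hy => exact h4 x hx y hy ‹_› ‹_›
  | inv x hx => exact h5 x hx ‹_›

theorem cP (hx : x ∈ H.Wh) (hu : u ∈ Ps) : Commute (R.N u) x := by
  refine ind (p := fun x => Commute (R.N u) x) (H.N_a u) (fun m hm c => ?_)
    (fun v hv => by rw [Commute, SemiconjBy, ← map_mul, ← map_mul, As_comm hu hv])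
    (fun _ _ _ _ => Commute.mul_right) (fun _ _ => Commute.inv_right) hx
  obtain ⟨u', h1, h2⟩ := conj_Ps R.toRe (inv_mem hm) hu
  exact comm_conj (g := m) (H.N_A6 h1.1 c) (by rw [← h2]; group) rfl

theorem cA (hx : x ∈ H.Wh) (hv : v ∈ As) : Commute (R.N v) x := cP hx (As_Ps hv)

theorem ca (hx : x ∈ H.Wh) (c : K) : Commute (H.a c) x :=
  ind (p := fun x => Commute (H.a c) x) (fun d => by rw [Commute, SemiconjBy, ← H.add, ← H.add, add_comm])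
    (fun m hm d => comm_conj (H.a_A6 c d) (H.C_a hm c) rfl) (fun v _ => (H.N_a v c).symm)
    (fun _ _ _ _ => Commute.mul_right) (fun _ _ => Commute.inv_right) hx

variable (H) in
/-- `x ∈ Ŵ` translates `t` by `v`. -/
structure Tau (x : G) (v : U K) : Prop where
  mem : x ∈ H.Wh
  mv : v ∈ As
  e : x * R.t * x⁻¹ = R.t * R.N v

theorem Tau.mul (a : Tau H x u) (b : Tau H y v) : Tau H (x * y) (u * v) :=
  ⟨mul_mem a.mem b.mem, mul_mem a.mv b.mv, by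
    rw [mul_inv_rev, mul_assoc x y, ← mul_assoc, mul_assoc x _ y⁻¹, b.e, ← conj_mul, a.e,
      (cA a.mem b.mv).symm.mul_inv_cancel, map_mul, mul_assoc]⟩

theorem Tau.inv (a : Tau H x u) : Tau H x⁻¹ u :=
  ⟨inv_mem a.mem, a.mv, by
    have := (cA a.mem a.mv).eq
    rw [inv_inv, ← mul_left_inj (R.N u), mul_assoc R.t, ← map_mul, As_sq a.mv, map_one, mul_one, mul_assoc, ← this,
      ← mul_assoc, mul_assoc _ R.t, ← a.e]
    group⟩

theorem Tau.conj (a : Tau H x u) (hm : m ∈ R.C) (e : m * R.N u * m⁻¹ = R.N v) : Tau H (m * x * m⁻¹) v :=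
  ⟨H.conj_memW hm a.mem, by
    obtain ⟨v', h1, h2⟩ := conj_As R.toRe hm a.mv
    rwa [R.inj (e.symm.trans h2)], conj_t (R.C_le hm) a.e e⟩

theorem Tau.cN (a : Tau H x u) (g : U K) : Tau H (R.N g * x * (R.N g)⁻¹) (g * u * g⁻¹) :=
  a.conj (R.N_mem g) (by rw [map_mul, map_mul, map_inv])

theorem Tau.cast (a : Tau H x u) (e : u = v) : Tau H x v := e ▸ a

theorem τa (c : K) : Tau H (H.a c) (X4 c) := ⟨H.a_mem c, m4 c, H.ta c⟩
theorem τ6 (c : K) : Tau H (H.A6 c) (X6 c) := ⟨H.A6_mem c, m6 c, H.tA6 c⟩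
theorem τ2 (c : K) : Tau H (H.A2 c) (X2 c) := ⟨H.A2_mem c, m2 c, H.tA2 c⟩
theorem τN (hv : v ∈ As) : Tau H (R.N v) 1 :=
  ⟨H.N_memW hv, one_mem _, by rw [← R.tN, mul_inv_cancel_right, map_one, mul_one]⟩

theorem tau (hx : x ∈ H.Wh) : ∃ v, Tau H x v :=
  ind (p := fun x => ∃ v, Tau H x v) (fun c => ⟨_, τa c⟩) (fun m hm c =>
    let ⟨v, _, e⟩ := conj_As R.toRe hm (m6 c); ⟨v, (τ6 c).conj hm e⟩) (fun _ hv => ⟨_, τN hv⟩)
    (fun _ _ _ _ ⟨_, a⟩ ⟨_, b⟩ => ⟨_, a.mul b⟩) (fun _ _ ⟨_, a⟩ => ⟨_, a.inv⟩) hx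

theorem cQ (hx : x ∈ H.Wh) {q : U K} (hq : q ∈ Qs) :
    ∃ c s, R.N q * x * (R.N q)⁻¹ = x * H.a c * R.N (X4 s) := by
  refine ind (p := fun x => ∃ c s, R.N q * x * (R.N q)⁻¹ = x * H.a c * R.N (X4 s))
    (fun c => ⟨0, 0, by simp [H.N_a, H.a_zero]⟩) (fun m hm c => ?_)
    (fun v hv => ⟨0, pr q v, by rw [← map_inv, ← map_mul, ← map_mul, comm_pr hq hv, H.a_zero, mul_one, map_mul]⟩)
    (fun x _ y hy ⟨c, s, e⟩ ⟨c', s', e'⟩ => ⟨c + c', s + s', ?_⟩) (fun x hx ⟨c, s, e⟩ => ⟨c, s, ?_⟩) hx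
  · obtain ⟨q', -, h2⟩ := Loc.conj_Q (inv_mem hm) hq
    have := conj_conj (g := m) (N_A6' H q' c)
    rw [← h2, ← conj_mul (a := H.A6 c), H.C_a hm] at this
    exact ⟨c * q'.x1, 0, by rw [X4_zero, map_one, mul_one, ← this]; group⟩
  · rw [← conj_mul, e, e', H.add, x4a, map_mul, mul_assoc _ (R.N _), ← mul_assoc (R.N _), ← mul_assoc (R.N _),
      (cA hy (m4 s)).eq, mul_assoc y, H.N_a, ← mul_assoc, ← mul_assoc, ← mul_assoc, mul_assoc x, (ca hy c).eq]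
    simp only [mul_assoc]
  · rw [← conj_inv, e, inv_eq_iff_mul_eq_one, mul_assoc _ (R.N _), ← mul_assoc (R.N _), ← mul_assoc (R.N _),
      (cA (inv_mem hx) (m4 s)).eq, mul_assoc x⁻¹, H.N_a, ← mul_assoc, ← mul_assoc, ← mul_assoc, mul_assoc x,
      (ca (inv_mem hx) c).eq, mul_inv_cancel_left, H.a_sq, one_mul, ← map_mul, As_sq (m4 s), map_one]

variable (R) in
/-- Commutation modulo `X4 Z`. -/
def Cm (Z : AddSubgroup K) (x y : G) : Prop := ∃ s ∈ Z, x * y = y * x * R.N (X4 s)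

variable {Z : AddSubgroup K}

theorem Cm.of (h : Commute x y) : Cm R Z x y := ⟨0, zero_mem _, by simpa using h.eq⟩

theorem Cm.symm : Cm R Z x y → Cm R Z y x
  | ⟨s, hs, e⟩ => ⟨s, hs, by rw [e, mul_assoc, ← map_mul, As_sq (m4 s), map_one, mul_one]⟩

theorem Cm.mul {z : G} (hz : z ∈ H.Wh) : Cm R Z x y → Cm R Z x z → Cm R Z x (y * z)
  | ⟨s, hs, e⟩, ⟨s', hs', e'⟩ => ⟨s' + s, add_mem hs' hs, by
    rw [← mul_assoc, e, mul_assoc _ _ z, (cA hz (m4 s)).eq, ← mul_assoc, mul_assoc y, e', x4a, map_mul]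
    simp only [mul_assoc]⟩

theorem Cm.inv (hy : y ∈ H.Wh) : Cm R Z x y → Cm R Z x y⁻¹
  | ⟨s, hs, e⟩ => Cm.symm ⟨s, hs, by
    rw [mul_assoc x, ← (cA (inv_mem hy) (m4 s)).eq, ← mul_assoc, eq_mul_inv_iff_mul_eq, mul_assoc, e]; group⟩

theorem Cm.conj (hm : m ∈ R.C) : Cm R Z x y → Cm R Z (m * x * m⁻¹) (m * y * m⁻¹)
  | ⟨s, hs, e⟩ => ⟨s, hs, by
    rw [conj_mul, conj_mul, e, mul_assoc _ m⁻¹, Loc.comm_Z (inv_mem hm)]; simp only [mul_assoc]⟩

theorem Cm.aa (hx : x ∈ H.Wh) (hy : y ∈ H.Wh) (h : Cm R Z x y) (c d : K) : Cm R Z (x * H.a c) (y * H.a d) :=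
  ((h.symm.mul (H.a_mem c) (.of (ca hy c).symm)).symm).mul (H.a_mem d) (.of (ca (mul_mem hx (H.a_mem c)) d).symm)

theorem cm (h : ∀ b d, Cm R Z (H.A2 b) (H.A6 d)) (hx : x ∈ H.Wh) (hy : y ∈ H.Wh) : Cm R Z x y := by
  have step : ∀ {x y}, x ∈ H.Wh → (∀ m ∈ R.C, ∀ c, Cm R Z x (m * H.A6 c * m⁻¹)) → y ∈ H.Wh → Cm R Z x y :=
    fun hx h hy => ind (fun c => .of (ca hx c).symm) h (fun v hv => .of (cA hx hv).symm)
      (fun _ _ _ hz => Cm.mul hz) (fun _ hz => Cm.inv hz) hy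
  have nh : ∀ u ν c, ∃ d d', R.N u * R.h ν * H.A6 c * (R.N u * R.h ν)⁻¹ = H.A6 d * H.a d' := fun u ν c =>
    ⟨_, _, by rw [← N_A6' H u, ← H.h_A6 ν c]; group⟩
  have key : ∀ c, ∀ m ∈ R.C, ∀ d, Cm R Z (H.A6 c) (m * H.A6 d * m⁻¹) := fun c m hm d => by
    rcases R.bru m hm with ⟨u, ν, rfl⟩ | ⟨u, v, ν, rfl⟩
    · obtain ⟨e, e', r⟩ := nh u ν d
      rw [r]
      exact .of (Commute.mul_right (by rw [Commute, SemiconjBy, ← H.A6_add, ← H.A6_add, add_comm]) (H.a_A6 _ _).symm)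
    · obtain ⟨e, e', r⟩ := nh v ν d
      have := ((h e c).symm.aa (H.A6_mem _) (H.A2_mem _) (c * u⁻¹.x1) e').conj (R.N_mem u)
      rw [← N_A6', ← H.w_A6, ← H.w_a e', conj_mul, ← r, map_inv] at this
      simpa only [mul_assoc, mul_inv_rev, inv_inv, mul_inv_cancel_left, mul_inv_cancel, mul_one] using this
  refine step hx (fun m hm c => (step (H.conj_memW hm (H.A6_mem c)) (fun m' hm' d => ?_) hx).symm) hy
  simpa only [mul_assoc, mul_inv_rev, inv_inv, mul_inv_cancel_left, mul_inv_cancel, mul_one] using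
    (key c _ (mul_mem (inv_mem hm) hm') d).conj hm

section Fr

variable {F : Fr K G} {H : Hat F.toRt}

theorem ker0 (hx : x ∈ H.Wh) (e : x * F.t = F.t * x) : ∃ u ∈ As, x = F.N u ∨ x = F.N u * F.t := by
  obtain ⟨u, hu⟩ := F.cen6 e (fun s => (cA hx (m4 s)).symm) (cA hx (m6 1)).symm
  refine ⟨u, mem_As_of F.big fun r hr => F.inj ?_, hu⟩
  have := (cP hx hr).eq
  rcases hu with hu | hu <;> rw [hu] at this
  · rw [map_mul, map_mul, this]
  · rw [mul_assoc, F.toRt.tN, ← mul_assoc, ← mul_assoc, mul_left_inj] at this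
    rw [map_mul, map_mul, this]

theorem Tau.one (a : Tau H x 1) : x * F.t = F.t * x := mul_inv_eq_iff_eq_mul.1 (by simpa using a.e)

variable (H) in
/-- The commutator of `A2` and `A6`. -/
def kk (b d : K) : G := H.A2 b * H.A6 d * (H.A2 b)⁻¹ * (H.A6 d)⁻¹

theorem kk_add (b b' d : K) : kk H (b + b') d = H.A2 b * kk H b' d * (H.A2 b)⁻¹ * kk H b d := by
  simp only [kk, H.A2_add]; group

theorem kk_add' (b d d' : K) : kk H b (d + d') = kk H b d * (H.A6 d * kk H b d' * (H.A6 d)⁻¹) := by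
  simp only [kk, H.A6_add]; group

theorem kk_T (κ ν : Kˣ) (b d : K) : F.l κ * F.h ν * kk H b d * (F.l κ * F.h ν)⁻¹ =
    kk H ((κ : K) * (ν⁻¹ : Kˣ) * σ ((κ : K) * (ν⁻¹ : Kˣ)) * b) ((κ : K) * ν * σ ((κ : K) * ν) * d) := by
  simp only [kk, ← H.T_A2, ← H.T_A6]; group

theorem T_N (κ ν : Kˣ) (u : U K) : F.l κ * F.h ν * F.N u * (F.l κ * F.h ν)⁻¹ = F.N (ζ κ (η ν u)) := by
  rw [← F.lN, ← F.hN]; group

theorem exists_l22 {μ : K} (h : μ ≠ 0) : ∃ κ : Kˣ, (κ : K) * κ * σ ((κ : K) * κ) = μ ∧ (κ : K) ^ 2 * σ (κ : K) = θ μ := by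
  obtain ⟨κ, e⟩ := exists_l4 (c := θ μ) (by simpa using h)
  refine ⟨κ, ?_, e⟩
  rw [← σθ μ, ← e]
  simp only [UE]; ring

theorem kk_T1 {μ : K} (h : μ ≠ 0) : ∃ κ : Kˣ, (κ : K) ^ 2 * σ (κ : K) = θ μ ∧
    (∀ b d, F.l κ * F.h κ⁻¹ * kk H b d * (F.l κ * F.h κ⁻¹)⁻¹ = kk H (μ * b) d) ∧
    ∀ b d, F.l κ * F.h κ * kk H b d * (F.l κ * F.h κ)⁻¹ = kk H b (μ * d) := by
  obtain ⟨κ, e, e'⟩ := exists_l22 h
  exact ⟨κ, e', fun b d => by rw [kk_T, inv_inv, e]; simp, fun b d => by rw [kk_T, e]; simp⟩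

theorem kk_N (b d : K) : ∃ u ∈ As, kk H b d = F.N u := by
  have key : ∀ b, ∃ u ∈ As, kk H b d = F.N u ∨ kk H b d = F.N u * F.t := fun b =>
    have := ((((τ2 b).mul (τ6 d)).mul (τ2 b).inv).mul (τ6 (H := H) d).inv).cast (v := 1) (by ext <;> simp only [UE])
    ker0 this.mem this.one
  obtain ⟨u, hu, e | e⟩ := key b
  · exact ⟨u, hu, e⟩
  exfalso
  have all : ∀ μ, μ ≠ 0 → ∃ u, kk H (μ * b) d = F.N u * F.t := fun μ h => by
    obtain ⟨κ, -, r, -⟩ := kk_T1 (H := H) h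
    exact ⟨_, by rw [← r, e, ← conj_mul, T_N, F.toRt.t_conj (mul_mem (F.l_mem _) (F.h_mem_L _))]⟩
  obtain ⟨x, h0, h1⟩ := F.big
  obtain ⟨u₁, e1⟩ := all x h0
  obtain ⟨u₂, e2⟩ := all _ (add_one_ne h1)
  rw [add_mul, one_mul, kk_add, e1, e, ← conj_mul, (cA (H.A2_mem _) hu).symm.mul_inv_cancel, H.tA2, ← mul_assoc,
    mul_left_inj, mul_assoc, mul_assoc, ← map_mul, F.toRt.tN, ← mul_assoc, ← map_mul, ← eq_inv_mul_iff_mul_eq,
    ← map_inv, ← map_mul] at e2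
  exact F.toRt.t_ne_N _ e2

theorem kk_eq : ∃ f : K, ∀ b d, kk H b d = F.N (X4 (f * θ (b * d))) := by
  choose u hu e using kk_N (H := H)
  have a1 : ∀ b b' d, u (b + b') d = u b' d * u b d := fun b b' d => F.inj (by
    rw [← e, kk_add, e, (cA (H.A2_mem _) (hu _ _)).symm.mul_inv_cancel, e, map_mul])
  have a2 : ∀ b d d', u b (d + d') = u b d * u b d' := fun b d d' => F.inj (by
    rw [← e, kk_add', e, e, (cA (H.A6_mem _) (hu _ _)).symm.mul_inv_cancel, map_mul])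
  have T : ∀ μ, μ ≠ 0 → ∃ κ : Kˣ, (κ : K) ^ 2 * σ (κ : K) = θ μ ∧ (∀ b d, u (μ * b) d = ζ κ (η κ⁻¹ (u b d))) ∧
      ∀ b d, u b (μ * d) = ζ κ (η κ (u b d)) := fun μ h => by
    obtain ⟨κ, r0, r1, r2⟩ := kk_T1 (H := H) h
    exact ⟨κ, r0, fun b d => F.inj (by rw [← e, ← r1, e, T_N]), fun b d => F.inj (by rw [← e, ← r2, e, T_N])⟩
  have c : ∀ q ∈ Qs, q.x1 = 0 → q.x7 = 0 → ∀ b d, pr q (u b d) = 0 := fun q hq h1 h7 b d => by
    have c2 : Commute (F.N q) (H.A2 b) := H.N_A2 hq h7 b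
    have c6 : Commute (F.N q) (H.A6 d) := H.N_A6 h1 d
    have := (((c2.mul_right c6).mul_right c2.inv_right).mul_right c6.inv_right).mul_inv_cancel
    rw [← kk, e, ← map_inv, ← map_mul, ← map_mul, comm_pr hq (hu _ _)] at this
    simpa only [UE] using congrArg U.x4 (mul_eq_left.1 (F.inj this))
  have e6 : ∀ d b, (u b d).x6 = 0 := fun d => wt_inv F.big (f := fun b => (u b d).x6)
    (fun b b' => by have := hu b d; have := hu b' d; rw [mem_As] at *; simp only [a1, UE, *]; grind) fun μ h b => by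
      obtain ⟨κ, -, r, -⟩ := T μ h
      have := σu_ne κ
      simp only [r, ζ, UE, Units.val_inv_eq_inv_val, map_inv₀]; field_simp
  have e2 : ∀ b d, (u b d).x2 = 0 := fun b => wt_inv F.big (f := fun d => (u b d).x2)
    (fun d d' => by have := hu b d; have := hu b d'; rw [mem_As] at *; simp only [a2, UE, *]) fun μ h d => by
      obtain ⟨κ, -, -, r⟩ := T μ h
      have := σu_ne κ
      simp only [r, ζ, UE, Units.val_inv_eq_inv_val, map_inv₀]; field_simp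
  have e4 : ∀ b d, (u b d).x4 = (u 1 1).x4 * θ (b * d) := fun b d => by
    obtain rfl | hb := eq_or_ne b 0
    · have := a1 0 0 d
      rw [add_zero, left_eq_mul] at this
      simp [this]
    obtain rfl | hd := eq_or_ne d 0
    · have := a2 b 0 0
      rw [add_zero, left_eq_mul] at this
      simp [this]
    obtain ⟨κ, r0, r, -⟩ := T b hb
    obtain ⟨κ', r0', -, r'⟩ := T d hd
    have h1 := congrArg U.x4 (r 1 d)
    have h2 := congrArg U.x4 (r' 1 1)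
    simp only [ζ, UE, r0, r0'] at h1 h2
    rw [h1, h2, map_mul]; ring
  refine ⟨(u 1 1).x4, fun b d => ?_⟩
  have c5 := c (Y2 1) ⟨rfl, rfl⟩ rfl rfl b d
  have c3 := c (Y6 1) ⟨rfl, rfl⟩ rfl rfl b d
  have := hu b d
  rw [mem_As] at this
  simp only [pr, UE] at c5 c3
  rw [e, ← e4]
  congr 1
  ext <;> simp only [UE, this, c5, c3, e6, e2]

theorem kk_cm {b d s : K} (e : kk H b d = F.N (X4 s)) : H.A2 b * H.A6 d = H.A6 d * H.A2 b * F.N (X4 s) := by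
  rw [← (cA (mul_mem (H.A6_mem d) (H.A2_mem b)) (m4 s)).eq, ← e, kk]; group

theorem ker (hx : x ∈ H.Wh) (e : x * F.t = F.t * x) : ∃ v ∈ As, x = F.N v := by
  obtain ⟨u, hu, r | r⟩ := ker0 hx e
  · exact ⟨u, hu, r⟩
  obtain ⟨f, hf⟩ := kk_eq (H := H)
  obtain ⟨s, -, e⟩ := cm (Z := ⊤) (fun b d => ⟨_, trivial, kk_cm (hf b d)⟩) (H.A6_mem 1)
    ((mul_mem_cancel_left (H.N_memW hu)).1 (r ▸ hx))
  rw [eq_mul_of_mul_inv_eq (H.tA6 1), mul_assoc, mul_assoc, mul_right_inj, H.N_A6 rfl, mul_right_inj] at e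
  simpa [UE] using congrArg U.x6 (F.inj e)

theorem Tau.eq (a : Tau H x u) (b : Tau H y u) : ∃ v ∈ As, y = x * F.N v := by
  have := (a.inv.mul b).cast (As_sq a.mv)
  obtain ⟨v, hv, e⟩ := ker this.mem this.one
  exact ⟨v, hv, eq_mul_of_inv_mul_eq e⟩

theorem kk_one (b d : K) : Commute (H.A2 b) (H.A6 d) := by
  obtain ⟨f, hf⟩ := kk_eq (H := H)
  replace hf := fun b d => kk_cm (hf b d)
  suffices f = 0 by simpa [this, Commute, SemiconjBy] using hf b d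
  have c6 : ∀ u ∈ Rs, ∀ b d, Commute (F.N u * H.A2 b * (F.N u)⁻¹ * H.A2 b) (H.A6 d) := fun u hu b d => by
    have h1 : F.N u * H.A2 b * (F.N u)⁻¹ * H.A6 d = H.A6 d * (F.N u * H.A2 b * (F.N u)⁻¹) * F.N (X4 (f * θ (b * d))) := by
      have := congrArg (fun x => F.N u * x * (F.N u)⁻¹) (hf b d)
      simp only [← conj_mul] at this
      rwa [(show Commute _ _ from H.N_A6 hu d).mul_inv_cancel, Loc.comm_Z (F.N_mem u), mul_inv_cancel_right] at this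
    generalize F.N u * H.A2 b * (F.N u)⁻¹ = y at h1 ⊢
    rw [Commute, SemiconjBy, mul_assoc, hf, mul_assoc, ← mul_assoc, h1, ← (cA (H.A2_mem b) (m4 _)).eq, mul_assoc _ (F.N _),
      ← mul_assoc (F.N _), ← map_mul, As_sq (m4 _), map_one, one_mul, mul_assoc]
  have a6 : ∀ c d, Commute (H.a c) (H.A6 d) := H.a_A6
  have s6 : ∀ c d, Commute (H.A6 c) (H.A6 d) := fun c d => by
    rw [Commute, SemiconjBy, ← H.A6_add, ← H.A6_add, add_comm]
  let x5 : K → K → G := fun a b => F.N (X8 a) * H.A2 b * (F.N (X8 a))⁻¹ * H.A2 b * H.a (a * σ b) * H.A6 (σ a * b)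
  have t5 : ∀ a b, Tau H (x5 a b) (X5 (a * b)) := fun a b =>
    (((((τ2 b).cN _).mul (τ2 b)).mul (τa _)).mul (τ6 _)).cast (by ext <;> simp only [UE] <;> grind)
  have c5 : ∀ a b d, Commute (x5 a b) (H.A6 d) := fun a b d => ((c6 _ rfl _ _).mul_left (a6 _ _)).mul_left (s6 _ _)
  have c2 : ∀ a b d, Commute (x5 a b) (H.A2 d) := fun a b d => by
    set v := Y8 (a * b) * X2 1 * (Y8 (a * b))⁻¹ * X2 1 with hv
    obtain ⟨v', h1, e⟩ := (((((((τ2 1).cN (Y8 (a * b))).mul (τ2 1)).mul (t5 v.x5 1)).mul (τa (H := H) v.x4)).mul (τ6 v.x6)).cast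
      (v := X3 (a * b)) (by ext <;> simp only [UE, hv] <;> grind)).eq ((t5 a b).conj F.w_mem (F.wX5 _))
    refine comm_conj (g := F.w) (y := H.A6 d) ?_ (Re.w_symm rfl) rfl
    rw [e]
    exact ((((c6 _ rfl _ _).mul_left (c5 _ _ _)).mul_left (a6 _ _)).mul_left (s6 _ _)).mul_left (H.N_A6 h1.1 d)
  have sq : ∀ a b, x5 a b * x5 a b = F.N (X4 (f * θ (b * (σ a * b)))) := fun a b => by
    set p := H.A2 b * H.a (a * σ b) * H.A6 (σ a * b) with hp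
    have h1 : Commute (x5 a b) p := ((c2 a b b).mul_right (ca (t5 a b).mem _).symm).mul_right (c5 a b _)
    have h2 : x5 a b * p⁻¹ = F.N (X8 a) * H.A2 b * (F.N (X8 a))⁻¹ := by simp only [x5, hp]; group
    have h3 := congrArg₂ (· * ·) h2 h2
    rw [conj_mul, sq_of_add H.A2_add, mul_one, mul_inv_cancel, h1.inv_right.symm.mul_mul_mul_comm, ← mul_inv_rev,
      mul_inv_eq_one] at h3
    rw [h3, hp, ← H.a_A2, mul_assoc (H.a _), (ca (mul_mem (H.A2_mem _) (H.A6_mem _)) _).symm.mul_mul_mul_comm, H.a_sq,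
      one_mul]
    nth_rewrite 2 [hf]
    rw [← mul_assoc, ← mul_assoc, mul_assoc (H.A2 _), sq_of_add H.A6_add, mul_one, sq_of_add H.A2_add, one_mul]
  obtain ⟨x, h0, h1⟩ := F.big
  obtain ⟨v, hv, e⟩ := (t5 1 x).eq ((t5 x 1).cast (by rw [mul_comm]))
  have h2 := sq x 1
  rw [e, (cA (t5 1 x).mem hv).mul_mul_mul_comm, ← map_mul, As_sq hv, map_one, mul_one, sq] at h2
  have h3 := congrArg U.x4 (F.inj h2)
  have := σ_ne_self h0 h1
  simp only [UE, θσ] at h3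
  rw [← pow_two, ← σσ, θσ] at h3
  grind

end Fr

end IIa

open IIa in
theorem Hat.exists_w1 {F : Fr K G} (H : Hat F.toRt) : H.W1 := by
  have comm : ∀ x ∈ H.Wh, ∀ y ∈ H.Wh, x * y = y * x := fun x hx y hy => by
    obtain ⟨s, hs, e⟩ := cm (Z := ⊥) (fun b d => .of (kk_one b d)) hx hy
    simpa [AddSubgroup.mem_bot.1 hs] using e
  exact ⟨comm, fun x => ind (p := fun x => x * x = 1) H.a_sq
      (fun m _ c => by rw [conj_mul, sq_of_add H.A6_add, mul_one, mul_inv_cancel])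
      (fun v hv => by rw [← map_mul, As_sq hv, map_one])
      (fun x hx y hy a b => by rw [Commute.mul_mul_mul_comm (comm y hy x hx), a, b, mul_one])
      fun x _ a => by rw [← mul_inv_rev, a, inv_one],
    fun x hx u hu => cP hx hu, fun x hx => let ⟨v, a⟩ := tau hx; ⟨v, a.mv, a.e⟩, fun x hx => ker hx,
    fun x hx q hq => cQ hx hq⟩

end Cfsg.Agent.S2F
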