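import Cfsg.Agent.S2F.IIa

/-!
`Û₅ ≤ Ŵ₄ ∩ Ŵ₆` and `D ∩ W = V₄`.

General remarks (all S2F stubs): read `S2F/Def.lean` (definitions, conventions) and `S2F/Base.lean`, `Base2.lean` first. Identities in `U K`
are proved by `ext <;> simp only [UE, ...hypotheses] <;> grind` (add `ζ`, `ψ`, `pr` to the simp set); conjugation is `g * x * g⁻¹`;
we write `X4 s` for `F.N (X4 s)` etc., `Ŵ = H.Wh`, `τ x = v` if `x t x⁻¹ = t N v`.  Weight arguments: `wt_inv`, `wtA`, `wtB` with `x` from `F.big` and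
`σ_ne_self`, `σ_ne_sq`, `cub_ne`; `exists_l2`, `exists_l4`, `exists_lσ` give torus elements with a prescribed weight; `T_A2`, `T_A6`, `l_hv`, … give
the torus action.  In an abelian subgroup use a local `CommGroup` instance as in `Hat5.hv_mul`.
Keep the statements; add lemmas / extra files freely (unique names).

`H₅ = {l κ * h ν | κ σ κ ν = 1}` (fixes `x5`; all other weights on `U` are non-trivial for `κ ≠ 1`; it is normalised by `n`: `exists_nT` gives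
`σ κ' = κ ν`, `σ ν' ν = κ`, and `σ (κ' σ κ' ν') ν = κ ν σ (κ ν) κ`, so `κ' σ κ' ν' = 1`).  `H.Fix5 x` : `x` commutes with `H₅`.
`ex5`: `τ` is onto `As` (`A2, a, A6`, `X8 a A2 b (X8 a)⁻¹`, `w`); for `τ x = X5 e` the coset `x N(As)` is `H₅`-invariant (`ker`), so it contains a fixed point
(`Solv.coprime_fixed_coset'`, or the product of the `q - 1` conjugates of `x` in the abelian group `Ŵ`).
`n5`: let `x ∈ Ŵ` commute with `H₅`; `τ x` is `H₅`-fixed so `τ x = X5 e`.  Take `x₀` from `ex5 e`, `x' = n x₀ n⁻¹`, `τ x' = X5 e`, commuting with `H₅`.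
`k = x x'⁻¹` centralises `t`, `X4, X5, X6` (`cP` and its `n`-conjugate) and `H₅`, so `k = N u` or `N u t` (`cen6`) with `u = X5 s`.  If `x = X5 s * t * x'` then
`1 = x² = (t x')² = X5 e`, so `e = 0`, `x, x₀ ∈ N(As)` (`ker`), `x' ∈ N(U)`, `t ∈ N(U)`: false.  So `n x n⁻¹ = X5 s * x₀ ∈ Ŵ`.
`Y8_5`: for such `x`, `Y8 b x (Y8 b)⁻¹ = n (Y2 b (n x n⁻¹) (Y2 b)⁻¹) n⁻¹ ∈ x * A6 c * X6 s` by `cQ`.
`D_inf`: let `π x = ∏_κ τ_κ x τ_κ⁻¹`, `τ_κ = l κ * h κ` (fixes `x2`; weights `σ κ` on `x3`, `κ² σ κ` on `x4, x5`, `(κ σ κ)²` on `x6`), a hom `Ŵ → Ŵ` (abelian,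
exponent `2`, `q - 1` odd) with `π (A2 d) = A2 d`, `π (N v) = X2 v.x2`, `π (a c) = π (A6 c) = 1` (`∑_κ χ κ = 0` for a non-trivial character; or: the sum is fixed by
multiplication by `χ κ₀ ≠ 1`), and `π (g x g⁻¹) = g (π x) g⁻¹` for `g` in the torus.  For `u ∈ U`, `x ∈ Ŵ`, `π ⁅N u, x⁆ = X2 (s u x)` (its `τ` has `x2 = 0` and it is fixed by all
`τ_κ`, so `τ = 1`).  `s u` is additive in `x`, `s u x = 0` for `x ∈ N(As)`, so `s u x` depends only on `τ x`; `s (u u') x = s u ⁅u', x⁆ + s u' x + s u x`;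
`s q x = 0` for `q ∈ Qs` (`cQ`).  Claim `s = 0`.  `τ x ∈ Ws`: `x ∈ a A6 W`, `⁅u, A6 c⁆ = a (..)`.  `τ x = X5 e`: `x` as in `n5`; `Y8_5`, and `X8 a` commutes with `x`
(`n`-conjugate of `cP` for `X2 a`); `u = Y8 y X8 a q` (`exists_U8`).  `τ x = X3 e`: `τ ⁅u', x⁆ ∈ Ys`, so `u ↦ s u x` is a hom trivial on `Qs` and on squares `X8 a`;
`f y = s (Y8 y) x`; the torus `H₃ = w H₅ w` (`ν = κ σ κ`) fixes `τ x`, scales `y` by `μ = σ ν` and `x2` by `μ⁻¹`: `f (μ y) = μ⁻¹ f y`, `f = 0` (`wtA`, `cub_ne`).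
`x = A2 d`: again a hom; `τ_κ` fixes `x`, `x2`, scales `y` by `σ κ`: `wt_inv`.  So `π (N u x (N u)⁻¹) = π x`.  By `bru` the generators of `D` are `a c`, `X4 s`,
`A6 c * a c'`, `N u (A2 c * a c') (N u)⁻¹`, so `π D ⊆ A2 (K)`.  If `N v ∈ D`, `v ∈ As - Zs`, then (`Loc.clsA`, `conj_memD`) `X6 1 ∈ D` or `X5 1 ∈ D`, in which case
`⁅Y8 1, X5 1⁆ = X6 1 ∈ D`; so `X2 1 ∈ D`, `X2 1 = π (X2 1) = A2 d`; `tA2` gives `d = 0`, contradiction.
-/

set_option autoImplicit false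
set_option linter.unusedSectionVars false
set_option linter.unusedSimpArgs false
set_option maxRecDepth 20000

namespace Cfsg.Agent.S2F

open Subgroup Cfsg.Agent.Oct Cfsg.Agent.Fus
open scoped commutatorElement

variable {K : Type*} [Field K] [Tw K] [Finite K] {G : Type*} [Group G] [Finite G]

variable {F : Fr K G} (H : Hat F.toRt)

/-- `x` commutes with the torus `H₅`. -/
def Hat.Fix5 (x : G) : Prop :=
  ∀ κ ν : Kˣ, (κ : K) * σ (κ : K) * ν = 1 → F.l κ * F.h ν * x = x * (F.l κ * F.h ν)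

namespace IIb

open IIa

variable {H} {x y : G} {u v : U K}

variable (H) in
/-- Averaging over a torus. -/
structure Av (T : Kˣ → G) (π : G → G) : Prop where
  mem : ∀ x ∈ H.Wh, π x ∈ H.Wh
  mul : ∀ x ∈ H.Wh, ∀ y ∈ H.Wh, π (x * y) = π x * π y
  fix : ∀ x ∈ H.Wh, ∀ κ, T κ * π x * (T κ)⁻¹ = π x
  cl : ∀ x ∈ H.Wh, ∀ P : Subgroup G, (∀ κ, x⁻¹ * (T κ * x * (T κ)⁻¹) ∈ P) → x⁻¹ * π x ∈ P
  nat : ∀ x ∈ H.Wh, ∀ g, (∀ κ, Commute g (T κ)) → (∀ y ∈ H.Wh, g * y * g⁻¹ ∈ H.Wh) → π (g * x * g⁻¹) = g * π x * g⁻¹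

theorem exists_av (h : H.W1) {T : Kˣ → G} (hT : ∀ κ κ', T (κ * κ') = T κ * T κ')
    (hn : ∀ κ, ∀ y ∈ H.Wh, T κ * y * (T κ)⁻¹ ∈ H.Wh) : ∃ π, Av H T π := by
  classical
  letI : CommGroup H.Wh := { mul_comm := fun x y => Subtype.ext (h.comm _ x.2 _ y.2) }
  have := Fintype.ofFinite K
  let c : ∀ g : G, (∀ y ∈ H.Wh, g * y * g⁻¹ ∈ H.Wh) → H.Wh →* H.Wh := fun g hg =>
    MonoidHom.mk' (fun y => ⟨_, hg y y.2⟩) fun a b => Subtype.ext conj_mul.symm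
  let p : H.Wh → H.Wh := fun x => ∏ κ, c _ (hn κ) x
  refine ⟨fun x => if hx : x ∈ H.Wh then p ⟨x, hx⟩ else 1, fun x hx => ?_, fun x hx y hy => ?_, fun x hx κ => ?_,
    fun x hx P hP => ?_, fun x hx g h1 h2 => ?_⟩
  · simp only [hx, dif_pos, SetLike.coe_mem]
  · simp only [hx, hy, mul_mem, dif_pos, ← coe_mul, p, ← Finset.prod_mul_distrib, ← map_mul]; rfl
  · simp only [hx, dif_pos]
    refine congrArg Subtype.val (show c _ (hn κ) (p ⟨x, hx⟩) = p ⟨x, hx⟩ from ?_)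
    rw [map_prod]
    refine Fintype.prod_equiv (Equiv.mulLeft κ) _ _ fun κ' => Subtype.ext ?_
    change T κ * (T κ' * x * (T κ')⁻¹) * (T κ)⁻¹ = T (κ * κ') * x * (T (κ * κ'))⁻¹
    rw [hT]; group
  · simp only [hx, dif_pos]
    obtain ⟨n, -, hn'⟩ := FiniteField.card K 2
    obtain ⟨k, hk⟩ : Odd (Fintype.card Kˣ) := by
      rw [Fintype.card_units, hn']
      exact Nat.Even.sub_odd Nat.one_le_two_pow (Nat.even_pow.2 ⟨even_two, n.ne_zero⟩) odd_one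
    have e : (⟨x, hx⟩ : H.Wh)⁻¹ * p ⟨x, hx⟩ = ∏ κ, ((⟨x, hx⟩ : H.Wh)⁻¹ * c _ (hn κ) ⟨x, hx⟩) := by
      rw [Finset.prod_mul_distrib, Finset.prod_const, Finset.card_univ, hk, pow_succ, pow_mul, pow_two,
        show (⟨x, hx⟩ : H.Wh)⁻¹ * (⟨x, hx⟩ : H.Wh)⁻¹ = 1 from Subtype.ext (h.sq _ (inv_mem hx)), one_pow, one_mul]
    exact show (⟨x, hx⟩ : H.Wh)⁻¹ * p ⟨x, hx⟩ ∈ P.subgroupOf H.Wh from e ▸ prod_mem fun κ _ => hP κ
  · simp only [hx, h2 x hx, dif_pos]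
    refine congrArg Subtype.val (show p (c _ h2 ⟨x, hx⟩) = c _ h2 (p ⟨x, hx⟩) from ?_)
    rw [map_prod]
    refine Finset.prod_congr rfl fun κ _ => Subtype.ext ?_
    exact (conj_conj (g := g) (x := T κ) (y := x) rfl).symm.trans (by rw [(h1 κ).mul_inv_cancel]; rfl) |>.symm

theorem T_memW (κ ν : Kˣ) : ∀ y ∈ H.Wh, F.l κ * F.h ν * y * (F.l κ * F.h ν)⁻¹ ∈ H.Wh := fun y hy => by
  simpa only [mul_assoc, mul_inv_rev] using H.l_memW κ (H.conj_memW (F.h_mem ν) hy)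

theorem T_comm (κ ν κ' ν' : Kˣ) : Commute (F.l κ * F.h ν) (F.l κ' * F.h ν') :=
  (Commute.mul_right ((Commute.all κ κ').map F.l) (F.lh _ _)).mul_left
    (Commute.mul_right (F.lh _ _).symm ((Commute.all ν ν').map F.h))

theorem T_mul (κ ν κ' ν' : Kˣ) : F.l (κ * κ') * F.h (ν * ν') = F.l κ * F.h ν * (F.l κ' * F.h ν') := by
  rw [map_mul, map_mul, Commute.mul_mul_mul_comm (F.lh κ' ν)]

theorem ζη_As (hv : v ∈ As) (κ ν : Kˣ) : ζ κ (η ν v) ∈ As := by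
  rw [mem_As] at hv
  simp only [mem_As, ζ, UE, hv, and_self]

theorem τT (a : Tau H x v) (κ ν : Kˣ) : Tau H (F.l κ * F.h ν * x * (F.l κ * F.h ν)⁻¹) (ζ κ (η ν v)) :=
  ⟨T_memW κ ν _ a.mem, ζη_As a.mv κ ν, conj_t (R := F.toRt) (mul_mem (F.l_mem _) (F.h_mem_L _)) a.e (T_N κ ν v)⟩

theorem τuniq (a : Tau H x u) (b : Tau H x v) : u = v := F.inj (mul_left_cancel (a.e.symm.trans b.e))

theorem τA (a : Tau H x u) (hv : v ∈ As) : Tau H (x * F.N v) u := (a.mul (τN hv)).cast (mul_one _)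

theorem fix2 (big : ∃ x : K, x ≠ 0 ∧ x ≠ 1) (hv : v ∈ As) (h : ∀ κ, ζ κ (η κ v) = v) : v = X2 v.x2 := by
  obtain ⟨x, h0, h1⟩ := big
  have n : Units.mk0 x h0 ≠ 1 := fun e => h1 (congrArg Units.val e)
  have n2 := mt eq_one_l2 n
  have n4 := mt eq_one_l4 n
  have n1 : σ x ≠ 1 := fun e => h1 (σ_inj (by rw [e, map_one]))
  have e := h (Units.mk0 x h0)
  have e3 := congrArg U.x3 e
  have e4 := congrArg U.x4 e
  have e5 := congrArg U.x5 e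
  have e6 := congrArg U.x6 e
  simp only [ζ, UE, Units.val_inv_eq_inv_val, Units.val_mk0] at e3 e4 e5 e6 n2 n4
  rw [mem_As] at hv
  ext <;> simp only [UE, hv] <;> grind

theorem fix5 (big : ∃ x : K, x ≠ 0 ∧ x ≠ 1)
    (h : ∀ κ ν : Kˣ, (κ : K) * σ (κ : K) * ν = 1 → ζ κ (η ν u) = u) : u = X5 u.x5 := by
  obtain ⟨x, h0, h1⟩ := big
  obtain ⟨κ, hκ⟩ := exists_l2 h0
  have e := h κ (Units.mk0 x h0)⁻¹ (by simp [hκ, h0])
  have n : Units.mk0 x h0 ≠ 1 := fun e => h1 (congrArg Units.val e)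
  have n4 := mt eq_one_l4 n
  have n1 : σ x ≠ 1 := fun e => h1 (σ_inj (by rw [e, map_one]))
  have n2 : σ (κ : K) ≠ 1 := fun e => h1 (by rw [← hκ, e, σ_inj (e.trans (map_one _).symm), mul_one])
  have n0 : σ x ≠ 0 := mt σ_eq_zero.1 h0
  have s := congrArg σ hκ
  rw [U.ext_iff] at e
  simp only [ζ, UE, Units.val_inv_eq_inv_val, Units.val_mk0, inv_inv, map_inv₀] at e n4 s
  obtain ⟨e1, e2, e3, e4, e5, e6, -, e8, e9, e10, e11, e12⟩ := e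
  ext <;> simp only [UE] <;> grind

theorem τ5 (e : K) : ∃ x, Tau H x (X5 e) :=
  ⟨_, (((((τ2 1).cN (X8 e)).mul (τ2 1)).mul (τa e)).mul (τ6 (σ e))).cast (by ext <;> simp only [UE])⟩

theorem Fix5.N (big : ∃ x : K, x ≠ 0 ∧ x ≠ 1) (h : Hat.Fix5 (F := F) (F.N u)) : u = X5 u.x5 :=
  fix5 big fun κ ν e => F.inj (by rw [← T_N, h κ ν e, mul_inv_cancel_right])

theorem Fix5.tau (h : Hat.Fix5 (F := F) x) (a : Tau H x v) : v = X5 v.x5 :=
  fix5 F.big fun κ ν e => τuniq (τT a κ ν) (by rwa [h κ ν e, mul_inv_cancel_right])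

theorem Fix5.n (h : Hat.Fix5 (F := F) x) : Hat.Fix5 (F := F) (F.n * x * F.n⁻¹) := fun κ ν e => by
  obtain ⟨κ', ν', h1, h2, h3⟩ := F.exists_nT κ ν
  refine comm_conj (h κ' ν' (σ_inj ?_)) (Re.n_symm h3) rfl
  have e1 := congrArg σ e
  have e2 := congrArg σ h1
  have := ν.ne_zero
  simp only [UE] at e1 e2 ⊢
  grind

theorem Fix5.mul (h : Hat.Fix5 (F := F) x) (h' : Hat.Fix5 (F := F) y) : Hat.Fix5 (F := F) (x * y) :=
  fun κ ν e => Commute.mul_right (h κ ν e) (h' κ ν e)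

theorem Fix5.inv (h : Hat.Fix5 (F := F) x) : Hat.Fix5 (F := F) x⁻¹ := fun κ ν e => Commute.inv_right (h κ ν e)

theorem Fix5.t : Hat.Fix5 (F := F) F.t := fun κ ν _ => (F.tL _ (mul_mem (F.l_mem κ) (F.h_mem_L ν))).symm

end IIb

open IIa IIb

theorem Hat.W1.ex5 (h : H.W1) (e : K) : ∃ x ∈ H.Wh, x * F.t * x⁻¹ = F.t * F.N (X5 e) ∧ Hat.Fix5 (F := F) x := by
  obtain ⟨π, p⟩ := exists_av h (T := fun κ => F.l κ * F.h (κ * Units.map (σ : K →+* K).toMonoidHom κ)⁻¹)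
    (fun κ κ' => by rw [← T_mul, map_mul (Units.map _) κ κ', mul_mul_mul_comm κ, mul_inv]) fun κ => T_memW κ _
  obtain ⟨x, a⟩ := τ5 (H := H) e
  obtain ⟨v, hv, r⟩ := p.cl x a.mem (As.map F.N) fun κ => by
    obtain ⟨v, hv, r⟩ := a.eq ((τT a κ (κ * Units.map (σ : K →+* K).toMonoidHom κ)⁻¹).cast (by
      have := σu_ne κ
      ext <;> simp only [ζ, UE]
      simp; field_simp))
    exact ⟨v, hv, by rw [r, inv_mul_cancel_left]⟩
  have b := τA a hv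
  rw [r, mul_inv_cancel_left] at b
  refine ⟨_, b.mem, b.e, fun κ ν r => mul_inv_eq_iff_eq_mul.1 ?_⟩
  rw [show ν = (κ * Units.map (σ : K →+* K).toMonoidHom κ)⁻¹ from eq_inv_of_mul_eq_one_right (Units.ext r)]
  exact p.fix x a.mem κ

theorem Hat.W1.n5 (h : H.W1) {x : G} (hx : x ∈ H.Wh) (h5 : Hat.Fix5 (F := F) x) :
    F.n * x * F.n⁻¹ ∈ H.Wh ∧ Hat.Fix5 (F := F) (F.n * x * F.n⁻¹) := by
  refine ⟨?_, Fix5.n h5⟩
  obtain ⟨v, a⟩ := IIa.tau hx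
  rw [Fix5.tau h5 a] at a
  have t' := conj_t (R := F.toRt) F.n_mem a.e (F.nX5 _)
  set y := F.n * x * F.n⁻¹ with hy
  have f := Fix5.mul (Fix5.inv (Fix5.n h5)) h5
  obtain ⟨u, hu | hu⟩ := F.cen6 (c := y⁻¹ * x) (by rw [mul_assoc, eq_mul_of_mul_inv_eq a.e, ← t']; group)
    (fun s => Commute.mul_left (Commute.inv_left (comm_conj (cA hx (m6 s)).symm rfl (F.nX6 s))) (cA hx (m4 s)).symm)
    (Commute.mul_left (Commute.inv_left (comm_conj (cA hx (m4 1)).symm rfl (F.nX4 1))) (cA hx (m6 1)).symm)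
  · rw [← hy, hu] at f
    rw [Fix5.N F.big f] at hu
    rw [eq_mul_inv_of_mul_eq (eq_mul_of_inv_mul_eq hu).symm]
    exact mul_mem hx (inv_mem (H.N_memW (m5 _)))
  exfalso
  have f' := Fix5.mul f (Fix5.inv Fix5.t)
  rw [← hy, hu, mul_inv_cancel_right] at f'
  rw [Fix5.N F.big f'] at hu
  have y2 : y * y = 1 := by rw [hy, conj_mul, h.sq x hx, mul_one, mul_inv_cancel]
  have c : Commute (F.N (X5 u.x5)) y := comm_conj (cA hx (m5 _)) (F.nX5 _) rfl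
  have c' : Commute F.t (F.N (X5 u.x5)) := F.toRt.tN _
  have x2 := h.sq x hx
  rw [eq_mul_of_inv_mul_eq hu, ← c'.eq, ← mul_assoc y, (c.mul_right c'.symm).mul_mul_mul_comm, ← map_mul, As_sq (m5 _),
    map_one, mul_one, ← mul_assoc] at x2
  nth_rewrite 2 [← inv_eq_of_mul_eq_one_left y2] at x2
  rw [t', F.toRt.tN, mul_assoc, F.tt, mul_one] at x2
  obtain ⟨w, hw, r⟩ := IIa.ker hx (by simpa only [x2, mul_one, mul_inv_eq_iff_eq_mul] using a.e)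
  rw [r] at h5
  rw [hy, r, Fix5.N F.big h5, F.nX5, inv_mul_cancel, eq_comm, mul_eq_one_iff_inv_eq, ← map_inv] at hu
  exact F.toRt.t_ne_N _ hu.symm

namespace IIb

variable {H} {x y : G} {u v : U K} {π : G → G}

theorem Y8_5 (h : H.W1) (hx : x ∈ H.Wh) (h5 : Hat.Fix5 (F := F) x) (b : K) :
    ∃ c s, F.N (Y8 b) * x * (F.N (Y8 b))⁻¹ = x * H.A6 c * F.N (X6 s) := by
  obtain ⟨c, s, e⟩ := cQ (h.n5 H hx h5).1 (q := Y2 b) ⟨rfl, rfl⟩
  have := conj_conj (g := F.n) e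
  rw [F.nY2, Re.n_symm rfl, ← conj_mul, ← conj_mul, Re.n_symm rfl, F.nX4] at this
  exact ⟨c, s, this⟩

theorem X8_5 (h : H.W1) (hx : x ∈ H.Wh) (h5 : Hat.Fix5 (F := F) x) (b : K) : Commute (F.N (X8 b)) x :=
  comm_conj (cA (h.n5 H hx h5).1 (m2 b)) (F.nX2 b) (Re.n_symm rfl)

variable (h : H.W1) (p : Av H (fun κ => F.l κ * F.h κ) π)
include h p

theorem π_one : π 1 = 1 := left_eq_mul.1 (by rw [← p.mul 1 (one_mem _) 1 (one_mem _), mul_one])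

theorem π_id (hx : x ∈ H.Wh) (e : ∀ κ, F.l κ * F.h κ * x * (F.l κ * F.h κ)⁻¹ = x) : π x = x :=
  (inv_mul_eq_one.1 (mem_bot.1 (p.cl x hx ⊥ fun κ => by rw [e, inv_mul_cancel]; exact one_mem _))).symm

theorem π_nat (hx : x ∈ H.Wh) (κ ν : Kˣ) :
    π (F.l κ * F.h ν * x * (F.l κ * F.h ν)⁻¹) = F.l κ * F.h ν * π x * (F.l κ * F.h ν)⁻¹ :=
  p.nat x hx _ (fun κ' => T_comm κ ν κ' κ') (T_memW κ ν)

theorem π_zero {f : K → G} (m : ∀ c, f c ∈ H.Wh) (a : ∀ c d, f (c + d) = f c * f d) {κ : Kˣ} {μ : K} (hμ : μ ≠ 1)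
    (e : ∀ c, F.l κ * F.h κ * f c * (F.l κ * F.h κ)⁻¹ = f (μ * c)) (c : K) : π (f c) = 1 := by
  obtain ⟨d, rfl⟩ : ∃ d, c = (μ + 1) * d := ⟨c / _, (mul_div_cancel₀ c (add_one_ne hμ)).symm⟩
  rw [add_mul, one_mul, a, p.mul _ (m _) _ (m _), ← e, π_nat h p (m _), p.fix _ (m _), h.sq _ (p.mem _ (m _))]

theorem π_a (c : K) : π (H.a c) = 1 := by
  obtain ⟨x, h0, h1⟩ := F.big
  exact π_zero h p H.a_mem H.add (mt eq_one_l4 fun e => h1 (congrArg Units.val e)) (H.T_a (Units.mk0 x h0) _) c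

theorem π_A6 (c : K) : π (H.A6 c) = 1 := by
  obtain ⟨x, h0, h1⟩ := F.big
  refine π_zero h p H.A6_mem H.A6_add (fun e => ?_) (H.T_A6 (Units.mk0 x h0) _) c
  have := congrArg Units.val (eq_one_l2 (κ := Units.mk0 x h0 * Units.mk0 x h0) e)
  simp only [Units.val_mul, Units.val_mk0, Units.val_one] at this
  grind

theorem π_A2 (c : K) : π (H.A2 c) = H.A2 c := π_id h p (H.A2_mem c) fun κ => by rw [H.T_A2]; simp

theorem π_N (hv : v ∈ As) : π (F.N v) = F.N (X2 v.x2) := by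
  obtain ⟨u, ⟨hu, h2⟩, e⟩ := p.cl _ (H.N_memW hv) ((As ⊓ Lo 3).map F.N) fun κ =>
    ⟨v⁻¹ * ζ κ (η κ v), ⟨As.mul_mem (As.inv_mem hv) (ζη_As hv κ κ), by
      rw [mem_As] at hv
      have := σu_ne κ
      simp [Lo, ζ, UE, hv]
      field_simp
      grind⟩, by rw [T_N, map_mul, map_inv]⟩
  replace hu : u ∈ As := hu
  have e := eq_mul_of_inv_mul_eq e.symm
  rw [← map_mul] at e
  rw [e, fix2 F.big (mul_mem hv hu) fun κ => F.inj (by rw [← T_N, ← e, p.fix _ (H.N_memW hv)])]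
  rw [mem_As] at hv hu
  simp only [UE, hv, hu, (h2.2.1 (by norm_num)).2]

theorem π_X2 (a : Tau H x v) (h2 : v.x2 = 0) : ∃ s, π x = F.N (X2 s) := by
  let P : Subgroup G := {
    carrier := {y | ∃ v, Tau H y v ∧ v.x2 = 0}
    one_mem' := ⟨1, by simpa using τN (H := H) (one_mem _), rfl⟩
    mul_mem' := fun ⟨u, a, e⟩ ⟨v, b, e'⟩ => ⟨_, a.mul b, by
      have := a.mv; have := b.mv; rw [mem_As] at *; simp only [UE, *]⟩
    inv_mem' := fun ⟨u, a, e⟩ => ⟨_, a.inv, e⟩ }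
  have hx : x ∈ P := ⟨v, a, h2⟩
  obtain ⟨u, b, e⟩ := (mul_mem_cancel_left (inv_mem hx)).1 (p.cl x a.mem P fun κ =>
    mul_mem (inv_mem hx) ⟨_, τT a κ κ, by simp only [ζ, UE, h2]⟩)
  rw [fix2 F.big b.mv fun κ => τuniq (τT b κ κ) (by rwa [p.fix x a.mem]), e, X2_zero] at b
  obtain ⟨w, hw, r⟩ := IIa.ker b.mem b.one
  exact ⟨_, by rw [r, fix2 F.big hw fun κ => F.inj (by rw [← T_N, ← r, p.fix x a.mem])]⟩

omit h p in
variable (H) in
/-- `π` is constant on the `U`-class of `x`. -/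
structure Gd (π : G → G) (x : G) : Prop where
  mem : x ∈ H.Wh
  e : ∀ u, π (F.N u * x * (F.N u)⁻¹) = π x

omit h p in
theorem cjN (hx : x ∈ H.Wh) (u : U K) : F.N u * x * (F.N u)⁻¹ ∈ H.Wh := H.conj_memW (F.N_mem u) hx

omit h in
theorem Gd.mul (a : Gd H π x) (b : Gd H π y) : Gd H π (x * y) :=
  ⟨mul_mem a.mem b.mem, fun u => by
    rw [← conj_mul, p.mul _ (cjN a.mem u) _ (cjN b.mem u), a.e, b.e, p.mul _ a.mem _ b.mem]⟩

theorem gd_N (hv : v ∈ As) : Gd H π (F.N v) := ⟨H.N_memW hv, fun u => by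
  rw [← map_inv, ← map_mul, ← map_mul, π_N h p (conj_As' hv u), π_N h p hv]
  rw [mem_As] at hv
  congr 2
  simp only [UE, hv]; grind⟩

omit h p in
theorem gd_a (c : K) : Gd H π (H.a c) := ⟨H.a_mem c, fun u => by rw [H.C_a (F.N_mem u)]⟩

theorem gd_A6 (c : K) : Gd H π (H.A6 c) := ⟨H.A6_mem c, fun u => by
  rw [N_A6', p.mul _ (H.A6_mem _) _ (H.a_mem _), π_a h p, mul_one]⟩

theorem Gd.of (a : Gd H π x) (b : Tau H x v) (c : Tau H y v) : Gd H π y := by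
  obtain ⟨w, hw, rfl⟩ := b.eq c
  exact a.mul p (gd_N h p hw)

theorem π_Q (hx : x ∈ H.Wh) {q : U K} (hq : q ∈ Qs) : π (F.N q * x * (F.N q)⁻¹) = π x := by
  obtain ⟨c, s, e⟩ := cQ hx hq
  rw [e, p.mul _ (mul_mem hx (H.a_mem _)) _ (H.N_memW (m4 s)), p.mul _ hx _ (H.a_mem _), π_a h p, π_N h p (m4 s)]
  simp [UE]

theorem gd_5 (a : Tau H x v) (h2 : v.x2 = 0) (h3 : v.x3 = 0) : Gd H π x := by
  obtain ⟨y, hy, e, f⟩ := h.ex5 H v.x5
  have g : Gd H π y := ⟨hy, fun u => by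
    obtain ⟨q, hq, r⟩ := exists_U8 u
    obtain ⟨c, s, e1⟩ := cQ hy hq
    obtain ⟨c', s', e2⟩ := Y8_5 h hy f u.y8
    have c1 : ∀ u, F.N u * (y * H.a c * F.N (X4 s)) * (F.N u)⁻¹ = F.N u * y * (F.N u)⁻¹ * H.a c * F.N (X4 s) := fun u => by
      rw [← conj_mul, ← conj_mul, H.C_a (F.N_mem u), Loc.comm_Z (F.N_mem u), mul_inv_cancel_right]
    have m := mul_mem hy (H.A6_mem c')
    have m' := mul_mem m (H.N_memW (m6 s'))
    rw [r, map_mul, map_mul, show ∀ a b c x : G, a * b * c * x * (a * b * c)⁻¹ = a * (b * (c * x * c⁻¹) * b⁻¹) * a⁻¹ by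
      intros; group, e1, c1, (X8_5 h hy f _).mul_inv_cancel, c1, e2, p.mul _ (mul_mem m' (H.a_mem _)) _ (H.N_memW (m4 s)),
      p.mul _ m' _ (H.a_mem _), p.mul _ m _ (H.N_memW (m6 _)), p.mul _ hy _ (H.A6_mem _), π_a h p, π_A6 h p,
      π_N h p (m4 s), π_N h p (m6 _)]
    simp [UE]⟩
  refine ((g.mul p (gd_a v.x4)).mul p (gd_A6 h p v.x6)).of h p ((((⟨hy, m5 _, e⟩ : Tau H y _).mul (τa _)).mul (τ6 _)).cast ?_) a
  have := a.mv
  rw [mem_As] at this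
  ext <;> simp only [UE, this, h2, h3]

theorem step (a : Tau H x v) (g : ∀ u, Gd H π (F.N u * x * (F.N u)⁻¹ * x⁻¹)) : ∃ f : K → K,
    (∀ b, π (F.N (Y8 b) * x * (F.N (Y8 b))⁻¹ * x⁻¹) = F.N (X2 (f b))) ∧ (∀ b c, f (b + c) = f b + f c) ∧
      ((∀ b, f b = 0) → Gd H π x) := by
  choose f hf using fun u => π_X2 h p ((a.cN u).mul a.inv) (by
    have := a.mv; rw [mem_As] at this; simp only [UE, this]; grind)
  have m : ∀ u u', f (u * u') = f u' + f u := fun u u' => by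
    have := hf (u * u')
    rw [show F.N (u * u') * x * (F.N (u * u'))⁻¹ * x⁻¹ = F.N u * (F.N u' * x * (F.N u')⁻¹ * x⁻¹) * (F.N u)⁻¹ *
      (F.N u * x * (F.N u)⁻¹ * x⁻¹) by rw [map_mul]; group, p.mul _ (cjN (g u').mem u) _ (g u).mem, (g u').e, hf, hf,
      ← map_mul] at this
    simpa only [UE] using (congrArg U.x2 (F.inj this)).symm
  have e8 : ∀ c, f (X8 c) = 0 := fun c => by
    obtain rfl | h0 := eq_or_ne c 0
    · have := m 1 1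
      rwa [mul_one, CharTwo.add_self_eq_zero] at this
    · obtain ⟨κ, rfl⟩ := exists_l2 h0
      rw [show X8 ((κ : K) * σ (κ : K)) = Y8 (κ : K) * Y8 (κ : K) by ext <;> simp only [UE], m, CharTwo.add_self_eq_zero]
  have ex : ∀ u, π (F.N u * x * (F.N u)⁻¹) = F.N (X2 (f u)) * π x := fun u => by
    rw [← hf, ← p.mul _ (g u).mem _ a.mem, inv_mul_cancel_right]
  refine ⟨fun b => f (Y8 b), fun b => hf _, fun b c => ?_, fun z => ⟨a.mem, fun u => ?_⟩⟩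
  · simp only
    rw [show Y8 (b + c) = Y8 c * Y8 b * X8 (c * σ b) by ext <;> simp only [UE]; grind, m, m, e8, zero_add]
  · obtain ⟨q, hq, r⟩ := exists_U8 u
    have := π_Q h p a.mem hq
    rw [ex, mul_eq_right, ← map_one F.N] at this
    have := congrArg U.x2 (F.inj this)
    simp only [UE] at this
    rw [ex, r, m, m, e8, show f (Y8 _) = 0 from z _, this]
    simp

theorem step_T (hx : x ∈ H.Wh) {f : K → K} (hf : ∀ b, π (F.N (Y8 b) * x * (F.N (Y8 b))⁻¹ * x⁻¹) = F.N (X2 (f b)))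
    (κ ν : Kˣ) (g : Gd H π (x⁻¹ * (F.l κ * F.h ν * x * (F.l κ * F.h ν)⁻¹))) (b : K) :
    f (σ (ν : K) * b) = κ * σ (κ : K) * ((ν⁻¹ : Kˣ) * σ ((ν⁻¹ : Kˣ) : K) * f b) := by
  have e := π_nat h p (mul_mem (cjN hx (Y8 b)) (inv_mem hx)) κ ν
  rw [hf, T_N, ← conj_mul, ← conj_conj rfl, T_N, ← conj_inv, show ζ κ (η ν (Y8 b)) = Y8 (σ (ν : K) * b) by
    ext <;> simp only [ζ, UE], ← mul_inv_cancel_left x (_ * x * _)] at e
  generalize x⁻¹ * _ = z at e g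
  have m := cjN hx (Y8 (σ (ν : K) * b))
  have m' := cjN g.mem (Y8 (σ (ν : K) * b))
  rw [← conj_mul, mul_inv_rev, p.mul _ (mul_mem m m') _ (mul_mem (inv_mem g.mem) (inv_mem hx)), p.mul _ m _ m', g.e,
    mul_assoc, ← p.mul _ g.mem _ (mul_mem (inv_mem g.mem) (inv_mem hx)), mul_inv_cancel_left,
    ← p.mul _ m _ (inv_mem hx), hf] at e
  simpa only [ζ, UE] using congrArg U.x2 (F.inj e)

theorem gd_3 (a : Tau H x v) (h2 : v.x2 = 0) : Gd H π x := by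
  have hv := a.mv
  rw [mem_As] at hv
  obtain ⟨f, hf, ad, g⟩ := step h p a fun u => gd_5 h p ((a.cN u).mul a.inv)
    (by simp only [UE, hv]; grind) (by simp only [UE, hv, h2]; grind)
  obtain ⟨x, h0, h1⟩ := F.big
  refine g (wtA (φ := id) (χ := fun y => y⁻¹) ad (fun μ hμ b => ?_) h0 h1 rfl ?_)
  · obtain ⟨ν, rfl⟩ := exists_lσ hμ
    obtain ⟨κ, e⟩ := exists_l2 ν.ne_zero
    rw [id, step_T h p a.mem hf κ ν (gd_5 h p (a.inv.mul (τT a κ ν)) (by simp only [ζ, UE, hv, h2])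
      (by simp [ζ, UE, hv, h2, e])), e]
    simp [mul_assoc]
  · have := cub_ne h0 h1
    have := add_one_ne h1
    grind

theorem gd_2 (c : K) : Gd H π (H.A2 c) := by
  obtain ⟨f, hf, ad, g⟩ := step h p (τ2 c) fun u => gd_3 h p (((τ2 c).cN u).mul (τ2 c).inv)
    (by simp only [UE]; grind)
  refine g (wt_inv F.big ad fun μ hμ b => ?_)
  obtain ⟨ν, rfl⟩ := exists_lσ hμ
  have := σu_ne ν
  rw [step_T h p (H.A2_mem c) hf ν ν (by
    rw [H.T_A2]; simpa using gd_N h p (one_mem _))]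
  simp only [Units.val_inv_eq_inv_val, map_inv₀]
  field_simp

theorem π_D (hx : x ∈ H.Dh) : ∃ d, π x = H.A2 d := by
  have nh : ∀ u ν c, ∃ d d', F.N u * F.h ν * H.A6 c * (F.N u * F.h ν)⁻¹ = H.A6 d * H.a d' := fun u ν c =>
    ⟨_, _, by rw [← N_A6' H u, ← H.h_A6 ν c]; group⟩
  induction hx using closure_induction with
  | mem x hx =>
    obtain (⟨c, rfl⟩ | ⟨m, hm, c, rfl⟩) | ⟨s, rfl⟩ := hx
    · exact ⟨0, by rw [π_a h p, H.A2_zero]⟩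
    · rcases F.bru m hm with ⟨u, ν, rfl⟩ | ⟨u, v, ν, rfl⟩
      · obtain ⟨d, d', r⟩ := nh u ν c
        exact ⟨0, by rw [r, p.mul _ (H.A6_mem _) _ (H.a_mem _), π_a h p, π_A6 h p, H.A2_zero, mul_one]⟩
      · obtain ⟨d, d', r⟩ := nh v ν c
        have := ((gd_2 h p d).mul p (gd_a d')).e u
        rw [p.mul _ (H.A2_mem _) _ (H.a_mem _), π_a h p, π_A2 h p, mul_one] at this
        refine ⟨d, this ▸ congrArg π ?_⟩
        rw [← H.w_A6, ← H.w_a d', conj_mul, ← r]; group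
    · exact ⟨0, by rw [π_N h p (m4 s), H.A2_zero]; simp [UE]⟩
  | one => exact ⟨0, by rw [π_one h p, H.A2_zero]⟩
  | mul x y hx hy a b =>
    obtain ⟨c, a⟩ := a
    obtain ⟨d, b⟩ := b
    exact ⟨c + d, by rw [p.mul _ (H.Dh_le hx) _ (H.Dh_le hy), a, b, H.A2_add]⟩
  | inv x hx a => rwa [inv_eq_of_mul_eq_one_left (h.sq x (H.Dh_le hx))]

end IIb

theorem Hat.W1.D_inf (h : H.W1) {v : U K} (hv : v ∈ As) (hD : F.N v ∈ H.Dh) : v ∈ Zs := by
  obtain ⟨π, p⟩ := exists_av h (T := fun κ => F.l κ * F.h κ) (fun κ κ' => T_mul _ _ _ _) fun κ => T_memW κ κ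
  have n6 : F.N (X6 1) ∉ H.Dh := fun m => by
    obtain ⟨d, e⟩ := π_D h p (F.wX6 1 ▸ H.conj_memD F.w_mem m)
    have := H.tA2 d
    rw [π_N h p (m2 1)] at e
    rw [← e, ← F.toRt.tN, mul_inv_cancel_right, left_eq_mul, ← map_one F.N] at this
    have := congrArg U.x2 (F.inj this)
    simp only [UE] at this e
    rw [this, H.A2_zero, ← map_one F.N] at e
    simpa [UE] using congrArg U.x2 (F.inj e)
  obtain h1 | ⟨c, hc, e⟩ | ⟨c, hc, e⟩ := F.clsA hv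
  · exact h1
  · exact absurd (e ▸ H.conj_memD hc hD) n6
  · have m : F.N (X5 1) ∈ H.Dh := e ▸ H.conj_memD hc hD
    have := mul_mem (H.conj_memD (F.N_mem (Y8 1)) m) m
    rw [← map_inv, ← map_mul, ← map_mul, ← map_mul, show Y8 1 * X5 1 * (Y8 1)⁻¹ * X5 1 = X6 (1 : K) by
      ext <;> simp only [UE]] at this
    exact absurd this n6

end Cfsg.Agent.S2F
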