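import Cfsg.Agent.S2F.IIb1

/-!
The complement `a5(K)`; normalisation of `β`.
-/

set_option autoImplicit false
set_option linter.unusedSectionVars false
set_option linter.unusedSimpArgs false
set_option maxRecDepth 20000

namespace Cfsg.Agent.S2F

open Subgroup Cfsg.Agent.Oct Cfsg.Agent.Fus
open scoped commutatorElement

variable {K : Type*} [Field K] [Tw K] [Finite K] {G : Type*} [Group G] [Finite G]

/-- `τ x = v`. -/
def TauB (R : Rt K G) (x : G) (v : U K) : Prop := x * R.t * x⁻¹ = R.t * R.N v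

theorem TauB.uniq {R : Rt K G} {x : G} {u v : U K} (h : TauB R x u) (h' : TauB R x v) : u = v :=
  R.inj (mul_left_cancel (h.symm.trans h'))

theorem TauB.mulN {R : Rt K G} {x : G} {u : U K} (h : TauB R x u) (v : U K) : TauB R (x * R.N v) u := by
  rw [TauB, ← h, mul_assoc x, ← R.tN]; group

theorem T_N_b2 (R : Re K G) (κ ν : Kˣ) (u : U K) :
    R.l κ * R.h ν * R.N u * (R.l κ * R.h ν)⁻¹ = R.N (ζ κ (η ν u)) := by
  rw [← R.lN, ← R.hN]; group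

theorem T_comm_b2 (R : Re K G) (κ ν κ' ν' : Kˣ) :
    R.l κ * R.h ν * (R.l κ' * R.h ν') = R.l κ' * R.h ν' * (R.l κ * R.h ν) := by
  rw [mul_assoc, ← mul_assoc (R.h ν), ← R.lh, mul_assoc, ← mul_assoc, ← map_mul, ← map_mul, mul_assoc (R.l κ'),
    ← mul_assoc (R.h ν'), ← R.lh, mul_assoc, ← mul_assoc (R.l κ'), ← map_mul, ← map_mul, mul_comm κ, mul_comm ν]

theorem exists_nu5 (κ : Kˣ) : ∃ ν : Kˣ, (κ : K) * σ (κ : K) * ν = 1 :=
  ⟨(Units.mk0 _ (mul_ne_zero κ.ne_zero (σu_ne κ)))⁻¹, by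
    rw [Units.val_inv_eq_inv_val, Units.val_mk0, mul_inv_cancel₀ (mul_ne_zero κ.ne_zero (σu_ne κ))]⟩

omit [Finite G] in
theorem cjm_b2 (a b c : G) : a * (b * c) * a⁻¹ = a * b * a⁻¹ * (a * c * a⁻¹) := by group

theorem mAs (i : K) : X2 i ∈ As ∧ X3 i ∈ As ∧ X4 i ∈ As ∧ X5 i ∈ As ∧ X6 i ∈ As := by
  simp only [mem_As, UE, and_self]

namespace Hat

variable {F : Fr K G} {H : Hat F.toRt} {x y : G} {u v : U K} {e : K}

theorem fix5_N (hv : v ∈ As) (h : Fix5 (F := F) (F.N v)) : v = X5 v.x5 := by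
  obtain ⟨x, h0, h1⟩ := F.big
  have key : ∀ κ ν : Kˣ, (κ : K) * σ (κ : K) * ν = 1 → ζ κ (η ν v) = v := fun κ ν e =>
    F.inj (by rw [← T_N_b2, h κ ν e, mul_inv_cancel_right])
  obtain ⟨κ, e1⟩ := exists_l2 h0
  obtain ⟨κ', e2⟩ := exists_l4 h0
  obtain ⟨ν', e3⟩ := exists_nu5 κ'
  have k1 := key κ (Units.mk0 x h0)⁻¹ (by rw [e1]; simp [h0])
  have k2 := congrArg U.x2 k1
  have k3 := congrArg U.x3 k1
  have k6 := congrArg U.x6 k1
  have k4 := congrArg U.x4 (key κ' ν' e3)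
  have a1 : x ^ 2 * σ x ≠ 1 := fun e => h1 (congrArg Units.val (eq_one_l4 (κ := Units.mk0 x h0) e))
  have a2 : σ x ≠ 1 := fun e => h1 (σ_inj (by rw [e, map_one]))
  have a3 : σ x ≠ 0 := fun e => h0 (σ_eq_zero.1 e)
  simp only [ζ, η, inv_inv, Units.val_mk0, e1, e2, Units.val_inv_eq_inv_val, map_inv₀] at k2 k3 k4 k6
  rw [mem_As] at hv
  ext <;> simp only [UE, hv] <;> grind

theorem W1.tmul (h : H.W1) (hx : x ∈ H.Wh) (hv : v ∈ As) (e1 : TauB F.toRt x u) (e2 : TauB F.toRt y v) :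
    TauB F.toRt (x * y) (u * v) := by
  calc _ = x * (y * F.t * y⁻¹) * x⁻¹ := by group
    _ = x * F.t * x⁻¹ * (x * F.N v * x⁻¹) := by rw [e2]; group
    _ = _ := by rw [e1, h.comm x hx _ (H.N_memW hv), mul_inv_cancel_right, map_mul, mul_assoc]

theorem W1.eqW (h : H.W1) (hx : x ∈ H.Wh) (hy : y ∈ H.Wh) (e1 : TauB F.toRt x v) (e2 : TauB F.toRt y v) :
    ∃ v ∈ As, x = y * F.N v := by
  obtain ⟨v, hv, e⟩ := h.ker _ (mul_mem (inv_mem hy) hx) (by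
    calc _ = y⁻¹ * (x * F.t * x⁻¹) * x := by group
      _ = _ := by rw [e1, ← e2]; group)
  exact ⟨v, hv, by rw [← e]; group⟩

theorem W1.eqD (h : H.W1) (hx : x ∈ H.Dh) (hy : y ∈ H.Dh) (e1 : TauB F.toRt x v) (e2 : TauB F.toRt y v) :
    ∃ s, x = y * F.N (X4 s) := by
  obtain ⟨v, hv, rfl⟩ := h.eqW (H.Dh_le hx) (H.Dh_le hy) e1 e2
  exact ⟨_, by rw [← eq_X4 (h.D_inf H hv ((mul_mem_cancel_left hy).1 hx))]⟩

theorem T_memD (κ ν : Kˣ) (hx : x ∈ H.Dh) : F.l κ * F.h ν * x * (F.l κ * F.h ν)⁻¹ ∈ H.Dh := by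
  simpa [mul_assoc] using H.l_memD κ (H.conj_memD (F.h_mem ν) hx)

theorem T_memL (κ ν : Kˣ) : F.l κ * F.h ν ∈ F.L := mul_mem (F.l_mem κ) (F.h_mem_L ν)

theorem W1.uniq5 (h : H.W1) (hx : x ∈ H.Dh) (hy : y ∈ H.Dh) (e1 : TauB F.toRt x v) (e2 : TauB F.toRt y v) {κ ν : Kˣ}
    (hκ : (κ : K) ^ 2 * σ (κ : K) ≠ 1) (c1 : F.l κ * F.h ν * x = x * (F.l κ * F.h ν))
    (c2 : F.l κ * F.h ν * y = y * (F.l κ * F.h ν)) : x = y := by
  obtain ⟨s, rfl⟩ := h.eqD hx hy e1 e2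
  rw [← mul_assoc, c2, mul_assoc, mul_assoc y, mul_right_inj, ← mul_inv_eq_iff_eq_mul, T_N_b2] at c1
  have := congrArg U.x4 (F.inj c1)
  simp only [UE, ζ] at this
  simp [show s = 0 by grind]

variable (H) in
/-- The defining property of `a5 e`. -/
structure Is5 (e : K) (x : G) : Prop where
  mem : x ∈ H.Dh
  tau : TauB F.toRt x (X5 e)
  fix : Fix5 (F := F) x

theorem Is5.uniq (h : H.W1) (h1 : H.Is5 e x) (h2 : H.Is5 e y) : x = y := by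
  obtain ⟨z, z0, z1⟩ := F.big
  obtain ⟨κ, hκ⟩ := exists_l4 z0
  obtain ⟨ν, hν⟩ := exists_nu5 κ
  exact h.uniq5 h1.mem h2.mem h1.tau h2.tau (hκ ▸ z1) (h1.fix κ ν hν) (h2.fix κ ν hν)

theorem tau5_T (h : TauB F.toRt x (X5 e)) (κ ν : Kˣ) :
    TauB F.toRt (F.l κ * F.h ν * x * (F.l κ * F.h ν)⁻¹) (X5 ((κ : K) * σ (κ : K) * ν * e)) :=
  conj_t (T_memL κ ν) h (by rw [T_N_b2]; exact congrArg _ (by ext <;> simp only [UE, ζ, mul_assoc]))

theorem W1.exists_is5 (h : H.W1) (e : K) : ∃ x, H.Is5 e x := by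
  obtain ⟨z, z0, z1⟩ := F.big
  obtain ⟨κ, hκ⟩ := exists_l4 z0
  obtain ⟨ν, hν⟩ := exists_nu5 κ
  have m1 := H.conj_memD (F.N_mem (X8 e)) (H.A2_memD 1)
  have m2 := mul_mem m1 (H.A2_memD 1)
  have m3 := mul_mem m2 (H.a_memD e)
  have m4 := mul_mem m3 (H.A6_memD (σ e))
  have t1 := h.tmul (H.Dh_le m3) (mAs _).2.2.2.2 (h.tmul (H.Dh_le m2) (mAs _).2.2.1 (h.tmul (H.Dh_le m1) (mAs _).1
    (conj_t (F.N_mem_L (X8 e)) (H.tA2 1) (v := X8 e * X2 1 * (X8 e)⁻¹) (by simp)) (H.tA2 1)) (H.ta e)) (H.tA6 (σ e))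
  rw [show X8 e * X2 1 * (X8 e)⁻¹ * X2 1 * X4 e * X6 (σ e) = X5 e by ext <;> simp only [UE] <;> grind] at t1
  generalize _ * H.A6 (σ e) = x at m4 t1
  have t2 := tau5_T t1 κ ν
  rw [hν, one_mul] at t2
  obtain ⟨s, hs⟩ := h.eqD (T_memD κ ν m4) m4 t2 t1
  have m5 := mul_mem m4 (H.X4_memD (s / (z + 1)))
  have c : F.l κ * F.h ν * (x * F.N (X4 (s / (z + 1)))) = x * F.N (X4 (s / (z + 1))) * (F.l κ * F.h ν) := by
    have := add_one_ne z1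
    rw [← mul_inv_eq_iff_eq_mul, cjm_b2, hs, T_N_b2, mul_assoc, ← map_mul]
    exact congrArg (x * F.N ·) (by ext <;> simp only [UE, ζ, hκ]; grind)
  refine ⟨_, m5, t1.mulN _, fun κ' ν' e' => mul_inv_eq_iff_eq_mul.1 (h.uniq5 (T_memD κ' ν' m5) m5 ?_ (t1.mulN _) (hκ ▸ z1)
    (comm_conj c (by rw [T_comm_b2, mul_inv_cancel_right]) rfl) c)⟩
  simpa [e'] using tau5_T (t1.mulN (X4 (s / (z + 1)))) κ' ν'

theorem Is5.T (h : H.Is5 e x) (κ ν : Kˣ) :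
    H.Is5 ((κ : K) * σ (κ : K) * ν * e) (F.l κ * F.h ν * x * (F.l κ * F.h ν)⁻¹) :=
  ⟨T_memD κ ν h.mem, tau5_T h.tau κ ν, fun κ' ν' e' =>
    comm_conj (h.fix κ' ν' e') (by rw [T_comm_b2, mul_inv_cancel_right]) rfl⟩

theorem Is5.mul (h : H.W1) {e' : K} (h1 : H.Is5 e x) (h2 : H.Is5 e' y) : H.Is5 (e + e') (x * y) :=
  ⟨mul_mem h1.mem h2.mem, by
    have := h.tmul (H.Dh_le h1.mem) (mAs _).2.2.2.1 h1.tau h2.tau
    rwa [show X5 e * X5 e' = X5 (e + e') by ext <;> simp only [UE]] at this, fun κ ν k => by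
      rw [← mul_assoc, h1.fix κ ν k, mul_assoc, h2.fix κ ν k, mul_assoc]⟩

theorem Is5.nmem (h : H.W1) (h1 : H.Is5 e x) : F.n * x * F.n⁻¹ ∈ H.Wh := (h.n5 H (H.Dh_le h1.mem) h1.fix).1

theorem Is5.LY8 (h : H.W1) (h1 : H.Is5 e x) (b : K) : F.N (Y8 b) * x * (F.N (Y8 b))⁻¹ = x * H.A6 (b * e) := by
  obtain ⟨c, s, k⟩ := h.cQ _ (h1.nmem h) (Y2 b) ⟨rfl, rfl⟩
  have k1 := conj_conj (g := F.n) k
  rw [F.nY2, Re.n_symm rfl, show ∀ a b c d : G, a * (b * c * d) * a⁻¹ = a * b * a⁻¹ * (a * c * a⁻¹) * (a * d * a⁻¹) from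
    fun _ _ _ _ => by group, Re.n_symm rfl, H.n_a, F.nX4] at k1
  have k2 := (h.D_inf H (mAs s).2.2.2.2 ((mul_mem_cancel_left (mul_mem h1.mem (H.A6_memD c))).1
    (k1 ▸ H.conj_memD (F.N_mem _) h1.mem))).2.2.2.2.2.2.2.1
  obtain rfl : s = 0 := k2
  rw [X6_zero, map_one, mul_one] at k1
  have k3 := conj_t (F.N_mem_L (Y8 b)) h1.tau (v := Y8 b * X5 e * (Y8 b)⁻¹) (by simp)
  rw [k1] at k3
  have := congrArg U.x6 (TauB.uniq k3 (h.tmul (H.Dh_le h1.mem) (mAs _).2.2.2.2 h1.tau (H.tA6 c)))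
  simp only [UE] at this
  rw [k1, this]

variable {a5 : K → G}

theorem W1.x1_b2 (h : H.W1) (h5 : ∀ e, H.Is5 e (a5 e)) (b e : K) : F.N (X1 b) * a5 e = a5 e * F.N (X1 b) := by
  obtain ⟨z, z0, z1⟩ := F.big
  have ex : ∀ e, ∃ s, F.N (X1 b) * a5 e * (F.N (X1 b))⁻¹ = a5 e * F.N (X4 s) := fun e =>
    h.eqD (H.conj_memD (F.N_mem _) (h5 e).mem) (h5 e).mem (conj_t (F.N_mem_L _) (h5 e).tau (by
      rw [← map_inv, ← map_mul, ← map_mul]; exact congrArg _ (by ext <;> simp only [UE] <;> grind))) (h5 e).tau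
  choose f hf using ex
  have := wtA (f := f) (φ := fun y => y ^ 2) (χ := fun y => y * σ y) (fun e e' => by
    have k := hf (e + e')
    rw [(h5 _).uniq h ((h5 e).mul h (h5 e')), cjm_b2, hf, hf, mul_assoc, ← mul_assoc (F.N _), h.comm _ (H.N_memW (mAs _).2.2.1) _
      (H.Dh_le (h5 e').mem), mul_assoc, ← map_mul, ← mul_assoc, mul_right_inj] at k
    simpa only [UE] using congrArg U.x4 (F.inj k).symm) (fun y hy e => by
      obtain ⟨ν, rfl⟩ := exists_l4 hy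
      set κ : Kˣ := Units.mk0 _ (mul_ne_zero ν.ne_zero (σu_ne ν)) with hκ
      have k := conj_conj (g := F.l κ * F.h ν) (hf e)
      rw [cjm_b2 _ (a5 e), ← (h5 _).uniq h ((h5 e).T κ ν), T_N_b2, T_N_b2, show ζ κ (η ν (X1 b)) = X1 b by
          have := σu_ne ν
          ext <;> simp only [UE, ζ, hκ, Units.val_mk0, Units.val_inv_eq_inv_val, map_inv₀]; field_simp, hf,
        mul_right_inj] at k
      have := congrArg U.x4 (F.inj k)
      simp only [UE, ζ, hκ, Units.val_mk0] at this ⊢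
      rw [show ((ν : K) ^ 2 * σ (ν : K)) ^ 2 * e = ν * σ (ν : K) * (σ (ν : K) * ν ^ 2) * ν * e by ring, this]
      ring) z0 z1 (by grind) (by have := σ_ne_self z0 z1; simp only [UE]; grind) e
  rw [← mul_inv_eq_iff_eq_mul, hf, this, X4_zero, map_one, mul_one]

theorem W1.c0_b2 (h : H.W1) (h5 : ∀ e, H.Is5 e (a5 e)) (e : K) {u : U K} (hu : u ∈ U0) :
    F.N u * a5 e = a5 e * F.N u := by
  have c1 : ∀ u ∈ Ps, Commute (F.N u) (a5 e) := fun u hu => h.cP _ (H.Dh_le (h5 e).mem) u hu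
  have c2 : ∀ u ∈ Ps, ∀ v, F.n * F.N u * F.n⁻¹ = F.N v → Commute (F.N v) (a5 e) := fun u hu v k =>
    comm_conj (h.cP _ ((h5 e).nmem h) u hu) k (Re.n_symm rfl)
  rw [show u = X1 u.x1 * (X2 u.x2 * X3 u.x3 * Y4 u.y4 * X4 u.x4 * X5 u.x5) * Y6 u.y6 * X6 u.x6 * X7 u.x7 * X8 u.x8 by
    conv_lhs => rw [decomp u, hu.1, hu.2]
    simp only [Y2_zero, Y8_zero, mul_one, mul_assoc], map_mul, map_mul, map_mul, map_mul, map_mul]
  exact ((((((show Commute _ _ from h.x1_b2 h5 _ e).mul_left (c1 _ (by simp only [mem_Ps, UE, and_self]))).mul_left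
    (c2 _ (by simp only [mem_Ps, UE, and_self]) _ (F.nY4 _))).mul_left (c1 _ (by simp only [mem_Ps, UE, and_self]))).mul_left
    (c2 _ (by simp only [mem_Ps, UE, and_self]) _ (F.nX3 _))).mul_left
    (c2 _ (by simp only [mem_Ps, UE, and_self]) _ (F.nX2 _))).eq

theorem W1.ly2_b2 (h : H.W1) (h5 : ∀ e, H.Is5 e (a5 e)) (b e : K) :
    F.N (Y2 b) * a5 e * (F.N (Y2 b))⁻¹ = a5 e * H.a (b * e) := by
  obtain ⟨g, hg⟩ := h.eqD (H.conj_memD (F.N_mem (Y2 b)) (h5 e).mem) (mul_mem (h5 e).mem (H.a_memD (b * e)))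
    (conj_t (F.N_mem_L _) (h5 e).tau (by
      rw [← map_inv, ← map_mul, ← map_mul]; exact congrArg _ (by ext <;> simp only [UE] <;> grind)))
    (h.tmul (H.Dh_le (h5 e).mem) (mAs _).2.2.1 (h5 e).tau (H.ta _))
  obtain ⟨r, r1, r2, hr⟩ : ∃ r ∈ U0, r ∈ Rs ∧ Y8 1 * X1 b * (Y8 1)⁻¹ = X1 b * Y2 b * r :=
    ⟨(X1 b * Y2 b)⁻¹ * (Y8 1 * X1 b * (Y8 1)⁻¹), by simp only [mem_U0, UE, and_self], by simp only [mem_Rs, UE], by group⟩
  have k := comm_conj (h.x1_b2 h5 b e) (g := F.N (Y8 1)) (x' := F.N (X1 b) * F.N (Y2 b) * F.N r)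
    (by rw [← map_mul _ (X1 b), ← map_mul _ _ r, ← hr]; simp) ((h5 e).LY8 h 1)
  rw [one_mul] at k
  have c : Commute (F.N r) (a5 e * H.A6 e) :=
    (show Commute _ _ from h.c0_b2 h5 e r1).mul_right (H.N_A6 r2 e)
  have k1 : F.N (X1 b) * (F.N (Y2 b) * (a5 e * H.A6 e) * (F.N (Y2 b))⁻¹) * (F.N (X1 b))⁻¹ = a5 e * H.A6 e := by
    calc _ = F.N (X1 b) * F.N (Y2 b) * (a5 e * H.A6 e * F.N r) * (F.N (X1 b) * F.N (Y2 b) * F.N r)⁻¹ := by group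
      _ = _ := by rw [← c.eq, ← mul_assoc, k, mul_inv_cancel_right]
  rw [cjm_b2 (F.N (Y2 b)), hg, H.N_A6 (u := Y2 b) rfl, mul_inv_cancel_right, cjm_b2, H.X1_A6, cjm_b2, cjm_b2,
    h.x1_b2 h5, mul_inv_cancel_right, H.N_a, mul_inv_cancel_right, Loc.comm_Z (F.N_mem _), mul_inv_cancel_right,
    mul_assoc (a5 e), ← H.N_a, ← H.a_A6, mul_comm e, mul_assoc, mul_right_inj, mul_assoc, ← mul_assoc (H.a _), H.a_sq,
    one_mul, mul_eq_right] at k1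
  rw [hg, k1, mul_one]

theorem W1.n5_b2 (h : H.W1) (h5 : ∀ e, H.Is5 e (a5 e)) (e : K) : F.n * a5 e = a5 e * F.n := by
  obtain ⟨k1, k2⟩ := h.n5 H (H.Dh_le (h5 e).mem) (h5 e).fix
  obtain ⟨v, hv, k3⟩ := h.eqW k1 (H.Dh_le (h5 e).mem) (conj_t F.n_mem (h5 e).tau (F.nX5 e)) (h5 e).tau
  have k4 := fix5_N hv fun κ ν hκ => by
    have := k2 κ ν hκ
    rwa [k3, ← mul_assoc, (h5 e).fix κ ν hκ, mul_assoc, mul_assoc (a5 e), mul_right_inj] at this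
  have k5 := conj_conj (g := F.n) ((h5 e).LY8 h 1)
  rw [F.nY8, cjm_b2 F.n, H.n_A6, k3, cjm_b2, h.ly2_b2 h5, mul_assoc (a5 e), mul_assoc (a5 e), mul_right_inj, H.N_a,
    mul_right_inj, ← map_inv, ← map_mul, ← map_mul, k4] at k5
  have := congrArg U.x4 (F.inj k5)
  simp only [UE] at this
  rw [← mul_inv_eq_iff_eq_mul, k3, k4, this, X5_zero, map_one, mul_one]

theorem hw_memD (h5 : ∀ e, H.Is5 e (a5 e)) (v : U K) : H.hw a5 v ∈ H.Dh :=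
  mul_mem (mul_mem (mul_mem (mul_mem (H.A2_memD _) (H.conj_memD F.w_mem (h5 _).mem)) (H.a_memD _)) (h5 _).mem)
    (H.A6_memD _)

theorem W1.t_hw (h : H.W1) (h5 : ∀ e, H.Is5 e (a5 e)) (hv : v ∈ As) : TauB F.toRt (H.hw a5 v) v := by
  have m1 := mul_mem (H.A2_memD v.x2) (H.conj_memD F.w_mem (h5 v.x3).mem)
  have m2 := mul_mem m1 (H.a_memD v.x4)
  have := h.tmul (H.Dh_le (mul_mem m2 (h5 v.x5).mem)) (mAs _).2.2.2.2 (h.tmul (H.Dh_le m2) (mAs _).2.2.2.1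
    (h.tmul (H.Dh_le m1) (mAs _).2.2.1 (h.tmul (H.A2_mem v.x2) (mAs _).2.1 (H.tA2 v.x2)
    (conj_t F.w_mem_L (h5 v.x3).tau (F.wX5 _))) (H.ta v.x4)) (h5 v.x5).tau) (H.tA6 v.x6)
  rw [mem_As] at hv
  rwa [show X2 v.x2 * X3 v.x3 * X4 v.x4 * X5 v.x5 * X6 v.x6 = v by ext <;> simp only [UE, hv]] at this

theorem W1.inv_b2 (h : H.W1) (h5 : ∀ e, H.Is5 e (a5 e)) {m : G} (hm : m ∈ F.C) (hv : v ∈ As) {v' : U K}
    (k : m * F.N v * m⁻¹ = F.N v') : ∃ s, m * H.hw a5 v * m⁻¹ = H.hw a5 v' * F.N (X4 s) := by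
  obtain ⟨v₁, h1, h2⟩ := conj_As F.toRe hm hv
  obtain rfl := F.inj (h2.symm.trans k)
  exact h.eqD (H.conj_memD hm (hw_memD h5 v)) (hw_memD h5 _) (conj_t (F.C_le hm) (h.t_hw h5 hv) k) (h.t_hw h5 h1)

theorem W1.T_hw (h : H.W1) (h5 : ∀ e, H.Is5 e (a5 e)) (κ ν : Kˣ) (v : U K) :
    F.l κ * F.h ν * H.hw a5 v * (F.l κ * F.h ν)⁻¹ = H.hw a5 (ζ κ (η ν v)) := by
  have k := conj_conj (g := F.w) ((h5 _).uniq h ((h5 v.x3).T κ ν⁻¹)).symm
  rw [show F.w * (F.l κ * F.h ν⁻¹) * F.w⁻¹ = F.l κ * F.h ν by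
    rw [← mul_assoc, ← F.lw, mul_assoc, mul_assoc, ← mul_assoc F.w, F.wh, map_inv, inv_inv]] at k
  simp only [hw, ζ, η]
  rw [cjm_b2, cjm_b2, cjm_b2, cjm_b2, H.T_A2, k, H.T_a, ← (h5 _).uniq h ((h5 _).T κ ν), H.T_A6]
  simp only [map_mul, mul_assoc, mul_left_comm]

theorem W1.x8_b2 (h : H.W1) (h5 : ∀ e, H.Is5 e (a5 e)) : ∃ f : K → U K → K, (∀ c, ∀ v ∈ As,
    F.N (X8 c) * H.hw a5 v * (F.N (X8 c))⁻¹ = H.hw a5 (X8 c * v * (X8 c)⁻¹) * F.N (X4 (f c v))) ∧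
    ∀ (κ ν : Kˣ) c, ∀ v ∈ As, f (σ (ν : K) * (ν : K) ^ 2 * c) (ζ κ (η ν v)) = (κ : K) ^ 2 * σ (κ : K) * f c v := by
  have ex : ∀ c v, ∃ s, v ∈ As → F.N (X8 c) * H.hw a5 v * (F.N (X8 c))⁻¹ = H.hw a5 (X8 c * v * (X8 c)⁻¹) * F.N (X4 s) :=
    fun c v => by
      by_cases hv : v ∈ As
      · exact (h.inv_b2 h5 (F.N_mem (X8 c)) hv (v' := X8 c * v * (X8 c)⁻¹) (by simp)).imp fun s hs _ => hs
      · exact ⟨0, fun h => absurd h hv⟩
  choose f hf using ex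
  refine ⟨f, hf, fun κ ν c v hv => ?_⟩
  have k := conj_conj (g := F.l κ * F.h ν) (hf c v hv)
  rw [cjm_b2 _ (H.hw _ _), h.T_hw h5, h.T_hw h5, T_N_b2, T_N_b2,
    show ζ κ (η ν (X8 c)) = X8 (σ (ν : K) * (ν : K) ^ 2 * c) by ext <;> simp only [UE, ζ], hf _ _ (by
      rw [mem_As] at hv; simp only [mem_As, UE, ζ, hv, and_self]),
    show ζ κ (η ν (X8 c * v * (X8 c)⁻¹)) = X8 (σ (ν : K) * (ν : K) ^ 2 * c) * ζ κ (η ν v) * (X8 (σ (ν : K) * (ν : K) ^ 2 * c))⁻¹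
      from F.inj (by
        rw [← T_N_b2, map_mul, map_mul, map_mul, map_mul, map_inv, map_inv, ← T_N_b2,
          show X8 (σ (ν : K) * (ν : K) ^ 2 * c) = ζ κ (η ν (X8 c)) by ext <;> simp only [UE, ζ], ← T_N_b2]
        group), mul_right_inj] at k
  simpa only [UE, ζ] using congrArg U.x4 (F.inj k)

end Hat

theorem Hat.exists_hat5 {F : Fr K G} (H : Hat F.toRt) (h : H.W1) : ∃ H5 : Hat5 F.toRt, H5.toHat = H := by
  choose a5 h5 using h.exists_is5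
  have add : ∀ c d, a5 (c + d) = a5 c * a5 d := fun c d => (h5 _).uniq h ((h5 c).mul h (h5 d))
  have z5 := zero_of_add add
  obtain ⟨f, hf, hT⟩ := h.x8_b2 h5
  have e2 : ∀ b c, F.N (X8 c) * H.A2 b * (F.N (X8 c))⁻¹ =
      H.A2 b * H.a (c * σ b) * a5 (c * b) * H.A6 (σ c * b) * F.N (X4 (f c (X2 b))) := fun b c => by
    have := hf c _ (mAs b).1
    simpa [Hat.hw, UE, z5, H.a_zero, H.A6_zero] using this
  have e3 : ∀ b c, F.N (X8 c) * (F.w * a5 b * F.w⁻¹) * (F.N (X8 c))⁻¹ =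
      F.w * a5 b * F.w⁻¹ * H.A6 (c * b) * F.N (X4 (f c (X3 b))) := fun b c => by
    have := hf c _ (mAs b).2.1
    simpa [Hat.hw, UE, z5, H.a_zero, H.A6_zero, H.A2_zero] using this
  refine ⟨⟨H, a5, f 1 (X2 1), h, add, fun e => H.Dh_le (h5 e).mem, fun e => (h5 e).tau, h.n5_b2 h5,
    fun e u hu => h.c0_b2 h5 e hu, fun κ e => by simpa using ((h5 _).uniq h ((h5 e).T κ 1)).symm,
    fun ν e => by simpa using ((h5 _).uniq h ((h5 e).T 1 ν)).symm, h.ly2_b2 h5, fun b e => (h5 e).LY8 h b,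
    fun m hm v hv v' k => h.inv_b2 h5 hm hv k, fun b c => ?_, fun b c => ?_⟩, rfl⟩
  · have k : f c (X2 b) = f 1 (X2 1) * (c * σ b) := by
      by_cases h0 : c = 0 ∨ b = 0
      · have := e2 b c
        rcases h0 with rfl | rfl <;>
          simp only [X8_zero, map_one, one_mul, inv_one, mul_one, zero_mul, mul_zero, map_zero, z5, H.a_zero, H.A6_zero,
            H.A2_zero, left_eq_mul, mul_inv_cancel, eq_comm (a := (1 : G))] at this ⊢ <;>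
          exact congrArg U.x4 (Loc.N_eq_one.1 this)
      rw [not_or] at h0
      obtain ⟨ν, rfl⟩ := exists_l4 h0.1
      obtain ⟨κ, rfl⟩ := exists_l2 h0.2
      have k1 := hT ν ν 1 _ (mAs ((κ : K) * σ (κ : K))).1
      have k2 := hT κ 1 1 _ (mAs 1).1
      rw [show ζ ν (η ν (X2 ((κ : K) * σ (κ : K)))) = X2 ((κ : K) * σ (κ : K)) by
        have := σu_ne ν
        ext <;> simp only [UE, ζ, Units.val_inv_eq_inv_val, map_inv₀]; field_simp, mul_one, mul_comm (σ _)] at k1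
      rw [show ζ κ (η 1 (X2 1)) = X2 ((κ : K) * σ (κ : K)) by ext <;> simp [UE, ζ]] at k2
      simp only [Units.val_one, map_one, one_pow, mul_one] at k2
      rw [k1, k2, map_mul, σσ]; ring
    rw [e2, k, mul_assoc, mul_assoc, ← mul_assoc (a5 _),
      h.comm _ (mul_mem (H.Dh_le (h5 _).mem) (H.A6_mem _)) _ (H.N_memW (mAs _).2.2.1)]
    group
  · obtain ⟨z, z0, z1⟩ := F.big
    rw [e3, wtB (f := fun c => f c (X3 b)) (φ := fun y => y * σ y) (χ := fun y => y) (fun c c' => by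
      have k := e3 b (c + c')
      rw [show X8 (c + c') = X8 c * X8 c' by ext <;> simp only [UE], map_mul, show ∀ a b c : G, a * b * c * (a * b)⁻¹ =
        a * (b * c * b⁻¹) * a⁻¹ from fun _ _ _ => by group, e3, cjm_b2, cjm_b2, e3, H.N_A6 (u := X8 c) rfl,
        mul_inv_cancel_right, Loc.comm_Z (F.N_mem _), mul_inv_cancel_right, mul_assoc _ (F.N _),
        H.N_A6 (u := X4 _) rfl, add_mul, H.A6_add, ← mul_assoc, ← mul_assoc, mul_assoc _ (F.N _), mul_right_inj,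
        ← map_mul] at k
      simpa only [UE] using congrArg U.x4 (F.inj k).symm) (fun y hy c => by
        obtain ⟨κ, rfl⟩ := exists_l4 hy
        have k := hT κ (Units.mk0 _ (mul_ne_zero κ.ne_zero (σu_ne κ))) c _ (mAs b).2.1
        rw [show ζ κ (η (Units.mk0 _ (mul_ne_zero κ.ne_zero (σu_ne κ))) (X3 b)) = X3 b by
          have := σu_ne κ
          ext <;> simp only [UE, ζ, Units.val_inv_eq_inv_val, Units.val_mk0]; field_simp] at k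
        rw [← k]
        simp only [UE, Units.val_mk0]
        congr 1; ring) z0 z1 (by have := σ_ne_self z0 z1; simp only [UE]; grind) rfl c, X4_zero, map_one, mul_one]

/-- Change of the complement. -/
def Hat.shift {R : Rt K G} (H : Hat R) (c : K) : Hat R where
  a s := H.a s * R.N (X4 (c * s))
  add s s' := by
    rw [H.add, mul_assoc, mul_assoc, ← mul_assoc (R.N _), H.N_a, mul_assoc, ← map_mul]
    exact congrArg (fun u => _ * (_ * R.N u)) (by ext <;> simp only [UE, mul_add])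
  ta s := TauB.mulN (H.ta s) _
  aC s m hm := by rw [← mul_assoc, H.aC s m hm, mul_assoc, Loc.comm_Z hm, mul_assoc]
  la κ s := by
    rw [cjm_b2, H.la, R.lN]
    exact congrArg (fun u => _ * R.N u) (by ext <;> simp only [UE, ζ]; ring)
  a46 s s' := by
    rw [cjm_b2, R.nX4, H.n_a]
    exact (((show Commute _ _ from H.a_A6 s s').mul_right (H.N_a _ _).symm).mul_left
      ((show Commute _ _ from H.N_A6 (u := X4 _) rfl _).mul_right (Loc.comm_Z (R.N_mem _) _).symm)).eq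
  L1 s d := by
    rw [cjm_b2 R.n, R.nX4, H.n_a, cjm_b2, H.X1_A6, ← map_inv, ← map_mul, ← map_mul, mul_assoc, mul_assoc (H.A6 s),
      ← mul_assoc (R.N _), H.N_a, mul_assoc (H.a _), ← map_mul]
    exact congrArg (fun u => _ * (_ * R.N u)) (by ext <;> simp only [UE]; grind)

theorem exists_beta_b2 (β : K) : ∃ c, β + c + σ c = 0 ∨ β + c + σ c = 1 := by
  set φ : K →+ K := AddMonoidHom.id K + (σ : K →+* K).toAddMonoidHom
  have hφ : ∀ c, φ c = c + σ c := fun _ => rfl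
  have k : ∀ c : K, c ≠ 0 → c ≠ 1 → φ c ≠ 0 := fun c h0 h1 e => σ_ne_self h0 h1 (by rw [hφ] at e; grind)
  have h1 : φ 1 = 0 := by rw [hφ, map_one]; grind
  have h2 : φ.range.index = 2 := by
    rw [AddSubgroup.index_range, Nat.card_eq_two_iff' (0 : φ.ker)]
    refine ⟨⟨1, h1⟩, fun e => one_ne_zero (congrArg Subtype.val e), fun ⟨y, hy⟩ e => Subtype.ext ?_⟩
    by_contra h
    exact k y (fun e' => e (Subtype.ext e')) h hy
  by_cases hβ : β ∈ φ.range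
  · obtain ⟨c, rfl⟩ := hβ
    exact ⟨c, .inl (by rw [hφ]; grind)⟩
  obtain ⟨c, hc⟩ := (AddSubgroup.add_mem_iff_of_index_two h2 (a := β) (b := 1)).2 (iff_of_false hβ (by
    rintro ⟨c, hc⟩
    rw [hφ] at hc
    have := congrArg σ hc
    simp only [UE] at this
    by_cases h0 : c = 0
    · simp [h0] at hc
    · obtain rfl : c = 1 := by grind
      rw [map_one] at hc; grind))
  exact ⟨c, .inr (by rw [hφ] at hc; grind)⟩

theorem Hat.exists_hat5' {F : Fr K G} (hw : ∀ H : Hat F.toRt, H.W1) (H : Hat F.toRt) :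
    ∃ H5 : Hat5 F.toRt, H5.β = 0 ∨ H5.β = 1 := by
  obtain ⟨H1, rfl⟩ := H.exists_hat5 (hw H)
  obtain ⟨c, hc⟩ := exists_beta_b2 H1.β
  obtain ⟨H2, e⟩ := (H1.shift c).exists_hat5 (hw _)
  refine ⟨H2, ?_⟩
  rw [show H2.β = H1.β + c + σ c from ?_]
  · exact hc
  have a4 : H2.a 1 = H1.a 1 * F.N (X4 c) := by rw [e]; simp only [Hat.shift, mul_one]
  have a6 : H2.A6 1 = H1.A6 1 * F.N (X6 c) := by rw [← H2.n_a, a4, cjm_b2, F.nX4]; rfl
  have a2 : H2.A2 1 = H1.A2 1 * F.N (X2 c) := by rw [← H2.w_A6, a6, cjm_b2, F.wX6]; rfl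
  have k := H2.L2 1 1
  rw [a2, cjm_b2, H1.L2] at k
  simp only [map_one, mul_one, a4, a6] at k
  have k1 : H2.a5 1 = H1.a5 1 * F.N (X5 c) * F.N (X4 (H2.β + (H1.β + c + σ c))) := by
    letI : CommGroup H1.Wh := { mul_comm := fun x y => Subtype.ext (H1.w1.comm _ x.2 _ y.2) }
    have key : ∀ a b c d e f g h i j : H1.Wh, (a * g * (b * h) * i)⁻¹ * (a * b * c * d * e * f) * (e * j)⁻¹ =
        d * (g⁻¹ * h⁻¹ * i⁻¹ * c * f * j⁻¹) := fun _ _ _ _ _ _ _ _ _ _ => by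
      apply Additive.ofMul.injective
      simp only [ofMul_mul, ofMul_inv]
      abel
    have hf : X8 1 * X2 c * (X8 1)⁻¹ ∈ As := by simp only [mem_As, UE, and_self]
    have := congrArg Subtype.val (key ⟨_, H1.A2_mem 1⟩ ⟨_, H1.a_mem 1⟩ ⟨_, H1.N_memW (mAs H1.β).2.2.1⟩ ⟨_, H1.mem5 1⟩
      ⟨_, H1.A6_mem 1⟩ ⟨_, H1.N_memW hf⟩ ⟨_, H1.N_memW (mAs c).1⟩ ⟨_, H1.N_memW (mAs c).2.2.1⟩
      ⟨_, H1.N_memW (mAs H2.β).2.2.1⟩ ⟨_, H1.N_memW (mAs c).2.2.2.2⟩)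
    simp only [coe_mul, coe_inv] at this
    rw [map_mul _ (X8 1 * X2 c), map_mul _ (X8 1), map_inv, k] at this
    rw [mul_assoc, ← map_mul, show X5 c * X4 (H2.β + (H1.β + c + σ c)) =
      (X2 c)⁻¹ * (X4 c)⁻¹ * (X4 H2.β)⁻¹ * X4 H1.β * (X8 1 * X2 c * (X8 1)⁻¹) * (X6 c)⁻¹ by ext <;> simp only [UE] <;> grind]
    simp only [map_mul, map_inv]
    rw [← this]; group
  obtain ⟨z, z0, z1⟩ := F.big
  obtain ⟨κ, hκ⟩ := exists_l4 z0
  obtain ⟨ν, hν⟩ := exists_nu5 κ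
  have k2 := H2.T_a5 κ ν 1
  rw [hν, mul_one, k1, cjm_b2, cjm_b2, H1.T_a5, hν, mul_one, T_N_b2, T_N_b2, mul_assoc, mul_assoc, mul_right_inj, ← map_mul,
    ← map_mul] at k2
  have := congrArg U.x4 (F.inj k2)
  simp only [UE, ζ, hκ] at this
  grind

end Cfsg.Agent.S2F
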