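import Cfsg.Agent.S2F.Jh

/-!
Standard subgroups of type `²F₄(q)`: the commutators `[Ŵ₄, Ŵ₆]`.
-/

set_option autoImplicit false
set_option linter.unusedSectionVars false
set_option linter.unusedSimpArgs false
set_option maxRecDepth 20000

namespace Cfsg.Agent.S2F

open Subgroup Cfsg.Agent.Oct Cfsg.Agent.Fus
open scoped commutatorElement

variable {K : Type*} [Field K] [Tw K] [Finite K] {G : Type*} [Group G] [Finite G]

namespace D31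

theorem mem_Ys_of_comm {u : U K} (h : ∀ p ∈ P0, u * p = p * u) : u ∈ Ys := by
  have a1 := h (X6 1) ⟨rfl, rfl, rfl⟩
  have a2 := h (X5 1) ⟨rfl, rfl, rfl⟩
  have a3 := h (X8 1) ⟨rfl, rfl, rfl⟩
  have a4 := h (X2 1) ⟨rfl, rfl, rfl⟩
  have a5 := h (X3 1) ⟨rfl, rfl, rfl⟩
  have a6 := h (Y6 1) ⟨rfl, rfl, rfl⟩
  have b1 := congrArg U.x4 a1
  have b2 := congrArg U.x4 a2
  have b3 := congrArg U.x6 a2
  simp only [UE] at b1 b2 b3
  have x1 : u.x1 = 0 := by grind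
  have y2 : u.y2 = 0 := by grind
  have y8 : u.y8 = 0 := by grind
  have c1 := congrArg U.x5 a3
  have c2 := congrArg U.x6 a3
  have c3 := congrArg U.x5 a4
  have c4 := congrArg U.x4 a4
  have c5 := congrArg U.x4 a5
  have c6 := congrArg U.x5 a6
  simp only [UE, x1, y2, y8] at c1 c2 c3 c4 c5 c6
  rw [mem_Ys]
  grind

theorem ind_l2 {P : K → Prop} (h0 : P 0) (h : ∀ κ : Kˣ, P (κ * σ (κ : K))) (b : K) : P b := by
  by_cases hb : b = 0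
  · exact hb ▸ h0
  · obtain ⟨κ, rfl⟩ := exists_l2 hb
    exact h κ

theorem ind_l4 {P : K → Prop} (h0 : P 0) (h : ∀ κ : Kˣ, P (σ (κ : K) * κ ^ 2)) (b : K) : P b := by
  by_cases hb : b = 0
  · exact hb ▸ h0
  · obtain ⟨κ, rfl⟩ := exists_l4 hb
    exact mul_comm (σ (κ : K)) _ ▸ h κ

variable {F : Fr K G} {H : Hat5 F.toRt}

theorem cj_X8 (c : K) {x : G} (hx : x ∈ H.Wh) : Cj H (F.N (X8 c)) x := by
  obtain ⟨v, hv, v', hv', rfl⟩ := H.dec hx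
  obtain ⟨j, hj, e⟩ := hv_split H v
  rw [e]
  refine (((Cj.mul_right ⟨_, mul_mem (mul_mem (mul_mem (a_J _) (N_J (X4_Ys _))) (a5_J _)) (A6_J _),
    (H.L2 _ c).trans (by simp only [mul_assoc]; rfl)⟩ ⟨_, A6_J _, H.L3 _ c⟩ (W_Z (H.A3_mem _))).mul_right
    (.of_comm (Zh.comm (N_Z ⟨rfl, rfl, rfl⟩) hj).symm) (J_Z hj)).mul_right
    ⟨_, N_J (j := v'⁻¹ * (X8 c * v' * (X8 c)⁻¹)) ?_, by simp⟩ (N_Z (As_P0 hv')))
  rw [mem_As] at hv'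
  simp only [mem_Ys, UE, hv']
  grind

theorem cj_P0 {p : U K} (hp : p ∈ P0) {x : G} (hx : x ∈ H.Wh) : Cj H (F.N p) x := by
  have h1 : ∀ q ∈ Qs, Cj H (F.N q) x := fun q hq => by
    obtain ⟨c, s, e⟩ := H.w1.cQ x hx q hq
    exact ⟨_, mul_mem (a_J c) (N_J (X4_Ys s)), by rw [e, mul_assoc]⟩
  obtain ⟨q, hq, e⟩ := exists_U8 p
  rw [hp.2.2, Y8_zero, one_mul] at e
  rw [e, map_mul]
  exact (cj_X8 _ hx).mul_left (h1 q hq) (N_Z ⟨rfl, rfl, rfl⟩)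

theorem cj_P0' {p : U K} (hp : p ∈ P0) {y : G} (hy : y ∈ H.Wh) : Cj H (F.N p) (F.n * y * F.n⁻¹) :=
  Re.n_symm (F.nN hp.1) ▸ (cj_P0 (ψ_P0 hp) hy).n

theorem comm_comm {x y g : G} (hx : x ∈ Zh H) (hy : y ∈ Zh H) (h1 : Cj H x g) (h2 : Cj H y g) :
    x * y * x⁻¹ * y⁻¹ * g = g * (x * y * x⁻¹ * y⁻¹) := by
  obtain ⟨j, hj, e⟩ := h1
  obtain ⟨j', hj', e'⟩ := h2
  have hk : x * y * x⁻¹ * y⁻¹ ∈ Zh H := mul_mem (mul_mem (mul_mem hx hy) (inv_mem hx)) (inv_mem hy)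
  have e1 : x * y * g * (x * y)⁻¹ = g * (j * j') := by
    calc _ = x * (y * g * y⁻¹) * x⁻¹ := by group
      _ = x * g * x⁻¹ * (x * j' * x⁻¹) := by rw [e']; group
      _ = _ := by rw [e, ← Zh.comm hx hj']; group
  have e2 : y * x * g * (y * x)⁻¹ = g * (j * j') := by
    calc _ = y * (x * g * x⁻¹) * y⁻¹ := by group
      _ = y * g * y⁻¹ * (y * j * y⁻¹) := by rw [e]; group
      _ = _ := by rw [e', ← Zh.comm hy hj, Zh.comm (J_Z hj') hj]; group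
  refine mul_right_cancel (b := j * j') ?_
  calc _ = x * y * x⁻¹ * y⁻¹ * (y * x * g * (y * x)⁻¹) := by rw [e2]; group
    _ = x * y * g * (x * y)⁻¹ * (x * y * x⁻¹ * y⁻¹) := by group
    _ = _ := by rw [e1, mul_assoc g, Zh.comm hk (mul_mem hj hj')]; group

theorem tau_comm {x y k j j' : G} {v v' : U K} (e : x * y * x⁻¹ * y⁻¹ = k) (hx : x * F.t * x⁻¹ = F.t * F.N v)
    (hy : y * F.t * y⁻¹ = F.t * F.N v') (e1 : x * F.N v' * x⁻¹ = F.N v' * j) (e2 : y * F.N v * y⁻¹ = F.N v * j')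
    (h1 : k * F.N v = F.N v * k) (h2 : k * F.N v' = F.N v' * k) (h3 : j' * k = k * j') :
    k * F.t * k⁻¹ * (F.N (v' * v) * j') = F.t * (F.N (v * v') * j) := by
  have h4 : k * (F.N (v' * v) * j') = F.N (v' * v) * j' * k := by
    rw [map_mul]
    exact (Commute.mul_right h2 h1).mul_right h3.symm
  calc _ = k * (F.t * F.N v' * (F.N v * j')) * k⁻¹ * (k * (F.N (v' * v) * j')⁻¹ * k⁻¹ * (F.N (v' * v) * j')) := by
        rw [map_mul]; group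
    _ = k * (y * F.t * y⁻¹ * (y * F.N v * y⁻¹)) * k⁻¹ := by
        rw [hy, e2, (Commute.inv_right h4).eq]; group
    _ = k * (y * (x * F.t * x⁻¹) * y⁻¹) * k⁻¹ := by rw [hx]; group
    _ = x * (y * F.t * y⁻¹) * x⁻¹ := by rw [← e]; group
    _ = x * F.t * x⁻¹ * (x * F.N v' * x⁻¹) := by rw [hy]; group
    _ = _ := by rw [hx, e1, map_mul]; group

theorem comm_J {x y : G} (hx : x ∈ H.Wh) (hy : y ∈ H.Wh) :
    x * (F.n * y * F.n⁻¹) * x⁻¹ * (F.n * y * F.n⁻¹)⁻¹ ∈ Jh H := by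
  obtain ⟨v, hv, e1⟩ := H.w1.tau x hx
  obtain ⟨u, hu, e2⟩ := H.w1.tau y hy
  have e3 := conj_t F.n_mem e2 (F.nN hu.1)
  have hy' := n_Z (W_Z hy)
  have hu' := ψ_P0 (As_P0 hu)
  have h1 : ∀ p ∈ P0, Cj H x (F.N p) := fun p hp => (cj_P0 hp hx).symm (N_Z hp) (W_Z hx)
  have h2 : ∀ p ∈ P0, Cj H (F.n * y * F.n⁻¹) (F.N p) := fun p hp => (cj_P0' hp hy).symm (N_Z hp) hy'
  generalize F.n * y * F.n⁻¹ = y' at e3 hy' h2
  have h3 := fun p hp => comm_comm (W_Z hx) hy' (h1 p hp) (h2 p hp)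
  have hk : x * y' * x⁻¹ * y'⁻¹ ∈ Zh H := mul_mem (mul_mem (mul_mem (W_Z hx) hy') (inv_mem (W_Z hx))) (inv_mem hy')
  obtain ⟨j, hj, e4⟩ := h1 _ hu'
  obtain ⟨j', hj', e5⟩ := h2 _ (As_P0 hv)
  have e6 := tau_comm rfl e1 e3 e4 e5 (h3 _ (As_P0 hv)) (h3 _ hu') (Zh.comm hk hj')
  generalize x * y' * x⁻¹ * y'⁻¹ = k at e6 hk h3
  have h4 : v * ψ u * (ψ u * v)⁻¹ ∈ Ys := by
    rw [mem_As] at hv hu
    simp only [mem_Ys, ψ, UE, hv, hu]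
    grind
  have h5 := mul_mem (N_J (H := H) h4) (mul_mem hj (inv_mem hj'))
  have e7 : k * F.t * k⁻¹ = F.t * (F.N (v * ψ u * (ψ u * v)⁻¹) * (j * j'⁻¹)) := by
    rw [map_mul _ (v * ψ u), map_inv, mul_assoc (F.N _),
      ← Zh.comm (inv_mem (N_Z (mul_mem hu' (As_P0 hv)))) (mul_mem hj (inv_mem hj')), eq_mul_inv_of_mul_eq e6]
    group
  obtain ⟨a, ha, b, hb, e8⟩ := h5
  have e9 := H.t_dec (v' := b) (Ys_As ha)
  rw [← e8, t_of_sq (J_W ⟨a, ha, b, hb, e8⟩) e7, mul_inv_cancel_right, left_eq_mul, Loc.N_eq_one] at e9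
  rw [e8, e9, H.hv_one, one_mul, ← H.t_hv (Ys_As hb)] at e7
  have h6 : ∀ p ∈ P0, (H.hv b)⁻¹ * k * F.N p = F.N p * ((H.hv b)⁻¹ * k) := fun p hp =>
    Commute.mul_left (Zh.comm (N_Z hp) (inv_mem (hv_J hb))) (h3 p hp)
  obtain ⟨c, e | e⟩ := F.cen6 (c := (H.hv b)⁻¹ * k) (by
    calc _ = (H.hv b)⁻¹ * (k * F.t * k⁻¹) * k := by group
      _ = _ := by rw [e7]; group) (fun s => h6 _ ⟨rfl, rfl, rfl⟩) (h6 _ ⟨rfl, rfl, rfl⟩)
  · exact ⟨b, hb, c, mem_Ys_of_comm fun p hp => F.inj (by rw [map_mul, map_mul, ← e, h6 p hp]), by rw [← e]; group⟩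
  · exact absurd e (not_t (Zh.comm (mul_mem (inv_mem (J_Z (hv_J hb))) hk) (a_J 1)).symm)

variable (H) in
/-- The `N`-component of the commutators of two families. -/
def Fam (x y : K → G) (f : K → K → U K) : Prop :=
  ∀ c b, f c b ∈ Ys ∧ ∃ j ∈ Ys, y c * x b * (y c)⁻¹ = x b * (H.hv j * F.N (f c b))

theorem exists_fam {x y : K → G} (hx : ∀ b, x b ∈ H.Wh) (hy : ∀ b, y b ∈ H.Wh) :
    ∃ f, Fam H x (fun c => F.n * y c * F.n⁻¹) f := by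
  choose j hj f hf e using fun c b => comm_J (hx b) (hy c)
  refine ⟨f, fun c b => ⟨hf c b, j c b, hj c b, ?_⟩⟩
  rw [← e, inv_W H (hx b), ← mul_assoc, ← mul_assoc, ← mul_assoc, H.w1.sq _ (hx b), one_mul]

variable {x y : K → G} {f : K → K → U K}

theorem Fam.eq (h : Fam H x y f) {b c : K} {j u : U K} (hj : j ∈ As)
    (e : y c * x b * (y c)⁻¹ = x b * (H.hv j * F.N u)) : f c b = u := by
  obtain ⟨-, j', hj', e'⟩ := h c b
  exact (H.dec_inj (Ys_As hj') hj (mul_left_cancel (e'.symm.trans e))).2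

theorem Fam.zl (h : Fam H x y f) (hy : y 0 = 1) (b : K) : f 0 b = 1 :=
  h.eq (one_mem _) (by simp [hy, H.hv_one])

theorem Fam.zr (h : Fam H x y f) (hx : x 0 = 1) (c : K) : f c 0 = 1 :=
  h.eq (one_mem _) (by simp [hx, H.hv_one])

theorem Fam.addl (h : Fam H x y f) (hy : ∀ c d, y (c + d) = y c * y d) (hZ : ∀ c, y c ∈ Zh H) (c d b : K) :
    f (c + d) b = f c b * f d b := by
  obtain ⟨h1, j, hj, e⟩ := h c b
  obtain ⟨h2, j', hj', e'⟩ := h d b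
  refine h.eq (Ys_As (mul_mem hj hj')) ?_
  rw [← e_mul H _ _ (Ys_As hj) (Ys_As h1) (Ys_As hj'), hy]
  calc _ = y c * (y d * x b * (y d)⁻¹) * (y c)⁻¹ := by group
    _ = y c * x b * (y c)⁻¹ * (y c * (H.hv j' * F.N (f d b)) * (y c)⁻¹) := by rw [e']; group
    _ = _ := by rw [e, ← Zh.comm (hZ c) ⟨_, hj', _, h2, rfl⟩]; group

theorem Fam.addr (h : Fam H x y f) (hx : ∀ c d, x (c + d) = x c * x d) (hZ : ∀ c, x c ∈ Zh H) (c b d : K) :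
    f c (b + d) = f c b * f c d := by
  obtain ⟨h1, j, hj, e⟩ := h c b
  obtain ⟨h2, j', hj', e'⟩ := h c d
  refine h.eq (Ys_As (mul_mem hj hj')) ?_
  rw [← e_mul H _ _ (Ys_As hj) (Ys_As h1) (Ys_As hj'), hx]
  calc _ = y c * x b * (y c)⁻¹ * (y c * x d * (y c)⁻¹) := by group
    _ = x b * (H.hv j * F.N (f c b) * x d) * (H.hv j' * F.N (f c d)) := by rw [e, e']; group
    _ = _ := by rw [Zh.comm (hZ d) ⟨_, hj, _, h1, rfl⟩]; group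

theorem Fam.tor (h : Fam H x y f) (κ ν : Kˣ) {b b' c c' : K}
    (e1 : F.l κ * F.h ν * x b * (F.l κ * F.h ν)⁻¹ = x b') (e2 : F.l κ * F.h ν * y c * (F.l κ * F.h ν)⁻¹ = y c') :
    f c' b' = ζ κ (η ν (f c b)) := by
  obtain ⟨-, j, hj, e⟩ := h c b
  refine h.eq (j := ζ κ (η ν j)) (by rw [mem_Ys] at hj; simp only [mem_As, UE, ζ, hj, and_self]) ?_
  rw [← e1, ← e2, conj_conj e, ← H.l_hv, ← H.h_hv, ← F.lN, ← F.hN]
  group

theorem Fam.n (h : Fam H x y f) (e : ∀ b, F.n * x b * F.n⁻¹ = y b) (hx : ∀ b, x b ∈ Zh H) (b c : K) :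
    f b c = ψ (f c b) := by
  obtain ⟨h1, j, hj, e1⟩ := h c b
  have e2 := conj_conj (g := F.n) e1
  rw [e, Re.n_symm (e c), show F.n * (x b * (H.hv j * F.N (f c b))) * F.n⁻¹ =
    F.n * x b * F.n⁻¹ * (F.n * (H.hv j * F.N (f c b)) * F.n⁻¹) by group, e, n_e H hj h1] at e2
  exact h.eq (Ys_As (ψ_Ys hj)) (swap e2 ⟨_, ψ_Ys hj, _, ψ_Ys h1, rfl⟩ (hx c) (e b ▸ n_Z (hx b)))

theorem Fam.tau (h : Fam H x y f) {b c : K} (hx : x b ∈ H.Wh) (hy : y c ∈ Zh H) {v v' j₀ : U K} {j j' : G}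
    (hv : v ∈ P0) (hv' : v' ∈ P0) (hj : j ∈ Jh H) (hj' : j' ∈ Jh H) (t1 : x b * F.t * (x b)⁻¹ = F.t * F.N v)
    (t2 : y c * F.t * (y c)⁻¹ = F.t * F.N v') (e1 : F.N v' * x b * (F.N v')⁻¹ = x b * j)
    (e2 : F.N v * y c * (F.N v)⁻¹ = y c * j') (e : F.N (v * v') * j = F.N (j₀ * (v' * v)) * j') :
    y c * x b * (y c)⁻¹ = x b * (H.hv j₀ * F.N (f c b)) := by
  obtain ⟨h1, a, ha, e3⟩ := h c b
  have hk : H.hv a * F.N (f c b) ∈ Jh H := ⟨_, ha, _, h1, rfl⟩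
  have := tau_comm (k := H.hv a * F.N (f c b)) (by
      rw [inv_W H hx, mul_assoc, mul_assoc, ← mul_assoc (y c), e3, ← mul_assoc, H.w1.sq _ hx, one_mul]) t1 t2
    (swap e1 hj (N_Z hv') (W_Z hx)) (swap e2 hj' (N_Z hv) hy) (Zh.comm (N_Z hv) hk) (Zh.comm (N_Z hv') hk)
    (Zh.comm (J_Z hk) hj')
  rw [H.t_dec (Ys_As ha), e, map_mul _ j₀, mul_assoc, mul_right_inj, mul_assoc, mul_left_inj] at this
  rw [e3, F.inj this]

theorem T_A3 (κ ν : Kˣ) (c : K) :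
    F.l κ * F.h ν * H.A3 c * (F.l κ * F.h ν)⁻¹ = H.A3 ((κ : K) * σ (κ : K) * (((ν⁻¹ : Kˣ) : K) * c)) := by
  rw [← H.l_A3, ← H.h_A3]; group

theorem Ys_ext {u : U K} (h : u ∈ Ys) : u = X4 u.x4 * X5 u.x5 * X6 u.x6 := by
  rw [mem_Ys] at h
  ext <;> simp only [UE, h]

theorem Ys_mul {u v : U K} (h : u ∈ Ys) (h' : v ∈ Ys) :
    (u * v).x4 = u.x4 + v.x4 ∧ (u * v).x5 = u.x5 + v.x5 ∧ (u * v).x6 = u.x6 + v.x6 := by
  rw [mem_Ys] at h h'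
  simp only [UE, h, h', and_self]

theorem phi_ne {x : K} (h0 : x ≠ 0) (h1 : x ≠ 1) : σ (x + 1) * (x + 1) ^ 2 ≠ σ x * x ^ 2 + σ (1 : K) * 1 ^ 2 := by
  have := σ_ne_sq h0 h1
  simp only [UE]
  grind

variable (H) in
theorem r5 : ∃ μ, ∀ b c, H.A8 c * H.A3 b * (H.A8 c)⁻¹ = H.A3 b * (H.hv (X6 (c * b)) * F.N (X6 (μ * (c * b)))) := by
  obtain ⟨f, h⟩ : ∃ f, Fam H H.A3 H.A8 f := exists_fam H.A3_mem H.A2_mem
  have hZ : ∀ c, H.A8 c ∈ Zh H := fun c => n_Z (W_Z (H.A2_mem c))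
  have h1 : ∀ b c, (f c b).x4 = σ b * (f c 1).x4 ∧ (f c b).x5 = b * (f c 1).x5 ∧ (f c b).x6 = b * (f c 1).x6 :=
    ind_l2 (fun c => by simp only [h.zr H.A3_zero, UE, and_self]) fun κ c => by
      have := h.tor κ 1 (T_A3 κ 1 1) (H.T_A8 κ 1 c)
      simp only [inv_one, Units.val_one, map_one, one_pow, mul_one, one_mul] at this
      simp only [this, ζ, UE, Units.val_one]
      grind
  have h2 : ∀ y, y ≠ 0 → ∀ c, (f (σ y * y ^ 2 * c) 1).x4 = σ y * (f c 1).x4 ∧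
      (f (σ y * y ^ 2 * c) 1).x5 = y ^ 2 * (f c 1).x5 ∧ (f (σ y * y ^ 2 * c) 1).x6 = σ y * y ^ 2 * (f c 1).x6 :=
    fun y hy c => by
      lift y to Kˣ using IsUnit.mk0 y hy
      have := h.tor 1 y (T_A3 1 y y) (H.T_A8 1 y c)
      simp only [Units.val_one, map_one, one_mul, Units.inv_mul] at this
      simp only [this, ζ, UE, Units.val_one, h1 y c]
      grind
  obtain ⟨z, z0, z1⟩ := F.big
  have h3 := fun c d => Ys_mul (h c 1).1 (h d 1).1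
  simp only [← h.addl H.A8_add hZ] at h3
  have h4 := wtB (f := fun c => (f c 1).x4) (φ := fun y => σ y * y ^ 2) (χ := σ) (fun c d => (h3 c d).1)
    (fun y hy c => (h2 y hy c).1) z0 z1 (phi_ne z0 z1) (map_add _ _ _)
  have h5 := wtB (f := fun c => (f c 1).x5) (φ := fun y => σ y * y ^ 2) (χ := fun y => y ^ 2) (fun c d => (h3 c d).2.1)
    (fun y hy c => (h2 y hy c).2.1) z0 z1 (phi_ne z0 z1) (by grind)
  have h6 : ∀ c, (f c 1).x6 = c * (f 1 1).x6 := ind_l4 (by simp only [h.zl H.A8_zero, UE]) fun κ => by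
    simpa using (h2 κ κ.ne_zero 1).2.2
  refine ⟨(f 1 1).x6, fun b c => ?_⟩
  rw [h.tau (H.A3_mem b) (hZ c) (j₀ := X6 (c * b)) ⟨rfl, rfl, rfl⟩ ⟨rfl, rfl, rfl⟩ (A6_J _) (A6_J _) (H.tA3 b) (H.tA8 c)
    (H.L3 b c) (H.X3_A8 c b) (by congr 2; ext <;> simp only [UE]), Ys_ext (h c b).1, (h1 b c).1, (h1 b c).2.1,
    (h1 b c).2.2, h4, h5, h6]
  congr 3
  ext <;> simp only [UE]
  ring

variable (H) in
theorem r37 (b c : K) : H.A3 b * H.A7 c = H.A7 c * H.A3 b := by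
  obtain ⟨f, h⟩ : ∃ f, Fam H H.A3 H.A7 f := exists_fam H.A3_mem H.A3_mem
  have hZ : ∀ c, H.A3 c ∈ Zh H := fun c => W_Z (H.A3_mem c)
  have h0 : ∀ b c, H.A7 c * H.A3 b * (H.A7 c)⁻¹ = H.A3 b * (H.hv 1 * F.N (f c b)) := fun b c =>
    h.tau (H.A3_mem b) (n_Z (hZ c)) ⟨rfl, rfl, rfl⟩ ⟨rfl, rfl, rfl⟩ (one_mem _) (one_mem _) (H.tA3 b) (H.tA7 c)
      (by rw [H.N_A3 ⟨rfl, rfl⟩ rfl]; group) (by rw [H.N_A7 rfl rfl rfl rfl]; group)
      (by congr 2; ext <;> simp only [UE])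
  have h5 : (f c b).x5 = 0 := by
    obtain ⟨j, hj, e⟩ := n_inv (H := H) 1 c
    have e1 := conj_conj (g := F.N (Y2 1)) (h0 b c)
    rw [e, H.N_A3 ⟨rfl, rfl⟩ rfl, mul_inv_cancel_right, mul_assoc _ j, Zh.comm (hZ b) hj, H.hv_one, one_mul,
      ← mul_assoc (F.N _), H.N_A3 ⟨rfl, rfl⟩ rfl] at e1
    have := h.eq (b := b) (c := c) (one_mem _) (u := Y2 1 * f c b * (Y2 1)⁻¹) (by
      rw [H.hv_one, one_mul, map_mul, map_mul, map_inv, ← mul_assoc, ← mul_assoc, ← e1]; group)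
    have h1 := (h c b).1
    have := congrArg U.x4 this
    rw [mem_Ys] at h1
    simp only [UE, h1] at this
    grind
  have h4 : ∀ c b, (f c b).x4 = 0 := fun c => by
    obtain ⟨z, z0, z1⟩ := F.big
    have h3 := fun b d => Ys_mul (h c b).1 (h c d).1
    simp only [← h.addr H.A3_add hZ] at h3
    refine wtA (f := fun b => (f c b).x4) (φ := fun y => y ^ 2) (χ := fun y => y * σ y) (fun b d => (h3 b d).1)
      (fun y hy b => ?_) z0 z1 (by grind) (by have := σ_ne_self z0 z1; simp only [UE]; grind)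
    obtain ⟨ν, e⟩ := exists_l4 (inv_ne_zero hy)
    obtain ⟨κ, e'⟩ : ∃ κ : Kˣ, (κ : K) * (ν * σ (ν : K)) = 1 :=
      ⟨Units.mk0 _ (inv_ne_zero (mul_ne_zero ν.ne_zero (σu_ne ν))),
        inv_mul_cancel₀ (mul_ne_zero ν.ne_zero (σu_ne ν))⟩
    have := h.tor κ ν (T_A3 κ ν b) (H.T_A7 κ ν c)
    have e1 := congrArg σ e'
    have e2 := congrArg σ e
    have e3 := ν.mul_inv
    rw [map_inv₀] at e2
    simp only [UE] at e1 e2
    have e4 : σ y ≠ 0 := fun a => hy (σ_eq_zero.1 a)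
    rw [e', one_mul, ← mul_assoc, show (κ : K) * σ (κ : K) * (ν⁻¹ : Kˣ) = y ^ 2 by grind] at this
    simp only [this, ζ, UE]
    grind
  have h6 : (f c b).x6 = 0 := by
    have h1 := (h c b).1
    have := h4 b c
    rw [mem_Ys] at h1
    simpa only [h.n H.n_A3 hZ b c, ψ, UE, h1] using this
  have := h0 b c
  rw [Ys_ext (h c b).1, h4, h5, h6] at this
  exact Eq.symm (by simpa [H.hv_one, mul_inv_eq_iff_eq_mul] using this)

theorem e_three (a b c a' b' c' : K) : H.a a * F.N (X4 a') * H.a5 b * F.N (X5 b') * H.A6 c * F.N (X6 c') =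
    H.hv (X4 a * X5 b * X6 c) * F.N (X4 a' * X5 b' * X6 c') := by
  rw [← e_mul H _ _ (Ys_As (mul_mem (X4_Ys _) (X5_Ys _))) (Ys_As (mul_mem (X4_Ys _) (X5_Ys _))) (Ys_As (X6_Ys _)),
    ← e_mul H _ _ (X4_As _) (X4_As _) (Ys_As (X5_Ys _)), H.hv_X4, H.hv_X5, H.hv_X6]
  simp only [mul_assoc]

theorem ψ_three (a b c : K) : ψ (X4 a * X5 b * X6 c) = X4 c * X5 b * X6 a := by
  ext <;> simp only [ψ, UE]

theorem ψ_X4 (a : K) : ψ (X4 a) = X6 a := by ext <;> simp only [ψ, UE]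

theorem comm_28 (b c β : K) : X2 b * X8 c * X4 (β * (c * σ b)) =
    X4 ((1 + β) * (c * σ b)) * X5 (c * b) * X6 ((1 + β) * (σ c * b)) * (X8 c * X2 b) * X6 (β * (b * σ c)) := by
  ext <;> simp only [UE] <;> grind

theorem Y8_Ys {u : U K} (h : u ∈ Ys) : u * X6 u.x5 = Y8 1 * u * (Y8 1)⁻¹ := by
  rw [mem_Ys] at h
  ext <;> simp only [UE, h]

theorem r6 {μ : K}
    (h5 : ∀ b c, H.A8 c * H.A3 b * (H.A8 c)⁻¹ = H.A3 b * (H.hv (X6 (c * b)) * F.N (X6 (μ * (c * b))))) :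
    ∃ μ₄, ∀ b c, H.A8 c * H.A2 b * (H.A8 c)⁻¹ =
      H.A2 b * (H.hv (X4 ((1 + H.β) * (c * σ b)) * X5 (c * b) * X6 ((1 + H.β) * (σ c * b))) *
        F.N (X4 (μ₄ * (c * σ b)) * X5 (μ * (c * b)) * X6 (μ₄ * (σ c * b)))) := by
  obtain ⟨f, h⟩ : ∃ f, Fam H H.A2 H.A8 f := exists_fam H.A2_mem H.A2_mem
  have hZ : ∀ c, H.A2 c ∈ Zh H := fun c => W_Z (H.A2_mem c)
  have h1 : ∀ b c, (f c b).x4 = σ b * (f c 1).x4 ∧ (f c b).x5 = b * (f c 1).x5 ∧ (f c b).x6 = b * (f c 1).x6 :=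
    ind_l2 (fun c => by simp only [h.zr H.A2_zero, UE, and_self]) fun κ c => by
      have := h.tor κ 1 (H.T_A2 κ 1 1) (H.T_A8 κ 1 c)
      simp only [inv_one, Units.val_one, map_one, one_pow, mul_one, one_mul] at this
      simp only [this, ζ, UE, Units.val_one]
      grind
  have h2 : ∀ c, (f c 1).x4 = c * (f 1 1).x4 ∧ (f c 1).x5 = c * (f 1 1).x5 ∧ (f c 1).x6 = σ c * (f 1 1).x6 :=
    ind_l4 (by simp only [h.zl H.A8_zero, UE, and_self]) fun κ => by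
      have := h.tor κ κ (H.T_A2 κ κ 1) (H.T_A8 κ κ 1)
      simp only [Units.mul_inv, map_one, mul_one] at this
      simp only [this, ζ, UE]
      grind
  have h3 : (f 1 1).x4 = (f 1 1).x6 := by
    have h1 := (h 1 1).1
    rw [mem_Ys] at h1
    conv_lhs => rw [h.n H.n_A2 hZ 1 1]
    simp only [ψ, UE, h1]
  have L : ∀ b c, F.N (X8 c) * H.A2 b * (F.N (X8 c))⁻¹ =
      H.A2 b * (H.hv (X4 (c * σ b) * X5 (c * b) * X6 (σ c * b)) * F.N (X4 (H.β * (c * σ b)))) := fun b c => by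
    have := e_three (H := H) (c * σ b) (c * b) (σ c * b) (H.β * (c * σ b)) 0 0
    simp only [X5_zero, X6_zero, map_one, mul_one] at this
    rw [H.L2, ← this]
    simp only [mul_assoc]
  have hY : ∀ a b c : K, X4 a * X5 b * X6 c ∈ Ys := fun a b c => mul_mem (mul_mem (X4_Ys a) (X5_Ys b)) (X6_Ys c)
  have h0 : ∀ b c, H.A8 c * H.A2 b * (H.A8 c)⁻¹ = H.A2 b *
      (H.hv (X4 ((1 + H.β) * (c * σ b)) * X5 (c * b) * X6 ((1 + H.β) * (σ c * b))) * F.N (f c b)) := fun b c => by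
    have e := conj_conj (g := F.n) (L c b)
    rw [F.nX8, H.n_A2, ← mul_assoc F.n, ← inv_mul_cancel_right (F.n * H.A2 c) F.n, mul_assoc _ F.n, mul_assoc _ _ F.n⁻¹,
      H.n_A2, n_e H (hY _ _ _) (X4_Ys _)] at e
    refine h.tau (H.A2_mem b) (n_Z (hZ c)) ⟨rfl, rfl, rfl⟩ ⟨rfl, rfl, rfl⟩ ⟨_, hY _ _ _, _, X4_Ys _, rfl⟩
      ⟨_, ψ_Ys (hY _ _ _), _, ψ_Ys (X4_Ys _), rfl⟩ (H.tA2 b) (H.tA8 c) (L b c) e ?_
    rw [ψ_three, ψ_X4, H.w1.comm _ (H.hv_mem _) _ (H.N_memW (X4_As _)),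
      H.w1.comm _ (H.hv_mem _) _ (H.N_memW (Ys_As (X6_Ys _))), ← mul_assoc (F.N _), ← mul_assoc (F.N _), ← map_mul,
      ← map_mul, comm_28, mul_comm (σ b), mul_comm b c, mul_comm b (σ c)]
  have h4 : (f 1 1).x5 = μ := by
    obtain ⟨s, e⟩ := hinv H (F.N_mem (Y8 1)) (X2_As 1) (v' := Y8 1 * X2 1 * (Y8 1)⁻¹) (by simp)
    obtain ⟨j, hj, e'⟩ := hv_split H (Y8 1 * X2 1 * (Y8 1)⁻¹)
    rw [H.hv_X2, e', mul_assoc _ j, show (Y8 1 * X2 1 * (Y8 1)⁻¹ : U K).x2 = 1 by simp only [UE],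
      show (Y8 1 * X2 1 * (Y8 1)⁻¹ : U K).x3 = 1 by simp only [UE]] at e
    have hj' := mul_mem hj (N_J (H := H) (X4_Ys s))
    generalize j * F.N (X4 s) = j' at e hj'
    obtain ⟨h6, a, ha, e0⟩ := h 1 1
    have hk : H.hv a * F.N (f 1 1) ∈ Jh H := ⟨_, ha, _, h6, rfl⟩
    have hk' : H.hv (X6 (1 * 1)) * F.N (X6 (μ * (1 * 1))) ∈ Jh H := ⟨_, X6_Ys _, _, X6_Ys _, rfl⟩
    have e1 := conj_conj (g := F.N (Y8 1)) e0
    have e2 : F.N (Y8 1) * (H.hv a * F.N (f 1 1)) * (F.N (Y8 1))⁻¹ =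
        H.hv a * F.N (f 1 1) * (H.hv (X6 a.x5) * F.N (X6 (f 1 1).x5)) := by
      rw [e_mul H _ _ (Ys_As ha) (Ys_As h6) (Ys_As (X6_Ys _)), H.hv_mul (Ys_As ha) (Ys_As (X6_Ys _)), H.hv_X6,
        Y8_Ys h6, map_mul, map_mul, map_inv, hv_Ys H ha,
        mul_assoc _ (H.A6 _) (H.A6 _), H.w1.comm _ (H.A6_mem a.x6) _ (H.A6_mem _)]
      have e3 := H.LY8 1 a.x5
      rw [one_mul] at e3
      calc _ = F.N (Y8 1) * H.a a.x4 * (F.N (Y8 1))⁻¹ * (F.N (Y8 1) * H.a5 a.x5 * (F.N (Y8 1))⁻¹) *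
            (F.N (Y8 1) * H.A6 a.x6 * (F.N (Y8 1))⁻¹) * (F.N (Y8 1) * F.N (f 1 1) * (F.N (Y8 1))⁻¹) := by group
        _ = _ := by rw [e3, H.N_a, H.N_A6 (u := Y8 1) rfl]; group
    rw [H.N_A8 rfl rfl rfl rfl, mul_inv_cancel_right, e, ← mul_assoc (F.N _) (H.A2 1),
      ← inv_mul_cancel_right (F.N _ * H.A2 1) (F.N (Y8 1)), mul_assoc _ (F.N (Y8 1)), mul_assoc _ _ (F.N (Y8 1))⁻¹,
      e, e2] at e1
    have e4 : H.A8 1 * (H.A2 1 * H.A3 1 * j') * (H.A8 1)⁻¹ = H.A2 1 * H.A3 1 * j' * (H.hv a * F.N (f 1 1) *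
        (H.hv (X6 (1 * 1)) * F.N (X6 (μ * (1 * 1))))) := by
      calc _ = H.A8 1 * H.A2 1 * (H.A8 1)⁻¹ * (H.A8 1 * H.A3 1 * (H.A8 1)⁻¹) * (H.A8 1 * j' * (H.A8 1)⁻¹) := by group
        _ = H.A2 1 * (H.hv a * F.N (f 1 1) * H.A3 1) * (H.hv (X6 (1 * 1)) * F.N (X6 (μ * (1 * 1))) * j') := by
          rw [e0, h5, ← Zh.comm (x := H.A8 1) (n_Z (hZ 1)) hj']; group
        _ = _ := by
          rw [Zh.comm (W_Z (H.A3_mem 1)) hk, Zh.comm (J_Z hj') hk', mul_assoc, mul_assoc, ← mul_assoc _ j',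
            Zh.comm (J_Z hj') hk]
          group
    rw [e4, mul_right_inj, mul_right_inj] at e1
    simpa only [UE] using (congrArg U.x6 (H.dec_inj (Ys_As (X6_Ys _)) (Ys_As (X6_Ys _)) e1).2).symm
  refine ⟨(f 1 1).x4, fun b c => ?_⟩
  rw [h0, Ys_ext (h c b).1, (h1 b c).1, (h1 b c).2.1, (h1 b c).2.2, (h2 c).1, (h2 c).2.1, (h2 c).2.2, h4, ← h3]
  simp only [mul_comm (f 1 1).x4, mul_comm μ, mul_left_comm (σ b), mul_left_comm b, mul_assoc]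

end D31

open D31

variable {F : Fr K G} (H : Hat5 F.toRt)

theorem Hat5.comm46 {x y : G} (hx : x ∈ H.Wh) (hy : y ∈ H.Wh) :
    ∃ j ∈ Ys, ∃ j' ∈ Ys, x * (F.n * y * F.n⁻¹) * x⁻¹ * (F.n * y * F.n⁻¹)⁻¹ = H.hv j * F.N j' :=
  comm_J hx hy

theorem Hat5.exists_w3 : ∃ μ μ₄, H.W3 μ μ₄ := by
  obtain ⟨μ, h5⟩ := r5 H
  obtain ⟨μ₄, h6⟩ := r6 h5
  refine ⟨μ, μ₄, fun b c => by rw [h5, H.hv_X6, mul_assoc], fun b c => ?_, r37 H⟩
  rw [h6, ← e_three]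
  simp only [mul_assoc]

end Cfsg.Agent.S2F
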