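import Cfsg.Agent.S2F.IId

/-!
Standard subgroups of type `²F₄(q)`: the elements over `Q`.
-/

set_option autoImplicit false
set_option linter.unusedSectionVars false
set_option linter.unusedSimpArgs false
set_option maxRecDepth 20000

namespace Cfsg.Agent.S2F

open Subgroup Cfsg.Agent.Oct Cfsg.Agent.Fus
open scoped commutatorElement

variable {K : Type*} [Field K] [Tw K] [Finite K] {G : Type*} [Group G] [Finite G]

namespace D31

theorem pr_mul {q q' : U K} (h : q ∈ Qs) (v : U K) : pr (q * q') v = pr q v + pr q' v := by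
  simp only [pr, UE, h.1, h.2]
  ring

theorem pr_inv {q : U K} (h : q ∈ Qs) (v : U K) : pr q⁻¹ v = pr q v := by simp only [pr, UE, h.1, h.2]

theorem pr_As {q : U K} (h : q ∈ As) (v : U K) : pr q v = 0 := by
  rw [mem_As] at h
  simp only [pr, UE, h]

theorem pr_one (v : U K) : pr 1 v = 0 := pr_As (one_mem _) v
theorem pr_X4 (q : U K) (s : K) : pr q (X4 s) = 0 := by simp only [pr, UE]
theorem pr_one' (q : U K) : pr q 1 = 0 := pr_X4 q 0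
theorem pr_X4_mul (q v : U K) (s : K) : pr q (X4 s * v) = pr q v := by simp only [pr, UE]

theorem pr_ζ (κ : Kˣ) (q v : U K) : pr (ζ κ q) v = (κ : K) ^ 2 * σ (κ : K) * pr q (ζ κ⁻¹ v) := by
  have h1 := κ.mul_inv
  have h2 := congrArg σ h1
  simp only [UE] at h2
  simp only [pr, ζ]
  grind

theorem mem_Ps_of_comm {u : U K} (h : ∀ p ∈ As, u * p = p * u) : u ∈ Ps := by
  have a1 := h (X6 1) (Ys_As (X6_Ys 1))
  have a2 := h (X5 1) (Ys_As (X5_Ys 1))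
  have a4 := h (X2 1) (X2_As 1)
  have a5 := h (X3 1) (X3_As 1)
  have b1 := congrArg U.x4 a1
  have b2 := congrArg U.x4 a2
  have b3 := congrArg U.x6 a2
  simp only [UE] at b1 b2 b3
  have x1 : u.x1 = 0 := by grind
  have y2 : u.y2 = 0 := by grind
  have y8 : u.y8 = 0 := by grind
  have c3 := congrArg U.x5 a4
  have c4 := congrArg U.x4 a4
  have c5 := congrArg U.x4 a5
  simp only [UE, x1, y2, y8] at c3 c4 c5
  rw [mem_Ps]
  grind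

theorem mem_F5_of_comm {u : U K} (h : ∀ p ∈ F5, u * p = p * u) : u ∈ F5 := by
  have a1 := h (X6 1) ⟨rfl, rfl, rfl, rfl, rfl, rfl, rfl⟩
  have a2 := h (X5 1) ⟨rfl, rfl, rfl, rfl, rfl, rfl, rfl⟩
  have a4 := h (X7 1) ⟨rfl, rfl, rfl, rfl, rfl, rfl, rfl⟩
  have a5 := h (X3 1) ⟨rfl, rfl, rfl, rfl, rfl, rfl, rfl⟩
  have b1 := congrArg U.x4 a1
  have b2 := congrArg U.x4 a2
  have b3 := congrArg U.x6 a2
  simp only [UE] at b1 b2 b3
  have x1 : u.x1 = 0 := by grind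
  have y2 : u.y2 = 0 := by grind
  have y8 : u.y8 = 0 := by grind
  have c3 := congrArg U.x6 a4
  have c4 := congrArg U.x4 a4
  have c5 := congrArg U.x4 a5
  have c6 := congrArg U.x6 a5
  simp only [UE, x1, y2, y8] at c3 c4 c5 c6
  rw [mem_F5]
  grind

variable {F : Fr K G} {H : Hat5 F.toRt}

theorem pr_conj {m : G} (hm : m ∈ F.C) {q q' v v' : U K} (hq : q ∈ Qs) (hq' : q' ∈ Qs) (hv : v ∈ As) (hv' : v' ∈ As)
    (e : m * F.N q * m⁻¹ = F.N q') (e' : m * F.N v * m⁻¹ = F.N v') : pr q' v' = pr q v := by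
  have : F.N (v' * X4 (pr q' v')) = F.N (v' * X4 (pr q v)) := by
    rw [← comm_pr hq' hv', map_mul, map_mul, map_inv, ← e, map_mul, ← e', conj_conj rfl, ← map_inv, ← map_mul,
      ← map_mul, comm_pr hq hv, map_mul, mul_assoc _ m⁻¹, Loc.comm_Z (inv_mem hm)]
    group
  exact congrArg U.x4 (mul_left_cancel (F.inj this))

theorem aX_mul (c d s r : K) :
    H.a c * F.N (X4 s) * (H.a d * F.N (X4 r)) = H.a (c + d) * F.N (X4 (s + r)) := by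
  rw [H.add, show (X4 (s + r) : U K) = X4 s * X4 r by ext <;> simp only [UE], map_mul, mul_assoc,
    ← mul_assoc (F.N _), H.N_a]
  simp only [mul_assoc]

theorem aX_J (c s : K) : H.a c * F.N (X4 s) ∈ Jh H := mul_mem (a_J c) (N_J (X4_Ys s))

theorem N_conj (u : U K) {x : G} (hx : x ∈ H.Wh) : (F.N u)⁻¹ * x * F.N u ∈ H.Wh := by
  simpa using H.conj_memW (inv_mem (F.N_mem u)) hx

variable (H) in
/-- `g` centralises `N p` modulo `Ŵ`. -/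
def Cw (g : G) (p : U K) : Prop := ∃ x ∈ H.Wh, g * F.N p * g⁻¹ = F.N p * x

theorem Cw.mul {g : G} {p p' : U K} (h : Cw H g p) (h' : Cw H g p') : Cw H g (p * p') := by
  obtain ⟨x, hx, e⟩ := h
  obtain ⟨y, hy, e'⟩ := h'
  refine ⟨_, mul_mem (N_conj p' hx) hy, ?_⟩
  rw [map_mul]
  calc _ = g * F.N p * g⁻¹ * (g * F.N p' * g⁻¹) := by group
    _ = _ := by rw [e, e']; group

theorem cw_A7 {f : K} {p : U K} {x : G} (hx : x ∈ H.Wh) (e : F.N p * H.A7 f * (F.N p)⁻¹ = H.A7 f * x) :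
    Cw H (H.A7 f) p := by
  have h := inv_eq_of_mul_eq_one_left (sq_of_add H.A7_add f)
  refine ⟨_, N_conj p hx, ?_⟩
  calc _ = (H.A7 f)⁻¹ * (F.N p * H.A7 f * (F.N p)⁻¹) * F.N p := by rw [h]; group
    _ = _ := by rw [e]; group

theorem F5_hv {u : U K} (hu : u ∈ F5) {v : U K} (hv : v.x2 = 0) : F.N u * H.hv v = H.hv v * F.N u := by
  rw [mem_F5] at hu
  rw [H.hv_eq, hv, H.A2_zero, one_mul]
  exact ((Commute.mul_right (H.N_A3 ⟨hu.2.2.2.2.2.1, hu.2.2.2.2.2.2⟩ hu.2.2.2.2.1 _) (H.N_a u _)).mul_right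
    (H.c0 _ u ⟨hu.2.1, hu.2.2.2.2.2.1⟩)).mul_right (H.N_A6 hu.1 _)

theorem exists_u (b d : K) : ∃ u ∈ F5, ∃ v ∈ As, v.x2 = 0 ∧ v.x6 = 0 ∧
    F.N (X1 d) * H.A7 b * (F.N (X1 d))⁻¹ = H.A7 b * (H.hv v * F.N u) := by
  obtain ⟨v, e, hv, h2, h6⟩ : ∃ v, X1 d * X7 b * (X1 d)⁻¹ = X7 b * v ∧ v ∈ As ∧ v.x2 = 0 ∧ v.x6 = 0 :=
    ⟨(X7 b)⁻¹ * (X1 d * X7 b * (X1 d)⁻¹), by group, by simp only [mem_As, UE]; grind⟩
  have e1 := conj_t (F.N_mem_L (X1 d)) (H.tA7 b) (v := X7 b * v) (by rw [← e]; simp)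
  have e2 : H.A7 b * H.hv v * F.t * (H.A7 b * H.hv v)⁻¹ = F.t * F.N (X7 b * v) := by
    calc _ = H.A7 b * (H.hv v * F.t * (H.hv v)⁻¹) * (H.A7 b)⁻¹ := by group
      _ = H.A7 b * F.t * (H.A7 b)⁻¹ * (H.A7 b * F.N v * (H.A7 b)⁻¹) := by rw [H.t_hv hv]; group
      _ = _ := by rw [H.tA7, ← H.N_A7 hv.1 hv.2.1 h2 hv.2.2.1, map_mul]; group
  have h7 : ∀ u ∈ F5, Commute (H.A7 b) (F.N u) := fun u hu => (H.N_A7 hu.1 hu.2.1 hu.2.2.1 hu.2.2.2.1 b).symm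
  have h3 : ∀ u ∈ F5, Commute ((H.A7 b * H.hv v)⁻¹ * (F.N (X1 d) * H.A7 b * (F.N (X1 d))⁻¹)) (F.N u) := fun u hu =>
    ((h7 u hu).mul_left (F5_hv hu h2).symm).inv_left.mul_left (comm_conj (h7 ((X1 d)⁻¹ * u * X1 d) (by
      rw [mem_F5] at hu
      simp only [mem_F5, UE, hu]
      grind)) rfl (by simp [mul_assoc]))
  have h4 : Commute ((H.A7 b * H.hv v)⁻¹ * (F.N (X1 d) * H.A7 b * (F.N (X1 d))⁻¹)) (H.a 1) :=
    (Commute.mul_left (H.A7_a b 1) (H.w1.comm _ (H.hv_mem v) _ (H.a_mem 1))).inv_left.mul_left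
      ((Commute.mul_left (H.N_a _ 1) (H.A7_a b 1)).mul_left (Commute.inv_left (H.N_a _ 1)))
  generalize F.N (X1 d) * H.A7 b * (F.N (X1 d))⁻¹ = y at e1 h3 h4
  obtain ⟨u, e3 | e3⟩ := F.cen7 (c := (H.A7 b * H.hv v)⁻¹ * y) (by
    calc _ = (H.A7 b * H.hv v)⁻¹ * (y * F.t * y⁻¹) * y := by group
      _ = _ := by rw [e1, ← e2]; group) (fun s => h3 _ ⟨rfl, rfl, rfl, rfl, rfl, rfl, rfl⟩)
    (h3 _ ⟨rfl, rfl, rfl, rfl, rfl, rfl, rfl⟩)
  · exact ⟨u, mem_F5_of_comm fun p hp => F.inj (by rw [map_mul, map_mul, ← e3, (h3 p hp).eq]), v, hv, h2, h6,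
      by rw [← e3]; group⟩
  · exact absurd e3 (not_t h4)

theorem cw_X1 (b d : K) : Cw H (H.A7 b) (X1 d) := by
  choose u hu v hv h2 h6 e using exists_u (H := H) b
  have uq : ∀ {d v' u'}, v' ∈ As → F.N (X1 d) * H.A7 b * (F.N (X1 d))⁻¹ = H.A7 b * (H.hv v' * F.N u') → u d = u' :=
    fun h e' => (H.dec_inj (hv _) h (mul_left_cancel ((e _).symm.trans e'))).2
  obtain h7 := wt_inv F.big (f := fun d => (u d).x7) (fun d d' => by
    have h1 : F.N (X1 d) * H.hv (v d') = H.hv (v d') * F.N (X1 d) := by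
      rw [H.hv_eq, h2, h6, H.A2_zero, H.A6_zero, one_mul, mul_one]
      exact (Commute.mul_right (H.N_A3 ⟨rfl, rfl⟩ rfl _) (H.N_a _ _)).mul_right (H.c0 _ _ ⟨rfl, rfl⟩)
    have := uq (d := d + d') (u' := u d * (X1 d * u d' * (X1 d)⁻¹)) (mul_mem (hv d) (hv d')) (by
      rw [show (X1 (d + d') : U K) = X1 d * X1 d' by ext <;> simp only [UE], H.hv_mul (hv d) (hv d')]
      simp only [map_mul, map_inv]
      calc _ = F.N (X1 d) * (F.N (X1 d') * H.A7 b * (F.N (X1 d'))⁻¹) * (F.N (X1 d))⁻¹ := by group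
        _ = F.N (X1 d) * H.A7 b * (F.N (X1 d))⁻¹ * (F.N (X1 d) * H.hv (v d') * (F.N (X1 d))⁻¹) *
            (F.N (X1 d) * F.N (u d') * (F.N (X1 d))⁻¹) := by rw [e d']; group
        _ = H.A7 b * H.hv (v d) * (F.N (u d) * H.hv (v d')) * (F.N (X1 d) * F.N (u d') * (F.N (X1 d))⁻¹) := by
          rw [e d, h1]; group
        _ = _ := by rw [F5_hv (hu d) (h2 d')]; group)
    have a1 := hu d
    have a2 := hu d'
    rw [mem_F5] at a1 a2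
    simp only [this, UE, a1, a2]) (fun m hm d => by
    have h0 : θ (θ m) ≠ 0 := by simpa using hm
    obtain ⟨ν, hν⟩ := exists_l2 (inv_ne_zero h0)
    lift θ (θ m) to Kˣ using IsUnit.mk0 _ h0 with κ hκ
    have e1 : (κ : K) * (ν * σ (ν : K)) = 1 := by rw [hν, mul_inv_cancel₀ κ.ne_zero]
    have e2 : (κ : K) ^ 2 = m := by rw [hκ, ← σσ, σθ, σθ]
    have e3 : ζ κ (η ν (X1 d)) = X1 (m * d) := by
      have := ν.mul_inv
      have := congrArg σ this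
      simp only [UE] at this
      ext <;> simp only [ζ, UE]
      grind
    have e4 := H.T_A7 κ ν b
    rw [e1, one_mul] at e4
    have := uq (d := m * d) (v' := ζ κ (η ν (v d))) (u' := ζ κ (η ν (u d))) (by
      have := hv d
      rw [mem_As] at this
      simp only [mem_As, UE, ζ, this, and_self]) (by
        rw [← e3, ← H.l_hv, ← H.h_hv, ← F.lN, ← F.hN, ← F.lN, ← F.hN]
        conv_lhs => rw [← e4]
        conv_rhs => rw [← e4]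
        have := conj_conj (g := F.l κ * F.h ν) (e d)
        exact Eq.trans (by group) (this.trans (by group)))
    simp only [this, ζ, UE]
    rw [← mul_assoc, e1, one_mul]) d
  have a1 := hu d
  rw [mem_F5] at a1
  exact cw_A7 (mul_mem (H.hv_mem _) (H.N_memW (by simp only [mem_As, a1, h7, and_self]))) (e d)

end D31

open D31

namespace Hat5

variable {F : Fr K G} {H : Hat5 F.toRt} {μ μ₄ : K} {g g' : G} {q q' : U K}

theorem Qh.conj_mem (h : H.Qh μ g q) {x : G} (hx : x ∈ H.Wh) : g * x * g⁻¹ ∈ H.Wh := by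
  obtain ⟨v, hv, v', hv', rfl⟩ := H.dec hx
  rw [h.act v hv v' hv']
  exact mul_mem (mul_mem hx (H.a_mem _)) (H.N_memW (X4_As _))

theorem Qh.fix_aX (h : H.Qh μ g q) (c s : K) : g * (H.a c * F.N (X4 s)) * g⁻¹ = H.a c * F.N (X4 s) := by
  simpa [H.hv_X4, pr_X4, H.a_zero] using h.act _ (X4_As c) _ (X4_As s)

theorem Qh.mul (h : H.Qh μ g q) (h' : H.Qh μ g' q') : H.Qh μ (g * g') (q * q') := by
  refine ⟨mul_mem h.mem h'.mem, ?_, fun v hv v' hv' => ?_, fun p hp => ?_⟩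
  · obtain ⟨x, hx, e⟩ := h.tg
    obtain ⟨x', hx', e'⟩ := h'.tg
    obtain ⟨y, hy, e1⟩ := h.cQ q' h'.mem
    refine ⟨_, mul_mem (mul_mem (N_conj q' hx) hy) (h.conj_mem hx'), ?_⟩
    calc _ = g * (g' * F.t * g'⁻¹) * g⁻¹ := by group
      _ = g * F.t * g⁻¹ * (g * F.N q' * g⁻¹) * (g * x' * g⁻¹) := by rw [e']; group
      _ = _ := by rw [e, e1, map_mul]; group
  · calc _ = g * (g' * (H.hv v * F.N v') * g'⁻¹) * g⁻¹ := by group
      _ = g * (H.hv v * F.N v') * g⁻¹ * (g * (H.a (pr q' v + pr q' v') * F.N (X4 (μ * pr q' v))) * g⁻¹) := by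
        rw [h'.act v hv v' hv']; simp only [mul_assoc, inv_mul_cancel_left]
      _ = _ := by
        rw [h.act v hv v' hv', h.fix_aX, mul_assoc _ (H.a _), mul_assoc _ (_ * _) (_ * _), aX_mul, pr_mul h.mem,
          pr_mul h.mem, mul_add, add_add_add_comm, mul_assoc _ (H.a _)]
  · obtain ⟨x, hx, e⟩ := h.cQ p hp
    obtain ⟨x', hx', e'⟩ := h'.cQ p hp
    refine ⟨_, mul_mem hx (h.conj_mem hx'), ?_⟩
    calc _ = g * (g' * F.N p * g'⁻¹) * g⁻¹ := by group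
      _ = g * F.N p * g⁻¹ * (g * x' * g⁻¹) := by rw [e']; group
      _ = _ := by rw [e]; group

theorem Qh.inv (h : H.Qh μ g q) : H.Qh μ g⁻¹ q⁻¹ := by
  have h1 : ∀ x ∈ H.Wh, g⁻¹ * x⁻¹ * g ∈ H.Wh := fun x hx =>
    mem_smul.1 ((smul_eq_of_conj fun _ => h.conj_mem).ge (inv_mem hx))
  have h2 : ∀ p ∈ Qs, ∃ x ∈ H.Wh, g⁻¹ * F.N p * g⁻¹⁻¹ = F.N p * x := fun p hp => by
    obtain ⟨x, hx, e⟩ := h.cQ p hp
    refine ⟨_, h1 x hx, ?_⟩
    calc _ = g⁻¹ * (F.N p * x) * g * (g⁻¹ * x⁻¹ * g) := by group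
      _ = _ := by rw [← e]; group
  refine ⟨inv_mem h.mem, ?_, fun v hv v' hv' => ?_, h2⟩
  · obtain ⟨x, hx, e⟩ := h.tg
    obtain ⟨y, hy, e'⟩ := h2 _ (inv_mem h.mem)
    refine ⟨_, mul_mem (N_conj q⁻¹ (h1 x hx)) hy, ?_⟩
    calc _ = g⁻¹ * (F.t * F.N q * x) * g * (g⁻¹ * x⁻¹ * g) * (g⁻¹ * F.N q⁻¹ * g⁻¹⁻¹) := by rw [map_inv]; group
      _ = _ := by rw [← e, e']; group
  · have e := h.act v hv v' hv'
    rw [mul_assoc _ (H.a _), ← h.fix_aX] at e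
    rw [pr_inv h.mem, pr_inv h.mem, mul_assoc _ (H.a _), ← inv_W H (J_W (aX_J _ _))]
    generalize H.a (pr q v + pr q v') * F.N (X4 (μ * pr q v)) = j at e ⊢
    calc _ = g⁻¹ * (H.hv v * F.N v' * (g * j * g⁻¹)) * g * j⁻¹ := by group
      _ = _ := by rw [← e]; group

theorem Qh.conj (h : H.Qh μ g q) {m : G} (hm : m ∈ F.C) (e : m * F.N q * m⁻¹ = F.N q') :
    H.Qh μ (m * g * m⁻¹) q' := by
  have hq : q' ∈ Qs := by
    obtain ⟨v, hv, e'⟩ := Loc.conj_Q hm h.mem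
    exact F.inj (e'.symm.trans e) ▸ hv
  refine ⟨hq, ?_, fun v hv v' hv' => ?_, fun p hp => ?_⟩
  · obtain ⟨x, hx, e'⟩ := h.tg
    refine ⟨_, H.conj_memW hm hx, ?_⟩
    have := conj_conj (g := m) e'
    rw [F.t_conj (F.C_le hm)] at this
    rw [this, ← e]
    conv_rhs => rw [← F.t_conj (F.C_le hm)]
    group
  · obtain ⟨u, hu, e1⟩ := conj_As F.toRe (inv_mem hm) hv
    obtain ⟨u', hu', e2⟩ := conj_As F.toRe (inv_mem hm) hv'
    obtain ⟨s, e3⟩ := hinv H (inv_mem hm) hv e1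
    have e4 : m⁻¹ * (H.hv v * F.N v') * m = H.hv u * F.N (X4 s * u') := by
      rw [map_mul, ← mul_assoc (H.hv u), ← e3, ← e2]; group
    have e5 := h.act u hu _ (mul_mem (X4_As s) hu')
    rw [pr_X4_mul, ← e4, ← pr_conj hm h.mem hq hu hv e (by rw [← e1]; group),
      ← pr_conj hm h.mem hq hu' hv' e (by rw [← e2]; group)] at e5
    calc _ = m * (g * (m⁻¹ * (H.hv v * F.N v') * m) * g⁻¹) * m⁻¹ := by group
      _ = H.hv v * F.N v' * (m * H.a (pr q' v + pr q' v') * m⁻¹) * (m * F.N (X4 (μ * pr q' v)) * m⁻¹) := by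
        rw [e5]; simp only [mul_assoc, inv_mul_cancel_left, mul_inv_cancel_left]
      _ = _ := by rw [H.C_a hm, Loc.comm_Z hm, mul_inv_cancel_right]
  · obtain ⟨p', hp', e1⟩ := Loc.conj_Q (inv_mem hm) hp
    obtain ⟨x, hx, e2⟩ := h.cQ p' hp'
    refine ⟨_, H.conj_memW hm hx, ?_⟩
    calc _ = m * (g * (m⁻¹ * F.N p * m⁻¹⁻¹) * g⁻¹) * m⁻¹ := by group
      _ = _ := by rw [e1, e2, ← e1]; group

theorem Qh.lconj (h : H.Qh μ g q) (κ : Kˣ) : H.Qh μ (F.l κ * g * (F.l κ)⁻¹) (ζ κ q) := by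
  have hA : ∀ v ∈ As, ζ κ⁻¹ v ∈ As := fun v hv => by
    rw [mem_As] at hv
    simp only [mem_As, UE, ζ, hv, and_self]
  refine ⟨h.mem, ?_, fun v hv v' hv' => ?_, fun p hp => ?_⟩
  · obtain ⟨x, hx, e'⟩ := h.tg
    refine ⟨_, H.l_memW κ hx, ?_⟩
    have := conj_conj (g := F.l κ) e'
    rw [F.t_conj (F.l_mem κ)] at this
    rw [this, ← F.lN]
    conv_rhs => rw [← F.t_conj (F.l_mem κ)]
    group
  · have e := conj_conj (g := F.l κ) (h.act _ (hA v hv) _ (hA v' hv'))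
    rw [pr_ζ, pr_ζ, ← mul_add, ← H.la, mul_left_comm μ, show X4 (_ * (μ * pr q (ζ κ⁻¹ v))) =
      ζ κ (X4 (μ * pr q (ζ κ⁻¹ v))) by ext <;> simp only [ζ, UE], ← F.lN]
    rw [← H.l_hv, ← F.lN, map_inv] at e
    simpa only [mul_assoc, inv_inv, inv_mul_cancel_left, mul_inv_cancel_left, mul_inv_cancel, mul_one] using e
  · obtain ⟨x, hx, e2⟩ := h.cQ (ζ κ⁻¹ p) hp
    refine ⟨_, H.l_memW κ hx, ?_⟩
    rw [← F.lN, map_inv] at e2
    calc _ = F.l κ * (g * ((F.l κ)⁻¹ * F.N p * (F.l κ)⁻¹⁻¹) * g⁻¹) * (F.l κ)⁻¹ := by group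
      _ = _ := by rw [e2]; group

/-- `q` matters only modulo `As`. -/
theorem Qh.congr (h : H.Qh μ g q) (e : q⁻¹ * q' ∈ As) : H.Qh μ g q' := by
  obtain ⟨r, rfl⟩ : ∃ r, q' = q * r := ⟨q⁻¹ * q', by group⟩
  rw [inv_mul_cancel_left] at e
  obtain ⟨x, hx, e'⟩ := h.tg
  refine ⟨mul_mem h.mem (As_Qs e), ⟨_, mul_mem (inv_mem (H.N_memW e)) hx, by rw [e', map_mul]; group⟩,
    fun v hv v' hv' => ?_, h.cQ⟩
  rw [h.act v hv v' hv', pr_mul h.mem, pr_mul h.mem, pr_As e, pr_As e, add_zero, add_zero]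

theorem qh_one (h1 : ∃ x ∈ H.Wh, g * F.t * g⁻¹ = F.t * x) (h2 : ∀ x ∈ H.Wh, g * x = x * g)
    (h3 : ∀ p ∈ Qs, ∃ x ∈ H.Wh, g * F.N p * g⁻¹ = F.N p * x) : H.Qh μ g 1 :=
  ⟨one_mem _, by simpa using h1, fun v _ v' hv' => by
    simp [h2 _ (mul_mem (H.hv_mem v) (H.N_memW hv')), pr_one, H.a_zero], h3⟩

theorem qh_W (hg : g ∈ H.Wh) : H.Qh μ g 1 :=
  let ⟨_, hv, e⟩ := H.w1.tau g hg
  qh_one ⟨_, H.N_memW hv, e⟩ (H.w1.comm g hg) fun p _ => ⟨_, mul_mem (N_conj p hg) (inv_mem hg), by group⟩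

theorem qh_P (hq : q ∈ Ps) : H.Qh μ (F.N q) 1 := by
  refine qh_one ⟨1, one_mem _, by rw [F.t_conj (F.N_mem_L q), mul_one]⟩ (fun x hx => H.w1.cP x hx q hq) fun p hp =>
    ⟨_, H.N_memW (v := p⁻¹ * (q * p * q⁻¹)) ?_, by simp⟩
  rw [mem_Ps] at hq
  simp only [mem_As, UE, hq, hp.1, hp.2]
  grind

/-- The elements over `1`. -/
theorem Qh.ker (h : H.Qh μ g 1) : ∃ u ∈ Ps, ∃ v ∈ As, g = F.N u * H.hv v := by
  obtain ⟨x, hx, e⟩ := h.tg
  rw [map_one, mul_one] at e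
  obtain ⟨v, hv, rfl⟩ := H.w1.ker x hx (t_of_sq hx e)
  have h1 : ∀ x ∈ H.Wh, (H.hv v)⁻¹ * g * x = x * ((H.hv v)⁻¹ * g) := fun x hx => by
    refine Commute.mul_left (H.w1.comm _ (inv_mem (H.hv_mem v)) x hx) ?_
    obtain ⟨u, hu, u', hu', rfl⟩ := H.dec hx
    simpa [pr_one, H.a_zero, mul_inv_eq_iff_eq_mul, commute_iff_eq] using h.act u hu u' hu'
  obtain ⟨u, e1 | e1⟩ := F.cen6 (c := (H.hv v)⁻¹ * g) (by
    calc _ = (H.hv v)⁻¹ * (g * F.t * g⁻¹) * g := by group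
      _ = _ := by rw [e, ← H.t_hv hv]; group) (fun s => h1 _ (H.N_memW (X4_As s))) (h1 _ (H.N_memW (Ys_As (X6_Ys 1))))
  · have hu : u ∈ Ps := mem_Ps_of_comm fun p hp => F.inj (by rw [map_mul, map_mul, ← e1, h1 _ (H.N_memW hp)])
    exact ⟨u, hu, v, hv, by rw [H.w1.cP _ (H.hv_mem v) u hu, ← e1]; group⟩
  · exact absurd e1 (not_t (h1 _ (H.a_mem 1)))

theorem W3.qh_A7 (h : H.W3 μ μ₄) (f : K) : H.Qh μ (H.A7 f) (X7 f) := by
  have hZ : H.A7 f ∈ Zh H := n_Z (W_Z (H.A3_mem f))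
  refine ⟨⟨rfl, rfl⟩, ⟨1, one_mem _, by rw [H.tA7, mul_one]⟩, fun v hv v' hv' => ?_, fun p hp => ?_⟩
  · have e1 := conj_conj (g := F.n) (h.R5 f v.x2)
    have e2 := conj_conj (g := F.n) (H.L3 f v'.x2)
    rw [H.n_A8, H.n_A3, show ∀ x y z : G, F.n * (x * y * z) * F.n⁻¹ =
      F.n * x * F.n⁻¹ * (F.n * y * F.n⁻¹ * (F.n * z * F.n⁻¹)) from fun _ _ _ => by group, H.n_A3, H.n_A6, F.nX6] at e1
    rw [F.nX8, H.w_a5, H.n_A3, show ∀ x y : G, F.n * (x * y) * F.n⁻¹ =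
      F.n * x * F.n⁻¹ * (F.n * y * F.n⁻¹) from fun _ _ => by group, H.n_A3, H.n_A6] at e2
    have e3 := swap e1 (aX_J _ _) (W_Z (H.A2_mem _)) hZ
    have e4 := swap e2 (a_J _) (N_Z ⟨rfl, rfl, rfl⟩) hZ
    obtain ⟨j, hj, e5⟩ := hv_split H v
    obtain ⟨r, hr, h2, e6⟩ : ∃ r ∈ As, r.x2 = 0 ∧ v' = X2 v'.x2 * r :=
      ⟨(X2 v'.x2)⁻¹ * v', mul_mem (inv_mem (X2_As _)) hv', by
        rw [mem_As] at hv'; simp only [UE, hv'], by group⟩
    have e7 : H.A7 f * H.hv v * (H.A7 f)⁻¹ = H.hv v * (H.a (v.x2 * f) * F.N (X4 (μ * (v.x2 * f)))) := by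
      rw [e5]
      calc _ = H.A7 f * H.A2 v.x2 * (H.A7 f)⁻¹ * (H.A7 f * (H.A3 v.x3 * j) * (H.A7 f)⁻¹) := by group
        _ = _ := by
          rw [e3, ← mul_assoc (H.A7 f), ← h.R37, mul_assoc (H.A3 _), ← Zh.comm hZ hj, ← mul_assoc (H.A3 _),
            mul_inv_cancel_right, mul_assoc (H.A2 _), Zh.comm (W_Z (mul_mem (H.A3_mem _) (J_W hj))) (aX_J _ _)]
          simp only [mul_assoc]
    have e8 : H.A7 f * F.N v' * (H.A7 f)⁻¹ = F.N v' * H.a (v'.x2 * f) := by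
      conv_lhs => rw [e6, map_mul]
      conv_rhs => arg 1; rw [e6, map_mul]
      calc _ = H.A7 f * F.N (X2 v'.x2) * (H.A7 f)⁻¹ * (H.A7 f * F.N r * (H.A7 f)⁻¹) := by group
        _ = _ := by
          rw [e4, ← H.N_A7 hr.1 hr.2.1 h2 hr.2.2.1, mul_inv_cancel_right, mul_assoc, ← H.N_a, mul_assoc]
    have e9 := aX_mul (H := H) (v.x2 * f) (v'.x2 * f) (μ * (v.x2 * f)) 0
    rw [X4_zero, map_one, mul_one, add_zero] at e9
    calc _ = H.A7 f * H.hv v * (H.A7 f)⁻¹ * (H.A7 f * F.N v' * (H.A7 f)⁻¹) := by group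
      _ = _ := by
        rw [e7, e8, mul_assoc, ← mul_assoc _ (F.N v'), Zh.comm (N_Z (As_P0 hv')) (aX_J _ _), mul_assoc (F.N v'), e9]
        simp only [pr, UE, mul_comm f, mul_assoc]
  · obtain ⟨r, hr, e⟩ : ∃ r ∈ P0, p = X1 p.x1 * Y2 p.y2 * r :=
      ⟨(X1 p.x1 * Y2 p.y2)⁻¹ * p, by simp only [mem_P0, UE, hp.1]; grind, by group⟩
    obtain ⟨j, hj, e1⟩ := n_inv (H := H) p.y2 f
    obtain ⟨j', hj', e2⟩ := cj_P0' hr (H.A3_mem f)
    rw [e]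
    exact ((cw_X1 f _).mul (cw_A7 (J_W hj) e1)).mul (cw_A7 (J_W hj') e2)

end Hat5

end Cfsg.Agent.S2F
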