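import Cfsg.Agent.S2F.IIe1
import Cfsg.Agent.Solv.Coprime2

/-!
The elements over `Y4 r`.
-/

set_option autoImplicit false
set_option linter.unusedSectionVars false
set_option linter.unusedSimpArgs false
set_option maxRecDepth 20000

namespace Cfsg.Agent.S2F

open Subgroup Cfsg.Agent.Oct Cfsg.Agent.Fus
open scoped commutatorElement

variable {K : Type*} [Field K] [Tw K] [Finite K] {G : Type*} [Group G] [Finite G]

theorem eq_X4_of_fix (big : ∃ x : K, x ≠ 0 ∧ x ≠ 1) {v : U K} (hv : v ∈ As) (h : ∀ ν, η ν v = v) : v = X4 v.x4 := by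
  obtain ⟨x, h0, h1⟩ := big
  obtain ⟨ν, e1⟩ := exists_l2 h0
  have k3 := congrArg U.x2 (h ν⁻¹)
  have k4 := congrArg U.x3 (h (Units.mk0 x h0)⁻¹)
  have k5 := congrArg U.x5 (h (Units.mk0 x h0))
  have k7 := congrArg U.x6 (h ν)
  simp only [η, inv_inv, Units.val_mk0, e1] at k3 k4 k5 k7
  rw [mem_As] at hv
  ext <;> simp only [UE, hv] <;> grind

theorem mem_Ws_of_comm8 {v : U K} (hv : v ∈ As) (h1 : X8 1 * v = v * X8 1) (h2 : Y8 1 * v = v * Y8 1) : v ∈ Ws := by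
  rw [mem_As] at hv
  have a1 := congrArg U.x5 h1
  have a2 := congrArg U.x6 h1
  have a3 := congrArg U.x6 h2
  simp only [UE, hv] at a1 a2 a3
  simp only [mem_Ws, hv, true_and, and_true]
  grind

theorem Ws_le_As : (Ws : Subgroup (U K)) ≤ As := fun v hv => by
  rw [mem_Ws] at hv
  simp only [mem_As, hv, and_self]

namespace Hat5

variable {F : Fr K G} {H : Hat5 F.toRt} {μ μ₄ r s s' : K} {g g' y y' x : G} {q u : U K}

theorem Qh.cW (h : H.Qh μ g q) (hq : q ∈ Ps) {z : G} (hz : z ∈ H.Wh) : g * z = z * g := by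
  obtain ⟨v, hv, v', hv', rfl⟩ := H.dec hz
  have := h.act v hv v' hv'
  rw [mem_Ps] at hq
  simp only [pr, hq, zero_mul, add_zero, mul_zero, H.a_zero, X4_zero, map_one, mul_one] at this
  exact mul_inv_eq_iff_eq_mul.1 this

theorem exists_fixH (H : Hat5 F.toRt) (k : G) (h : ∀ ν, k⁻¹ * (F.h ν * k * (F.h ν)⁻¹) ∈ H.Wh) :
    ∃ x ∈ H.Wh, ∀ ν, F.h ν * (k * x) = k * x * F.h ν := by
  have h2 : IsPGroup 2 H.Wh := fun x => ⟨1, Subtype.ext (by simpa [pow_two] using H.w1.sq x x.2)⟩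
  obtain ⟨n, hn⟩ := h2.exists_card_eq
  have := Fintype.ofFinite K
  obtain ⟨m, -, hm⟩ := FiniteField.card K 2
  have h3 : Odd (Nat.card Kˣ) := by
    rw [Nat.card_units, Nat.card_eq_fintype_card, hm]
    exact Nat.Even.sub_odd (Nat.one_le_pow _ _ two_pos) (Nat.even_pow.2 ⟨even_two, m.ne_zero⟩) odd_one
  obtain ⟨x, hx, e⟩ := Solv.coprime_fixed_coset' F.h.range H.Wh
    (by rintro _ ⟨ν, rfl⟩; exact mem_normalizer_fintype fun x hx => H.conj_memW (F.h_mem ν) hx)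
    (by rw [hn]; exact (Nat.coprime_two_right.2 (h3.of_dvd_nat (card_range_dvd _))).pow_right n)
    (.inl (Group.isSolvable_of_comm (by
      rintro ⟨_, a, rfl⟩ ⟨_, b, rfl⟩
      exact Subtype.ext (by simp only [coe_mul, ← map_mul, mul_comm])))) k (by rintro _ ⟨ν, rfl⟩; exact h ν)
  exact ⟨x, hx, fun ν => e _ ⟨ν, rfl⟩⟩

theorem fixW (hx : x ∈ H.Wh) (h : ∀ ν, F.h ν * x = x * F.h ν) : ∃ c s, x = H.a c * F.N (X4 s) := by
  obtain ⟨v, hv, v', hv', rfl⟩ := H.dec hx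
  have key : ∀ ν, η ν v = v ∧ η ν v' = v' := fun ν => H.dec_inj (by
    rw [mem_As] at hv; simp only [mem_As, UE, hv, and_self]) hv (by
      rw [← H.h_hv, ← F.hN, ← mul_inv_eq_iff_eq_mul.2 (h ν)]; group)
  exact ⟨v.x4, v'.x4, by rw [← H.hv_X4, ← eq_X4_of_fix F.big hv fun ν => (key ν).1,
    ← eq_X4_of_fix F.big hv' fun ν => (key ν).2]⟩

variable (H) in
/-- `g ∈ Y4 s Ŵ`. -/
def Sv (g : G) (s : K) : Prop := ∃ x ∈ H.Wh, g = F.N (Y4 s) * x

theorem Y4_comm (s : K) (hx : x ∈ H.Wh) : F.N (Y4 s) * x = x * F.N (Y4 s) :=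
  H.w1.cP x hx _ (by simp only [mem_Ps, UE, and_self])

theorem Qh.sv (h : H.Qh μ g 1) : ∃ s, H.Sv g s := by
  obtain ⟨u, hu, v, -, rfl⟩ := h.ker
  rw [mem_Ps] at hu
  exact ⟨u.y4, F.N ((Y4 u.y4)⁻¹ * u) * H.hv v, mul_mem (H.N_memW (by simp only [mem_As, UE, hu, and_self]))
    (H.hv_mem v), by rw [map_mul, map_inv]; group⟩

theorem Sv.mul (h : H.Sv g s) (h' : H.Sv g' s') : H.Sv (g * g') (s + s') := by
  obtain ⟨x, hx, rfl⟩ := h
  obtain ⟨x', hx', rfl⟩ := h'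
  refine ⟨F.N (X4 (s * σ s')) * x * x', mul_mem (mul_mem (H.N_memW (by simp only [mem_As, UE, and_self])) hx) hx', ?_⟩
  rw [mul_assoc, ← mul_assoc x, ← Y4_comm s' hx, ← mul_assoc, ← mul_assoc, ← mul_assoc, ← mul_assoc, ← map_mul, ← map_mul,
    show Y4 s * Y4 s' = Y4 (s + s') * X4 (s * σ s') by ext <;> simp only [UE]]

theorem Sv.uniq (h : H.Sv g s) (h' : H.Sv g s') : s = s' := by
  obtain ⟨x, hx, rfl⟩ := h
  obtain ⟨x', hx', e⟩ := h'
  have h1 : F.N ((Y4 s')⁻¹ * Y4 s) = x' * x⁻¹ := by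
    rw [map_mul, map_inv, eq_mul_inv_iff_mul_eq, mul_assoc, e]; group
  obtain ⟨v, hv, e'⟩ := H.w1.ker _ (h1 ▸ mul_mem hx' (inv_mem hx)) (F.tN _).symm
  have := congrArg U.y4 (F.inj e')
  rw [mem_As] at hv
  simp only [UE, hv] at this
  grind

theorem Sv.mem (h : H.Sv g 0) : g ∈ H.Wh := by
  obtain ⟨x, hx, rfl⟩ := h
  simpa using hx

theorem Sv.conjC (h : H.Sv g s) {m : G} (hm : m ∈ F.C) (e : m * F.N (Y4 s) * m⁻¹ = F.N (Y4 s)) :
    H.Sv (m * g * m⁻¹) s := by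
  obtain ⟨x, hx, rfl⟩ := h
  exact ⟨_, H.conj_memW hm hx, by conv_rhs => rw [← e]
                                  group⟩

theorem Sv.conjQ (h : H.Sv g s) (h' : H.Qh μ g' q) : H.Sv (g' * g * g'⁻¹) s := by
  obtain ⟨x, hx, rfl⟩ := h
  obtain ⟨z, hz, e⟩ := h'.cQ (Y4 s) ⟨rfl, rfl⟩
  exact ⟨_, mul_mem hz (h'.conj_mem hx), by rw [← mul_assoc (F.N _), ← e]; group⟩

theorem hY4 (ν : Kˣ) (s : K) : F.h ν * F.N (Y4 s) * (F.h ν)⁻¹ = F.N (Y4 s) := by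
  rw [F.hN]; exact congrArg _ (by ext <;> simp only [UE])

variable (H μ) in
/-- The elements over `Y4 r` centralising the torus. -/
structure Uh (y : G) (r : K) : Prop where
  qh : H.Qh μ y (Y4 r)
  hc : ∀ ν, F.h ν * y = y * F.h ν

theorem Y4_mem_Ps (r : K) : Y4 r ∈ Ps := by simp only [mem_Ps, UE, and_self]

theorem Uh.cW (h : H.Uh μ y r) {z : G} (hz : z ∈ H.Wh) : y * z = z * y := h.qh.cW (Y4_mem_Ps r) hz

theorem Uh.mul (h : H.Uh μ y r) (h' : H.Uh μ y' s) : H.Uh μ (y * y') (r + s) :=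
  ⟨(h.qh.mul h'.qh).congr (by simp only [mem_As, UE, and_self]), fun ν => by
    rw [← mul_assoc, h.hc, mul_assoc, h'.hc, mul_assoc]⟩

theorem Uh.lconj (h : H.Uh μ y r) (κ : Kˣ) : H.Uh μ (F.l κ * y * (F.l κ)⁻¹) (σ (κ : K) * r) :=
  ⟨(h.qh.lconj κ).congr (by simp only [mem_As, UE, ζ, and_self]), fun ν =>
    comm_conj (h.hc ν) (by rw [F.lh, mul_inv_cancel_right]) rfl⟩

theorem Uh.wconj (h : H.Uh μ y r) : H.Uh μ (F.w * y * F.w⁻¹) r :=
  ⟨h.qh.conj F.w_mem (F.wY4 r), fun ν => comm_conj (h.hc ν⁻¹) (by rw [F.wh, map_inv, inv_inv]) rfl⟩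

theorem Uh.zero (h : H.Uh μ y 0) (b c : K) : F.N (Y8 b * X8 c) * y = y * F.N (Y8 b * X8 c) := by
  obtain ⟨s, x, hx, rfl⟩ := (show H.Qh μ y 1 from h.qh).sv
  obtain ⟨d, e, rfl⟩ := fixW hx fun ν => by
    have := h.hc ν
    rwa [← mul_assoc, mul_inv_eq_iff_eq_mul.1 (hY4 ν s), mul_assoc, mul_assoc, mul_right_inj] at this
  have c : ∀ u, Y8 b * X8 c * u = u * (Y8 b * X8 c) → Commute (F.N (Y8 b * X8 c)) (F.N u) := fun u hu => by
    rw [Commute, SemiconjBy, ← map_mul, ← map_mul, hu]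
  exact ((c _ (by ext <;> simp only [UE] <;> grind)).mul_right ((show Commute _ _ from H.N_a _ d).mul_right
    (c _ (by ext <;> simp only [UE])))).eq

theorem Qh.exists_uh {ξ : G} (h : H.Qh μ ξ (Y4 r)) : ∃ x ∈ H.Wh, H.Uh μ (ξ * x) r := by
  have key : ∀ ν, ξ⁻¹ * (F.h ν * ξ * (F.h ν)⁻¹) ∈ H.Wh := fun ν => by
    obtain ⟨κ, rfl⟩ : ∃ κ : Kˣ, ν = κ * κ := ⟨Units.map ((θ : K →+* K).comp θ).toMonoidHom ν, Units.ext (by
      change (ν : K) = θ (θ (ν : K)) * θ (θ (ν : K))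
      rw [← pow_two, ← σσ, σθ, σθ])⟩
    have h1 := h.inv.mul (h.conj (F.h_mem κ) (hY4 κ r))
    rw [inv_mul_cancel] at h1
    obtain ⟨s, hs⟩ := h1.sv
    have := hs.mul (hs.conjC (F.h_mem κ) (hY4 κ s))
    rw [CharTwo.add_self_eq_zero] at this
    simpa [mul_assoc] using this.mem
  obtain ⟨x, hx, e⟩ := H.exists_fixH ξ key
  exact ⟨x, hx, by simpa using h.mul (qh_W hx), e⟩

theorem Uh.mem8 (h : H.Uh μ y r) (b c : K) : F.N (Y8 b * X8 c) * y * (F.N (Y8 b * X8 c))⁻¹ * y⁻¹ ∈ H.Wh := by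
  have e8 : ∀ b c s : K, F.N (Y8 b * X8 c) * F.N (Y4 s) * (F.N (Y8 b * X8 c))⁻¹ = F.N (Y4 s) := fun b c s => by
    rw [← map_inv, ← map_mul, ← map_mul]; exact congrArg _ (by ext <;> simp only [UE] <;> grind)
  have ex : ∀ b c, ∃ s, H.Sv (F.N (Y8 b * X8 c) * y * (F.N (Y8 b * X8 c))⁻¹ * y⁻¹) s := fun b c => by
    have := (h.qh.conj (F.N_mem _) (e8 b c r)).mul h.qh.inv
    rw [mul_inv_cancel] at this
    exact this.sv
  choose f hf using ex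
  have add : ∀ b c b' c', f (b + b') (c + c' + b * σ b') = f b' c' + f b c := fun b c b' c' => (hf _ _).uniq (by
    have := ((hf b' c').conjC (F.N_mem _) (e8 b c _)).mul (hf b c)
    rw [show Y8 (b + b') * X8 (c + c' + b * σ b') = Y8 b * X8 c * (Y8 b' * X8 c') by ext <;> simp only [UE],
      map_mul _ (Y8 b * X8 c)]
    convert this using 1
    group)
  have inv : ∀ (ν : Kˣ) b c, f (σ (ν : K) * b) (σ (ν : K) * (ν : K) ^ 2 * c) = f b c := fun ν b c => (hf _ _).uniq (by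
    have := (hf b c).conjC (F.h_mem ν) (hY4 ν _)
    rw [show Y8 (σ (ν : K) * b) * X8 (σ (ν : K) * (ν : K) ^ 2 * c) = η ν (Y8 b * X8 c) by ext <;> simp only [UE],
      ← F.hN]
    convert this using 1
    conv_lhs => rw [← mul_inv_eq_iff_eq_mul.2 (h.hc ν)]
    group)
  have h1 : ∀ c, f 0 c = 0 := wt_inv F.big (fun c c' => by simpa [add_comm] using add 0 c 0 c') fun m hm c => by
    obtain ⟨ν, rfl⟩ := exists_l4 hm
    simpa [mul_comm] using inv ν 0 c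
  have h2 : ∀ b c, f b c = f b 0 := fun b c => by simpa [h1] using add b 0 0 c
  have h3 : ∀ b, f b 0 = 0 := wt_inv F.big (fun b b' => by rw [← h2 _ (0 + 0 + b * σ b'), add, add_comm])
    fun m hm b => by
      obtain ⟨ν, rfl⟩ := exists_lσ hm
      simpa using inv ν b 0
  have := hf b c
  rw [h2, h3] at this
  exact this.mem

theorem Uh.comm8 (h : H.Uh μ y r) (b c : K) : F.N (Y8 b * X8 c) * y = y * F.N (Y8 b * X8 c) := by
  obtain ⟨x, h0, h1⟩ := F.big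
  set m := F.N (Y8 b * X8 c) with hm
  have hl : ∀ κ, F.l κ * m * (F.l κ)⁻¹ = m := fun κ => by
    rw [hm, F.lN]; exact congrArg _ (by ext <;> simp only [UE, ζ])
  have mul : ∀ {y y' r}, H.Uh μ y r → m * y' * m⁻¹ * y'⁻¹ ∈ H.Wh →
      m * (y * y') * m⁻¹ * (y * y')⁻¹ = m * y * m⁻¹ * y⁻¹ * (m * y' * m⁻¹ * y'⁻¹) := fun {y y' r} h h' => by
    rw [mul_assoc _ y⁻¹, (show Commute _ _ from h.cW h').inv_left.eq]; group
  obtain ⟨v, hv, v', hv', e⟩ := H.dec (h.mem8 b c)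
  have hk : ∀ κ, m * (F.l κ * y * (F.l κ)⁻¹) * m⁻¹ * (F.l κ * y * (F.l κ)⁻¹)⁻¹ = H.hv (ζ κ v) * F.N (ζ κ v') := fun κ => by
    rw [← H.l_hv, ← F.lN]
    calc _ = F.l κ * (m * y * m⁻¹ * y⁻¹) * (F.l κ)⁻¹ := by
          conv_lhs => rw [← hl κ]
          group
      _ = _ := by rw [e]; group
  have a1 := h.lconj (Units.mk0 _ (add_one_ne h1))
  have a2 := h.lconj (Units.mk0 _ h0)
  have a3 := a1.mul (a2.mul h)
  rw [show σ ((Units.mk0 _ (add_one_ne h1) : Kˣ) : K) * r + (σ ((Units.mk0 _ h0 : Kˣ) : K) * r + r) = 0 by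
    simp only [Units.val_mk0, UE]; grind] at a3
  have a4 := mul a1 ((a2.mul h).mem8 b c)
  have hζ : ∀ κ (v : U K), v ∈ As → ζ κ v ∈ As := fun κ v hv => by
    rw [mem_As] at hv; simp only [mem_As, ζ, hv, mul_zero, and_self]
  have cm : ∀ a b a' b' : U K, b ∈ As → a ∈ As → a' ∈ As →
      H.hv a * F.N b * (H.hv a' * F.N b') = H.hv (a * a') * F.N (b * b') := fun a b a' b' hb ha ha' => by
    rw [H.hv_mul ha ha', map_mul, mul_assoc, ← mul_assoc (F.N b), H.w1.comm _ (H.N_memW hb) _ (H.hv_mem a')]; group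
  rw [a3.zero, mul a2 (h.mem8 b c), hk, hk, e, mul_inv_cancel_right, mul_inv_cancel, cm _ _ _ _ (hζ _ _ hv') (hζ _ _ hv) hv,
    cm _ _ _ _ (hζ _ _ hv') (hζ _ _ hv) (mul_mem (hζ _ _ hv) hv), ← mul_one (1 : G)] at a4
  nth_rw 1 [← H.hv_one, ← map_one F.N] at a4
  obtain ⟨b1, b2⟩ := H.dec_inj (one_mem _) (mul_mem (hζ _ _ hv) (mul_mem (hζ _ _ hv) hv)) a4
  have key : ∀ v : U K, v ∈ As → 1 = ζ (Units.mk0 _ (add_one_ne h1)) v * (ζ (Units.mk0 _ h0) v * v) → v = 1 :=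
    fun v hv e => by
      rw [mem_As] at hv
      have c1 := σ_ne_self h0 h1
      have c2 := σ_ne_sq h0 h1
      simp only [U.ext_iff, UE, ζ, hv, Units.val_mk0] at e
      ext <;> simp only [UE, hv] <;> grind
  rw [key v hv b1, key v' hv' b2, H.hv_one, map_one, mul_one, mul_inv_eq_one, mul_inv_eq_iff_eq_mul] at e
  exact e

theorem Uh.commX8 (h : H.Uh μ y r) (c : K) : F.N (X8 c) * y = y * F.N (X8 c) := by simpa using h.comm8 0 c
theorem Uh.commY8 (h : H.Uh μ y r) (b : K) : F.N (Y8 b) * y = y * F.N (Y8 b) := by simpa using h.comm8 b 0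

theorem Uh.commw (h : H.Uh μ y r) : F.w * y = y * F.w := by
  have h1 := comm_conj (h.wconj.commX8 1) F.rel (Re.w_symm rfl)
  have h2 := h.commY8 1
  calc _ = F.N (Y8 1) * ((F.N (Y8 1))⁻¹ * F.w * F.N (Y8 1) * y) * (F.N (Y8 1))⁻¹ *
        (F.N (Y8 1) * y⁻¹ * (F.N (Y8 1))⁻¹ * y) := by group
    _ = F.N (Y8 1) * y * (F.N (Y8 1))⁻¹ * F.w * (F.N (Y8 1) * y⁻¹ * (F.N (Y8 1))⁻¹ * y) := by rw [h1]; group
    _ = _ := by rw [h2, (show Commute _ _ from h2).inv_right.eq]; group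

theorem lin6 {δ : K → G} (h1 : ∀ f, δ f ∈ H.Wh) (h2 : ∀ f, F.N (X8 1) * δ f = δ f * F.N (X8 1))
    (h3 : ∀ f, F.N (Y8 1) * δ f = δ f * F.N (Y8 1))
    (h4 : ∀ f f', (∀ f c, δ f * H.A7 c = H.A7 c * δ f) → (∀ f c, δ f * F.N (X7 c) = F.N (X7 c) * δ f) →
      δ (f + f') = δ f * δ f')
    (h5 : ∀ (ν : Kˣ) f, F.h ν * δ f * (F.h ν)⁻¹ = δ ((ν : K) * σ (ν : K) * f)) :
    ∃ g₀ g₁, ∀ f, δ f = F.N (X6 (g₀ * f)) * H.A6 (g₁ * f) := by
  have hW : ∀ v : U K, v ∈ Ws → H.hv v = H.a v.x4 * H.A6 v.x6 := fun v hv => by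
    rw [mem_Ws] at hv
    simp [hv_eq, hv, H.A2_zero, H.A3_zero, H.a5_zero]
  have ex : ∀ f, ∃ v ∈ Ws, ∃ v' ∈ Ws, δ f = H.hv v * F.N v' := fun f => by
    obtain ⟨v, hv, v', hv', e⟩ := H.dec (h1 f)
    have k1 : ∀ u, F.N u * δ f = δ f * F.N u → u * v = v * u := fun u h => by
      have := conj_t (F.N_mem_L u) (H.t_dec (v' := v') hv) (v := u * v * u⁻¹) (by simp)
      rw [← e, h, mul_inv_cancel_right, e, H.t_dec hv, mul_right_inj] at this
      exact mul_inv_eq_iff_eq_mul.1 (F.inj this).symm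
    have hw := mem_Ws_of_comm8 hv (k1 _ (h2 f)) (k1 _ (h3 f))
    have k2 : ∀ u ∈ Rs, F.N u * δ f = δ f * F.N u → u * v' = v' * u := fun u hu h => F.inj (by
      rw [e, hW v hw, ← mul_assoc, ← mul_assoc, H.N_a, mul_assoc (H.a _), H.N_A6 hu] at h
      simpa [mul_assoc] using h)
    exact ⟨v, hw, v', mem_Ws_of_comm8 hv' (k2 _ rfl (h2 f)) (k2 _ rfl (h3 f)), e⟩
  choose v hv v' hv' e using ex
  have add := fun f f' => h4 f f' (fun f c => by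
    have := hv' f
    rw [mem_Ws] at this
    rw [e, hW _ (hv f), mul_assoc, H.N_A7 this.1 this.2.1 this.2.2.1 this.2.2.2.2.1, ← mul_assoc, mul_assoc (H.a _),
      ← H.A7_A6, ← mul_assoc, ← H.A7_a]
    group) fun f c => by
      have := hv' f
      rw [mem_Ws] at this
      rw [e, hW _ (hv f), mul_assoc, ← map_mul, show v' f * X7 c = X7 c * v' f by ext <;> simp only [UE, this], map_mul,
        ← mul_assoc, mul_assoc (H.a _), ← H.N_A6 (u := X7 c) rfl, ← mul_assoc, ← H.N_a]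
      group
  have k1 : ∀ f f', v (f + f') = v f * v f' ∧ v' (f + f') = v' f * v' f' := fun f f' =>
    H.dec_inj (Ws_le_As (hv _)) (Ws_le_As (mul_mem (hv _) (hv _))) (by
      rw [← e, add, e, e, H.hv_mul (Ws_le_As (hv _)) (Ws_le_As (hv _)), map_mul, mul_assoc, ← mul_assoc (F.N _),
        H.w1.comm _ (H.N_memW (Ws_le_As (hv' _))) _ (H.hv_mem _)]
      group)
  have k2 : ∀ (ν : Kˣ) f, v ((ν : K) * σ (ν : K) * f) = η ν (v f) ∧ v' ((ν : K) * σ (ν : K) * f) = η ν (v' f) :=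
    fun ν f => H.dec_inj (Ws_le_As (hv _)) (by
      have := hv f
      rw [mem_Ws] at this
      simp only [mem_As, UE, this, and_self]) (by rw [← e, ← h5, e, ← H.h_hv, ← F.hN]; group)
  have key : ∀ v : K → U K, (∀ f, v f ∈ Ws) → (∀ f f', v (f + f') = v f * v f') →
      (∀ (ν : Kˣ) f, v ((ν : K) * σ (ν : K) * f) = η ν (v f)) → ∀ f, v f = X6 ((v 1).x6 * f) := fun v hv h1 h2 f => by
    have a4 : (v f).x4 = 0 := wt_inv (f := fun f => (v f).x4) F.big (fun a b => by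
      have a1 := hv a
      have a2 := hv b
      rw [mem_Ws] at a1 a2
      simp only [h1, UE, a1, a2]) (fun m hm a => by
        obtain ⟨ν, rfl⟩ := exists_l2 hm
        simp only [h2, UE]) f
    have a6 : (v f).x6 = (v 1).x6 * f := by
      by_cases hf : f = 0
      · have := h1 0 0
        rw [add_zero, left_eq_mul] at this
        simp [hf, this]
      · obtain ⟨ν, rfl⟩ := exists_l2 hf
        have := congrArg U.x6 (h2 ν 1)
        simp only [UE] at this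
        rw [this, mul_comm]
    have := hv f
    rw [mem_Ws] at this
    ext <;> simp only [UE, this, a4, a6]
  refine ⟨(v' 1).x6, (v 1).x6, fun f => ?_⟩
  rw [e, key v hv (fun f f' => (k1 f f').1) (fun ν f => (k2 ν f).1) f,
    key v' hv' (fun f f' => (k1 f f').2) (fun ν f => (k2 ν f).2) f, H.hv_X6, H.N_A6 rfl]

theorem Uh.x7 (h : H.Uh μ y r) : ∃ g₀, ∀ f, y * F.N (X7 f) * y⁻¹ = F.N (X7 f) * F.N (X6 (g₀ * f)) * H.A6 (r * f) := by
  have cm : ∀ {m : G} {f}, m * y = y * m → m * F.N (X7 f) = F.N (X7 f) * m →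
      m * ((F.N (X7 f))⁻¹ * (y * F.N (X7 f) * y⁻¹)) = (F.N (X7 f))⁻¹ * (y * F.N (X7 f) * y⁻¹) * m := fun h1 h2 =>
    ((show Commute _ _ from h2).inv_right.mul_right (((show Commute _ _ from h1).mul_right h2).mul_right
      (show Commute _ _ from h1).inv_right)).eq
  obtain ⟨g₀, g₁, e⟩ := lin6 (H := H) (δ := fun f => (F.N (X7 f))⁻¹ * (y * F.N (X7 f) * y⁻¹))
    (fun f => by
      obtain ⟨x, hx, e⟩ := h.qh.cQ (X7 f) ⟨rfl, rfl⟩
      simpa [e] using hx)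
    (fun f => cm (h.commX8 1) (by rw [← map_mul, ← map_mul]; exact congrArg _ (by ext <;> simp only [UE])))
    (fun f => cm (h.commY8 1) (by rw [← map_mul, ← map_mul]; exact congrArg _ (by ext <;> simp only [UE])))
    (fun f f' _ h2 => by
      rw [← mul_assoc (_ * _) (F.N (X7 f'))⁻¹, (show Commute _ _ from h2 f f').inv_right.eq,
        show X7 (f + f') = X7 f * X7 f' by ext <;> simp only [UE], map_mul]
      group)
    fun ν f => by
      rw [show X7 ((ν : K) * σ (ν : K) * f) = η ν (X7 f) by ext <;> simp only [UE], ← F.hN]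
      conv_rhs => rw [← mul_inv_eq_iff_eq_mul.2 (h.hc ν)]
      group
  have e' : ∀ f, y * F.N (X7 f) * y⁻¹ = F.N (X7 f) * F.N (X6 (g₀ * f)) * H.A6 (g₁ * f) := fun f => by
    rw [mul_assoc (F.N _), ← e]; group
  obtain ⟨x, hx, ex⟩ := h.qh.tg
  obtain ⟨c, s, rfl⟩ := fixW hx fun ν => by
    have c0 : Commute (F.h ν) F.t := (F.tL _ (F.h_mem_L ν)).symm
    have c1 := ((show Commute _ _ from h.hc ν).mul_right c0).mul_right (show Commute _ _ from h.hc ν).inv_right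
    rw [ex] at c1
    have := ((c0.mul_right (mul_inv_eq_iff_eq_mul.1 (hY4 ν r))).inv_right.mul_right c1).eq
    rwa [inv_mul_cancel_left] at this
  have c1 : ∀ u, Commute (F.N u) F.t := fun u => (F.tN u).symm
  have c2 : Commute (H.a c * F.N (X4 s)) (F.N (X7 1) * F.N (X6 (g₀ * 1)) * H.A6 (g₁ * 1)) :=
    Commute.mul_right (Commute.mul_left (by rw [← map_mul]; exact (H.N_a _ c).symm) (by
      rw [Commute, SemiconjBy, ← map_mul, ← map_mul, ← map_mul]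
      exact congrArg _ (by ext <;> simp only [UE]))) (H.w1.comm _ hx _ (H.A6_mem _))
  have key : F.N (Y4 r * (X7 1 * X6 (g₀ * 1)) * (Y4 r)⁻¹) * H.A6 (g₁ * 1) =
      F.N (X7 1 * X6 (g₀ * 1) * X6 (g₁ * 1)) * H.A6 (g₁ * 1) := by
    simp only [map_mul, map_inv]
    calc _ = F.N (Y4 r) * (H.a c * F.N (X4 s) * (F.N (X7 1) * F.N (X6 (g₀ * 1)) * H.A6 (g₁ * 1)) * (H.a c * F.N (X4 s))⁻¹) *
            (F.N (Y4 r))⁻¹ := by
          rw [c2.eq, mul_inv_cancel_right, mul_assoc _ (F.N (Y4 r))⁻¹,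
            (show Commute _ _ from H.N_A6 (u := Y4 r) rfl _).inv_left.eq]
          group
      _ = F.t⁻¹ * (y * F.t * y⁻¹) * (y * F.N (X7 1) * y⁻¹) * (F.t⁻¹ * (y * F.t * y⁻¹))⁻¹ := by rw [ex, e']; group
      _ = F.t⁻¹ * (y * (F.t * F.N (X7 1) * F.t⁻¹) * y⁻¹) * F.t := by group
      _ = F.t⁻¹ * (F.N (X7 1) * F.N (X6 (g₀ * 1))) * (H.A6 (g₁ * 1) * F.t * (H.A6 (g₁ * 1))⁻¹) * H.A6 (g₁ * 1) := by
          rw [F.tN, mul_inv_cancel_right, e']; group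
      _ = _ := by rw [H.tA6, ← ((c1 _).mul_left (c1 _)).inv_right.eq]; group
  have := congrArg U.x6 (F.inj (mul_right_cancel key))
  simp only [UE] at this
  exact ⟨g₀, by rwa [show r = g₁ by grind]⟩

theorem jac7 {y B P x δ ε z z' : G} (h1 : B * P * B⁻¹ = P * x) (h2 : y * B * y⁻¹ = B * δ) (h3 : y * P * y⁻¹ = P * ε)
    (h4 : y * x = x * y) (h5 : P * δ * P⁻¹ = δ * z) (h6 : B * ε * B⁻¹ = ε * z') (c1 : δ * ε = ε * δ) (c2 : x * ε = ε * x)
    (c3 : Commute z B) (c4 : Commute z δ) (c5 : Commute z ε) (c6 : Commute z P) : z = z' := by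
  have e := conj_conj (g := y) h1
  rw [h2, h3, show y * (P * x) * y⁻¹ = y * P * y⁻¹ * (y * x * y⁻¹) by group, h3, h4, mul_inv_cancel_right] at e
  refine mul_left_cancel (a := P * ε * x) ?_
  calc P * ε * x * z = B * δ * P * (ε * δ⁻¹ * B⁻¹ * z) := by rw [← e]; group
    _ = B * (δ * z) * P * (ε * δ⁻¹ * B⁻¹) := by
        rw [← ((c5.mul_right c4.inv_right).mul_right c3.inv_right).eq, ← mul_assoc, mul_assoc _ P z, ← c6.eq]; group
    _ = B * P * (δ * ε) * δ⁻¹ * B⁻¹ := by rw [← h5]; group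
    _ = B * P * B⁻¹ * (B * ε * B⁻¹) := by rw [c1]; group
    _ = _ := by rw [h1, h6, mul_assoc P, ← mul_assoc x, c2]; group

theorem Uh.a7 (hW : H.W3 μ μ₄) (h : H.Uh μ y r) :
    ∃ g₀ g₁, ∀ f, y * H.A7 f * y⁻¹ = H.A7 f * (F.N (X6 (g₀ * f)) * H.A6 (g₁ * f)) := by
  have hh : ∀ (ν : Kˣ) f, F.h ν * ((H.A7 f)⁻¹ * (y * H.A7 f * y⁻¹)) * (F.h ν)⁻¹ =
      (H.A7 ((ν : K) * σ (ν : K) * f))⁻¹ * (y * H.A7 ((ν : K) * σ (ν : K) * f) * y⁻¹) := fun ν f => by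
    rw [← H.h_A7]
    conv_rhs => rw [← mul_inv_eq_iff_eq_mul.2 (h.hc ν)]
    group
  have ex : ∀ f, ∃ s, H.Sv ((H.A7 f)⁻¹ * (y * H.A7 f * y⁻¹)) s := fun f =>
    Qh.sv (μ := μ) (((hW.qh_A7 f).inv.mul ((h.qh.mul (hW.qh_A7 f)).mul h.qh.inv)).congr
      (by simp only [mem_As, UE, and_self]))
  choose s hs using ex
  have s0 : ∀ f, s f = 0 := wt_inv F.big (fun f f' => (hs _).uniq (by
    have := ((hs f).conjQ (hW.qh_A7 f').inv).mul (hs f')
    rw [H.A7_add]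
    convert this using 1
    group)) fun m hm f => by
      obtain ⟨ν, rfl⟩ := exists_l2 hm
      exact (hs _).uniq (hh ν f ▸ (hs f).conjC (F.h_mem ν) (hY4 ν _))
  have cm : ∀ {m : G} {f}, m * y = y * m → m * H.A7 f = H.A7 f * m →
      m * ((H.A7 f)⁻¹ * (y * H.A7 f * y⁻¹)) = (H.A7 f)⁻¹ * (y * H.A7 f * y⁻¹) * m := fun h1 h2 =>
    ((show Commute _ _ from h2).inv_right.mul_right (((show Commute _ _ from h1).mul_right h2).mul_right
      (show Commute _ _ from h1).inv_right)).eq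
  obtain ⟨g₀, g₁, e⟩ := lin6 (H := H) (δ := fun f => (H.A7 f)⁻¹ * (y * H.A7 f * y⁻¹))
    (fun f => (s0 f ▸ hs f).mem) (fun f => cm (h.commX8 1) (H.N_A7 rfl rfl rfl rfl f))
    (fun f => cm (h.commY8 1) (H.N_A7 rfl rfl rfl rfl f))
    (fun f f' h2 _ => by
      rw [← mul_assoc (_ * _) (H.A7 f')⁻¹, (show Commute _ _ from h2 f f').inv_right.eq, H.A7_add]
      group) hh
  exact ⟨g₀, g₁, fun f => by rw [← e]; group⟩

theorem Uh.a7' (hW : H.W3 μ μ₄) (h : H.Uh μ y r) :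
    ∃ g₀, ∀ f, y * H.A7 f * y⁻¹ = H.A7 f * F.N (X6 (μ * r * f)) * H.A6 ((g₀ + r) * f) := by
  obtain ⟨g₀, e0⟩ := h.x7
  obtain ⟨k₀, k₁, e1⟩ := h.a7 hW
  obtain ⟨x, hx, e2⟩ := (hW.qh_A7 1).cQ (X1 1) ⟨rfl, rfl⟩
  have m2 : ∀ c : K, X2 c ∈ As := fun c => by simp only [mem_As, UE, and_self]
  have m4 : ∀ c : K, X4 c ∈ As := fun c => by simp only [mem_As, UE, and_self]
  have m6 : ∀ c : K, X6 c ∈ As := fun c => by simp only [mem_As, UE, and_self]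
  have e3 : y * F.N (X1 1) * y⁻¹ = F.N (X1 1) * (H.hv (X2 r) * F.N (X2 g₀)) := by
    have := conj_conj (g := F.w) (e0 1)
    rw [h.commw, mul_inv_cancel_right, F.wX7] at this
    rw [this, H.hv_X2, ← H.N_A2 ⟨rfl, rfl⟩ rfl, ← F.wX7, ← F.wX6, ← H.w_A6, mul_one, mul_one]
    group
  have n1 := mul_mem (H.N_memW (m6 (k₀ * 1))) (H.A6_mem (k₁ * 1))
  have n2 := mul_mem (H.hv_mem (X2 r)) (H.N_memW (m2 g₀))
  have n3 := mul_mem (H.hv_mem (X4 k₁)) (H.N_memW (m4 k₀))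
  have := jac7 e2 (e1 1) e3 (h.cW hx) (z := H.hv (X4 k₁) * F.N (X4 k₀))
    (z' := H.hv (X4 (pr (X7 1) (X2 r) + pr (X7 1) (X2 g₀))) * F.N (X4 (μ * pr (X7 1) (X2 r)))) (by
      rw [show ∀ a b c : G, a * (b * c) * a⁻¹ = a * b * a⁻¹ * (a * c * a⁻¹) from fun _ _ _ => by group, H.X1_A6,
        ← map_inv, ← map_mul, ← map_mul, show X1 1 * X6 (k₀ * 1) * (X1 1)⁻¹ = X6 (k₀ * 1) * X4 k₀ by
          ext <;> simp only [UE], map_mul, H.hv_X4, mul_one k₁, mul_one k₁, ← H.N_a, mul_assoc, ← mul_assoc (F.N (X4 _)),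
        H.N_A6 (u := X4 k₀) rfl]
      group)
    (by rw [(hW.qh_A7 1).act _ (m2 _) _ (m2 _), H.hv_X4, mul_assoc])
    (H.w1.comm _ n1 _ n2) (H.w1.comm _ hx _ n2)
    (Commute.mul_left (by rw [H.hv_X4]; exact (H.A7_a _ _).symm) (H.N_A7 rfl rfl rfl rfl _))
    (H.w1.comm _ n3 _ n1) (H.w1.comm _ n3 _ n2)
    (Commute.mul_left (by rw [H.hv_X4]; exact (H.N_a _ _).symm) (by
      rw [Commute, SemiconjBy, ← map_mul, ← map_mul]; exact congrArg _ (by ext <;> simp only [UE])))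
  obtain ⟨b1, b2⟩ := H.dec_inj (m4 _) (m4 _) this
  have b1 := congrArg U.x4 b1
  have b2 := congrArg U.x4 b2
  simp only [UE, pr] at b1 b2
  exact ⟨g₀, fun f => by rw [e1, b1, b2, add_comm g₀, mul_assoc (H.A7 f)]⟩

end Hat5

theorem Hat5.W3.exists_y {F : Fr K G} {H : Hat5 F.toRt} {μ μ₄ : K} (h : H.W3 μ μ₄) {ξ : G} {q : U K}
    (hξ : H.Qh μ ξ q) (hq : q ∈ Ps) (hr : q.y4 ≠ 0) :
    ∃ x ∈ H.Wh, ∃ g₀ : K, (∀ z ∈ H.Wh, ξ * x * z = z * (ξ * x)) ∧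
      (∀ c, ξ * x * F.N (X8 c) = F.N (X8 c) * (ξ * x)) ∧ ξ * x * F.w = F.w * (ξ * x) ∧
      ∀ f, ξ * x * H.A7 f * (ξ * x)⁻¹ = H.A7 f * F.N (X6 (μ * q.y4 * f)) * H.A6 ((g₀ + q.y4) * f) := by
  obtain ⟨x, hx, hy⟩ := (hξ.congr (q' := Y4 q.y4) (by
    rw [mem_Ps] at hq
    simp only [mem_As, UE, hq, and_self])).exists_uh
  obtain ⟨g₀, e⟩ := hy.a7' h
  exact ⟨x, hx, g₀, fun z hz => hy.cW hz, fun c => (hy.commX8 c).symm, hy.commw.symm, e⟩

end Cfsg.Agent.S2F
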