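import Cfsg.Agent.S2F.IIe2

/-!
`μ = 0`.

Notation `x_i (e₀ + e₁ ε) = X_i e₀ * A_i e₁`, `ε² = ε + μ`, `σ̂ (e₀ + e₁ ε) = σ e₀ + σ e₁ (ε + β)`.
Fix `p ∉ {0,1}`, `(a, b) = (1, p)`, `(a', b') = (p, 1)`, `E a b = X8 a (A1 b) (X8 a)⁻¹`, over `q a b = X8 a X1 b (X8 a)⁻¹` (`x1 = b, y4 = a σ b, y6 = a b, x7 = σ a b, y2 = 0`)
by `qh_A7`, `Qh.conj` (`w`, then `X8 a`).  `ξ = E a b * E a' b' * A1 (b + b') * A7 f`, `f = σ a b + σ a' b'`, lies over `q ∈ Ps` with `q.y4 = r = a σ b + a' σ b' = σ p + p ≠ 0`.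
Take `y = ξ x`, `g₀` from `exists_y`; let `e = e₀ + e₁ ε`, `e₀ = μ r`, `e₁ = g₀ + r`.  `y` commutes with `x` and `y`, so `y ξ y⁻¹ = ξ`.
`y (A7 f) y⁻¹ = A7 f x₆ (e f)`, (conjugate by `w`) `y (A1 d) y⁻¹ = A1 d x₂ (e d)`, `y (E a b) y⁻¹ = E a b * z a b`,
`z a b = X8 a x₂ (e b) (X8 a)⁻¹ = x₂ (e b) x₄ (a σ̂ (e b)) x₅ (e a b) x₆ (e σ a b)` (`L2`, `⁅X8, X2⁆`).  So
`ξ = E z₁ E' z₂ A1 z₃ A7 z₄`; move the `z_i ∈ Ŵ` to the right with `Qh.act`/`Qh.inv` (`g⁻¹ z g = z x₄ (ε pr q z)`, `pr` extended `K[ε]`-linearly): the corrections are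
`z₁` past `E' A1 A7` (over `≡ q a b` mod `Ps`): `pr = e (b σ a b + σ a b b) = 0`; `z₂` past `A1 A7`: `e b b' (σ a + σ a')`; `z₃` past `A7`: `e f (b + b')`; total `e σ r`
(`σ r = σ a b² + σ a' b'²`).  `z₁ z₂ z₃ z₄ = x₄ (r σ̂ e)`.  Hence `r σ̂ e = σ r ε e` (`dec_inj`), i.e. `r σ e₁ = σ r (e₀ + e₁)` and `r (σ e₀ + β σ e₁) = σ r μ e₁`.
Put `e₁ = r s₁`: `σ s₁ = s₁ + μ`, `σ μ + β σ s₁ = μ s₁`; `σ μ = σ s₁ + s₁²`.  `β = 0`: `σ s₁ (1 + s₁) = 0`; `β = 1`: `s₁ σ s₁ = 0`.  So `s₁ ∈ {0, 1}`, `μ = 0`.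
-/

set_option autoImplicit false
set_option linter.unusedSectionVars false
set_option linter.unusedSimpArgs false
set_option maxRecDepth 20000

namespace Cfsg.Agent.S2F

open Subgroup Cfsg.Agent.Oct Cfsg.Agent.Fus
open scoped commutatorElement

variable {K : Type*} [Field K] [Tw K] [Finite K] {G : Type*} [Group G] [Finite G]

theorem mu_alg {μ β r e : K} (hr : r ≠ 0) (hβ : β = 0 ∨ β = 1) (e1 : r * σ e = σ r * (μ * r + e))
    (e2 : r * (σ μ * σ r + β * σ e) = σ r * (μ * e)) : μ = 0 := by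
  obtain ⟨s, rfl⟩ : ∃ s, e = r * s := ⟨e / r, (mul_div_cancel₀ e hr).symm⟩
  have hr' : r * σ r ≠ 0 := fun e => hr (mul_σ_eq_zero e)
  rw [map_mul] at e1 e2
  have h1 : σ s = μ + s := mul_left_cancel₀ hr' (by linear_combination e1)
  have h2 : σ μ + β * σ s = μ * s := mul_left_cancel₀ hr' (by linear_combination e2)
  have h3 := congrArg σ h1
  simp only [UE] at h3
  have h4 : s = 0 ∨ s = 1 := by
    rcases hβ with rfl | rfl
    · exact (mul_eq_zero.1 (show σ s * (s + 1) = 0 by grind)).imp σ_eq_zero.1 (by grind)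
    · exact .inl (mul_σ_eq_zero (by grind))
  rcases h4 with rfl | rfl <;> simp only [UE] at h1 <;> grind

namespace Hat5

variable {F : Fr K G} (H : Hat5 F.toRt)

theorem mu_mul {v v' u u' : U K} (hv : v ∈ As) (hv' : v' ∈ As) (hu : u ∈ As) :
    H.hv v * F.N v' * (H.hv u * F.N u') = H.hv (v * u) * F.N (v' * u') := by
  rw [H.hv_mul hv hu, map_mul, mul_assoc, ← mul_assoc (F.N v'), H.w1.comm _ (H.N_memW hv') _ (H.hv_mem u)]
  group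

theorem mu_act {μ : K} {g : G} {q v v' : U K} (h : H.Qh μ g q) (hv : v ∈ As) (hv' : v' ∈ As) :
    g * (H.hv v * F.N v') * g⁻¹ = H.hv (v * X4 (pr q v + pr q v')) * F.N (v' * X4 (μ * pr q v)) := by
  rw [h.act v hv v' hv', ← H.mu_mul hv hv' (by simp only [mem_As, UE, and_self]), hv_X4, mul_assoc]

theorem mu_8 (a s s' : K) : F.N (X8 a) * (F.N (X2 s') * H.A2 s) * (F.N (X8 a))⁻¹ =
    H.hv (X8 a * X2 s * (X8 a)⁻¹) * F.N (X4 (H.β * (a * σ s)) * (X8 a * X2 s' * (X8 a)⁻¹)) := by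
  have m : ∀ s : K, X8 a * X2 s * (X8 a)⁻¹ ∈ As := fun s => by simp only [mem_As, UE, and_self]
  have e : F.N (X8 a) * H.A2 s * (F.N (X8 a))⁻¹ = H.hv (X8 a * X2 s * (X8 a)⁻¹) * F.N (X4 (H.β * (a * σ s))) := by
    have c : ∀ x ∈ H.Wh, F.N (X4 (H.β * (a * σ s))) * x = x * F.N (X4 (H.β * (a * σ s))) :=
      fun x hx => H.w1.cP x hx _ (by simp only [mem_Ps, UE, and_self])
    rw [H.L2, hv_eq, mul_assoc _ (F.N _), c _ (H.mem5 _), ← mul_assoc, mul_assoc _ (F.N _), c _ (H.A6_mem _), ← mul_assoc]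
    simp only [UE, H.A3_zero, mul_one]
  calc _ = F.N (X8 a * X2 s' * (X8 a)⁻¹) * (F.N (X8 a) * H.A2 s * (F.N (X8 a))⁻¹) := by
        rw [map_mul, map_mul, map_inv]; group
    _ = _ := by
      rw [e, H.w1.comm _ (H.N_memW (m s')) _ (mul_mem (H.hv_mem _) (H.N_memW (by simp only [mem_As, UE, and_self]))),
        map_mul _ (X4 _), mul_assoc]

end Hat5

theorem Hat5.W3.mu_zero {F : Fr K G} {H : Hat5 F.toRt} {μ μ₄ : K} (h : H.W3 μ μ₄) (hβ : H.β = 0 ∨ H.β = 1) :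
    μ = 0 := by
  obtain ⟨p, p0, p1⟩ := F.big
  have hr : σ p + p ≠ 0 := fun e => σ_ne_self p0 p1 (by grind)
  have q1 : ∀ d, H.Qh μ (H.A1 d) (X1 d) := fun d => (h.qh_A7 d).conj F.w_mem (F.wX7 d)
  have qE : ∀ a b, H.Qh μ (F.N (X8 a) * H.A1 b * (F.N (X8 a))⁻¹) (X8 a * X1 b * (X8 a)⁻¹) :=
    fun a b => (q1 b).conj (F.N_mem _) (by simp)
  have Q1 := qE 1 p
  have Q2 := Q1.mul (qE p 1)
  have Q3 := Q2.mul (q1 (p + 1))
  have Q4 := Q3.mul (h.qh_A7 (σ p + p))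
  have er : (X8 1 * X1 p * (X8 1)⁻¹ * (X8 p * X1 1 * (X8 p)⁻¹) * X1 (p + 1) * X7 (σ p + p)).y4 = σ p + p := by
    simp only [UE]
  obtain ⟨x, hx, g₀, y1, y2, y3, y4⟩ := h.exists_y Q4 (by simp only [mem_Ps, UE]; grind) (er ▸ hr)
  rw [er] at y4
  have y0 : ∀ ξ : G, ξ * x * x = x * (ξ * x) → ξ * x * ξ * (ξ * x)⁻¹ = ξ := fun ξ e => by
    rw [← mul_assoc, mul_left_inj] at e
    rw [mul_assoc ξ, ← e]; group
  replace y0 := y0 _ (y1 x hx)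
  generalize _ * _ * _ * H.A7 (σ p + p) * x = y at y0 y2 y3 y4
  generalize g₀ + (σ p + p) = e₁ at y4
  have y5 : ∀ d, y * H.A1 d * y⁻¹ = H.A1 d * (F.N (X2 (μ * (σ p + p) * d)) * H.A2 (e₁ * d)) := fun d => by
    have := conj_conj (g := F.w) (y4 d)
    rw [← y3, mul_inv_cancel_right, H.w_A7] at this
    rw [this, ← H.w_A7, ← F.wX6, ← H.w_A6]; group
  have y6 : ∀ a b, y * (F.N (X8 a) * H.A1 b * (F.N (X8 a))⁻¹) * y⁻¹ = F.N (X8 a) * H.A1 b * (F.N (X8 a))⁻¹ *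
      (F.N (X8 a) * (F.N (X2 (μ * (σ p + p) * b)) * H.A2 (e₁ * b)) * (F.N (X8 a))⁻¹) := fun a b => by
    have := conj_conj (g := F.N (X8 a)) (y5 b)
    rw [← y2, mul_inv_cancel_right] at this
    rw [this]; group
  simp only [H.mu_8] at y6
  have c2 : ∀ s s', F.N (X2 s') * H.A2 s = H.hv (X2 s) * F.N (X2 s') := fun s s' => by
    rw [H.hv_X2, H.w1.cP _ (H.A2_mem _) _ (by simp only [mem_Ps, UE, and_self])]
  have c6 : ∀ s s', F.N (X6 s') * H.A6 s = H.hv (X6 s) * F.N (X6 s') := fun s s' => by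
    rw [H.hv_X6, H.w1.cP _ (H.A6_mem _) _ (by simp only [mem_Ps, UE, and_self])]
  simp only [c2] at y5
  simp only [mul_assoc (H.A7 _), c6] at y4
  have key : ∀ a b c d a' b' c' d' : G, y * a * y⁻¹ = a * a' → y * b * y⁻¹ = b * b' → y * c * y⁻¹ = c * c' →
      y * d * y⁻¹ = d * d' → y * (a * b * c * d) * y⁻¹ = a * b * c * d →
      a * a' * a⁻¹ * (a * b * b' * (a * b)⁻¹) * (a * b * c * c' * (a * b * c)⁻¹) *
        (a * b * c * d * d' * (a * b * c * d)⁻¹) = 1 := fun a b c d a' b' c' d' e1 e2 e3 e4 e => by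
    calc _ = a * a' * (b * b') * (c * c') * (d * d') * (a * b * c * d)⁻¹ := by group
      _ = 1 := by rw [← e1, ← e2, ← e3, ← e4, ← e]; group
  have := key _ _ _ _ _ _ _ _ (y6 1 p) (y6 p 1) (y5 _) (y4 _) y0
  rw [H.mu_act Q1, H.mu_act Q2, H.mu_act Q3, H.mu_act Q4, H.mu_mul, H.mu_mul, H.mu_mul] at this
  any_goals simp only [mem_As, UE, and_self]
  obtain ⟨e1, e2⟩ := H.dec_inj (by simp only [mem_As, UE, and_self]) (one_mem _)
    (this.trans (show 1 = H.hv 1 * F.N 1 by rw [H.hv_one, map_one, mul_one]))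
  replace e1 := congrArg U.x4 e1
  replace e2 := congrArg U.x4 e2
  simp only [UE, pr] at e1 e2
  exact mu_alg (e := e₁) hr hβ (by simp only [UE]; grind) (by simp only [UE]; grind)

end Cfsg.Agent.S2F
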