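import Cfsg.Agent.S2F.Base2
import Cfsg.Agent.TIB.Bas

/-!
`μ₄ = 0` and the final relations.

General remarks (all S2F stubs): read `S2F/Def.lean` (definitions, conventions) and `S2F/Base.lean`, `Base2.lean` first. Identities in `U K`
are proved by `ext <;> simp only [UE, ...hypotheses] <;> grind` (add `ζ`, `ψ`, `pr` to the simp set); conjugation is `g * x * g⁻¹`;
we write `X4 s` for `F.N (X4 s)` etc., `Ŵ = H.Wh`, `τ x = v` if `x t x⁻¹ = t N v`.  Weight arguments: `wt_inv`, `wtA`, `wtB` with `x` from `F.big` and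
`σ_ne_self`, `σ_ne_sq`, `cub_ne`; `exists_l2`, `exists_l4`, `exists_lσ` give torus elements with a prescribed weight; `T_A2`, `T_A6`, `l_hv`, … give
the torus action.  In an abelian subgroup use a local `CommGroup` instance as in `Hat5.hv_mul`.
Keep the statements; add lemmas / extra files freely (unique names).

`B_i c = A_i c * X_i c`, `ρ = n * w` shifts indices by `2`, `ρ⁸ = 1` (`nw8`), `w ρ w = ρ⁻¹`.  `x_i (e₀ + e₁ ε) = X_i e₀ * A_i e₁`, `ε² = ε`.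
`A8 c` commutes with `B3 d` (`R5` with `μ = 0`, `X3_A8`).  `B13 := ρ⁴ B5 ρ⁻⁴`.  The reflection `s₈ = ρ⁴ w` (`i ↦ 16 - i`) fixes `A8 c = ρ² (a c) ρ⁻²` and maps `B3 = w B5 w` to `B13`;
`n` maps the pair `(A8, B3)` to `(A2, B7)`, and `s₂ = ρ⁻² w` (`i ↦ 4 - i`) fixes `A2 = ρ⁻¹ a ρ` and maps `B7 = ρ B5 ρ⁻¹` to `ρ⁻⁴ B5 ρ⁴ = B13`
(`w` commutes with `a`, `n` with `a5`, `X5`).  So `B13 d` commutes with `A2`, `A8`, hence with `⁅A8 c, A2 b⁆ = x₄ (e c σ b) a5 (c b) x₆ (e σ c b)`, `e = μ₄ + (1 + β) ε`.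
Multiply the cases `(c, b) = (1, p), (p, 1)`, `p ∉ {0,1}`: `B13 d` commutes with `z = x₄ (e r) x₆ (e r)`, `r = p + σ p ≠ 0`.  `X1 1` commutes with `B13 d` (`X7` commutes with `B3`:
`N_A3`; apply `ρ⁻³`: `ρ⁻³ X7 ρ³ = X1`, `ρ⁻³ B3 ρ³ = ρ⁻⁴ B5 ρ⁴`), and `X1 1 z (X1 1)⁻¹ = x₆ (e r)` (`X1_A6`).  So `B13 d` commutes with `x₆ (e r)`; apply `ρ³ w` (`i ↦ 14 - i`): `B1 d`
commutes with `x₈ (e r)`.  `B1 d` commutes with `X3 1` (`N_A1`), hence with `⁅x₈ (e r), X3 1⁆ = x₆ (e r)` (`X3_A8`).  But `A1 d (A6 c) (A1 d)⁻¹ = A6 c a (c d)` (`w n`-conjugate of `R5`),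
`A1 d (X6 c) (A1 d)⁻¹ = X6 c a (c d)` (of `L3`), `X1_A6`, `⁅X1, X6⁆ = X4`, so `⁅B1 1, x₆ (e r)⁆ = x₄ ((1 + ε) e r) = a (μ₄ r) X4 (μ₄ r)`; it is `1` only if `μ₄ = 0` (`ta`).
The fields of `Rel` are then those of `Hat5`, `W3` and `w1.comm`.
-/

set_option autoImplicit false
set_option linter.unusedSectionVars false
set_option linter.unusedSimpArgs false
set_option maxRecDepth 20000

namespace Cfsg.Agent.S2F

open Subgroup Cfsg.Agent.Oct Cfsg.Agent.Fus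
open scoped commutatorElement

variable {K : Type*} [Field K] [Tw K] [Finite K] {G : Type*} [Group G] [Finite G]

namespace IIf

open Cfsg.Agent.TIB

variable {R : Rt K G}

theorem nn (x : G) : cn R.n (cn R.n x) = x := cn_invol R.nn x
theorem ww (x : G) : cn R.w (cn R.w x) = x := cn_invol R.ww x

theorem braid (x : G) : cn R.w (cn R.n (cn R.w (cn R.n (cn R.w (cn R.n (cn R.w (cn R.n x))))))) =
    cn R.n (cn R.w (cn R.n (cn R.w (cn R.n (cn R.w (cn R.n (cn R.w x))))))) := by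
  have h : ∀ y : G, y = cn ((R.n * R.w) ^ 8) y := fun y => by rw [R.nw8, one_cn]
  refine (h _).trans ?_
  simp only [pow_succ, pow_zero, one_mul, mul_cn, nn, ww]

theorem cN {u v : U K} (h : u * v = v * u) : Commute (R.N u) (R.N v) := by
  rw [Commute, SemiconjBy, ← map_mul, h, map_mul]

theorem cnN (u v : U K) : cn (R.N u) (R.N v) = R.N (u * v * u⁻¹) := by simp [cn]

theorem flip {a b z : G} (h : cn a b = b * z) (h1 : Commute b z) (h2 : Commute a z) (z2 : z * z = 1) :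
    cn b a = a * z := by rw [cn_flip h h1, inv_of_sq z2, h2.eq]

variable (H : Hat5 R)

/-- `B₅` -/
def B5 (d : K) : G := H.a5 d * R.N (X5 d)
/-- `B₁₃` -/
def B13 (d : K) : G := cn R.n (cn R.w (cn R.n (cn R.w (cn R.n (cn R.w (cn R.n (cn R.w (B5 H d))))))))
/-- `x₄` -/
def x4 (μ₄ s : K) : G := H.a ((1 + H.β) * s) * R.N (X4 (μ₄ * s))

theorem nB5 (d : K) : cn R.n (B5 H d) = B5 H d := by
  rw [B5, cn_mul]; congr 1
  exacts [H.n_a5 d, R.nX5 d]

theorem wB5 (d : K) : cn R.w (B5 H d) = H.A3 d * R.N (X3 d) := by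
  rw [B5, cn_mul]; congr 1
  exact R.wX5 d

theorem B1 (d : K) : cn R.w (cn R.n (cn R.w (B5 H d))) = H.A1 d * R.N (X1 d) := by
  rw [wB5, cn_mul, cn_mul]; congr 1
  rw [show cn R.n (R.N (X3 d)) = _ from R.nX3 d]; exact R.wX7 d

theorem B13' (d : K) :
    cn R.w (cn R.n (cn R.w (cn R.n (cn R.w (cn R.n (cn R.w (B5 H d))))))) = B13 H d := by
  rw [B13, ← braid, nB5]

theorem wa (c : K) : cn R.w (H.a c) = H.a c := H.w_a c

theorem wx4 (μ₄ s : K) : cn R.w (x4 H μ₄ s) = x4 H μ₄ s := by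
  rw [x4, cn_mul, wa]; congr 1
  exact R.wX4 _

theorem nx4 (μ₄ s : K) : cn R.n (x4 H μ₄ s) = H.A6 ((1 + H.β) * s) * R.N (X6 (μ₄ * s)) := by
  rw [x4, cn_mul]; congr 1
  exact R.nX4 _

theorem x8 (μ₄ s : K) :
    cn R.n (cn R.w (cn R.n (x4 H μ₄ s))) = H.A8 ((1 + H.β) * s) * R.N (X8 (μ₄ * s)) := by
  rw [nx4, cn_mul, cn_mul]; congr 1
  rw [show cn R.w (R.N (X6 _)) = _ from R.wX6 _]; exact R.nX2 _

theorem x4_mem (μ₄ s : K) : x4 H μ₄ s ∈ H.Wh :=
  mul_mem (H.a_mem _) (H.N_memW (by simp [mem_As, UE]))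

theorem x6_mem (μ₄ s : K) : cn R.n (x4 H μ₄ s) ∈ H.Wh := by
  rw [nx4]; exact mul_mem (H.A6_mem _) (H.N_memW (by simp [mem_As, UE]))

theorem cW {x y : G} (hx : x ∈ H.Wh) (hy : y ∈ H.Wh) : Commute x y := H.w1.comm x hx y hy

theorem x4_add (μ₄ s r : K) : x4 H μ₄ (s + r) = x4 H μ₄ s * x4 H μ₄ r := by
  rw [x4, x4, x4, mul_add, mul_add, H.add, show X4 (μ₄ * s + μ₄ * r) = X4 (μ₄ * s) * X4 (μ₄ * r) by
    ext <;> simp only [UE], map_mul, mul_assoc, mul_assoc, ← mul_assoc (R.N _), H.N_a, mul_assoc]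

theorem A6_sq (c : K) : H.A6 c * H.A6 c = 1 := sq_of_add H.A6_add c

variable {H} {μ₄ : K} (h : H.W3 0 μ₄)
include h

theorem R5 (b c : K) : cn (H.A8 c) (H.A3 b) = H.A3 b * H.A6 (c * b) := by
  have := h.R5 b c
  rwa [zero_mul, show X6 (0 : K) = 1 by ext <;> simp only [UE], map_one, mul_one] at this

theorem c83 (c d : K) : Commute (H.A8 c) (cn R.w (B5 H d)) := by
  have e : cn (H.A8 c) (R.N (X3 d)) = H.A6 (c * d) * R.N (X3 d) := by
    rw [cn_flip (H.X3_A8 c d) (H.A6_A8 _ _).symm, inv_of_sq (A6_sq H _)]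
  refine comm_of_cn ?_
  rw [wB5, cn_mul, R5 h, e, mul_assoc, ← mul_assoc (H.A6 _), A6_sq, one_mul]

theorem c8 (c d : K) : Commute (H.A8 c) (B13 H d) := by
  have : Commute (cn R.n (cn R.w (cn R.n (H.a c)))) _ := c83 h c d
  rw [← comm_cn (g := R.n * R.w * R.n * R.w * R.n * R.w * R.n)] at this
  simp only [mul_cn, nn, ww, wa] at this
  exact this

theorem c2 (c d : K) : Commute (H.A2 c) (B13 H d) := by
  have : Commute (cn R.n (cn R.w (cn R.n (H.a c)))) _ := c83 h c d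
  rw [← comm_cn (g := R.w * R.n * R.w * R.n * R.w * R.n)] at this
  simp only [mul_cn, nn, ww, wa, B13'] at this
  exact this

theorem c46 (c b d : K) :
    Commute (x4 H μ₄ (c * σ b) * H.a5 (c * b) * cn R.n (x4 H μ₄ (σ c * b))) (B13 H d) := by
  have := (c2 h b d).inv_left.mul_left (((c8 h c d).mul_left (c2 h b d)).mul_left (c8 h c d).inv_left)
  rw [h.R6, zero_mul, show X5 (0 : K) = 1 by ext <;> simp only [UE], map_one, mul_one] at this
  rw [nx4]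
  simpa only [x4, mul_assoc, inv_mul_cancel_left] using this

theorem mu4 : μ₄ = 0 := by
  obtain ⟨p, p0, p1⟩ := R.big
  obtain ⟨r, hr⟩ : ∃ r, r = σ p + p := ⟨_, rfl⟩
  have r0 : r ≠ 0 := fun e => σ_ne_self p0 p1 (by grind)
  have k1 : ∀ d, Commute (x4 H μ₄ r * cn R.n (x4 H μ₄ r)) (B13 H d) := fun d => by
    have := (c46 h 1 p d).mul_left (c46 h p 1 d)
    rw [map_one, one_mul, one_mul, mul_one, mul_one] at this
    refine (congrArg (Commute · (B13 H d)) ?_).mpr this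
    rw [hr, x4_add, cn_mul]
    letI : CommGroup H.Wh := { mul_comm := fun x y => Subtype.ext (H.w1.comm _ x.2 _ y.2) }
    have key : ∀ a b c d e : H.Wh, e * e = 1 → a * b * (c * d) = a * e * d * (b * e * c) :=
      fun a b c d e r => by rw [← mul_one (a * b * (c * d)), ← r]; ac_rfl
    exact congrArg Subtype.val (key ⟨_, x4_mem H _ _⟩ ⟨_, x4_mem H _ _⟩ ⟨_, x6_mem H _ _⟩
      ⟨_, x6_mem H _ _⟩ ⟨_, H.mem5 p⟩ (Subtype.ext (sq_of_add H.add5 p)))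
  have k2 : ∀ d, Commute (R.N (X1 1)) (B13 H d) := fun d => by
    have : Commute (R.N (X7 1)) (cn R.w (B5 H d)) := by
      rw [wB5]
      exact Commute.mul_right (H.N_A3 ⟨rfl, rfl⟩ rfl d) (cN (by ext <;> simp only [UE] <;> grind))
    rw [← comm_cn (g := R.w * R.n * R.w * R.n * R.w * R.n)] at this
    simp only [mul_cn, B13'] at this
    simp only [cn, R.nX7, R.wX3, R.nX5, R.wX5, R.nX3, R.wX7] at this
    exact this
  have c14 : cn (R.N (X1 1)) (x4 H μ₄ r) = x4 H μ₄ r :=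
    cn_eq (Commute.mul_right (H.N_a _ _) (cN (comm_X4 _ _)))
  have c16 : cn (R.N (X1 1)) (cn R.n (x4 H μ₄ r)) = cn R.n (x4 H μ₄ r) * x4 H μ₄ r := by
    rw [nx4, cn_mul, show cn _ (H.A6 _) = _ from H.X1_A6 _ _, cnN,
      show X1 1 * X6 (μ₄ * r) * (X1 1)⁻¹ = X6 (μ₄ * r) * X4 (μ₄ * r) by
        ext <;> simp only [UE] <;> grind, map_mul, mul_one, x4, mul_assoc, ← mul_assoc (H.a _),
      ← H.N_a]
    simp only [mul_assoc]
  have x2 : x4 H μ₄ r * x4 H μ₄ r = 1 := H.w1.sq _ (x4_mem H _ _)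
  have k3 : ∀ d, Commute (cn R.n (x4 H μ₄ r)) (B13 H d) := fun d => by
    have := comm_cn (g := R.N (X1 1)).2 (k1 d)
    rwa [cn_eq (k2 d), cn_mul, c14, c16, (cW H (x6_mem H _ _) (x4_mem H _ _)).eq, ← mul_assoc, x2,
      one_mul] at this
  have k4 : Commute (H.A8 ((1 + H.β) * r) * R.N (X8 (μ₄ * r))) (H.A1 1 * R.N (X1 1)) := by
    have := comm_cn (g := R.n * R.w * R.n * R.w * R.n).2 (k3 1)
    simpa only [mul_cn, B13, nn, ww, wx4, x8, B1] using this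
  have k5 : Commute (R.N (X3 1)) (H.A1 1 * R.N (X1 1)) :=
    Commute.mul_right (H.N_A1 ⟨rfl, rfl⟩ rfl rfl rfl rfl 1) (cN (by ext <;> simp only [UE] <;> grind))
  have k6 : Commute (cn R.n (x4 H μ₄ r)) (H.A1 1 * R.N (X1 1)) := by
    have := comm_cn (g := R.N (X3 1)).2 k4
    rw [cn_eq k5, cn_mul, show cn _ (H.A8 _) = _ from H.X3_A8 _ _, cnN,
      show X3 1 * X8 (μ₄ * r) * (X3 1)⁻¹ = X8 (μ₄ * r) * X6 (μ₄ * r) by
        ext <;> simp only [UE] <;> grind, map_mul, mul_one, mul_assoc, ← mul_assoc (H.A6 _),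
      ← H.N_A6 (by simp [mem_Rs, UE])] at this
    simpa only [nx4, mul_assoc, mul_inv_rev, inv_mul_cancel_left] using k4.inv_left.mul_left this
  have wn : ∀ {x y z : G}, cn x y = y * z → cn (cn R.w (cn R.n x)) (cn R.w (cn R.n y)) =
      cn R.w (cn R.n y) * cn R.w (cn R.n z) := fun e => by rw [cn_cn_cn, cn_cn_cn, e, cn_mul, cn_mul]
  have e6 : ∀ c, cn R.w (cn R.n (H.A6 c)) = H.a c := fun c => by
    rw [show cn R.n (H.A6 c) = _ from H.n_A6 c, wa]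
  have c36 : ∀ c, Commute (H.A3 1) (H.A6 c) := fun c => cW H (H.A3_mem _) (H.A6_mem _)
  have a16 : ∀ c, cn (H.A1 1) (H.A6 c) = H.A6 c * H.a c := fun c => by
    have := wn (flip (R5 h 1 c) (c36 _) (H.A6_A8 _ _).symm (A6_sq H _))
    rwa [e6, mul_one, show cn R.n (H.A8 c) = _ from H.n_A8 c, show cn R.w (H.A2 c) = _ from H.w_A2 c]
      at this
  have a16' : ∀ c, cn (H.A1 1) (R.N (X6 c)) = R.N (X6 c) * H.a c := fun c => by
    have := wn (flip (H.L3 1 c) (c36 _) (H.N_A6 (by simp [mem_Rs, UE]) _) (A6_sq H _))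
    rwa [e6, mul_one, show cn R.n (R.N (X8 c)) = _ from R.nX8 c,
      show cn R.w (R.N (X2 c)) = _ from R.wX2 c] at this
  have a14 : cn (H.A1 1) (x4 H μ₄ r) = x4 H μ₄ r := by
    refine cn_eq (Commute.mul_right ?_ (H.N_A1 ⟨rfl, rfl⟩ rfl rfl rfl rfl 1).symm)
    have := comm_cn (g := R.w).2 (H.A7_a 1 ((1 + H.β) * r))
    rwa [wa] at this
  have k7 := cn_eq k6.symm
  rw [mul_cn, c16, cn_mul, a14, nx4, cn_mul, a16, a16', x4] at k7
  simp only [mul_assoc, mul_right_inj] at k7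
  rw [← mul_assoc, ← H.N_a, mul_assoc, mul_eq_left, ← mul_assoc, ← H.add, ← mul_assoc, ← H.add,
    show (1 + H.β) * r + μ₄ * r + (1 + H.β) * r = μ₄ * r by grind] at k7
  have k8 := H.ta (μ₄ * r)
  rw [eq_inv_of_mul_eq_one_left k7, ← map_inv, ← R.tN, map_inv, inv_inv, mul_assoc, inv_mul_cancel,
    mul_one, left_eq_mul, map_eq_one_iff _ R.inj] at k8
  have := congrArg U.x4 k8
  simp only [UE] at this
  exact (mul_eq_zero.1 this).resolve_right r0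

end IIf

theorem Hat5.W3.rel {F : Fr K G} {H : Hat5 F.toRt} {μ₄ : K} (h : H.W3 0 μ₄) (hβ : H.β = 0 ∨ H.β = 1) :
    Nonempty (Rel F.toRt) := by
  obtain rfl := IIf.mu4 h
  refine ⟨⟨H.toHat, H.a5, H.β, hβ, H.add5, H.ta5, H.n5, H.c0,
    fun c e => H.w1.comm _ (H.a_mem c) _ (H.mem5 e), fun c e => H.w1.comm _ (H.A2_mem c) _ (H.mem5 e),
    fun c d => H.w1.comm _ (H.A2_mem c) _ (H.A6_mem d), H.L2, H.L3, IIf.R5 h, fun b c => ?_⟩⟩
  rw [h.R6]
  simp only [zero_mul, show X4 (0 : K) = 1 by ext <;> simp only [UE],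
    show X5 (0 : K) = 1 by ext <;> simp only [UE], show X6 (0 : K) = 1 by ext <;> simp only [UE],
    map_one, mul_one]

end Cfsg.Agent.S2F
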