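import Cfsg.Agent.S2F.Base1
import Cfsg.Agent.Solv.Coprime2

/-!
Standard subgroups of type `²F₄(q)`: the group `E`.
-/

set_option autoImplicit false
set_option linter.unusedSectionVars false
set_option linter.unusedSimpArgs false
set_option maxRecDepth 20000

namespace Cfsg.Agent.S2F

open Subgroup Cfsg.Agent.Oct Cfsg.Agent.Fus
open scoped commutatorElement

variable {K : Type*} [Field K] [Tw K] [Finite K] {G : Type*} [Group G] [Finite G]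

namespace Ia

theorem X4_add (a b : K) : (X4 a * X4 b : U K) = X4 (a + b) := by ext <;> simp only [UE]

theorem X4_inj {a b : K} (h : (X4 a : U K) = X4 b) : a = b := congrArg U.x4 h

theorem exists_sq (s : K) : ∃ r : K, (Y4 r * Y4 r : U K) = X4 s := by
  by_cases hs : s = 0
  · exact ⟨0, by ext <;> simp only [UE, hs]⟩
  · obtain ⟨κ, h⟩ := exists_l2 hs
    exact ⟨κ, by ext <;> simp only [UE, h]⟩

theorem comm_W (u : U K) {v : U K} (hv : v ∈ Ws) : (⁅u, v⁆ : U K).x4 = u.x1 * v.x6 := by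
  rw [mem_Ws] at hv
  simp only [commutatorElement_def, UE, hv]
  grind

theorem comm_16 (a b : K) : (⁅X1 a, X6 b⁆ : U K) = X4 (a * b) := by
  ext <;> simp only [commutatorElement_def, UE]
  grind

/-- An automorphism of `U` acts semilinearly on the centre. -/
theorem aut_Z (α : U K ≃* U K) : ∃ k : K → K, (∀ s, α (X4 s) = X4 (k s)) ∧ Function.Bijective k ∧
    ∀ μ, ∃ μ', ∀ s, k (μ * s) = μ' * k s := by
  have hZ : ∀ s, α (X4 s) ∈ Zs := fun s => mem_Zs_of_comm fun v => by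
    obtain ⟨v, rfl⟩ := α.surjective v
    rw [← map_mul, ← map_mul, comm_X4]
  have h6 : ∀ b : K, X6 b ∈ Ws := fun b => by simp only [mem_Ws, UE, and_self]
  have hW : ∀ b, α (X6 b) ∈ Ws := fun b => mem_Ws_iff.2 fun v => by
    obtain ⟨v, rfl⟩ := α.surjective v
    rw [← map_commutatorElement, eq_X4 (mem_Ws_iff.1 (h6 b) v)]
    exact hZ _
  have hi : Function.Injective fun s => (α (X4 s)).x4 := fun a b e => X4_inj (α.injective (by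
    rw [eq_X4 (hZ a), eq_X4 (hZ b)]
    exact congrArg _ e))
  have key : ∀ a b, (α (X4 (a * b))).x4 = (α (X1 a)).x1 * (α (X6 b)).x6 := fun a b => by
    rw [← comm_16, map_commutatorElement, comm_W _ (hW b)]
  have h1 : (α (X1 1)).x1 ≠ 0 := fun e => one_ne_zero (hi (a₁ := 1) (a₂ := 0) (by
    have := key 1 1
    rw [e, zero_mul, one_mul] at this
    simpa using this))
  refine ⟨_, fun s => eq_X4 (hZ s), ⟨hi, Finite.injective_iff_surjective.1 hi⟩,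
    fun μ => ⟨(α (X1 μ)).x1 / (α (X1 1)).x1, fun s => ?_⟩⟩
  have := key 1 s
  rw [one_mul] at this
  simp only [key μ s, this]
  field_simp

theorem exists_odd_pow (x : G) : ∃ m, Odd m ∧ Two (x ^ m) := by
  obtain ⟨k, m, hm, e⟩ := Nat.exists_eq_two_pow_mul_odd (orderOf_pos x).ne'
  exact ⟨m, hm, k, by rw [← pow_mul, mul_comm, ← e, pow_orderOf_eq_one]⟩

theorem odd_units : Odd (Nat.card Kˣ) := by
  rw [← Nat.not_even_iff_odd, even_iff_two_dvd]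
  intro h2
  obtain ⟨c, hc⟩ := exists_prime_orderOf_dvd_card' 2 h2
  have h3 : (c : K) ^ 2 ^ 1 = 1 := by
    rw [pow_one, ← Units.val_pow_eq_pow_val, ← hc, pow_orderOf_eq_one, Units.val_one]
  rw [show c = 1 from Units.ext (eq_one_of_pow_two_pow h3), orderOf_one] at hc
  omega

/-- If `B / Z(B)` is a `2`-group then the `2`-elements of `B` form a subgroup. -/
theorem two_mul {B : Subgroup G} (h : ∀ g ∈ B, ∃ k, ∀ x ∈ B, x * g ^ 2 ^ k = g ^ 2 ^ k * x) {x y : G}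
    (hx : x ∈ B) (hy : y ∈ B) (h1 : Two x) (h2 : Two y) : Two (x * y) := by
  have hp : IsPGroup 2 (B ⧸ center B) := fun g => by
    obtain ⟨g, rfl⟩ := QuotientGroup.mk_surjective g
    obtain ⟨k, hk⟩ := h g g.2
    exact ⟨k, by
      rw [← QuotientGroup.mk_pow, QuotientGroup.eq_one_iff, mem_center_iff]
      exact fun x => Subtype.ext (hk x x.2)⟩
  have := Group.of_quotient_center_nilpotent hp.isNilpotent
  obtain ⟨P⟩ : Nonempty (Sylow 2 B) := inferInstance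
  have := Sylow.normal_of_normalizerCondition Group.normalizerCondition_of_isNilpotent P
  have key : ∀ z (hz : z ∈ B), Two z → (⟨z, hz⟩ : B) ∈ P := fun z hz ⟨k, hk⟩ => by
    obtain ⟨Q, hQ⟩ := (Two.isPGroup (x := (⟨z, hz⟩ : B)) ⟨k, Subtype.ext hk⟩).exists_le_sylow
    have := Sylow.unique_of_normal P ‹_›
    exact Subsingleton.elim Q P ▸ hQ (mem_zpowers _)
  obtain ⟨k, hk⟩ := P.isPGroup' ⟨_, mul_mem (key x hx h1) (key y hy h2)⟩
  exact ⟨k, congrArg (fun z : P => ((z : B) : G)) hk⟩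

variable (F : Fr K G)

/-- `x = N v` modulo `t`. -/
def Rl (x : G) (v : U K) : Prop := x = F.N v ∨ x = F.N v * F.t

variable {F}

theorem Rl.uniq {x : G} {v v' : U K} (h : Rl F x v) (h' : Rl F x v') : v = v' := by
  rcases h with rfl | rfl <;> rcases h' with e | e
  · exact F.inj e
  · exact absurd (by rw [map_mul, map_inv, e, inv_mul_cancel_left]) (F.t_ne_N (v'⁻¹ * v))
  · exact absurd (by rw [map_mul, map_inv, ← e, inv_mul_cancel_left]) (F.t_ne_N (v⁻¹ * v'))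
  · exact F.inj (mul_right_cancel e)

theorem Rl.mul {x y : G} {u v : U K} (h : Rl F x u) (h' : Rl F y v) : Rl F (x * y) (u * v) := by
  rcases h with rfl | rfl <;> rcases h' with rfl | rfl
  · exact .inl (by simp)
  · exact .inr (by simp [mul_assoc])
  · exact .inr (by rw [mul_assoc, F.tN, map_mul, mul_assoc])
  · exact .inl (by rw [mul_assoc, ← mul_assoc F.t, F.tN, mul_assoc, F.tt, map_mul, mul_one])

theorem Rl.sq {x : G} {v : U K} (h : Rl F x v) : x * x = F.N (v * v) := by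
  rcases h with rfl | rfl
  · simp
  · rw [mul_assoc, ← mul_assoc F.t, F.tN, mul_assoc, F.tt, map_mul, mul_one]

theorem t_T {x : G} (hx : x ∈ F.T) : F.t * x = x * F.t := by
  obtain ⟨u, rfl | rfl⟩ := hx
  · exact F.tN u
  · rw [← mul_assoc, F.tN]

theorem exists_aut {g : G} (hg : ∀ x ∈ F.T, g * x * g⁻¹ ∈ F.T) :
    ∃ α : U K ≃* U K, ∀ u, Rl F (g * F.N u * g⁻¹) (α u) := by
  choose α hα using fun u => hg (F.N u) ⟨u, .inl rfl⟩
  let β : U K →* U K := MonoidHom.mk' α fun a b => Rl.uniq (F := F) (hα (a * b)) (by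
    have := Rl.mul (hα a) (hα b)
    rwa [show g * F.N a * g⁻¹ * (g * F.N b * g⁻¹) = g * F.N (a * b) * g⁻¹ by rw [map_mul]; group] at this)
  have hi : Function.Injective β := (injective_iff_map_eq_one β).2 fun u hu => by
    have hu' : α u = 1 := hu
    rcases hα u with e | e <;> rw [hu', map_one] at e
    · exact Loc.N_eq_one.1 (by simpa using e)
    · rw [one_mul] at e
      have h1 : u ∈ Zs := mem_Zs_of_comm fun v => F.inj (by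
        have := t_T (hg _ ⟨v, .inl rfl⟩)
        rw [← e] at this
        rw [map_mul, map_mul]
        calc _ = g⁻¹ * (g * F.N u * g⁻¹ * (g * F.N v * g⁻¹)) * g := by group
          _ = _ := by rw [this]; group)
      obtain ⟨r, hr⟩ := exists_sq u.x4
      exact absurd (by rw [← map_mul, hr, ← eq_X4 h1])
        (F.not_sq (isConj_iff.2 ⟨g⁻¹, by rw [← e]; group⟩ : IsConj F.t (F.N u)) (F.N (Y4 r)))
  exact ⟨MulEquiv.ofBijective β ⟨hi, Finite.injective_iff_surjective.1 hi⟩, hα⟩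

theorem l_X4 (κ : Kˣ) (s : K) : F.l κ * F.N (X4 s) * (F.l κ)⁻¹ = F.N (X4 ((κ : K) ^ 2 * σ (κ : K) * s)) := by
  rw [F.lN]; exact congrArg _ (by ext <;> simp only [UE, ζ])

theorem l_t (κ : Kˣ) : F.l κ * F.t * (F.l κ)⁻¹ = F.t := F.t_conj (F.l_mem κ)

theorem l_T (κ : Kˣ) {x : G} (hx : x ∈ F.T) : F.l κ * x * (F.l κ)⁻¹ ∈ F.T := by
  obtain ⟨u, rfl | rfl⟩ := hx
  · exact ⟨_, .inl (F.lN κ u)⟩
  · refine ⟨ζ κ u, .inr ?_⟩
    conv_rhs => rw [← F.lN, ← l_t (F := F) κ]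
    group

theorem N4_add (a b : K) : F.N (X4 a) * F.N (X4 b) = F.N (X4 (a + b)) := by rw [← map_mul, X4_add]

theorem N4_sq (a : K) : F.N (X4 a) * F.N (X4 a) = 1 := by
  rw [N4_add, CharTwo.add_self_eq_zero, X4_zero, map_one]

theorem exists_κ (F : Fr K G) : ∃ κ : Kˣ, (κ : K) ^ 2 * σ (κ : K) ≠ 1 := by
  obtain ⟨x, h0, h1⟩ := F.big
  obtain ⟨κ, h⟩ := exists_l4 h0
  exact ⟨κ, h ▸ h1⟩

/-- Step (2): a translation normalising `T`. -/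
theorem exists_b (F : Fr K G) : ∃ b c, c ≠ 0 ∧ (∀ x ∈ F.T, b * x * b⁻¹ ∈ F.T) ∧
    (∀ s, b * F.N (X4 s) = F.N (X4 s) * b) ∧ b * F.t * b⁻¹ = F.t * F.N (X4 c) := by
  obtain ⟨g, hg, ht⟩ := F.exists_normT
  obtain ⟨α, hα⟩ := exists_aut hg
  obtain ⟨k, hk, hb, hs⟩ := aut_Z α
  have h1 : ∀ s, g * F.N (X4 s) * g⁻¹ = F.N (X4 (k s)) := fun s => by
    obtain ⟨r, hr⟩ := exists_sq s
    rw [← hk, ← hr, map_mul α, ← (hα (Y4 r)).sq, map_mul]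
    group
  obtain ⟨κ, hκ⟩ := exists_κ F
  obtain ⟨μ, hμ⟩ := hs ((κ : K) ^ 2 * σ (κ : K))
  have h2 : ∀ s, g * F.l κ * g⁻¹ * F.N (X4 s) * (g * F.l κ * g⁻¹)⁻¹ = F.N (X4 (μ * s)) := fun s => by
    obtain ⟨s, rfl⟩ := hb.2 s
    rw [← hμ, ← h1, ← h1, ← l_X4]
    group
  have hμ0 : μ ≠ 0 := fun e => by
    have := h2 1
    rw [e, zero_mul, X4_zero, map_one, conj_eq_one_iff] at this
    exact Loc.τ_ne this
  have hμ1 : μ ≠ 1 := fun e => hκ (by simpa using hb.1 ((hμ 1).trans (by rw [e, one_mul])))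
  obtain ⟨κ', hκ'⟩ := exists_l4 (inv_ne_zero hμ0)
  have hg' : ∀ x ∈ F.T, g⁻¹ * x * g ∈ F.T := fun x hx => mem_smul.1 ((smul_eq_of_conj hg).symm ▸ hx)
  have h3 : ∀ s, F.l κ' * (g * F.l κ * g⁻¹) * F.N (X4 s) * (F.l κ' * (g * F.l κ * g⁻¹))⁻¹ = F.N (X4 s) :=
    fun s => by
      have := l_X4 (F := F) κ' (μ * s)
      rw [hκ', inv_mul_cancel_left₀ hμ0, ← h2] at this
      exact Eq.trans (by group) this
  refine ⟨F.l κ' * (g * F.l κ * g⁻¹), μ⁻¹ * (1 + μ), mul_ne_zero (inv_ne_zero hμ0) (by grind), fun x hx => ?_,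
    fun s => mul_inv_eq_iff_eq_mul.1 (h3 s), ?_⟩
  · have := l_T κ' (hg _ (l_T κ (hg' x hx)))
    simpa [mul_assoc] using this
  · have e1 : g * F.l κ * g⁻¹ * (g * F.t * g⁻¹) * (g * F.l κ * g⁻¹)⁻¹ = g * F.t * g⁻¹ := by
      conv_rhs => rw [← l_t (F := F) κ]
      group
    have e2 : g * F.l κ * g⁻¹ * F.t * (g * F.l κ * g⁻¹)⁻¹ = F.t * F.N (X4 (1 + μ)) := by
      have := h2 1
      rw [mul_one] at this
      rw [← N4_add, ← mul_assoc, ← ht, ← e1, ← this, ht]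
      calc _ = g * F.l κ * g⁻¹ * (F.t * (F.N (X4 1) * F.N (X4 1))) * (g * F.l κ * g⁻¹)⁻¹ := by rw [N4_sq, mul_one]
        _ = _ := by group
    rw [← hκ', ← l_X4]
    calc _ = F.l κ' * (g * F.l κ * g⁻¹ * F.t * (g * F.l κ * g⁻¹)⁻¹) * (F.l κ')⁻¹ := by group
      _ = F.l κ' * F.t * (F.l κ')⁻¹ * (F.l κ' * F.N (X4 (1 + μ)) * (F.l κ')⁻¹) := by rw [e2]; group
      _ = _ := by rw [l_t]

theorem conj_C {b : G} {c : K} (hz : ∀ s, b * F.N (X4 s) = F.N (X4 s) * b)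
    (ht : b * F.t * b⁻¹ = F.t * F.N (X4 c)) {m : G} (hm : m ∈ F.C) : b * m * b⁻¹ ∈ F.C := by
  have h1 : ∀ m ∈ F.C, b * m * b⁻¹ * F.t = F.t * (b * m * b⁻¹) ∧
      ∃ y ∈ F.C, ∀ z, z * F.t = F.t * z → b * m * b⁻¹ * z * (b * m * b⁻¹)⁻¹ = y * z * y⁻¹ := fun m hm => by
    have h2 : ∀ s, Commute (b * m * b⁻¹) (F.N (X4 s)) := fun s =>
      (Commute.mul_left (hz s) (Loc.comm_Z hm s)).mul_left (Commute.inv_left (hz s))
    have h3 : Commute (b * m * b⁻¹) F.t := by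
      have : Commute (b * m * b⁻¹) (b * F.t * b⁻¹) := (Commute.symm (F.tL m (F.C_le hm))).conj b
      have := this.mul_right (h2 c)
      rwa [ht, mul_assoc F.t, N4_sq, mul_one] at this
    refine ⟨h3, ?_⟩
    rcases F.aut' h3 h2 with h | h
    · exact ⟨_, h, fun _ _ => rfl⟩
    · refine ⟨_, h, fun z hz => ?_⟩
      rw [mul_assoc _ F.t, ← hz]
      group
  have : ⁅F.C, F.C⁆ ≤ F.C.comap (MulAut.conj b).toMonoidHom := commutator_le.2 fun m hm m' hm' => by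
    obtain ⟨-, y, hy, e⟩ := h1 m hm
    obtain ⟨h2, y', hy', e'⟩ := h1 m' hm'
    change b * ⁅m, m'⁆ * b⁻¹ ∈ F.C
    have : b * ⁅m, m'⁆ * b⁻¹ = y * (y' * y⁻¹ * y'⁻¹) := by
      rw [← e' _ (F.tL _ (F.C_le (inv_mem hy))).symm]
      calc _ = b * m * b⁻¹ * (b * m' * b⁻¹) * (b * m * b⁻¹)⁻¹ * (b * m' * b⁻¹)⁻¹ := by
            rw [commutatorElement_def]; group
        _ = _ := by rw [e _ h2]; group
    exact this ▸ mul_mem hy (mul_mem (mul_mem hy' (inv_mem hy)) (inv_mem hy'))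
  exact this (F.C_perfect.symm ▸ hm)

/-- Step (3): a translation normalising `U` and `H₀`. -/
theorem exists_b2 (F : Fr K G) : ∃ b c, c ≠ 0 ∧ (∀ u, ∃ v, b * F.N u * b⁻¹ = F.N v) ∧
    (∀ s, b * F.N (X4 s) = F.N (X4 s) * b) ∧ b * F.t * b⁻¹ = F.t * F.N (X4 c) ∧
    ∀ x ∈ F.h.range, b * x * b⁻¹ ∈ F.h.range := by
  obtain ⟨b, c, hc, hT, hz, ht⟩ := exists_b F
  have hU : ∀ u, ∃ v, b * F.N u * b⁻¹ = F.N v := fun u => by
    obtain ⟨v, e | e⟩ := hT _ ⟨u, .inl rfl⟩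
    · exact ⟨v, e⟩
    · have := mul_mem (inv_mem (F.N_mem v)) (conj_C hz ht (F.N_mem u))
      rw [e, inv_mul_cancel_left] at this
      exact absurd (F.C_le this) F.t_not
  have hW : b • F.toLoc.W = F.toLoc.W := Loc.smul_W_of_S (smul_eq_of_conj (by
    rintro _ ⟨u, rfl⟩
    exact (hU u).imp fun v e => e.symm))
  have hB : ∀ ν, ∃ u ν', b * F.h ν * b⁻¹ = F.N u * F.h ν' := fun ν =>
    Loc.inB_of_smul_W (conj_C hz ht (F.h_mem ν)) (hW ▸ conj_smul_eq.2 (Loc.h_smul_W ν))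
  have hp : IsPGroup 2 F.N.range := F.syl.isPGroup (by rintro _ ⟨u, rfl⟩; exact F.N_mem_L u)
  obtain ⟨n, hn⟩ := hp.exists_card_eq
  have := hp.isNilpotent
  obtain ⟨_, ⟨k, rfl⟩, hk⟩ := Solv.exists_conj_mem_of_coprime ((MulAut.conj b).toMonoidHom.comp F.h).range
    F.N.range F.h.range (by
      rintro _ ⟨ν, rfl⟩
      obtain ⟨u, ν', e⟩ := hB ν
      refine mem_normalizer_fintype ?_
      rintro _ ⟨v, rfl⟩
      refine ⟨u * η ν' v * u⁻¹, ?_⟩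
      change _ = b * F.h ν * b⁻¹ * F.N v * (b * F.h ν * b⁻¹)⁻¹
      rw [e, map_mul, map_mul, map_inv, ← F.hN]
      group)
    (hn ▸ Nat.Coprime.pow_right n (Nat.coprime_two_right.2 (odd_units.of_dvd_nat (card_range_dvd _))))
    (.inr inferInstance) (by
      rintro _ ⟨ν, rfl⟩
      obtain ⟨u, ν', e⟩ := hB ν
      exact ⟨_, ⟨u, rfl⟩, ν', by
        change _ = (F.N u)⁻¹ * (b * F.h ν * b⁻¹)
        rw [e, inv_mul_cancel_left]⟩)
  have h1 : ∀ s, Commute (F.N k)⁻¹ (F.N (X4 s)) := fun s => Commute.inv_left (Loc.comm_Z (F.N_mem k) s)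
  refine ⟨(F.N k)⁻¹ * b, c, hc, fun u => ?_, fun s => (h1 s).mul_left (hz s), ?_, ?_⟩
  · obtain ⟨v, e⟩ := hU u
    exact ⟨k⁻¹ * v * k, by rw [map_mul, map_mul, map_inv, ← e]; group⟩
  · have : Commute (F.N k)⁻¹ (F.t * F.N (X4 c)) := (Commute.inv_left (F.tN k).symm).mul_right (h1 c)
    calc _ = (F.N k)⁻¹ * (b * F.t * b⁻¹) * F.N k := by group
      _ = _ := by rw [ht, this.eq, inv_mul_cancel_right]
  · rintro _ ⟨ν, rfl⟩
    have := hk _ ⟨ν, rfl⟩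
    simpa [mul_assoc] using this

theorem tr_mul {g g' : G} {c c' : K} (hz : ∀ s, g * F.N (X4 s) = F.N (X4 s) * g)
    (h : g * F.t * g⁻¹ = F.t * F.N (X4 c)) (h' : g' * F.t * g'⁻¹ = F.t * F.N (X4 c')) :
    g * g' * F.t * (g * g')⁻¹ = F.t * F.N (X4 (c + c')) := by
  calc _ = g * (g' * F.t * g'⁻¹) * g⁻¹ := by group
    _ = g * F.t * g⁻¹ * (g * F.N (X4 c') * g⁻¹) := by rw [h']; group
    _ = _ := by rw [h, hz, mul_inv_cancel_right, mul_assoc, N4_add]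

theorem tr_inv {g : G} {c : K} (hz : ∀ s, g * F.N (X4 s) = F.N (X4 s) * g)
    (h : g * F.t * g⁻¹ = F.t * F.N (X4 c)) : g⁻¹ * F.t * g⁻¹⁻¹ = F.t * F.N (X4 c) := by
  calc _ = g⁻¹ * (F.t * F.N (X4 c) * F.N (X4 c)) * g := by rw [mul_assoc F.t, N4_sq, mul_one, inv_inv]
    _ = g⁻¹ * (g * F.t * g⁻¹) * (F.N (X4 c) * g) := by rw [h]; group
    _ = _ := by rw [← hz]; group

theorem tr_zero {g : G} (h : g * F.t * g⁻¹ = F.t * F.N (X4 0)) : g * F.t = F.t * g := by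
  rwa [X4_zero, map_one, mul_one, mul_inv_eq_iff_eq_mul] at h

variable (F) in
/-- The group `B₀`. -/
def B0 : Subgroup G where
  carrier := {g | (∀ ν, g * F.h ν = F.h ν * g) ∧ (∀ s, g * F.N (X4 s) = F.N (X4 s) * g) ∧
    ∃ c, g * F.t * g⁻¹ = F.t * F.N (X4 c)}
  mul_mem' := fun ⟨a1, a2, _, a3⟩ ⟨b1, b2, _, b3⟩ => ⟨fun ν => Commute.mul_left (a1 ν) (b1 ν),
    fun s => Commute.mul_left (a2 s) (b2 s), _, tr_mul a2 a3 b3⟩
  one_mem' := ⟨by simp, by simp, 0, by simp⟩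
  inv_mem' := fun ⟨a1, a2, _, a3⟩ => ⟨fun ν => Commute.inv_left (a1 ν), fun s => Commute.inv_left (a2 s), _,
    tr_inv a2 a3⟩

theorem sq_t {g : G} (hg : g ∈ B0 F) : g * g * F.t = F.t * (g * g) := by
  obtain ⟨-, h2, c, h3⟩ := hg
  exact tr_zero (CharTwo.add_self_eq_zero c ▸ tr_mul h2 h3 h3)

theorem conj_B0 {x : G} (hx : x ∈ F.L) (h1 : ∀ ν, ∃ ν', x⁻¹ * F.h ν * x = F.h ν')
    (h2 : ∀ s, ∃ s', x * F.N (X4 s) * x⁻¹ = F.N (X4 s')) (h3 : ∀ s, ∃ s', x⁻¹ * F.N (X4 s) * x = F.N (X4 s'))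
    {g : G} (hg : g ∈ B0 F) : x * g * x⁻¹ ∈ B0 F := by
  obtain ⟨a1, a2, c, a3⟩ := hg
  have key : ∀ y y', x⁻¹ * y * x = y' → g * y' = y' * g → x * g * x⁻¹ * y = y * (x * g * x⁻¹) := by
    rintro y _ rfl e
    calc _ = x * (g * (x⁻¹ * y * x)) * x⁻¹ := by group
      _ = _ := by rw [e]; group
  obtain ⟨s, e⟩ := h2 c
  refine ⟨fun ν => (h1 ν).elim fun ν' e => key _ _ e (a1 ν'), fun s => (h3 s).elim fun s' e => key _ _ e (a2 s'),
    s, ?_⟩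
  have := F.t_conj (inv_mem hx)
  calc _ = x * (g * (x⁻¹ * F.t * x⁻¹⁻¹) * g⁻¹) * x⁻¹ := by group
    _ = x * F.t * x⁻¹ * (x * F.N (X4 c) * x⁻¹) := by rw [this, a3]; group
    _ = _ := by rw [F.t_conj hx, e]

theorem l_B0 (κ : Kˣ) {g : G} (hg : g ∈ B0 F) : F.l κ * g * (F.l κ)⁻¹ ∈ B0 F :=
  conj_B0 (F.l_mem κ) (fun ν => ⟨ν, by rw [mul_assoc, ← F.lh, inv_mul_cancel_left]⟩) (fun s => ⟨_, l_X4 κ s⟩)
    (fun s => ⟨_, by simpa using l_X4 (F := F) κ⁻¹ s⟩) hg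

theorem w_B0 {g : G} (hg : g ∈ B0 F) : F.w * g * F.w⁻¹ ∈ B0 F :=
  conj_B0 F.w_mem_L (fun ν => ⟨ν⁻¹, by simpa [F.w_inv] using F.wh ν⟩) (fun s => ⟨_, F.wX4 s⟩)
    (fun s => ⟨s, by simpa [F.w_inv] using F.wX4 s⟩) hg

/-- Step (4): all translations. -/
theorem exists_tr (F : Fr K G) (c : K) : ∃ g ∈ B0 F, Two g ∧ (∀ u, ∃ v, g * F.N u * g⁻¹ = F.N v) ∧
    g * F.t * g⁻¹ = F.t * F.N (X4 c) := by
  by_cases hc : c = 0
  · exact ⟨1, one_mem _, ⟨0, by simp⟩, fun u => ⟨u, by simp⟩, by simp [hc]⟩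
  obtain ⟨b, c₀, h0, hU, hz, ht, hH⟩ := exists_b2 F
  obtain ⟨κ, hκ⟩ := exists_κ F
  have hz' : ∀ s, b⁻¹ * F.N (X4 s) = F.N (X4 s) * b⁻¹ := fun s => Commute.inv_left (hz s)
  have hS : ∀ x, (∀ u, ∃ v, x * F.N u * x⁻¹ = F.N v) ↔ x ∈ normalizer (F.N.range : Set G) := fun x =>
    ⟨fun h => mem_normalizer_fintype (by
      rintro _ ⟨u, rfl⟩
      exact (h u).imp fun v e => e.symm), fun h u => ((mem_normalizer_iff.1 h _).1 ⟨u, rfl⟩).imp fun v e => e.symm⟩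
  have hl : ∀ κ, F.l κ ∈ normalizer (F.N.range : Set G) := fun κ => (hS _).1 fun u => ⟨_, F.lN κ u⟩
  have e1 : F.l κ * b⁻¹ * (F.l κ)⁻¹ * F.t * (F.l κ * b⁻¹ * (F.l κ)⁻¹)⁻¹ =
      F.t * F.N (X4 ((κ : K) ^ 2 * σ (κ : K) * c₀)) := by
    have := l_t (F := F) κ⁻¹
    rw [map_inv] at this
    calc _ = F.l κ * (b⁻¹ * ((F.l κ)⁻¹ * F.t * (F.l κ)⁻¹⁻¹) * b⁻¹⁻¹) * (F.l κ)⁻¹ := by group
      _ = F.l κ * F.t * (F.l κ)⁻¹ * (F.l κ * F.N (X4 c₀) * (F.l κ)⁻¹) := by rw [this, tr_inv hz ht]; group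
      _ = _ := by rw [l_t, l_X4]
  have e2 := tr_mul hz ht e1
  have hB : b * (F.l κ * b⁻¹ * (F.l κ)⁻¹) ∈ B0 F := by
    refine ⟨fun ν => ?_, fun s => Commute.mul_left (hz s) ?_, _, e2⟩
    · obtain ⟨ν', e⟩ := mem_smul.1 ((smul_eq_of_conj hH).ge (⟨ν, rfl⟩ : F.h ν ∈ F.h.range))
      have h1 : (F.l κ)⁻¹ * F.h ν = F.h ν * (F.l κ)⁻¹ := Commute.inv_left (F.lh κ ν)
      calc _ = b * F.l κ * b⁻¹ * ((F.l κ)⁻¹ * F.h ν) := by group
        _ = b * (F.l κ * (b⁻¹ * F.h ν * b)) * b⁻¹ * (F.l κ)⁻¹ := by rw [h1]; group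
        _ = _ := by rw [← e, F.lh, e]; group
    · have := l_X4 (F := F) κ⁻¹ s
      rw [map_inv] at this
      calc _ = F.l κ * (b⁻¹ * ((F.l κ)⁻¹ * F.N (X4 s) * (F.l κ)⁻¹⁻¹)) * (F.l κ)⁻¹ := by group
        _ = _ := by rw [this, hz', ← this]; group
  have hN : b * (F.l κ * b⁻¹ * (F.l κ)⁻¹) ∈ normalizer (F.N.range : Set G) :=
    mul_mem ((hS b).1 hU) (mul_mem (mul_mem (hl κ) (inv_mem ((hS b).1 hU))) (inv_mem (hl κ)))
  generalize b * (F.l κ * b⁻¹ * (F.l κ)⁻¹) = x at e2 hB hN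
  obtain ⟨_, ⟨j, rfl⟩, h2⟩ := exists_odd_pow x
  have e3 : x ^ (2 * j + 1) * F.t * (x ^ (2 * j + 1))⁻¹ = x * F.t * x⁻¹ := by
    have : x ^ (2 * j) * F.t = F.t * x ^ (2 * j) := by
      rw [pow_mul, pow_two]
      exact Commute.pow_left (sq_t hB) j
    rw [pow_succ', mul_assoc x, this]
    group
  have h3 : c₀ + (κ : K) ^ 2 * σ (κ : K) * c₀ ≠ 0 := by grind
  obtain ⟨κ', hκ'⟩ := exists_l4 (div_ne_zero hc h3)
  refine ⟨_, l_B0 κ' (pow_mem hB (2 * j + 1)), h2.conj _,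
    (hS _).2 (mul_mem (mul_mem (hl κ') (pow_mem hN _)) (inv_mem (hl κ'))), ?_⟩
  have := l_t (F := F) κ'⁻¹
  rw [map_inv] at this
  calc _ = F.l κ' * (x ^ (2 * j + 1) * ((F.l κ')⁻¹ * F.t * (F.l κ')⁻¹⁻¹) * (x ^ (2 * j + 1))⁻¹) * (F.l κ')⁻¹ := by
        simp only [mul_inv_rev, inv_inv, mul_assoc]
    _ = F.l κ' * F.t * (F.l κ')⁻¹ * (F.l κ' * F.N (X4 (c₀ + (κ : K) ^ 2 * σ (κ : K) * c₀)) * (F.l κ')⁻¹) := by
        rw [this, e3, e2]; simp only [mul_assoc, inv_mul_cancel_left]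
    _ = _ := by rw [l_t, l_X4, hκ', div_mul_cancel₀ _ h3]

theorem cen_B0 {g : G} (hg : g ∈ B0 F) (ht : g * F.t = F.t * g) :
    ∃ s r ν, g = F.N (Y4 s * X4 r) * F.h ν ∨ g * F.t = F.N (Y4 s * X4 r) * F.h ν := by
  rcases F.aut' ht hg.2.1 with h | h
  · obtain ⟨s, r, ν, e⟩ := F.cenH h hg.1
    exact ⟨s, r, ν, .inl e⟩
  · obtain ⟨s, r, ν, e⟩ := F.cenH h fun ν => Commute.mul_left (hg.1 ν) (F.tL _ (F.h_mem_L ν))
    exact ⟨s, r, ν, .inr e⟩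

theorem h_Y4 (ν : Kˣ) (s r : K) : Commute (F.N (Y4 s * X4 r)) (F.h ν) := by
  have := F.hN ν (Y4 s * X4 r)
  rw [show η ν (Y4 s * X4 r) = Y4 s * X4 r by ext <;> simp only [UE]] at this
  exact (mul_inv_eq_iff_eq_mul.1 this).symm

theorem pow_cen {g : G} (hg : g ∈ B0 F) : ∃ k, ∀ x ∈ B0 F, x * g ^ 2 ^ k = g ^ 2 ^ k * x := by
  obtain ⟨s, r, ν, e⟩ := cen_B0 (mul_mem hg hg) (sq_t hg)
  have h1 : (F.N (Y4 s * X4 r) * F.h ν) ^ 4 = F.h (ν ^ 4) := by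
    rw [(h_Y4 ν s r).mul_pow, ← map_pow, ← map_pow, show (Y4 s * X4 r) ^ 4 = 1 by
      ext <;> simp only [pow_succ, pow_zero, UE]; grind, map_one, one_mul]
  have h2 : g ^ 2 ^ 3 = F.h (ν ^ 4) := by
    rw [← h1, show 2 ^ 3 = 2 * 4 by norm_num, pow_mul, pow_two]
    rcases e with e | e
    · rw [e]
    · rw [← e, Commute.mul_pow (sq_t hg), show F.t ^ 4 = F.t * F.t * (F.t * F.t) by
        simp only [pow_succ, pow_zero, one_mul, mul_assoc], F.tt, mul_one, mul_one]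
  exact ⟨3, fun x hx => h2 ▸ hx.1 _⟩

variable (F) in
/-- The group `E`. -/
def EE : Subgroup G where
  carrier := {g | g ∈ B0 F ∧ Two g}
  mul_mem' := fun a b => ⟨mul_mem a.1 b.1, two_mul (fun _ => pow_cen) a.1 b.1 a.2 b.2⟩
  one_mem' := ⟨one_mem _, 0, by simp⟩
  inv_mem' := fun ⟨a, k, e⟩ => ⟨inv_mem a, k, by rw [inv_pow, e, inv_one]⟩

theorem t_mem : F.t ∈ EE F :=
  ⟨⟨fun ν => F.tL _ (F.h_mem_L ν), fun _ => F.tN _, 0, by simp⟩, Two.of_sq F.tt⟩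

theorem cen_EE {g : G} (hg : g ∈ EE F) (ht : g * F.t = F.t * g) :
    ∃ s r, g = F.N (Y4 s * X4 r) ∨ g = F.N (Y4 s * X4 r) * F.t := by
  have key : ∀ {x} s r ν, Two x → x = F.N (Y4 s * X4 r) * F.h ν → x = F.N (Y4 s * X4 r) := by
    rintro _ s r ν h rfl
    obtain ⟨u, e⟩ := Loc.InB.two ⟨_, ν, rfl⟩ h
    rw [Loc.h_eq_N (L := F.toLoc) (ν := ν) (u := (Y4 s * X4 r)⁻¹ * u) (by
      rw [map_mul, map_inv, ← e, inv_mul_cancel_left]), map_one, mul_one]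
  obtain ⟨s, r, ν, e | e⟩ := cen_B0 hg.1 ht
  · exact ⟨s, r, .inl (key s r ν hg.2 e)⟩
  · exact ⟨s, r, .inr (by rw [← key s r ν (mul_mem hg t_mem).2 e, mul_assoc, F.tt, mul_one])⟩

end Ia

open Ia

theorem Fr.exists_Ea (F : Fr K G) : ∃ E, Ea F E := by
  refine ⟨EE F, fun g h => h.2, fun g h => h.1.1, fun g h => h.1.2.1, fun g h => h.1.2.2, fun c => ?_, t_mem,
    fun s r => ⟨⟨fun ν => h_Y4 ν s r, Loc.comm_Z (F.N_mem _), 0, ?_⟩, Loc.two_N _⟩, fun g => cen_EE,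
    fun g h κ => ⟨l_B0 κ h.1, h.2.conj _⟩, fun g h => ⟨w_B0 h.1, h.2.conj _⟩, fun g h u => ?_⟩
  · obtain ⟨g, h1, h2, -, h3⟩ := exists_tr F c
    exact ⟨g, ⟨h1, h2⟩, h3⟩
  · rw [F.t_conj (F.N_mem_L _), X4_zero, map_one, mul_one]
  · obtain ⟨c, hc⟩ := h.1.2.2
    obtain ⟨x, h1, h2, h3, h4⟩ := exists_tr F c
    obtain ⟨v, e⟩ := h3 u
    obtain ⟨s, r, e'⟩ := cen_EE (mul_mem h (inv_mem (⟨h1, h2⟩ : x ∈ EE F)))
      (tr_zero (CharTwo.add_self_eq_zero c ▸ tr_mul h.1.2.1 hc (tr_inv h1.2.1 h4)))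
    refine ⟨Y4 s * X4 r * v * (Y4 s * X4 r)⁻¹, ?_⟩
    rw [map_mul, map_mul, map_inv]
    have : g * F.N u * g⁻¹ = g * x⁻¹ * F.N v * (g * x⁻¹)⁻¹ := by rw [← e]; group
    rcases e' with e' | e' <;> rw [this, e']
    rw [mul_assoc _ F.t, F.tN]
    group

end Cfsg.Agent.S2F
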