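import Cfsg.Agent.S2F.Ic1

/-!
`[E, M] ≤ W`.

For `g ∈ E` let `α = α_g ∈ Aut (U K)`, `g (N u) g⁻¹ = N (α u)` (`nU`); `α` commutes with all `η ν`, fixes `X4 s`, `α ^ 2 ^ k = 1`.
`g' = w g w⁻¹ ∈ E`.  `α` preserves `Qs`: if `u ∈ Qs` then `w N(α u) w⁻¹ = g' N(ω u) g'⁻¹ = N (α' (ω u))`, so `α u ∈ Qs` by `ti`, and `ω (α u) = α' (ω u)`.
An additive `f : K → K` with `f (μ a) = μ f a` for all `μ ≠ 0` is a scalar; if it is induced by `α` the scalar `s` has `s ^ 2 ^ k = 1`, `s = 1`.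
(1) `u⁻¹ α u ∈ Qs` for all `u`: `y ↦ (α (Y8 y)).y8` is such a scalar map (`u ↦ u.y8` is a hom trivial on `Qs` and on `α (X8 a)`, squares),
so `(α u).y8 = u.y8`; `(Y8 y)² = X8 (y σ y)` gives `(α (X8 a)).x8 = a`; `j y = (α (Y8 y)).x8` is additive with
`j (σ ν y) = σ ν ν² j y`, so `j = 0` (`wtA`, `φ = σ`, `χ ν = σ ν ν²`).
(2) `α` preserves `As = {u ∈ Qs | ⁅u, Qs⁆ ≤ Zs}`, `Ps = C_Q(As)`.  The set `{q ∈ Qs | ⁅q, U⁆ ≤ Ps} = {x1 = y2 = y6 = 0}` is preserved, so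
`α (X7 b) ∈ X7 (f b) Ps`, `f` scalar (weight `ν σ ν` is onto), `f = id`.  Let `K₁ = {q ∈ Qs | ∀ g ∈ E, q⁻¹ α_g q ∈ Ps}`: a subgroup (`Qs/Ps` is
abelian), containing `Ps`, `X7 b`, invariant under `ω` (use `g'`) and under conjugation by `u ∈ U` (by (1), `α u = u q`, `Qs/Ps` abelian).
So `X1 b = ω (X7 b)`, `X8 a X1 b (X8 a)⁻¹ ∈ X1 b Y6 (a b) X7 (σ a b) Ps`, so `Y6`, `Y2 = ω Y6` lie in `K₁ = Qs`.
Similarly on `As/Zs`: `{v ∈ As | ⁅v, U⁆ ≤ Zs} = Ws`, `α (X6 b) ∈ X6 b Zs`, then `X2`, `X8 a X2 b (X8 a)⁻¹ = X2 b X4 (a σ b) X5 (a b) X6 (σ a b)` gives `X5`,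
`X3`: `v⁻¹ α v ∈ Zs` for `v ∈ As` (`⁅As, Qs⁆ ≤ Zs`).  `α (Y4 s) ∈ Y4 s' As` and squaring gives `s' σ s' = s σ s`, `s' = s`.
(3) `q ↦ (q⁻¹ α q).y4` is a hom `Qs → K` (`Qs/As` is abelian), `η`-invariant, trivial on `Ps`, hence (`wt_inv` on the lines `X1, Y2, Y6, X7`)
trivial: `q⁻¹ α q ∈ As` for `q ∈ Qs`.
(4) Fix `u = Y8 y * X8 a` (fixed by `ζ κ`), `δ_g = u⁻¹ α_g u ∈ Qs`.  `δ_{g g'} = δ_g α_g(δ_{g'}) ≡ δ_g δ_{g'}` mod `As`, and `δ_g = 1` for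
`g ∈ U₄⟨t⟩` (`Y4` commutes with `Y8, X8`), so each coordinate `x1, y2, y4, y6, x7` of `δ_g` is an additive function `f c` of the translation `c` of `g`
(`tr`, `ex`, `ct`), with `f (κ² σ κ c) = κ f c` (resp. `σ κ f c`) by `lE`; `wtB` (`φ κ = κ² σ κ`) gives `f = 0`.  So `u⁻¹ α u ∈ As` for all `u` (`exists_U8`).
(5) `{m ∈ C | ∀ g ∈ E, m⁻¹ (g m g⁻¹) ∈ N(As)}` is a subgroup (`conj_As` of Base2, or directly) containing `N u`, `h ν`, `w (N u) w⁻¹` (use `g'`), hence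
`w = Y8 1 (w X8 1 w⁻¹) (Y8 1)⁻¹` (`rel`); conclude with `bru`.
-/

set_option autoImplicit false
set_option linter.unusedSectionVars false
set_option linter.unusedSimpArgs false
set_option maxRecDepth 20000

namespace Cfsg.Agent.S2F

open Subgroup Cfsg.Agent.Oct Cfsg.Agent.Fus
open scoped commutatorElement

variable {K : Type*} [Field K] [Tw K] [Finite K] {G : Type*} [Group G] [Finite G]

instance normal_Qs : (Qs : Subgroup (U K)).Normal :=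
  ⟨fun a ha b => by simp only [mem_Qs, UE, ha.1, ha.2]; grind⟩

instance normal_Ps : (Ps : Subgroup (U K)).Normal :=
  ⟨fun a ha b => by rw [mem_Ps] at ha; simp only [mem_Ps, UE, ha]; grind⟩

instance normal_As : (As : Subgroup (U K)).Normal :=
  ⟨fun a ha b => by rw [mem_As] at ha; simp only [mem_As, UE, ha]; grind⟩

instance normal_Zs : (Zs : Subgroup (U K)).Normal :=
  ⟨fun a ha b => by rwa [eq_X4 ha, comm_X4, mul_inv_cancel_right, ← eq_X4 ha]⟩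

theorem X4_Zs (s : K) : X4 s ∈ Zs := by simp only [mem_Zs, UE, and_self]

theorem As_le_Qs : (As : Subgroup (U K)) ≤ Qs := fun _ h => ⟨h.2.2.2.2.2.1, h.2.2.2.2.2.2⟩
theorem Ps_le_Qs : (Ps : Subgroup (U K)) ≤ Qs := fun _ h => ⟨h.2.2.2.2.1, h.2.2.2.2.2⟩

theorem ib_As {u : U K} : u ∈ As ↔ u ∈ Qs ∧ ∀ v ∈ Qs, ⁅u, v⁆ ∈ (Zs : Subgroup (U K)) := by
  refine ⟨fun h => ⟨As_le_Qs h, fun v hv => ?_⟩, fun ⟨⟨h1, h2⟩, h⟩ => ?_⟩
  · rw [← commutatorElement_inv, inv_mem_iff, commutatorElement_def, comm_pr hv h, comm_X4, mul_inv_cancel_right]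
    exact X4_Zs _
  have a := h (X1 1) ⟨rfl, rfl⟩
  have b := h (X7 1) ⟨rfl, rfl⟩
  simp only [mem_Zs, commutatorElement_def, UE, h1, h2] at a b
  have x1 : u.x1 = 0 := σ_eq_zero.1 (by grind)
  have x7 : u.x7 = 0 := σ_eq_zero.1 (by grind)
  simp only [UE, x1, x7] at a b
  have y2 : u.y2 = 0 := σ_eq_zero.1 (by grind)
  have y6 : u.y6 = 0 := σ_eq_zero.1 (by grind)
  exact ⟨x1, y2, by grind, y6, x7, h1, h2⟩

theorem ib_Ps {u : U K} : u ∈ Ps ↔ u ∈ Qs ∧ ∀ v ∈ As, ⁅u, v⁆ ∈ (⊥ : Subgroup (U K)) := by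
  have key : ∀ v ∈ As, u ∈ Qs → (⁅u, v⁆ ∈ (⊥ : Subgroup (U K)) ↔ pr u v = 0) := fun v hv h => by
    rw [commutatorElement_def, comm_pr h hv, comm_X4, mul_inv_cancel_right, mem_bot]
    exact ⟨fun e => congrArg U.x4 e, fun e => by rw [e, X4_zero]⟩
  refine ⟨fun h => ⟨Ps_le_Qs h, fun v hv => (key v hv (Ps_le_Qs h)).2 ?_⟩, fun ⟨h1, h⟩ => ?_⟩
  · simp only [pr, mem_Ps.1 h, UE]
  have k := fun v hv => (key v hv h1).1 (h v hv)
  have a := k (X6 1) (by simp only [mem_As, UE, and_self])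
  have b := k (X5 1) (by simp only [mem_As, UE, and_self])
  have c := k (X3 1) (by simp only [mem_As, UE, and_self])
  have d := k (X2 1) (by simp only [mem_As, UE, and_self])
  simp only [pr, UE] at a b c d
  exact ⟨a, b, c, d, h1⟩

/-- `X₇ W U₄` -/
def S7 : Subgroup (U K) where
  carrier := {u | u.x1 = 0 ∧ u.y2 = 0 ∧ u.y6 = 0 ∧ u.y8 = 0 ∧ u.x8 = 0}
  mul_mem' := fun {a b} ⟨h0, h1, h2, h3, h4⟩ ⟨k0, k1, k2, k3, k4⟩ => by
    simp only [Set.mem_ofPred_eq, UE, h0, h1, h2, h3, h4, k0, k1, k2, k3, k4, and_self]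
  one_mem' := by simp only [Set.mem_ofPred_eq, UE, and_self]
  inv_mem' := fun {a} ⟨h0, h1, h2, h3, h4⟩ => by
    simp only [Set.mem_ofPred_eq, UE, h0, h1, h2, h3, h4, and_self]

theorem mem_S7 {u : U K} : u ∈ S7 ↔ u.x1 = 0 ∧ u.y2 = 0 ∧ u.y6 = 0 ∧ u.y8 = 0 ∧ u.x8 = 0 := Iff.rfl

theorem ib_S7 {u : U K} : u ∈ S7 ↔ u ∈ Qs ∧ ∀ v ∈ (⊤ : Subgroup (U K)), ⁅u, v⁆ ∈ (Ps : Subgroup (U K)) := by
  refine ⟨fun h => ⟨h.2.2.2, fun v _ => ?_⟩, fun ⟨⟨h1, h2⟩, h⟩ => ?_⟩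
  · simp only [mem_Ps, commutatorElement_def, UE, mem_S7.1 h]; grind
  have a := h (Y8 1) trivial
  simp only [mem_Ps, commutatorElement_def, UE, h1, h2] at a
  exact ⟨by grind, by grind, by grind, h1, h2⟩

theorem ib_l2 {a b : K} (h : a * σ a = b * σ b) : a = b := by
  by_cases hb : b = 0
  · rw [hb, zero_mul] at h; rw [mul_σ_eq_zero h, hb]
  have ha : a ≠ 0 := fun e => hb (mul_σ_eq_zero (by rw [← h, e, zero_mul]))
  have := eq_one_l2 (κ := Units.mk0 (a / b) (div_ne_zero ha hb)) (by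
    rw [Units.val_mk0, map_div₀, div_mul_div_comm, h, div_self (fun e => hb (mul_σ_eq_zero e))])
  exact (div_eq_one_iff_eq hb).1 (congrArg Units.val this)

theorem ib_scal {f : K → K} (h0 : f 0 = 0) (h : ∀ μ, μ ≠ 0 → f μ = μ * f 1) (b : K) : f b = f 1 * b := by
  by_cases e : b = 0
  · rw [e, h0, mul_zero]
  · rw [h b e, mul_comm]

theorem ib_can {H : Type*} [Group H] {S : Subgroup H} {a b : H} (h1 : a * b⁻¹ ∈ S) (h2 : b ∈ S) : a ∈ S :=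
  (S.mul_mem_cancel_right (inv_mem h2)).1 h1

namespace Ea

variable {F : Fr K G} {E : Subgroup G} (h : Ea F E)

/-- the automorphism induced by `g` -/
noncomputable def al (g : E) : U K →* U K :=
  MonoidHom.mk' (fun u => (h.nU g g.2 u).choose) fun a b => F.inj (by
    rw [← (h.nU g g.2 _).choose_spec, map_mul, map_mul, ← (h.nU g g.2 _).choose_spec, ← (h.nU g g.2 _).choose_spec]
    group)

theorem al_N (g : E) (u : U K) : F.N (h.al g u) = g * F.N u * (g : G)⁻¹ := (h.nU g g.2 u).choose_spec.symm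

theorem al_mul (g g' : E) (u : U K) : h.al (g * g') u = h.al g (h.al g' u) :=
  F.inj (by simp only [al_N, coe_mul]; group)

theorem al_one (u : U K) : h.al 1 u = u := F.inj (by simp [al_N])

theorem al_inv (g : E) (u : U K) : h.al g (h.al g⁻¹ u) = u := by rw [← al_mul, mul_inv_cancel, al_one]

theorem al_η (g : E) (ν : Kˣ) (u : U K) : h.al g (η ν u) = η ν (h.al g u) := F.inj (by
  rw [al_N, ← F.hN, ← F.hN, al_N]
  calc _ = g * F.h ν * F.N u * (g * F.h ν)⁻¹ := by group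
    _ = _ := by rw [h.hc g g.2 ν]; group)

theorem al_X4 (g : E) (s : K) : h.al g (X4 s) = X4 s := F.inj (by rw [al_N, h.zc g g.2, mul_inv_cancel_right])

theorem al_ζ (g : E) (κ : Kˣ) (u : U K) : h.al ⟨_, h.lE g g.2 κ⟩ (ζ κ u) = ζ κ (h.al g u) :=
  F.inj (by rw [al_N, ← F.lN, ← F.lN, al_N]; group)

theorem al_w (g : E) {u : U K} (hu : u ∈ Qs) :
    F.w * F.N (h.al ⟨_, h.wE g g.2⟩ u) * F.w⁻¹ = F.N (h.al g (ω u)) := by
  rw [al_N, al_N, ← F.wN u hu]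
  conv_rhs => rw [← Re.w_symm (R := F.toRe) (x := g) rfl]
  group

theorem al_scal (g : E) {S : Subgroup (U K)} {φ : U K → K} {s : K} (hs : ∀ u ∈ S, h.al g u ∈ S ∧ φ (h.al g u) = s * φ u)
    {u : U K} (hu : u ∈ S) (e : φ u = 1) : s = 1 := by
  obtain ⟨k, hk⟩ := h.two g g.2
  have : ∀ n : ℕ, h.al (g ^ n) u ∈ S ∧ φ (h.al (g ^ n) u) = s ^ n := fun n => by
    induction n with
    | zero => simpa [al_one, e] using hu
    | succ n ih => rw [pow_succ', al_mul, (hs _ ih.1).2, ih.2, pow_succ']; exact ⟨(hs _ ih.1).1, rfl⟩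
  refine eq_one_of_pow_two_pow (k := k) ?_
  rw [← (this _).2, show g ^ 2 ^ k = 1 from Subtype.ext hk, al_one, e]

/-- invariance -/
def Iv (S : Subgroup (U K)) : Prop := ∀ g : E, ∀ u ∈ S, h.al g u ∈ S

theorem iv_of {S Q T R : Subgroup (U K)} (hQ : h.Iv Q) (hT : h.Iv T) (hR : h.Iv R)
    (e : ∀ {u}, u ∈ S ↔ u ∈ Q ∧ ∀ v ∈ T, ⁅u, v⁆ ∈ R) : h.Iv S := fun g u hu =>
  e.2 ⟨hQ g u (e.1 hu).1, fun v hv => by
    rw [← h.al_inv g v, ← map_commutatorElement]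
    exact hR g _ ((e.1 hu).2 _ (hT _ v hv))⟩

theorem iv_top : h.Iv ⊤ := fun _ _ _ => trivial
theorem iv_bot : h.Iv ⊥ := fun _ _ hu => by rw [mem_bot.1 hu, map_one]; exact one_mem _
theorem iv_Zs : h.Iv Zs := fun g u hu => by rwa [eq_X4 hu, al_X4, ← eq_X4 hu]

theorem iv_Qs : h.Iv Qs := fun g u hu => by
  have := F.ti _ _ 1 ((h.al_w ⟨_, h.wE g g.2⟩ hu).trans (by rw [map_one F.h, mul_one]))
  rwa [show (⟨_, h.wE _ (h.wE g g.2)⟩ : E) = g from Subtype.ext (Re.w_symm (R := F.toRe) rfl)] at this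

theorem iv_As : h.Iv As := h.iv_of h.iv_Qs h.iv_Qs h.iv_Zs ib_As
theorem iv_Ps : h.Iv Ps := h.iv_of h.iv_Qs h.iv_As h.iv_bot ib_Ps
theorem iv_S7 : h.Iv S7 := h.iv_of h.iv_Qs h.iv_top h.iv_Ps ib_S7
theorem iv_Ws : h.Iv Ws := h.iv_of h.iv_top h.iv_top h.iv_Zs (by simp [mem_Ws_iff])

theorem al_8 (g : E) (u : U K) : (h.al g u).y8 = u.y8 ∧ (h.al g u).x8 = u.x8 := by
  have sq : ∀ a, ∃ y : K, a = y * σ y ∧ h.al g (X8 a) = h.al g (Y8 y) * h.al g (Y8 y) := fun a => by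
    obtain ⟨y, rfl⟩ : ∃ y : K, y * σ y = a := by
      by_cases e : a = 0
      · exact ⟨0, by simp [e]⟩
      · exact ⟨_, (exists_l2 e).choose_spec⟩
    exact ⟨y, rfl, by rw [← map_mul]; congr 1; ext <;> simp only [UE]⟩
  have dec : ∀ u : U K, ∃ q ∈ Qs, h.al g u = h.al g (Y8 u.y8) * h.al g (X8 u.x8) * q := fun u => by
    obtain ⟨q, hq, e⟩ := exists_U8 u
    exact ⟨_, h.iv_Qs g q hq, by rw [← map_mul, ← map_mul, ← e]⟩
  have tor : ∀ (ν : Kˣ) y, h.al g (Y8 (σ (ν : K) * y)) = η ν (h.al g (Y8 y)) := fun ν y => by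
    rw [← al_η]; congr 1; ext <;> simp only [UE]
  have a1 : ∀ a, (h.al g (X8 a)).y8 = 0 := fun a => by
    obtain ⟨y, -, e⟩ := sq a
    simp only [e, UE]
  have a2 : ∀ u : U K, (h.al g u).y8 = (h.al g (Y8 1)).y8 * u.y8 := fun u => by
    obtain ⟨q, hq, e⟩ := dec u
    simp only [e, UE, a1, hq.1]
    refine ib_scal (f := fun y => (h.al g (Y8 y)).y8) (by simp) (fun μ hμ => ?_) _
    obtain ⟨ν, rfl⟩ := exists_lσ hμ
    simpa only [UE] using congrArg U.y8 (tor ν 1)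
  rw [h.al_scal g (S := ⊤) (fun u _ => ⟨trivial, a2 u⟩) (u := Y8 1) trivial rfl] at a2
  simp only [one_mul] at a2
  have a3 : ∀ a, (h.al g (X8 a)).x8 = a := fun a => by
    obtain ⟨y, rfl, e⟩ := sq a
    simp only [e, UE, a2]
  obtain ⟨x, h0, h1⟩ := F.big
  have a4 : ∀ y, (h.al g (Y8 y)).x8 = 0 := wtA (f := fun y => (h.al g (Y8 y)).x8) (φ := σ) (χ := fun y => σ y * y ^ 2)
    (fun a b => by
      rw [show Y8 (a + b) = Y8 a * Y8 b * X8 (a * σ b) by ext <;> simp only [UE], map_mul, map_mul]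
      simp only [UE, a2, a3]; grind)
    (fun y hy a => congrArg U.x8 (tor (Units.mk0 y hy) a)) h0 h1 (map_add _ _ _)
    (by have := σ_ne_sq h0 h1; simp only [UE]; grind)
  obtain ⟨q, hq, e⟩ := dec u
  exact ⟨a2 u, by simp only [e, UE, a2, a3, a4, hq.1, hq.2]⟩

/-- the elements fixed modulo `P` -/
def Fx (P : Subgroup (U K)) [hP : P.Normal] : Subgroup (U K) where
  carrier := {q | ∀ g : E, q⁻¹ * h.al g q ∈ P}
  one_mem' g := by simp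
  mul_mem' {a b} ha hb g := by
    simpa [mul_assoc] using mul_mem (hP.conj_mem _ (ha g) b⁻¹) (hb g)
  inv_mem' {a} ha g := by simpa [mul_assoc] using hP.conj_mem _ (inv_mem (ha g)) a

variable {P : Subgroup (U K)} [hP : P.Normal]

theorem fx_of (hI : h.Iv P) {u : U K} (hu : u ∈ P) : u ∈ h.Fx P := fun g => mul_mem (inv_mem hu) (hI g u hu)

theorem fx_ω (hω : ∀ p ∈ P, ω p ∈ P) {u : U K} (hq : u ∈ Qs) (hu : u ∈ h.Fx P) : ω u ∈ h.Fx P := fun g => by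
  have := hω _ (hu ⟨_, h.wE g g.2⟩)
  rwa [show ω (u⁻¹ * h.al ⟨_, h.wE g g.2⟩ u) = (ω u)⁻¹ * h.al g (ω u) from F.inj (by
    rw [← F.wN _ (mul_mem (inv_mem hq) (h.iv_Qs _ _ hq)), map_mul, map_mul, ← h.al_w g hq, map_inv, map_inv,
      ← F.wN _ hq]
    group)] at this

theorem fx_cj {u : U K} (hc : ∀ q : U K, q ∈ Qs → ⁅q, u⁆ ∈ P) (hu : u ∈ h.Fx P) (a : U K) : a * u * a⁻¹ ∈ h.Fx P := fun g => by
  have := hc (a⁻¹ * h.al g a) (by simp only [mem_Qs, UE, h.al_8]; grind)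
  have := hP.conj_mem _ (mul_mem (hP.conj_mem _ this u⁻¹) (hP.conj_mem _ (hu g) (a⁻¹ * h.al g a))) a
  simpa [mul_assoc, commutatorElement_def] using this

theorem fx_P {q : U K} (hq : q ∈ Qs) : q ∈ h.Fx Ps := by
  have hω : ∀ p : U K, p ∈ Ps → ω p ∈ Ps := fun p hp => by simp only [mem_Ps, UE, mem_Ps.1 hp, and_self]
  have x7 : ∀ b, X7 b ∈ h.Fx Ps := fun b g => by
    have m : ∀ b : K, X7 b ∈ S7 := fun b => by simp only [mem_S7, UE, and_self]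
    have a : ∀ u ∈ S7, (h.al g u).x7 = (h.al g (X7 1)).x7 * u.x7 := fun u hu => by
      have h1 := mem_Ps.1 (h.iv_Ps g (u * (X7 u.x7)⁻¹) (by simp only [mem_Ps, UE, mem_S7.1 hu, and_self]))
      have h2 := mem_S7.1 (h.iv_S7 g _ (m u.x7))
      rw [← inv_mul_cancel_right u (X7 u.x7), map_mul]
      simp only [UE, h1, h2, mem_S7.1 hu]
      refine ib_scal (f := fun y => (h.al g (X7 y)).x7) (by simp) (fun μ hμ => ?_) _
      obtain ⟨ν, rfl⟩ := exists_l2 hμ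
      rw [show X7 ((ν : K) * σ (ν : K)) = η ν (X7 1) by ext <;> simp only [UE], al_η]; rfl
    rw [h.al_scal g (fun u hu => ⟨h.iv_S7 g u hu, a u hu⟩) (m 1) rfl] at a
    simp only [mem_Ps, UE, mem_S7.1 (h.iv_S7 g _ (m b)), a _ (m b), and_self]
  have x1 : ∀ b, X1 b ∈ h.Fx Ps := fun b => by
    have := h.fx_ω hω ⟨rfl, rfl⟩ (x7 b)
    rwa [show ω (X7 b) = X1 b by ext <;> simp only [UE]] at this
  have y6 : ∀ b, Y6 b ∈ h.Fx Ps := fun b => by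
    have := h.fx_cj (fun q hq => by simp only [mem_Ps, commutatorElement_def, UE, hq.1, hq.2]; grind) (x1 b) (X8 1)
    refine ib_can (h.fx_of h.iv_Ps ?_) (mul_mem (mul_mem (inv_mem (x1 b)) this) (inv_mem (x7 b)))
    simp only [mem_Ps, UE, and_self]
  have y2 : ∀ b, Y2 b ∈ h.Fx Ps := fun b => by
    have := h.fx_ω hω ⟨rfl, rfl⟩ (y6 b)
    rwa [show ω (Y6 b) = Y2 b by ext <;> simp only [UE]] at this
  refine ib_can (h.fx_of h.iv_Ps ?_) (mul_mem (mul_mem (mul_mem (x1 q.x1) (y2 q.y2)) (y6 q.y6)) (x7 q.x7))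
  simp only [mem_Ps, UE, hq.1, hq.2, and_self]

theorem fx_Z {q : U K} (hq : q ∈ As) : q ∈ h.Fx Zs := by
  have hω : ∀ p : U K, p ∈ Zs → ω p ∈ Zs := fun p hp => by simp only [mem_Zs, UE, mem_Zs.1 hp, and_self]
  have x6 : ∀ b, X6 b ∈ h.Fx Zs := fun b g => by
    have m : ∀ b : K, X6 b ∈ Ws := fun b => by simp only [mem_Ws, UE, and_self]
    have a : ∀ u ∈ Ws, (h.al g u).x6 = (h.al g (X6 1)).x6 * u.x6 := fun u hu => by
      rw [show u = X4 u.x4 * X6 u.x6 by ext <;> simp only [UE, mem_Ws.1 hu], map_mul, al_X4]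
      simp only [UE]
      refine ib_scal (f := fun y => (h.al g (X6 y)).x6) (by simp) (fun μ hμ => ?_) _
      obtain ⟨ν, rfl⟩ := exists_l2 hμ
      rw [show X6 ((ν : K) * σ (ν : K)) = η ν (X6 1) by ext <;> simp only [UE], al_η]; rfl
    rw [h.al_scal g (fun u hu => ⟨h.iv_Ws g u hu, a u hu⟩) (m 1) rfl] at a
    simp only [mem_Zs, UE, mem_Ws.1 (h.iv_Ws g _ (m b)), a _ (m b), and_self]
  have x2 : ∀ b, X2 b ∈ h.Fx Zs := fun b => by
    have := h.fx_ω hω ⟨rfl, rfl⟩ (x6 b)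
    rwa [show ω (X6 b) = X2 b by ext <;> simp only [UE]] at this
  have x5 : ∀ b, X5 b ∈ h.Fx Zs := fun b => by
    have := h.fx_cj (fun q hq => by
      rw [← commutatorElement_inv, inv_mem_iff]
      exact (ib_As.1 (by simp only [mem_As, UE, and_self])).2 q hq) (x2 b) (X8 1)
    refine ib_can (h.fx_of h.iv_Zs ?_) (mul_mem (mul_mem (inv_mem (x2 b)) this) (inv_mem (x6 b)))
    simp only [mem_Zs, UE, and_self]
  have x3 : ∀ b, X3 b ∈ h.Fx Zs := fun b => by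
    have := h.fx_ω hω ⟨rfl, rfl⟩ (x5 b)
    rwa [show ω (X5 b) = X3 b by ext <;> simp only [UE]] at this
  refine ib_can (h.fx_of h.iv_Zs ?_) (mul_mem (mul_mem (mul_mem (x2 q.x2) (x3 q.x3)) (x5 q.x5)) (x6 q.x6))
  simp only [mem_Zs, UE, mem_As.1 hq, and_self]

theorem fx_A {q : U K} (hq : q ∈ Qs) : q ∈ h.Fx As := by
  have key : ∀ q ∈ Qs, (∀ g, (h.al g q).y4 = q.y4) → q ∈ h.Fx As := fun q hq e g => by
    have := mem_Ps.1 (h.fx_P hq g)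
    refine ⟨this.1, this.2.1, ?_, this.2.2⟩
    simp only [UE, hq.1, hq.2, e]
  have ps : ∀ p ∈ Ps, p ∈ h.Fx As := fun p hp => key p (Ps_le_Qs hp) fun g => by
    have sq : ∀ p : U K, p ∈ Ps → p * p = X4 (p.y4 * σ p.y4) := fun p hp => by
      ext <;> simp only [UE, mem_Ps.1 hp]
    have := sq _ (h.iv_Ps g p hp)
    rw [← map_mul, sq p hp, al_X4] at this
    exact (ib_l2 (congrArg U.x4 this)).symm
  obtain ⟨x, h0, h1⟩ := F.big
  obtain ⟨ν, rfl⟩ : ∃ ν : Kˣ, ν = x := ⟨Units.mk0 x h0, rfl⟩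
  have h2 : ν ≠ 1 := fun e => h1 (by simp [e])
  have line : ∀ {X : K → U K} {w : K}, w ≠ 1 → (∀ r, X r ∈ Qs) →
      (∀ r, X (w * r + r) * (η ν (X r) * (X r)⁻¹)⁻¹ ∈ Ps) → ∀ s, X s ∈ h.Fx As := fun {X w} hw hQ e s => by
    obtain ⟨r, rfl⟩ : ∃ r, s = w * r + r := ⟨s / (w + 1), by linear_combination -div_mul_cancel₀ s (add_one_ne hw)⟩
    have a := hQ r
    exact ib_can (ps _ (e r)) (key (η ν (X r) * (X r)⁻¹) (by simp only [mem_Qs, UE, a.1, a.2, and_self]) fun g => by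
      have b := h.iv_Qs g _ a
      rw [map_mul, map_inv, al_η]
      simp only [UE, a.1, a.2, b.1, b.2])
  have x1 := line (X := X1) (w := ((ν⁻¹ : Kˣ) : K) * σ ((ν⁻¹ : Kˣ) : K)) (fun e => h2 (inv_eq_one.1 (eq_one_l2 e)))
    (fun _ => ⟨rfl, rfl⟩) (fun r => by simp only [mem_Ps, UE, and_self]) q.x1
  have y2 := line (X := Y2) (w := ((ν⁻¹ : Kˣ) : K)) (by simpa using h2)
    (fun _ => ⟨rfl, rfl⟩) (fun r => by simp only [mem_Ps, UE, and_self]) q.y2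
  have y6 := line (X := Y6) h1 (fun _ => ⟨rfl, rfl⟩) (fun r => by simp only [mem_Ps, UE, and_self]) q.y6
  have x7 := line (X := X7) (w := (ν : K) * σ (ν : K)) (fun e => h2 (eq_one_l2 e))
    (fun _ => ⟨rfl, rfl⟩) (fun r => by simp only [mem_Ps, UE, and_self]) q.x7
  refine ib_can (ps _ ?_) (mul_mem (mul_mem (mul_mem x1 y2) y6) x7)
  simp only [mem_Ps, UE, hq.1, hq.2, and_self]

include h in
theorem ib_add {g g' : G} {c d : K} (hg : g ∈ E) (e : g * F.t * g⁻¹ = F.t * F.N (X4 c))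
    (e' : g' * F.t * g'⁻¹ = F.t * F.N (X4 d)) : g * g' * F.t * (g * g')⁻¹ = F.t * F.N (X4 (c + d)) := by
  calc _ = g * (g' * F.t * g'⁻¹) * g⁻¹ := by group
    _ = g * F.t * g⁻¹ * (g * F.N (X4 d) * g⁻¹) := by rw [e']; group
    _ = _ := by
      rw [e, h.zc g hg d, mul_inv_cancel_right, mul_assoc, ← map_mul]
      exact congrArg _ (congrArg _ (by ext <;> simp only [UE]))

theorem fx_all (u : U K) : u ∈ h.Fx As := by
  obtain ⟨q, hq, e⟩ := exists_U8 u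
  rw [e]
  refine mul_mem (fun g => ?_) (h.fx_A hq)
  obtain ⟨v, hv⟩ : ∃ v, v = Y8 u.y8 * X8 u.x8 := ⟨_, rfl⟩
  rw [← hv]
  have m : ∀ g, v⁻¹ * h.al g v ∈ Qs := fun g => by simp only [mem_Qs, UE, h.al_8]; grind
  have key : ∀ (φ : U K → K) (χ : K →+* K), (∀ a ∈ Qs, ∀ b ∈ Qs, φ (a * b) = φ a + φ b) → (∀ a ∈ As, φ a = 0) →
      (∀ (κ : Kˣ) a, φ (ζ κ a) = χ κ * φ a) → φ (v⁻¹ * h.al g v) = 0 := fun φ χ h1 h2 h3 => by
    have mul : ∀ g g', φ (v⁻¹ * h.al (g * g') v) = φ (v⁻¹ * h.al g v) + φ (v⁻¹ * h.al g' v) := fun g g' => by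
      rw [← add_zero (φ (v⁻¹ * h.al g' v)), ← h2 _ (h.fx_A (m g') g), ← h1 _ (m g') _ (As_le_Qs (h.fx_A (m g') g)),
        ← h1 _ (m g) _ (mul_mem (m g') (As_le_Qs (h.fx_A (m g') g))), al_mul]
      simp [mul_assoc]
    choose γ hγ hγ' using h.ex
    have gen : ∀ (g : E) c, g * F.t * (g : G)⁻¹ = F.t * F.N (X4 c) →
        φ (v⁻¹ * h.al g v) = φ (v⁻¹ * h.al ⟨γ c, hγ c⟩ v) := fun g c hc => by
      obtain ⟨s, r, e⟩ := h.ct _ (mul_mem (inv_mem (hγ c)) g.2) (by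
        calc _ = (γ c)⁻¹ * (g * F.t * (g : G)⁻¹) * g := by group
          _ = _ := by rw [hc, ← hγ']; group)
      have : h.al ((⟨γ c, hγ c⟩ : E)⁻¹ * g) v = v := F.inj (by
        have c1 : Commute (F.N (Y4 s * X4 r)) (F.N v) :=
          Commute.map (by rw [hv]; ext <;> simp only [UE]) F.N
        rw [al_N, coe_mul, coe_inv]
        rcases e with e | e <;> rw [e]
        exacts [c1.mul_inv_cancel, (c1.mul_left (F.tN v)).mul_inv_cancel])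
      rw [← mul_inv_cancel_left (⟨γ c, hγ c⟩ : E) g, al_mul, this]
    obtain ⟨c, hc⟩ := h.tr g g.2
    obtain ⟨x, h0, h1'⟩ := F.big
    rw [gen g c hc]
    refine wtB (f := fun c => φ (v⁻¹ * h.al ⟨γ c, hγ c⟩ v)) (φ := fun y => y ^ 2 * σ y) (χ := χ)
      (fun a b => by
        rw [← mul, gen (⟨γ a, hγ a⟩ * ⟨γ b, hγ b⟩) _ (h.ib_add (hγ a) (hγ' a) (hγ' b))]) (fun y hy a => ?_) h0 h1'
      (by have := σ_ne_sq h0 h1'; simp only [UE]; grind) (map_add _ _ _) c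
    obtain ⟨κ, rfl⟩ : ∃ κ : Kˣ, κ = y := ⟨Units.mk0 y hy, rfl⟩
    have e1 : ζ κ v = v := by rw [hv]; ext <;> simp only [UE, ζ]
    have e2 := h.al_ζ ⟨γ a, hγ a⟩ κ v
    rw [e1] at e2
    rw [← gen ⟨_, h.lE _ (hγ a) κ⟩ _ (Pre.ic_l _ (hγ' a)), e2]
    refine Eq.trans (congrArg φ (F.inj ?_)) (h3 κ _)
    have e3 := F.lN κ v
    rw [e1] at e3
    rw [← F.lN, map_mul, map_mul, ← F.lN, map_inv]
    conv_lhs => rw [← e3]
    group
  exact ⟨key U.x1 (RingHom.id K) (fun a ha b hb => rfl) (fun a ha => ha.1) fun _ _ => rfl,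
    key U.y2 (RingHom.id K) (fun a ha b hb => by simp only [UE, ha.1]) (fun a ha => ha.2.1) fun _ _ => rfl,
    key U.y4 σ (fun a ha b hb => by simp only [UE, ha.1, ha.2]) (fun a ha => ha.2.2.1) fun _ _ => rfl,
    key U.y6 (RingHom.id K) (fun a ha b hb => by simp only [UE, ha.1, ha.2]) (fun a ha => ha.2.2.2.1) fun _ _ => rfl,
    key U.x7 (RingHom.id K) (fun a ha b hb => by simp only [UE, ha.1, ha.2]) (fun a ha => ha.2.2.2.2.1) fun _ _ => rfl,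
    m g⟩

end Ea

theorem Ea.cM {F : Fr K G} {E : Subgroup G} (h : Ea F E) {g : G} (hg : g ∈ E) :
    (∀ m ∈ F.C, ∃ v ∈ As, g * m * g⁻¹ = m * F.N v) ∧ ∀ v ∈ As, ∃ s, g * F.N v * g⁻¹ = F.N (v * X4 s) := by
  refine ⟨?_, fun v hv => ⟨_, by rw [← eq_X4 (h.fx_Z hv ⟨g, hg⟩), mul_inv_cancel_left, h.al_N]⟩⟩
  let M : Subgroup G :=
    { carrier := {m | m ∈ F.C ∧ ∀ g ∈ E, ∃ v ∈ As, g * m * g⁻¹ = m * F.N v}
      one_mem' := ⟨one_mem _, fun g _ => ⟨1, one_mem _, by simp⟩⟩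
      mul_mem' := fun {a b} ha hb => ⟨mul_mem ha.1 hb.1, fun g hg => by
        obtain ⟨v, hv, e⟩ := ha.2 g hg
        obtain ⟨v', hv', e'⟩ := hb.2 g hg
        obtain ⟨v'', hv'', e''⟩ := conj_As F.toRe (inv_mem hb.1) hv
        refine ⟨v'' * v', mul_mem hv'' hv', ?_⟩
        calc _ = g * a * g⁻¹ * (g * b * g⁻¹) := by group
          _ = _ := by rw [e, e', map_mul, ← e'']; group⟩
      inv_mem' := fun {a} ha => ⟨inv_mem ha.1, fun g hg => by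
        obtain ⟨v, hv, e⟩ := ha.2 g hg
        obtain ⟨v', hv', e'⟩ := conj_As F.toRe ha.1 (inv_mem hv)
        refine ⟨v', hv', ?_⟩
        calc _ = (g * a * g⁻¹)⁻¹ := by group
          _ = _ := by rw [e, ← e', map_inv]; group⟩ }
  have hN : ∀ u, F.N u ∈ M := fun u => ⟨F.N_mem u, fun g hg =>
    ⟨_, h.fx_all u ⟨g, hg⟩, by rw [← map_mul, mul_inv_cancel_left, h.al_N]⟩⟩
  have hh : ∀ ν, F.h ν ∈ M := fun ν => ⟨F.h_mem ν, fun g hg => ⟨1, one_mem _, by simp [h.hc g hg]⟩⟩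
  have hw : F.w ∈ M := by
    have : F.w * F.N (X8 1) * F.w⁻¹ ∈ M := ⟨mul_mem (mul_mem F.w_mem (F.N_mem _)) (inv_mem F.w_mem), fun g hg => by
      obtain ⟨v, hv, e⟩ := (hN (X8 1)).2 _ (h.wE g hg)
      obtain ⟨v', hv', e'⟩ := conj_As F.toRe F.w_mem hv
      refine ⟨v', hv', ?_⟩
      conv_lhs => rw [← Re.w_symm (R := F.toRe) (x := g) rfl]
      calc _ = F.w * (F.w * g * F.w⁻¹ * F.N (X8 1) * (F.w * g * F.w⁻¹)⁻¹) * F.w⁻¹ := by group
        _ = _ := by rw [e, ← e']; group⟩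
    rw [F.rel] at this
    simpa [mul_assoc] using mul_mem (mul_mem (hN (Y8 1)) this) (inv_mem (hN (Y8 1)))
  intro m hm
  suffices m ∈ M from this.2 g hg
  rcases F.bru m hm with ⟨a, ν, rfl⟩ | ⟨a, b, ν, rfl⟩
  exacts [mul_mem (hN a) (hh ν), mul_mem (mul_mem (mul_mem (hN a) hw) (hN b)) (hh ν)]

end Cfsg.Agent.S2F
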