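import Cfsg.Agent.S2F.Ib1

/-!
The group `Γ`.

For `g ∈ E`, `q ∈ Qs` write `g (N q) g⁻¹ = N (α q)`, `δ q = q⁻¹ α q ∈ As` (`Ea.cM`).
(1) `K_g = {q ∈ Qs | δ q ∈ Zs}` is a subgroup (`δ (q q') = q'⁻¹ δ q q' δ q'`, `⁅As, Qs⁆ ≤ Zs`) containing `As` (`cM.2`), invariant under `m ∈ C`:
`g m g⁻¹ = m ε`, `ε ∈ N(As)`, so `g (m q m⁻¹) g⁻¹ = m ε (q δ q) ε⁻¹ m⁻¹ ∈ m q m⁻¹ V₄`.  `Y4 s ∈ K_g`: `α (Y4 s)` is fixed by all `η ν`.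
`δ (X7 b)` is centralised mod `Zs` by `U` (`⁅X7 b, u⁆ ∈ Ps ≤ K_g`, same computation), so `δ (X7 b) ∈ X6 (f b) Zs`, `f` additive and `η`-equivariant:
`f b = s b`.  Since `Y4 s X7 b (Y4 s)⁻¹ = X7 b X6 (s b)`, for `g₁ = g * (N (Y4 s))⁻¹ ∈ E` we get `X7 b ∈ K_{g₁}`, hence `X1` (`m = w`), `Y6`
(conjugate `X1 b` by `X8 a`), `Y2`: `K_{g₁} = Qs`.
(2) `E⁰ = {g ∈ E | K_g = Qs}` is a subgroup, normalised by `l κ`, `w`, containing `t`, `V₄`, all translations occur, and `E⁰ ∩ C(t) = V₄⟨t⟩`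
(`N (Y4 s)` moves `X7 1` by `X6 s`).  For `g ∈ E⁰`, `g² ∈ C(t)`, and `g² ∉ t V₄` (`not_sq`, `isConj_tX4`), so `g² ∈ V₄`; `V₄` is central, so
`⁅E⁰, E⁰⁆ ≤ V₄`.
(3) Fix `κ₀` with `μ₀ = κ₀² σ κ₀ ≠ 1`, `Γ = {l κ₀ g (l κ₀)⁻¹ g⁻¹ X4 s | g ∈ E⁰}`: a subgroup (`E⁰/V₄` abelian), invariant under `l κ` and `w` (they commute
with `l κ₀`).  The translation of that element is `(1 + μ₀) c`; if it is `0` then `g ∈ V₄⟨t⟩` and the element is in `V₄` (`ct`).  `cU` from `cM`.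
(4) `g² = X4 (Q c)` depends only on the translation `c` of `g ∈ Γ`; `Q (κ² σ κ c) = κ² σ κ Q c`, `Q 0 = 0`, so `Q c = s₀ c`.  Then
`(g g')² = g² g'²`, so `Γ` is abelian.
-/

set_option autoImplicit false
set_option linter.unusedSectionVars false
set_option linter.unusedSimpArgs false
set_option maxRecDepth 20000

namespace Cfsg.Agent.S2F

open Subgroup Cfsg.Agent.Oct Cfsg.Agent.Fus
open scoped commutatorElement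

variable {K : Type*} [Field K] [Tw K] [Finite K] {G : Type*} [Group G] [Finite G]

theorem ib_X4 (s r : K) : X4 s * X4 r = X4 (s + r) := by ext <;> simp only [UE]

/-- the elements fixed by `g` modulo `V₄` -/
def Kz (F : Fr K G) (g : G) : Subgroup (U K) where
  carrier := {q | ∃ s, g * F.N q * g⁻¹ = F.N (q * X4 s)}
  one_mem' := ⟨0, by simp⟩
  mul_mem' := fun {a b} ⟨s, e⟩ ⟨r, e'⟩ => ⟨s + r, by
    calc _ = g * F.N a * g⁻¹ * (g * F.N b * g⁻¹) := by rw [map_mul]; group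
      _ = _ := by rw [e, e', ← map_mul, ← ib_X4, mul_assoc a, ← mul_assoc (X4 s), ← comm_X4 b]; group⟩
  inv_mem' := fun {a} ⟨s, e⟩ => ⟨s, by
    calc _ = (g * F.N a * g⁻¹)⁻¹ := by rw [map_inv]; group
      _ = _ := by rw [e, ← map_inv, comm_X4 a, mul_inv_rev, show (X4 s)⁻¹ = X4 s by ext <;> simp only [UE]]⟩

namespace Ea

variable {F : Fr K G} {E : Subgroup G} (h : Ea F E) {g g' : G}
include h

theorem kz_conj (hg : g ∈ E) {m : G} (hm : m ∈ F.C) {q q' : U K} (hq : q ∈ Qs) (e : m * F.N q * m⁻¹ = F.N q')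
    (hk : q ∈ Kz F g) : q' ∈ Kz F g := by
  obtain ⟨v, hv, e1⟩ := (h.cM hg).1 m hm
  obtain ⟨s, e2⟩ := hk
  refine ⟨pr q v + s, ?_⟩
  have e3 : v * (q * X4 s) * v⁻¹ = q * X4 (pr q v + s) := by
    have := comm_pr hq hv
    rw [mul_inv_eq_iff_eq_mul, mul_assoc, ← comm_X4] at this
    rw [comm_X4 q, ← mul_assoc, comm_X4 v, mul_assoc, mul_assoc, ← mul_assoc v, mul_inv_eq_iff_eq_mul.2
      (show v * q = X4 (pr q v) * q * v by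
        rw [mul_assoc, this, ← mul_assoc, ← comm_X4, mul_assoc, ← mul_assoc (X4 _), ← comm_X4, mul_assoc, ib_X4,
          CharTwo.add_self_eq_zero, X4_zero, mul_one]), ← mul_assoc, ib_X4, add_comm, comm_X4]
  calc _ = g * m * g⁻¹ * (g * F.N q * g⁻¹) * (g * m * g⁻¹)⁻¹ := by rw [← e]; group
    _ = m * F.N (v * (q * X4 s) * v⁻¹) * m⁻¹ := by rw [e1, e2, map_mul _ _ v⁻¹, map_mul _ v, map_inv]; group
    _ = _ := by rw [e3, map_mul, map_mul, ← e, ← mul_assoc, mul_assoc _ _ m⁻¹, ← Loc.comm_Z (inv_mem hm)]; group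

theorem kz_P (hg : g ∈ E) {p : U K} (hp : p ∈ Ps) : p ∈ Kz F g := by
  refine ib_can ((h.cM hg).2 _ ?_) (b := Y4 p.y4) ?_
  · simp only [mem_As, UE, mem_Ps.1 hp, and_self]
  obtain ⟨x, h0, h1⟩ := F.big
  obtain ⟨ν, rfl⟩ : ∃ ν : Kˣ, ν = x := ⟨Units.mk0 x h0, rfl⟩
  have h2 : ν ≠ 1 := fun e => h1 (by simp [e])
  have w1 : ((ν⁻¹ : Kˣ) : K) ≠ 1 := by simpa using h2
  have w2 : ((ν⁻¹ : Kˣ) : K) * σ ((ν⁻¹ : Kˣ) : K) ≠ 1 := fun e => h2 (inv_eq_one.1 (eq_one_l2 e))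
  have w3 : (ν : K) * σ (ν : K) ≠ 1 := fun e => h2 (eq_one_l2 e)
  have e := h.al_η ⟨g, hg⟩ ν (Y4 p.y4)
  rw [show η ν (Y4 p.y4) = Y4 p.y4 by ext <;> simp only [UE]] at e
  obtain ⟨δ, hδ, e'⟩ : ∃ δ ∈ As, h.al ⟨g, hg⟩ (Y4 p.y4) = Y4 p.y4 * δ := ⟨_, h.fx_all (Y4 p.y4) ⟨g, hg⟩, by group⟩
  rw [mem_As] at hδ
  rw [e'] at e
  have e2 := congrArg U.x2 e
  have e3 := congrArg U.x3 e
  have e5 := congrArg U.x5 e
  have e6 := congrArg U.x6 e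
  simp only [UE, hδ] at e2 e3 e5 e6
  refine ⟨δ.x4, (h.al_N ⟨g, hg⟩ _).symm.trans (congrArg _ (e'.trans (congrArg _ (eq_X4 ?_))))⟩
  rw [mem_Zs]; grind

theorem kz_Q (hg : g ∈ E) (x7 : ∀ b, X7 b ∈ Kz F g) : Qs ≤ Kz F g := fun q hq => by
  have x1 : ∀ b, X1 b ∈ Kz F g := fun b => h.kz_conj hg F.w_mem ⟨rfl, rfl⟩ (F.wX7 b) (x7 b)
  have y6 : ∀ b, Y6 b ∈ Kz F g := fun b => by
    have := h.kz_conj hg (F.N_mem (X8 1)) (q' := X8 1 * X1 b * (X8 1)⁻¹) ⟨rfl, rfl⟩ (by simp) (x1 b)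
    refine ib_can (h.kz_P hg ?_) (mul_mem (mul_mem (inv_mem (x1 b)) this) (inv_mem (x7 b)))
    simp only [mem_Ps, UE, and_self]
  have y2 : ∀ b, Y2 b ∈ Kz F g := fun b => h.kz_conj hg F.w_mem ⟨rfl, rfl⟩ (F.wY6 b) (y6 b)
  refine ib_can (h.kz_P hg ?_) (mul_mem (mul_mem (mul_mem (x1 q.x1) (y2 q.y2)) (y6 q.y6)) (x7 q.x7))
  simp only [mem_Ps, UE, hq.1, hq.2, and_self]

theorem kz_ex (hg : g ∈ E) : ∃ s, Qs ≤ Kz F (F.N (Y4 s) * g) := by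
  have key : ∀ b, ∃ r, h.al ⟨g, hg⟩ (X7 b) = X7 b * X4 r * X6 (h.al ⟨g, hg⟩ (X7 b)).x6 := fun b => by
    have ex : ∀ u, ∃ δ ∈ As, h.al ⟨g, hg⟩ u = u * δ := fun u => ⟨_, h.fx_all u ⟨g, hg⟩, by group⟩
    obtain ⟨δ, hδ, e⟩ := ex (X7 b)
    obtain ⟨ε, hε, e1⟩ := ex (X8 1)
    obtain ⟨ε', hε', e2⟩ := ex (Y8 1)
    rw [mem_As] at hδ hε hε'
    have c1 := (Commute.map (show Commute (X8 1) (X7 b) by ext <;> simp only [UE]) (h.al ⟨g, hg⟩)).eq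
    have c2 := (Commute.map (show Commute (Y8 1) (X7 b) by ext <;> simp only [UE]) (h.al ⟨g, hg⟩)).eq
    rw [e, e1] at c1
    rw [e, e2] at c2
    have a5 := congrArg U.x5 c1
    have a6 := congrArg U.x6 c1
    have b6 := congrArg U.x6 c2
    simp only [UE, hδ, hε, hε'] at a5 a6 b6
    have x2 : δ.x2 = 0 := by grind
    have x3 : δ.x3 = 0 := by grind
    have x5 : δ.x5 = 0 := by grind
    exact ⟨δ.x4, by rw [e]; ext <;> simp only [UE, hδ, x2, x3, x5]⟩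
  have sc := ib_scal (f := fun b => (h.al ⟨g, hg⟩ (X7 b)).x6) (by simp) fun μ hμ => by
    obtain ⟨ν, rfl⟩ := exists_l2 hμ
    rw [show X7 ((ν : K) * σ (ν : K)) = η ν (X7 1) by ext <;> simp only [UE], al_η]; rfl
  refine ⟨(h.al ⟨g, hg⟩ (X7 1)).x6, h.kz_Q (mul_mem (by simpa using h.y_mem _ 0) hg) fun b => ?_⟩
  obtain ⟨r, e⟩ := key b
  rw [sc b] at e
  generalize (h.al ⟨g, hg⟩ (X7 1)).x6 = s at e
  refine ⟨r, ?_⟩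
  calc _ = F.N (Y4 s) * (g * F.N (X7 b) * g⁻¹) * (F.N (Y4 s))⁻¹ := by group
    _ = _ := by
      rw [← h.al_N ⟨g, hg⟩, e, ← map_inv, ← map_mul, ← map_mul]
      exact congrArg _ (by ext <;> simp only [UE] <;> grind)

/-- the elements of `E` acting trivially on `Q / V₄` -/
def E0 : Subgroup G where
  carrier := {g | g ∈ E ∧ Qs ≤ Kz F g}
  one_mem' := ⟨one_mem _, fun q _ => ⟨0, by simp⟩⟩
  mul_mem' := fun {a b} ha hb => ⟨mul_mem ha.1 hb.1, fun q hq => by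
    obtain ⟨s, e⟩ := ha.2 hq
    obtain ⟨r, e'⟩ := hb.2 hq
    refine ⟨s + r, ?_⟩
    calc _ = a * (b * F.N q * b⁻¹) * a⁻¹ := by group
      _ = a * F.N q * a⁻¹ * (a * F.N (X4 r) * a⁻¹) := by rw [e', map_mul]; group
      _ = _ := by rw [e, h.zc a ha.1, mul_inv_cancel_right, ← map_mul, mul_assoc, ib_X4]⟩
  inv_mem' := fun {a} ha => ⟨inv_mem ha.1, fun q hq => by
    obtain ⟨s, e⟩ := ha.2 hq
    refine ⟨s, ?_⟩
    have : F.N q = a * F.N q * a⁻¹ * (a * F.N (X4 s) * a⁻¹) := by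
      rw [e, h.zc a ha.1, mul_inv_cancel_right, ← map_mul, mul_assoc, ib_X4]; simp [CharTwo.add_self_eq_zero]
    conv_lhs => rw [this]
    rw [map_mul]; group⟩

theorem e0_ex (c : K) : ∃ g ∈ h.E0, g * F.t * g⁻¹ = F.t * F.N (X4 c) := by
  obtain ⟨g, hg, e⟩ := h.ex c
  obtain ⟨s, hs⟩ := h.kz_ex hg
  have hy : F.N (Y4 s) ∈ E := by simpa using h.y_mem s 0
  exact ⟨_, ⟨mul_mem hy hg, hs⟩, by simpa using h.ib_add hy (c := 0) (by simp [F.t_conj (F.N_mem_L _)]) e⟩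

theorem e0_ct (hg : g ∈ h.E0) (e : g * F.t = F.t * g) : ∃ r, g = F.N (X4 r) ∨ g = F.N (X4 r) * F.t := by
  obtain ⟨s, r, e1⟩ := h.ct g hg.1 e
  obtain ⟨s', e2⟩ := hg.2 (show X7 1 ∈ Qs from ⟨rfl, rfl⟩)
  have e3 : F.N (Y4 s * X4 r * X7 1 * (Y4 s * X4 r)⁻¹) = F.N (X7 1 * X4 s') := by
    rw [← e2, map_mul, map_mul _ _ (X7 1), map_inv]
    rcases e1 with rfl | rfl
    · rfl
    · rw [mul_assoc _ F.t, F.tN]; group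
  have := congrArg U.x6 (F.inj e3)
  simp only [UE] at this
  exact ⟨r, by simpa [this] using e1⟩

theorem e0_sq (hg : g ∈ h.E0) : g * g ∈ F.Z := by
  obtain ⟨c, hc⟩ := h.tr g hg.1
  have := h.ib_add hg.1 hc hc
  rw [CharTwo.add_self_eq_zero, X4_zero, map_one, mul_one, mul_inv_eq_iff_eq_mul] at this
  obtain ⟨r, e | e⟩ := h.e0_ct (mul_mem hg hg) this
  · exact Loc.mem_Z.2 ⟨r, e⟩
  · exact absurd (e.trans (F.tN _).symm) (F.not_sq (F.isConj_tX4 r) g)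

theorem e0_Z (hg : g ∈ E) {z : G} (hz : z ∈ F.Z) : g * z = z * g := by
  obtain ⟨s, rfl⟩ := Loc.mem_Z.1 hz
  exact h.zc g hg s

theorem e0_comm (hg : g ∈ h.E0) (hg' : g' ∈ h.E0) : ∃ z ∈ F.Z, g * g' = g' * g * z := by
  refine ⟨_, mul_mem (mul_mem (inv_mem (h.e0_sq (mul_mem hg' hg))) (h.e0_sq hg')) (h.e0_sq hg), ?_⟩
  have := h.e0_Z hg.1 (h.e0_sq hg')
  calc _ = g⁻¹ * (g * g) * (g' * g') * g'⁻¹ := by group
    _ = g⁻¹ * g'⁻¹ * (g' * g') * (g * g) := by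
      rw [mul_assoc _ (g' * g'), ← h.e0_Z (inv_mem hg'.1) (h.e0_sq hg'), mul_assoc g⁻¹,
        ← h.e0_Z (mul_mem (inv_mem hg'.1) (mul_mem hg'.1 hg'.1)) (h.e0_sq hg)]
      group
    _ = _ := by group

theorem e0_conj {m : G} (h1 : m * g * m⁻¹ ∈ E) (h2 : ∀ q ∈ Qs, ∃ q' ∈ Qs, m * F.N q' * m⁻¹ = F.N q)
    (h3 : ∀ s, ∃ r, m * F.N (X4 s) * m⁻¹ = F.N (X4 r)) (hg : g ∈ h.E0) : m * g * m⁻¹ ∈ h.E0 :=
  ⟨h1, fun q hq => by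
    obtain ⟨q', hq', e⟩ := h2 q hq
    obtain ⟨s, e'⟩ := hg.2 hq'
    obtain ⟨r, e''⟩ := h3 s
    exact ⟨r, by rw [← e, conj_conj e', map_mul, map_mul, ← e, ← e'']; group⟩⟩

end Ea

theorem Ea.exists_pre {F : Fr K G} {E : Subgroup G} (h : Ea F E) : ∃ Γ, Pre F Γ := by
  obtain ⟨μ, μ0, μ1⟩ := F.big
  obtain ⟨κ₀, rfl⟩ := exists_l4 μ0
  have lX : ∀ (κ : Kˣ) s, F.l κ * F.N (X4 s) * (F.l κ)⁻¹ = F.N (X4 (κ ^ 2 * σ (κ : K) * s)) := fun κ s => by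
    rw [F.lN]; exact congrArg _ (by ext <;> simp only [UE, ζ])
  have l0 : ∀ (κ : Kˣ) {g}, g ∈ h.E0 → F.l κ * g * (F.l κ)⁻¹ ∈ h.E0 := fun κ g hg =>
    h.e0_conj (h.lE g hg.1 κ) (fun q hq => ⟨ζ κ⁻¹ q, by simp only [mem_Qs, ζ, hq.1, hq.2, and_self], by
      rw [← F.lN, map_inv]; group⟩) (fun s => ⟨_, lX κ s⟩) hg
  have w0 : ∀ {g}, g ∈ h.E0 → F.w * g * F.w⁻¹ ∈ h.E0 := fun {g} hg =>
    h.e0_conj (h.wE g hg.1) (fun q hq => ⟨ω q, ω_mem q, Re.w_symm (F.wN q hq)⟩) (fun s => ⟨_, F.wX4 s⟩) hg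
  have z0 : ∀ z ∈ F.Z, z ∈ h.E0 := fun z hz => by
    obtain ⟨s, rfl⟩ := Loc.mem_Z.1 hz
    exact ⟨by simpa using h.y_mem 0 s, fun q _ => ⟨0, by
      rw [← map_mul, ← comm_X4, map_mul, mul_inv_cancel_right, X4_zero, mul_one]⟩⟩
  let Γ : Subgroup G :=
    { carrier := {x | ∃ g ∈ h.E0, ∃ z ∈ F.Z, x = F.l κ₀ * g * (F.l κ₀)⁻¹ * g⁻¹ * z}
      one_mem' := ⟨1, one_mem _, 1, one_mem _, by simp⟩
      mul_mem' := by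
        rintro _ _ ⟨g, hg, z, hz, rfl⟩ ⟨g', hg', z', hz', rfl⟩
        have m := mul_mem (l0 κ₀ hg') (inv_mem hg')
        obtain ⟨z₀, h0, e⟩ := h.e0_comm (inv_mem hg) m
        refine ⟨g * g', mul_mem hg hg', z₀ * z * z', mul_mem (mul_mem h0 hz) hz', ?_⟩
        calc _ = F.l κ₀ * g * (F.l κ₀)⁻¹ * g⁻¹ * (z * (F.l κ₀ * g' * (F.l κ₀)⁻¹ * g'⁻¹)) * z' := by group
          _ = F.l κ₀ * g * (F.l κ₀)⁻¹ * (g⁻¹ * (F.l κ₀ * g' * (F.l κ₀)⁻¹ * g'⁻¹)) * z * z' := by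
            rw [← h.e0_Z m.1 hz]; group
          _ = _ := by rw [e]; group
      inv_mem' := by
        rintro _ ⟨g, hg, z, hz, rfl⟩
        obtain ⟨z₀, h0, e⟩ := h.e0_comm hg (inv_mem (l0 κ₀ hg))
        refine ⟨g⁻¹, inv_mem hg, z₀ * z⁻¹, mul_mem h0 (inv_mem hz), ?_⟩
        calc _ = z⁻¹ * (g * (F.l κ₀ * g * (F.l κ₀)⁻¹)⁻¹) := by group
          _ = _ := by rw [← h.e0_Z (mul_mem hg (inv_mem (l0 κ₀ hg))).1 (inv_mem hz), e]; group }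
  have le : Γ ≤ h.E0 := by
    rintro _ ⟨g, hg, z, hz, rfl⟩
    exact mul_mem (mul_mem (l0 κ₀ hg) (inv_mem hg)) (z0 z hz)
  have trl : ∀ g ∈ h.E0, ∀ z ∈ F.Z, ∀ c, g * F.t * g⁻¹ = F.t * F.N (X4 c) →
      F.l κ₀ * g * (F.l κ₀)⁻¹ * g⁻¹ * z * F.t * (F.l κ₀ * g * (F.l κ₀)⁻¹ * g⁻¹ * z)⁻¹ =
        F.t * F.N (X4 (κ₀ ^ 2 * σ (κ₀ : K) * c + c)) := fun g hg z hz c hc => by
    obtain ⟨d, hd⟩ := h.tr _ (inv_mem hg.1)
    have := h.ib_add hg.1 hc hd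
    rw [mul_inv_cancel, one_mul, inv_one, mul_one, left_eq_mul, ← map_one F.N] at this
    obtain rfl : c = d := CharTwo.add_eq_zero.1 (congrArg U.x4 (F.inj this))
    obtain ⟨s, rfl⟩ := Loc.mem_Z.1 hz
    simpa using h.ib_add (mul_mem (l0 κ₀ hg) (inv_mem hg)).1 (h.ib_add (l0 κ₀ hg).1 (Pre.ic_l κ₀ hc) hd) (d := 0)
      (by simp [F.t_conj (F.N_mem_L _)])
  have ex : ∀ c, ∃ g ∈ Γ, g * F.t * g⁻¹ = F.t * F.N (X4 c) := fun c => by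
    obtain ⟨c, rfl⟩ : ∃ r, c = κ₀ ^ 2 * σ (κ₀ : K) * r + r :=
      ⟨c / (κ₀ ^ 2 * σ (κ₀ : K) + 1), by linear_combination -div_mul_cancel₀ c (add_one_ne μ1)⟩
    obtain ⟨g, hg, e⟩ := h.e0_ex c
    exact ⟨_, ⟨g, hg, 1, one_mem _, rfl⟩, trl g hg 1 (one_mem _) c e⟩
  have ct : ∀ g ∈ Γ, g * F.t = F.t * g → ∃ s, g = F.N (X4 s) := by
    rintro _ ⟨g, hg, z, hz, rfl⟩ e
    obtain ⟨c, hc⟩ := h.tr g hg.1
    have := trl g hg z hz c hc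
    rw [e, mul_inv_cancel_right, left_eq_mul, ← map_one F.N] at this
    have c0 : (κ₀ : K) ^ 2 * σ (κ₀ : K) * c + c = 0 := congrArg U.x4 (F.inj this)
    obtain rfl : c = 0 := by grind
    refine Loc.mem_Z.1 (mul_mem ?_ hz)
    obtain ⟨r, rfl | rfl⟩ := h.e0_ct hg (by rwa [X4_zero, map_one, mul_one, mul_inv_eq_iff_eq_mul] at hc)
    · rw [lX]; exact mul_mem (Loc.mem_Z.2 ⟨_, rfl⟩) (inv_mem (Loc.mem_Z.2 ⟨_, rfl⟩))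
    · rw [show F.l κ₀ * (F.N (X4 r) * F.t) * (F.l κ₀)⁻¹ = F.l κ₀ * F.N (X4 r) * (F.l κ₀)⁻¹ * (F.l κ₀ * F.t * (F.l κ₀)⁻¹) by
        group, lX, F.t_conj (F.l_mem _), mul_inv_rev, mul_assoc, mul_inv_cancel_left]
      exact mul_mem (Loc.mem_Z.2 ⟨_, rfl⟩) (inv_mem (Loc.mem_Z.2 ⟨_, rfl⟩))
  have nm : ∀ m, m * F.l κ₀ = F.l κ₀ * m → (∀ {g}, g ∈ h.E0 → m * g * m⁻¹ ∈ h.E0) →
      (∀ s, ∃ r, m * F.N (X4 s) * m⁻¹ = F.N (X4 r)) → ∀ g ∈ Γ, m * g * m⁻¹ ∈ Γ := by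
    rintro m h1 h2 h3 _ ⟨g, hg, z, hz, rfl⟩
    obtain ⟨s, rfl⟩ := Loc.mem_Z.1 hz
    refine ⟨_, h2 hg, _, Loc.mem_Z.2 (h3 s), ?_⟩
    conv_rhs => rw [← mul_inv_eq_iff_eq_mul.2 h1]
    group
  have lΓ : ∀ g ∈ Γ, ∀ κ, F.l κ * g * (F.l κ)⁻¹ ∈ Γ := fun g hg κ =>
    nm _ (by rw [← map_mul, mul_comm, map_mul]) (l0 κ) (fun s => ⟨_, lX κ s⟩) g hg
  obtain ⟨γ, hγ, e1⟩ := ex 1
  obtain ⟨s₀, e2⟩ := Loc.mem_Z.1 (h.e0_sq (le hγ))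
  have sq : ∀ g ∈ Γ, ∀ c, g * F.t * g⁻¹ = F.t * F.N (X4 c) → g * g = F.N (X4 (s₀ * c)) := fun g hg c hc => by
    have XX : ∀ s, F.N (X4 s) * F.N (X4 s) = 1 := fun s => by simp [← map_mul, ib_X4, CharTwo.add_self_eq_zero]
    by_cases c0 : c = 0
    · obtain ⟨s, rfl⟩ := ct g hg (by rwa [c0, X4_zero, map_one, mul_one, mul_inv_eq_iff_eq_mul] at hc)
      simp [XX, c0]
    obtain ⟨κ, rfl⟩ := exists_l4 c0
    have e3 := Pre.ic_l κ e1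
    rw [mul_one] at e3
    obtain ⟨s, e4⟩ := ct _ (mul_mem (inv_mem (lΓ γ hγ κ)) hg) (by
      calc _ = (F.l κ * γ * (F.l κ)⁻¹)⁻¹ * (g * F.t * g⁻¹) * g := by group
        _ = _ := by rw [hc, ← e3]; group)
    rw [inv_mul_eq_iff_eq_mul] at e4
    rw [e4, mul_assoc, ← mul_assoc (F.N _), ← h.zc _ (le (lΓ γ hγ κ)).1, mul_assoc _ (F.N _), XX, mul_one, mul_comm s₀,
      ← lX, ← e2]
    group
  refine ⟨Γ, fun s => ⟨1, one_mem _, _, Loc.mem_Z.2 ⟨s, rfl⟩, by simp⟩, fun g hg => h.tr g (le hg).1, ex, ct,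
    fun g hg => h.hc g (le hg).1, lΓ, nm _ (F.lw κ₀).symm w0 fun s => ⟨_, F.wX4 s⟩, fun g hg q hq => (le hg).2 hq,
    fun g hg u => by simpa using (h.cM (le hg).1).1 _ (F.N_mem u), fun g hg g' hg' => ?_, s₀, sq⟩
  obtain ⟨c, hc⟩ := h.tr g (le hg).1
  obtain ⟨d, hd⟩ := h.tr g' (le hg').1
  have := sq _ (mul_mem hg hg') _ (h.ib_add (le hg).1 hc hd)
  rw [mul_add, ← ib_X4, map_mul, ← sq g hg c hc, ← sq g' hg' d hd, mul_assoc, mul_assoc, mul_right_inj, ← mul_assoc,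
    ← mul_assoc, mul_left_inj] at this
  exact this.symm

end Cfsg.Agent.S2F
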