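import Cfsg.Agent.S2F.Base2

/-!
The action of `Γ` on `U`, and `[Γ₄, Γ₆] = 1`.

Choose `γ c ∈ Γ` with translation `c` (`ex`); any `g ∈ Γ` with translation `c` is `γ c * X4 s` (`ct`), and `γ (c + c') ≡ γ c γ c'`,
`l κ (γ c) (l κ)⁻¹ ≡ γ (κ² σ κ c)` mod `V₄`.
(1) For `g ∈ Γ`, `q ↦ s` (`cQ`) is a hom `Qs → K`, `η`-invariant (`hc`), so it vanishes on `X1, Y2, X2, X3, X5, Y6, X6, X7` (`wt_inv`), on `X4` (`comm`), and
equals `Φ c (q.y4)` (`decomp`), `Φ` biadditive, `Φ (κ² σ κ c) (σ κ b) = κ² σ κ Φ c b`.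
(2) `g (X8 a) g⁻¹ = X8 a ε`, `ε ∈ As`.  Apply `g` to `X8 a * p * (X8 a)⁻¹` for `p ∈ Qs`: `ε p X4(Φ c p.y4) ε⁻¹ = p X4 (Φ c (X8 a p (X8 a)⁻¹).y4)`, and
`ε p ε⁻¹ = p X4 (pr p ε)` (`comm_pr`).  `p = Y2 1, Y6 1, X7 1` give `ε.x5 = ε.x3 = ε.x2 = 0`, `p = X1 b` gives `ε.x6 * b = Φ c (a σ b)`.  `ε.x4` is additive in `a`
and `η`-invariant, so `0`.  Hence `Φ c (σ b) = b Φ c 1`, and `Φ (κ² σ κ) 1 * κ = κ² σ κ Φ 1 1`, i.e. `Φ c 1 = κ₀ θ c` (`θ (κ² σ κ) = σ κ κ`), `κ₀ = Φ 1 1`.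
This gives `Kap.cQ`, `Kap.c8`.
(3) `c46`.  Let `g = γ c`, `g' = n (γ d) n⁻¹` (so `g' t g'⁻¹ = t X6 d`), `k c d = g g' g⁻¹ g'⁻¹`; it does not change if `γ c`, `γ d` are changed mod `V₄`.
`g` commutes with `X3 … X7`, and so does `g'` (`nX3` etc.).  `k` commutes with `t` and with `F5`, so `k = N u` or `N u t` (`cen7`), `u ∈ C_U(F5) = F5`.
`k (c + c') d = g (k c' d) g⁻¹ k c d`, similarly in `d`.  The `t`-part (a map to `{0,1} ⊆ K`) is additive in `d` and invariant under conjugation by `h ν`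
(which fixes `g` and scales `d` by `ν σ ν`: `exists_nT` with `κ = 1`), so it vanishes (`wt_inv`).  So `k c d = N (u c d)`, `u c d ∈ F5` central in `⟨g, g'⟩`,
biadditive.  `Y6 b` commutes with `g` and `Y6 b g' (Y6 b)⁻¹ ∈ g' V₆` (conjugate (1) by `n`), so `Y6 b` centralises `k`: `u.x3 = 0`; `Y4 b` likewise: `u.x7 = 0`.
`u.x4`: `h ν` scales `d`, fixes `x4`: `0`.  `u.x6`: `l κ * h κ⁻¹ = n (h ν) n⁻¹` centralises `g'`, scales `c` by `κ² σ κ`, fixes `x6`: `0`.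
`u.x5 c (ν σ ν d) = ν u.x5 c d`: `0` by `wtB`.
-/

set_option autoImplicit false
set_option linter.unusedSectionVars false
set_option linter.unusedSimpArgs false
set_option maxRecDepth 20000

namespace Cfsg.Agent.S2F

open Subgroup Cfsg.Agent.Oct Cfsg.Agent.Fus
open scoped commutatorElement

variable {K : Type*} [Field K] [Tw K] [Finite K] {G : Type*} [Group G] [Finite G]

namespace Pre

variable {F : Fr K G} {Γ : Subgroup G} (h : Pre F Γ) {g g' : G} {c d : K}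
include h

theorem ic_X4 (hg : g ∈ Γ) (s : K) : Commute g (F.N (X4 s)) := h.comm g hg _ (h.z_mem s)

theorem ic_h (hg : g ∈ Γ) (ν : Kˣ) {u v : U K} (e : g * F.N u * g⁻¹ = F.N v) :
    g * F.N (η ν u) * g⁻¹ = F.N (η ν v) := by
  rw [← F.hN, ← F.hN, ← e]
  calc _ = g * F.h ν * F.N u * (g * F.h ν)⁻¹ := by group
    _ = _ := by rw [h.hc g hg ν]; group

theorem ic_line (hg : g ∈ Γ) {X : K → U K} (ν : Kˣ) {w : K} (hw : w ≠ 1) (hQ : ∀ r, X r ∈ Qs)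
    (e : ∀ r, ∃ v, Commute g (F.N v) ∧ η ν (X r) * (X r)⁻¹ = X (w * r + r) * v) (s : K) :
    Commute g (F.N (X s)) := by
  obtain ⟨r, rfl⟩ : ∃ r, s = w * r + r := ⟨s / (w + 1), by linear_combination -div_mul_cancel₀ s (add_one_ne hw)⟩
  obtain ⟨v, h1, h2⟩ := e r
  obtain ⟨s, hs⟩ := h.cQ g hg _ (hQ r)
  have h3 := h.ic_h hg ν hs
  rw [show η ν (X r * X4 s) = η ν (X r) * X4 s by ext <;> simp only [UE]] at h3
  have h4 : Commute g (F.N (X (w * r + r) * v)) := mul_inv_eq_iff_eq_mul.1 (by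
    rw [← h2]
    calc _ = g * F.N (η ν (X r)) * g⁻¹ * (g * F.N (X r) * g⁻¹)⁻¹ := by rw [map_mul, map_inv]; group
      _ = _ := by rw [h3, hs, ← map_inv, ← map_mul]; congr 1; group)
  simpa using h4.mul_right h1.inv_right

theorem ic_all (hg : g ∈ Γ) : (∀ s, Commute g (F.N (X1 s))) ∧ (∀ s, Commute g (F.N (Y2 s))) ∧
    (∀ s, Commute g (F.N (X2 s))) ∧ (∀ s, Commute g (F.N (X3 s))) ∧ (∀ s, Commute g (F.N (X5 s))) ∧
    (∀ s, Commute g (F.N (Y6 s))) ∧ (∀ s, Commute g (F.N (X6 s))) ∧ ∀ s, Commute g (F.N (X7 s)) := by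
  obtain ⟨x, h0, h1⟩ := F.big
  obtain ⟨ν, rfl⟩ : ∃ ν : Kˣ, ν = x := ⟨Units.mk0 x h0, rfl⟩
  have h2 : ν ≠ 1 := fun e => h1 (by simp [e])
  have w1 : ((ν⁻¹ : Kˣ) : K) ≠ 1 := by simpa using h2
  have w2 : ((ν⁻¹ : Kˣ) : K) * σ ((ν⁻¹ : Kˣ) : K) ≠ 1 := fun e => h2 (inv_eq_one.1 (eq_one_l2 e))
  have w3 : (ν : K) * σ (ν : K) ≠ 1 := fun e => h2 (eq_one_l2 e)
  have o : Commute g (F.N 1) := by simp
  have x2 := h.ic_line hg (X := X2) ν w2 (fun _ => ⟨rfl, rfl⟩) fun r => ⟨1, o, by ext <;> simp only [UE]⟩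
  have x6 := h.ic_line hg (X := X6) ν w3 (fun _ => ⟨rfl, rfl⟩) fun r => ⟨1, o, by ext <;> simp only [UE]⟩
  exact ⟨h.ic_line hg ν w2 (fun _ => ⟨rfl, rfl⟩) fun r => ⟨1, o, by ext <;> simp only [UE]⟩,
    h.ic_line hg ν w1 (fun _ => ⟨rfl, rfl⟩) fun r => ⟨_, x2 (η ν (Y2 r) * (Y2 r)⁻¹).x2, by ext <;> simp only [UE]⟩, x2,
    h.ic_line hg ν w1 (fun _ => ⟨rfl, rfl⟩) fun r => ⟨1, o, by ext <;> simp only [UE]⟩,
    h.ic_line hg ν h1 (fun _ => ⟨rfl, rfl⟩) fun r => ⟨1, o, by ext <;> simp only [UE]⟩,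
    h.ic_line hg ν h1 (fun _ => ⟨rfl, rfl⟩) fun r => ⟨_, x6 (η ν (Y6 r) * (Y6 r)⁻¹).x6, by ext <;> simp only [UE]⟩, x6,
    h.ic_line hg ν w3 (fun _ => ⟨rfl, rfl⟩) fun r => ⟨1, o, by ext <;> simp only [UE]⟩⟩

theorem ic_Q (hg : g ∈ Γ) {q : U K} {s : K} (hq : q ∈ Qs) (e : g * F.N (Y4 q.y4) * g⁻¹ = F.N (Y4 q.y4 * X4 s)) :
    g * F.N q * g⁻¹ = F.N (q * X4 s) := by
  obtain ⟨a1, a2, a3, a4, a5, a6, a7, a8⟩ := h.ic_all hg
  have hA := (((a1 q.x1).mul_right (a2 q.y2)).mul_right (a3 q.x2)).mul_right (a4 q.x3)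
  have hB := ((((h.ic_X4 hg q.x4).mul_right (a5 q.x5)).mul_right (a6 q.y6)).mul_right (a7 q.x6)).mul_right (a8 q.x7)
  simp only [← map_mul] at hA hB
  have e1 := decomp q
  rw [hq.1, hq.2, Y8_zero, X8_zero, mul_one, mul_one] at e1
  generalize X1 q.x1 * Y2 q.y2 * X2 q.x2 * X3 q.x3 = A at hA e1
  obtain ⟨B, hB, e1⟩ : ∃ B, Commute g (F.N B) ∧ q = A * Y4 q.y4 * B := ⟨_, hB, e1.trans (by group)⟩
  generalize Y4 q.y4 = Y at e e1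
  calc _ = g * F.N A * g⁻¹ * (g * F.N Y * g⁻¹) * (g * F.N B * g⁻¹) := by rw [e1, map_mul, map_mul]; group
    _ = _ := by
      rw [hA.mul_inv_cancel, hB.mul_inv_cancel, e, ← map_mul, ← map_mul, e1, mul_assoc (A * Y), comm_X4 B]; group

theorem ic_Q0 (hg : g ∈ Γ) {q : U K} (hq : q ∈ Qs) (e : q.y4 = 0) : g * F.N q * g⁻¹ = F.N q := by
  simpa using h.ic_Q hg (s := 0) hq (by simp [e])

theorem ic_8 (hg : g ∈ Γ) {Φ : K → K} (hΦ : ∀ b, g * F.N (Y4 b) * g⁻¹ = F.N (Y4 b * X4 (Φ b))) :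
    (∀ a, g * F.N (X8 a) * g⁻¹ = F.N (X8 a * X6 (Φ a))) ∧ ∀ b, Φ (σ b) = b * Φ 1 := by
  have key : ∀ a, ∃ r, g * F.N (X8 a) * g⁻¹ = F.N (X8 a * X4 r * X6 (Φ a)) ∧ ∀ b, Φ (a * σ b) = b * Φ a := fun a => by
    obtain ⟨ε, hε, e⟩ := h.cU g hg (X8 a)
    rw [mem_As] at hε
    have k : ∀ p ∈ Qs, p.y4 = 0 → ∀ s, g * F.N (X8 a * p * (X8 a)⁻¹) * g⁻¹ = F.N (X8 a * p * (X8 a)⁻¹ * X4 s) →
        s = pr p ε := fun p hp h4 s e' => by
      have : X8 a * p * (X8 a)⁻¹ * X4 s = X8 a * (ε * p * ε⁻¹) * (X8 a)⁻¹ := F.inj (by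
        rw [← e']
        calc _ = g * F.N (X8 a) * g⁻¹ * (g * F.N p * g⁻¹) * (g * F.N (X8 a) * g⁻¹)⁻¹ := by
              rw [map_mul, map_mul, map_inv]; group
          _ = _ := by rw [e, h.ic_Q0 hg hp h4, ← map_inv, ← map_mul, ← map_mul]; congr 1; group)
      rw [comm_X4, ← mul_assoc, mul_left_inj, ← mul_assoc, ← comm_X4, mul_assoc, mul_right_inj] at this
      have := congrArg U.x4 this
      simp only [UE, hε, hp.1, hp.2, h4, pr] at this ⊢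
      grind
    have k0 : ∀ p ∈ Qs, p.x1 = 0 → p.y4 = 0 → 0 = pr p ε := fun p hp h1 h4 => k p hp h4 0 (by
      rw [X4_zero, mul_one]
      exact h.ic_Q0 hg (by simp only [mem_Qs, UE, hp.1, hp.2, and_self]) (by simp only [UE, hp.1, hp.2, h1, h4]))
    have k1 : ∀ b, Φ (a * σ b) = b * ε.x6 := fun b => by
      have := k (X1 b) ⟨rfl, rfl⟩ rfl _ (h.ic_Q hg (by simp only [mem_Qs, UE, and_self]) (hΦ _))
      simpa only [UE, pr] using this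
    have k2 := k0 (Y2 1) ⟨rfl, rfl⟩ rfl rfl
    have k3 := k0 (Y6 1) ⟨rfl, rfl⟩ rfl rfl
    have k4 := k0 (X7 1) ⟨rfl, rfl⟩ rfl rfl
    have k5 := k1 1
    simp only [UE, pr] at k2 k3 k4 k5
    exact ⟨ε.x4, e.trans (congrArg _ (by ext <;> simp only [UE, hε, ← k2, ← k3, ← k4, k5])), fun b => k5 ▸ k1 b⟩
  refine ⟨fun a => ?_, fun b => by simpa using (key 1).choose_spec.2 b⟩
  obtain ⟨x, h0, h1⟩ := F.big
  obtain ⟨ν, hν⟩ := exists_l4 h0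
  obtain ⟨a, rfl⟩ : ∃ r, a = x * r + r := ⟨a / (x + 1), by linear_combination -div_mul_cancel₀ a (add_one_ne h1)⟩
  obtain ⟨r, e, -⟩ := key a
  obtain ⟨r', e', -⟩ := key (x * a + a)
  have e1 := h.ic_h hg ν e
  have e2 : X8 (x * a + a) * X4 r' * X6 (Φ (x * a + a)) = η ν (X8 a * X4 r * X6 (Φ a)) * (X8 a * X4 r * X6 (Φ a)) :=
    F.inj (by
      rw [← e', map_mul, ← e1, ← e, show X8 (x * a + a) = η ν (X8 a) * X8 a by
        ext <;> simp only [UE, ← hν, mul_comm], map_mul]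
      group)
  have e3 := congrArg U.x4 e2
  simp only [UE] at e3
  rw [e', e3, X4_zero, mul_one]

theorem ic_tr (hg : g ∈ Γ) (hg' : g' ∈ Γ) (e : g * F.t * g⁻¹ = F.t * F.N (X4 c))
    (e' : g' * F.t * g'⁻¹ = F.t * F.N (X4 c)) : ∃ s, g' = g * F.N (X4 s) :=
  (h.ct (g⁻¹ * g') (mul_mem (inv_mem hg) hg') (by
    calc _ = g⁻¹ * (g' * F.t * g'⁻¹) * g' := by group
      _ = _ := by rw [e', ← e]; group)).imp fun s hs => by rw [← hs, mul_inv_cancel_left]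

theorem ic_add (hg : g ∈ Γ) (e : g * F.t * g⁻¹ = F.t * F.N (X4 c)) (e' : g' * F.t * g'⁻¹ = F.t * F.N (X4 d)) :
    g * g' * F.t * (g * g')⁻¹ = F.t * F.N (X4 (c + d)) := by
  calc _ = g * (g' * F.t * g'⁻¹) * g⁻¹ := by group
    _ = g * F.t * g⁻¹ * (g * F.N (X4 d) * g⁻¹) := by rw [e']; group
    _ = _ := by
      rw [e, (h.ic_X4 hg d).mul_inv_cancel, mul_assoc, ← map_mul]
      exact congrArg _ (congrArg _ (by ext <;> simp only [UE]))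

omit h in
theorem ic_l (κ : Kˣ) (e : g * F.t * g⁻¹ = F.t * F.N (X4 c)) :
    F.l κ * g * (F.l κ)⁻¹ * F.t * (F.l κ * g * (F.l κ)⁻¹)⁻¹ = F.t * F.N (X4 ((κ : K) ^ 2 * σ (κ : K) * c)) := by
  calc _ = F.l κ * (g * ((F.l κ)⁻¹ * F.t * (F.l κ)⁻¹⁻¹) * g⁻¹) * (F.l κ)⁻¹ := by group
    _ = F.l κ * F.t * (F.l κ)⁻¹ * (F.l κ * F.N (X4 c) * (F.l κ)⁻¹) := by
      rw [F.t_conj (inv_mem (F.l_mem κ)), e]; group
    _ = _ := by rw [F.t_conj (F.l_mem κ), F.lN]; exact congrArg _ (congrArg _ (by ext <;> simp only [UE, ζ]))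

theorem ic_kap : ∃ κ, ∀ g ∈ Γ, ∀ c, g * F.t * g⁻¹ = F.t * F.N (X4 c) →
    (∀ b, g * F.N (Y4 b) * g⁻¹ = F.N (Y4 b * X4 (κ * θ (b * c)))) ∧
      ∀ a, g * F.N (X8 a) * g⁻¹ = F.N (X8 a * X6 (κ * θ (a * c))) := by
  obtain ⟨γ, hγ, e⟩ := h.ex 1
  obtain ⟨κ₀, h0⟩ := h.cQ γ hγ (Y4 1) ⟨rfl, rfl⟩
  refine ⟨κ₀, fun g hg c hc => ?_⟩
  choose Φ hΦ using fun b => h.cQ g hg (Y4 b) ⟨rfl, rfl⟩
  obtain ⟨h1, h2⟩ := h.ic_8 hg hΦ
  have h3 : Φ 1 = κ₀ * θ c := by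
    by_cases c0 : c = 0
    · obtain ⟨s, rfl⟩ := h.ct g hg (by rwa [c0, X4_zero, map_one, mul_one, mul_inv_eq_iff_eq_mul] at hc)
      have := hΦ 1
      rw [← map_inv, ← map_mul, ← map_mul] at this
      have := congrArg U.x4 (F.inj this)
      simp only [UE, c0, map_zero] at this ⊢
      grind
    obtain ⟨κ, rfl⟩ := exists_l4 c0
    obtain ⟨s, rfl⟩ := h.ic_tr (h.lΓ γ hγ κ) hg (by simpa using ic_l κ e) hc
    have h4 := hΦ (σ (κ : K))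
    have h5 : F.N (X4 s) * F.N (Y4 (σ (κ : K))) * (F.N (X4 s))⁻¹ = F.l κ * F.N (Y4 1) * (F.l κ)⁻¹ := by
      rw [← map_mul, ← comm_X4, map_mul, mul_inv_cancel_right, F.lN]
      exact congrArg _ (by ext <;> simp only [UE, ζ])
    have h6 : F.N (ζ κ (Y4 1 * X4 κ₀)) = F.N (Y4 (σ (κ : K)) * X4 (Φ (σ (κ : K)))) := by
      rw [← h4, ← F.lN, ← h0]
      calc _ = F.l κ * γ * (F.l κ)⁻¹ * (F.l κ * F.N (Y4 1) * (F.l κ)⁻¹) * (F.l κ * γ * (F.l κ)⁻¹)⁻¹ := by group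
        _ = _ := by rw [← h5]; group
    have h7 := congrArg U.x4 (F.inj h6)
    simp only [UE, ζ, h2] at h7
    rw [show θ ((κ : K) ^ 2 * σ (κ : K)) = σ (κ : K) * κ from σ_inj (by simp only [σθ, UE])]
    exact mul_left_cancel₀ κ.ne_zero (by rw [← h7]; ring)
  have h4 : ∀ b, Φ b = κ₀ * θ (b * c) := fun b => by
    rw [← σθ b, h2, h3, map_mul, θσ]; ring
  exact ⟨fun b => h4 b ▸ hΦ b, fun a => h4 a ▸ h1 a⟩

omit h in
theorem ic_t1 {a b t x y : G} (ha : a * t * a⁻¹ = t * x) (hb : b * t * b⁻¹ = t * y) (ax : Commute a x)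
    (ay : Commute a y) (bx : Commute b x) (b' : Commute b y) : a * b * (t * (x * y)⁻¹) * (a * b)⁻¹ = t :=
  calc _ = a * (b * t * b⁻¹) * a⁻¹ * (a * (b * x * b⁻¹ * (b * y * b⁻¹)) * a⁻¹)⁻¹ := by group
    _ = a * t * a⁻¹ * (a * y * a⁻¹) * (a * x * a⁻¹ * (a * y * a⁻¹))⁻¹ := by
      rw [hb, bx.mul_inv_cancel, b'.mul_inv_cancel]; group
    _ = t := by rw [ha, ax.mul_inv_cancel, ay.mul_inv_cancel]; group

omit h in
theorem ic_R {a b z : G} (e : Commute a z) : a * (b * z) * a⁻¹ * (b * z)⁻¹ = a * b * a⁻¹ * b⁻¹ :=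
  calc _ = a * b * a⁻¹ * (a * z * a⁻¹) * z⁻¹ * b⁻¹ := by group
    _ = _ := by rw [e.mul_inv_cancel]; group

omit h in
theorem ic_F5 {u : U K} (h3 : X3 1 * u = u * X3 1) (h5 : X5 1 * u = u * X5 1) (h6 : X6 1 * u = u * X6 1)
    (h7 : X7 1 * u = u * X7 1) : u ∈ F5 := by
  have e1 := congrArg U.x4 h6
  simp only [UE] at e1
  have x1 : u.x1 = 0 := by grind
  have e2 := congrArg U.x4 h5
  have e3 := congrArg U.x6 h5
  simp only [UE, x1] at e2 e3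
  have y2 : u.y2 = 0 := by grind
  have y8 : u.y8 = 0 := by grind
  have e4 := congrArg U.x4 h7
  have e5 := congrArg U.x6 h7
  have e6 := congrArg U.x4 h3
  have e7 := congrArg U.x6 h3
  simp only [UE, x1, y2, y8] at e4 e5 e6 e7
  exact ⟨x1, y2, by grind, by grind, by grind, y8, by grind⟩

theorem ic_n (hg : g ∈ Γ) : (∀ s, Commute (F.n * g * F.n⁻¹) (F.N (Y4 s))) ∧
    ∀ u ∈ F5, Commute g (F.N u) ∧ Commute (F.n * g * F.n⁻¹) (F.N u) := by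
  obtain ⟨-, -, -, a3, a5, a6, a6', a7⟩ := h.ic_all hg
  refine ⟨fun s => comm_conj (a6 s).eq rfl (F.nY6 s), fun u hu => ⟨mul_inv_eq_iff_eq_mul.1
    (h.ic_Q0 hg ⟨hu.2.2.2.2.2.1, hu.2.2.2.2.2.2⟩ hu.2.2.2.1), ?_⟩⟩
  rw [mem_F5] at hu
  rw [show u = X3 u.x3 * X4 u.x4 * X5 u.x5 * X6 u.x6 * X7 u.x7 by ext <;> simp only [UE, hu]]
  simp only [map_mul]
  exact (((Commute.mul_right (comm_conj (a7 _).eq rfl (F.nX7 _)) (comm_conj (a6' _).eq rfl (F.nX6 _))).mul_right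
    (comm_conj (a5 _).eq rfl (F.nX5 _))).mul_right (comm_conj (h.ic_X4 hg _).eq rfl (F.nX4 _))).mul_right
    (comm_conj (a3 _).eq rfl (F.nX3 _))

theorem ic_A (hg : g ∈ Γ) (hg' : g' ∈ Γ) :
    ∃ u ∈ Ys, g * (F.n * g' * F.n⁻¹) * g⁻¹ * (F.n * g' * F.n⁻¹)⁻¹ = F.N u := by
  obtain ⟨c, hc⟩ := h.tr g hg
  obtain ⟨d, hd⟩ := h.tr g' hg'
  have ga := fun u hu => ((h.ic_n hg).2 u hu).1
  have ba := fun u hu => ((h.ic_n hg').2 u hu).2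
  have b4 := (h.ic_n hg').1 1
  have m3 : ∀ s : K, X3 s ∈ F5 := fun s => by simp only [mem_F5, UE, and_self]
  have m4 : ∀ s : K, X4 s ∈ F5 := fun s => by simp only [mem_F5, UE, and_self]
  have m5 : ∀ s : K, X5 s ∈ F5 := fun s => by simp only [mem_F5, UE, and_self]
  have m6 : ∀ s : K, X6 s ∈ F5 := fun s => by simp only [mem_F5, UE, and_self]
  have m7 : ∀ s : K, X7 s ∈ F5 := fun s => by simp only [mem_F5, UE, and_self]
  have bt : F.n * g' * F.n⁻¹ * F.t * (F.n * g' * F.n⁻¹)⁻¹ = F.t * F.N (X6 d) := conj_t F.n_mem hd (F.nX4 d)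
  have bb : F.n * g' * F.n⁻¹ * (F.n * g' * F.n⁻¹) = F.N (X6 (h.sq.choose * d)) := by
    rw [← F.nX4, ← h.sq.choose_spec g' hg' d hd]; group
  have b0 : d = 0 → ∃ s, F.n * g' * F.n⁻¹ = F.N (X6 s) := fun e =>
    (h.ct g' hg' (by rwa [e, X4_zero, map_one, mul_one, mul_inv_eq_iff_eq_mul] at hd)).imp fun s hs => by
      rw [hs, F.nX4]
  obtain ⟨s6, b6⟩ : ∃ s, F.n * g' * F.n⁻¹ * F.N (Y6 1) * (F.n * g' * F.n⁻¹)⁻¹ = F.N (Y6 1) * F.N (X6 s) :=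
    (h.cQ g' hg' (Y4 1) ⟨rfl, rfl⟩).imp fun s hs => by
      rw [← F.nY4, conj_conj hs, ← F.nX4, map_mul]; group
  obtain ⟨s4, g4⟩ := h.cQ g hg (Y4 1) ⟨rfl, rfl⟩
  have g6 := (h.ic_all hg).2.2.2.2.2.1 1
  generalize F.n * g' * F.n⁻¹ = b at *
  have ka : ∀ u ∈ F5, Commute (g * b * g⁻¹ * b⁻¹) (F.N u) := fun u hu =>
    (((ga u hu).mul_left (ba u hu)).mul_left (ga u hu).inv_left).mul_left (ba u hu).inv_left
  have kt : g * b * g⁻¹ * b⁻¹ * F.t = F.t * (g * b * g⁻¹ * b⁻¹) := mul_inv_eq_iff_eq_mul.1 (by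
    have e1 := ic_t1 hc bt (ga _ (m4 _)) (ga _ (m6 _)) (ba _ (m4 _)) (ba _ (m6 _))
    have e2 := ic_t1 bt hc (ba _ (m6 _)) (ba _ (m4 _)) (ga _ (m6 _)) (ga _ (m4 _))
    rw [← map_mul, comm_X4, map_mul] at e2
    calc _ = g * b * ((b * g)⁻¹ * F.t * (b * g)) * (g * b)⁻¹ := by group
      _ = _ := by rw [← e1]; congr 2; rw [e1]; conv_lhs => rw [← e2]
                  group)
  obtain ⟨u, hu | hu⟩ := F.cen7 kt (fun s => ka _ (m4 s)) (ka _ (m7 1))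
  · have c : ∀ {v}, Commute (g * b * g⁻¹ * b⁻¹) (F.N v) → v * u = u * v := fun e =>
      F.inj (by rw [map_mul, map_mul, ← hu, e.eq])
    have hu' := mem_F5.1 (ic_F5 (c (ka _ (m3 1))) (c (ka _ (m5 1))) (c (ka _ (m6 1))) (c (ka _ (m7 1))))
    have e3 := congrArg U.x4 (c (v := Y6 1) (by
      have : b = F.N (Y6 1) * (b * F.N (X6 s6)) * (F.N (Y6 1))⁻¹ := by
        rw [(ba _ (m6 _)).eq, ← mul_assoc, ← b6]; group
      refine (mul_inv_eq_iff_eq_mul.1 ?_).symm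
      conv_lhs => rw [← ic_R (ga _ (m6 s6))]
      conv_rhs => rw [this, ← g6.symm.mul_inv_cancel]
      group))
    have e7 := congrArg U.x6 (c (v := Y4 1) (by
      have : g = F.N (Y4 1) * (g * F.N (X4 s4)) * (F.N (Y4 1))⁻¹ := by
        rw [(ga _ (m4 _)).eq, ← mul_assoc, ← map_mul, ← g4]; group
      refine (mul_inv_eq_iff_eq_mul.1 (inv_injective ?_)).symm
      rw [show (g * b * g⁻¹ * b⁻¹)⁻¹ = b * g * b⁻¹ * g⁻¹ by group]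
      conv_rhs => rw [this, ← b4.symm.mul_inv_cancel]
      calc _ = F.N (Y4 1) * (b * g * b⁻¹ * g⁻¹) * (F.N (Y4 1))⁻¹ := by group
        _ = _ := by rw [← ic_R (ba _ (m4 s4))]; group))
    simp only [UE, hu'] at e3 e7
    exact ⟨u, by rw [mem_Ys]; grind, hu⟩
  · have c : ∀ {v}, Commute (g * b * g⁻¹ * b⁻¹) (F.N v) → v * u = u * v := fun {v} e => F.inj (by
      have := e.eq
      rwa [hu, mul_assoc, F.tN, ← mul_assoc, ← mul_assoc, mul_left_inj, ← map_mul, ← map_mul, eq_comm, map_mul,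
        map_mul, ← map_mul, ← map_mul] at this)
    have hu' := ic_F5 (c (ka _ (m3 1))) (c (ka _ (m5 1))) (c (ka _ (m6 1))) (c (ka _ (m7 1)))
    have e1 : F.N u * F.t * (b * F.N u * b⁻¹ * (b * F.t * b⁻¹)) = 1 := by
      calc _ = F.N u * F.t * b * (F.N u * F.t) * b⁻¹ := by group
        _ = g * (b * b) * g⁻¹ * (b * b)⁻¹ := by rw [← hu]; group
        _ = 1 := by rw [bb, (ga _ (m6 _)).mul_inv_cancel, mul_inv_cancel]
    rw [(ba _ hu').mul_inv_cancel, bt, mul_assoc, ← mul_assoc F.t, F.tN, mul_assoc, ← mul_assoc F.t, F.tt, one_mul,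
      ← map_mul, ← map_mul, ← map_one F.N] at e1
    have e2 := congrArg U.x6 (F.inj e1)
    rw [mem_F5] at hu'
    simp only [UE, hu'] at e2
    obtain ⟨s, rfl⟩ := b0 (by grind)
    rw [(ga _ (m6 _)).mul_inv_cancel, mul_inv_cancel, eq_comm, mul_eq_one_iff_inv_eq, ← map_inv] at hu
    exact absurd hu.symm (F.t_ne_N _)

theorem ic_B (hg : g ∈ Γ) (hg' : g' ∈ Γ) :
    ∃ s, g * (F.n * g' * F.n⁻¹) * g⁻¹ * (F.n * g' * F.n⁻¹)⁻¹ = F.N (X6 s) := by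
  choose γ hγ hγ' using h.ex
  choose u hu hu' using fun d => h.ic_A hg (hγ d)
  have mF : ∀ d, u d ∈ F5 := fun d => by have := mem_Ys.1 (hu d); simp only [mem_F5, this, and_self]
  have gen : ∀ g' ∈ Γ, ∀ d, g' * F.t * g'⁻¹ = F.t * F.N (X4 d) →
      g * (F.n * g' * F.n⁻¹) * g⁻¹ * (F.n * g' * F.n⁻¹)⁻¹ = F.N (u d) := fun g' hg' d hd => by
    obtain ⟨s, rfl⟩ := h.ic_tr (hγ d) hg' (hγ' d) hd
    rw [← hu', ← ic_R (b := F.n * γ d * F.n⁻¹) ((h.ic_all hg).2.2.2.2.2.2.1 s), ← F.nX4]; group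
  have add : ∀ d d', u (d + d') = u d * u d' := fun d d' => F.inj (by
    rw [← gen _ (mul_mem (hγ d) (hγ d')) _ (h.ic_add (hγ d) (hγ' d) (hγ' d')), map_mul,
      ← (((h.ic_n (hγ d)).2 _ (mF d')).2).mul_inv_cancel, ← hu', ← hu']
    group)
  have tor : ∀ (ν : Kˣ) d, u (ν * σ (ν : K) * d) = η ν (u d) := fun ν d => F.inj (by
    obtain ⟨κ, ν', e1, -, e2⟩ := F.exists_nT 1 ν
    rw [map_one, one_mul] at e2
    rw [Units.val_one, one_mul] at e1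
    have e3 : F.n * (F.l κ * γ d * (F.l κ)⁻¹) * F.n⁻¹ = F.h ν * (F.n * γ d * F.n⁻¹) * (F.h ν)⁻¹ := by
      rw [← Re.n_symm e2]
      conv_lhs => rw [← mul_inv_eq_iff_eq_mul.2 (h.hc _ (hγ d) ν').symm]
      group
    rw [← gen _ (h.lΓ _ (hγ d) κ) _ (by rw [ic_l κ (hγ' d), ← σσ, e1, mul_comm (σ (ν : K))]), ← F.hN, ← hu', e3]
    conv_lhs => rw [← mul_inv_eq_iff_eq_mul.2 (h.hc g hg ν).symm]
    group)
  have a4 : ∀ d, (u d).x4 = 0 := wt_inv F.big (f := fun d => (u d).x4)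
    (fun a b => by have := mem_Ys.1 (hu a); have := mem_Ys.1 (hu b); simp only [add, UE, *]) fun μ hμ a => by
      obtain ⟨ν, rfl⟩ := exists_l2 hμ
      simp only [tor, UE]
  obtain ⟨x, h0, h1⟩ := F.big
  have a5 : ∀ d, (u d).x5 = 0 := wtB (f := fun d => (u d).x5) (φ := fun y => y * σ y) (χ := id)
    (fun a b => by have := mem_Ys.1 (hu a); have := mem_Ys.1 (hu b); simp only [add, UE, *])
    (fun y hy a => congrArg U.x5 (tor (Units.mk0 y hy) a)) h0 h1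
    (by have := σ_ne_self h0 h1; simp only [UE]; grind) rfl
  obtain ⟨d, hd⟩ := h.tr g' hg'
  have := mem_Ys.1 (hu d)
  exact ⟨(u d).x6, (gen g' hg' d hd).trans (congrArg _ (by ext <;> simp only [UE, a4, a5, this]))⟩

end Pre

theorem Pre.exists_kap {F : Fr K G} {Γ : Subgroup G} (h : Pre F Γ) : ∃ κ, Kap F Γ κ := by
  obtain ⟨κ, hκ⟩ := h.ic_kap
  refine ⟨κ, fun g hg c hc q hq => h.ic_Q hg hq ((hκ g hg c hc).1 _), fun g hg c hc => (hκ g hg c hc).2,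
    fun g hg g' hg' => ?_⟩
  obtain ⟨s, hs⟩ := h.ic_B hg hg'
  obtain ⟨s', hs'⟩ := h.ic_B hg' hg
  have e : F.N (X4 s * X6 s') = F.N 1 := by
    rw [map_mul, ← hs', ← F.nX6, ← hs, map_one]
    calc _ = F.n * g * F.n⁻¹ * (F.n * (F.n * g' * F.n⁻¹) * F.n⁻¹) * (F.n * g * F.n⁻¹)⁻¹ *
          (F.n * (F.n * g' * F.n⁻¹) * F.n⁻¹)⁻¹ * (g' * (F.n * g * F.n⁻¹) * g'⁻¹ * (F.n * g * F.n⁻¹)⁻¹) := by group
      _ = 1 := by rw [Re.n_symm (R := F.toRe) (x := g') rfl]; group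
  have := congrArg U.x4 (F.inj e)
  simp only [UE] at this
  rwa [this, X6_zero, map_one, mul_inv_eq_one, mul_inv_eq_iff_eq_mul] at hs

end Cfsg.Agent.S2F
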