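import Cfsg.Agent.S2F.Base1
import Cfsg.Agent.S2F.Base2

/-!
`κ = 0`, and `Γ` centralises `M`.

General remarks (all S2F stubs): read `S2F/Def.lean` (definitions, conventions) and `S2F/Base*.lean` first. Identities in `U K`
are proved by `ext <;> simp only [UE, ...hypotheses] <;> grind` (add `ζ`, `ψ`, `pr` to the simp set); conjugation is `g * x * g⁻¹`;
we write `X4 s` for `F.N (X4 s)` etc.  Weight arguments: `wt_inv`, `wtA`, `wtB` with `x` from `F.big` and `σ_ne_self`, `σ_ne_sq`, `cub_ne`;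
`exists_l2`, `exists_l4`, `exists_lσ` give torus elements with a prescribed weight.
Keep the statements; add lemmas / extra files freely (unique names).

For `g ∈ Γ` with translation `d` put `g₆ = n g n⁻¹`, `g₂ = w g₆ w⁻¹` (`g₆ t g₆⁻¹ = t X6 d`, `g₂ t g₂⁻¹ = t X2 d`).  Conjugating `Kap.cQ`, `Kap.c8` by `n`, `w`:
for `v ∈ As`: `g₆ v g₆⁻¹ = v X4 (κ θ (d v.x2))`, `g₂ v g₂⁻¹ = v X4 (κ θ (d v.x6))`; `g₆, g₂` commute with `Y4 b`, with `V₄`, and with `Γ` (`c46`, `wΓ`);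
`Γ` centralises `N(As)`.  Fix `x ∉ {0,1}`, `(a₁, d₁) = (1, x)`, `(a₂, d₂) = (x, 1)`, `p_i ∈ Γ₂` with translation `d_i`, `p ∈ Γ₂` with `d₁ + d₂`,
`r ∈ Γ₆` with `σ a₁ d₁ + σ a₂ d₂`, and `ρ = (X8 a₁ p₁ (X8 a₁)⁻¹) (X8 a₂ p₂ (X8 a₂)⁻¹) p r`.
(1) `X8 a p_i (X8 a)⁻¹` maps `t` to `t X2 d X4 (a σ d) X5 (a d) X6 (σ a d)` and `v ∈ As` to `v X4 (κ θ (d (v.x6 + a v.x3 + σ a v.x2)))`.  So `ρ t ρ⁻¹ = t X4 e`
for some `e`, `ρ` centralises `N(As)` (the sum is `κ θ ((a₁ d₁ + a₂ d₂) v.x3) = 0`) and `Y4 b` (`X8` commutes with `Y4`).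
(2) Take `g_e ∈ Γ` with translation `e`; `y = ρ g_e⁻¹` centralises `t` and `N(As)`, so `y = N u` or `N u t` (`cen6`), `u ∈ C_U(As) = Ps`.  `ρ` centralises
`Y4 b`: `s σ b + b σ s = κ θ e θ b` for all `b` (`s = u.y4`); `σ, id, θ` are distinct (`linearIndependent_monoidHom`, or evaluate), so `s = 0`, `u ∈ As`.
(3) For `g_c ∈ Γ`: `g_c ρ g_c⁻¹ = ρ` or `ρ X4 c` according to the case of `y` (independent of `c`).  Directly: `g_c (X8 a p (X8 a)⁻¹) g_c⁻¹ =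
X8 a X6 (κ θ (a c)) p X6⁻¹ (X8 a)⁻¹ = X8 a p (X8 a)⁻¹ X4 (κ θ (d κ θ (a c)))`, so `g_c ρ g_c⁻¹ = ρ X4 (R θ (θ c))`, `R = κ θ κ (θ x + θ (θ x))`.
`R θ² c = c` for all `c` is impossible (`c = 1`, then `c = x`: `θ θ x = x`, `x = x²`), so `R = 0`, `κ = 0`.
(4) Now `g ∈ Γ` centralises `N(Qs)`; `g (N u) g⁻¹ = N (u ε)`, `ε ∈ As` (`cU`) centralises `Qs`, so `ε ∈ Zs`.  `{m ∈ C | ∀ g ∈ Γ, m⁻¹ g m g⁻¹ ∈ V₄}` is a subgroup
containing `N u`, `h ν`, `w N u w⁻¹` (`wΓ`), `w` (`rel`), so it is `C`; for fixed `g`, `m ↦ m⁻¹ g m g⁻¹` is a hom from the perfect group `C` (`C_perfect`)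
to the central `V₄`: trivial.
-/

set_option autoImplicit false
set_option linter.unusedSectionVars false
set_option linter.unusedSimpArgs false
set_option maxRecDepth 20000

namespace Cfsg.Agent.S2F

open Subgroup Cfsg.Agent.Oct Cfsg.Agent.Fus
open scoped commutatorElement

variable {K : Type*} [Field K] [Tw K] [Finite K] {G : Type*} [Group G] [Finite G]

namespace Ic2

theorem x4a (a d : K) : X4 (a + d) = X4 a * X4 d := by ext <;> simp only [UE]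

theorem ω_As {v : U K} (hv : v ∈ As) : ω v ∈ As := by
  rw [mem_As] at hv ⊢
  simp only [UE, hv, and_self]

theorem As_Qs {v : U K} (hv : v ∈ As) : v ∈ Qs := ⟨hv.2.2.2.2.2.1, hv.2.2.2.2.2.2⟩

theorem X8_As {v : U K} (hv : v ∈ As) (a : K) : X8 a * v * (X8 a)⁻¹ ∈ As := by
  rw [mem_As] at hv ⊢
  simp only [UE, hv, and_self]

theorem X8_inv (a : K) : (X8 a)⁻¹ = X8 a := by ext <;> simp only [UE]

/-- `x` translates `t` by `u` modulo `V₄`, acts on `W` by `f`, and is moved by `Γ` by `r`. -/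
structure El (F : Fr K G) (Γ : Subgroup G) (x : G) (u : U K) (f : U K → K) (r : K → K) : Prop where
  mem : u ∈ As
  tr : ∃ e, x * F.t * x⁻¹ = F.t * F.N (u * X4 e)
  ac : ∀ v ∈ As, x * F.N v * x⁻¹ = F.N (v * X4 (f v))
  z : ∀ s, Commute x (F.N (X4 s))
  c : ∀ g ∈ Γ, ∀ c, g * F.t * g⁻¹ = F.t * F.N (X4 c) → g * x * g⁻¹ = x * F.N (X4 (r c))

variable {F : Fr K G} {Γ : Subgroup G} {κ : K} {x y g : G} {u u' : U K} {f f' : U K → K} {r r' : K → K}

theorem El.mul (a : El F Γ x u f r) (b : El F Γ y u' f' r') :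
    El F Γ (x * y) (u * u') (fun v => f v + f' v) fun c => r c + r' c where
  mem := mul_mem a.mem b.mem
  tr := by
    obtain ⟨e, he⟩ := a.tr
    obtain ⟨e', he'⟩ := b.tr
    refine ⟨e + (e' + f (u' * X4 e')), ?_⟩
    rw [mul_inv_rev, mul_assoc x y, ← mul_assoc, mul_assoc x _ y⁻¹, he', ← conj_mul, he,
      a.ac _ (mul_mem b.mem ⟨rfl, rfl, rfl, rfl, rfl, rfl, rfl⟩), mul_assoc, ← map_mul, x4a, x4a, ← mul_assoc (u * u'),
      mul_assoc u u', comm_X4 u' e]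
    simp only [mul_assoc]
  ac := fun v hv => by
    rw [mul_inv_rev, mul_assoc x y, ← mul_assoc, mul_assoc x _ y⁻¹, b.ac v hv, map_mul, ← conj_mul, a.ac v hv,
      (a.z _).mul_inv_cancel, ← map_mul, x4a, mul_assoc]
  z := fun s => (a.z s).mul_left (b.z s)
  c := fun g hg c e => by
    rw [← conj_mul, a.c g hg c e, b.c g hg c e, x4a, map_mul, mul_assoc x _ (y * _), ← mul_assoc _ y, ← (b.z _).eq]
    simp only [mul_assoc]

theorem El.w (h : Pre F Γ) (a : El F Γ x u f r) : El F Γ (F.w * x * F.w⁻¹) (ω u) (fun v => f (ω v)) r where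
  mem := ω_As a.mem
  tr := a.tr.imp fun e he => conj_t (R := F.toRt) F.w_mem_L he (by
    rw [map_mul, ← conj_mul, F.wN _ (As_Qs a.mem), F.wX4, map_mul])
  ac := fun v hv => by
    have := conj_conj (g := F.w) (a.ac _ (ω_As hv))
    rwa [map_mul, ← conj_mul (a := F.N _), Re.w_symm (F.wN _ (As_Qs hv)), F.wX4, ← map_mul] at this
  z := fun s => comm_conj (a.z s) rfl (F.wX4 s)
  c := fun g hg c e => by
    have := conj_conj (g := F.w) (a.c _ (h.wΓ g hg) c (conj_t (R := F.toRt) F.w_mem_L e (F.wX4 c)))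
    rwa [Re.w_symm rfl, ← conj_mul (a := x), F.wX4] at this

theorem El.x8 (k : Kap F Γ κ) (a : El F Γ x u f r) (b : K) :
    El F Γ (F.N (X8 b) * x * (F.N (X8 b))⁻¹) (X8 b * u * (X8 b)⁻¹) (fun v => f (X8 b * v * (X8 b)⁻¹))
      fun c => r c + f (X6 (κ * θ (b * c))) where
  mem := X8_As a.mem b
  tr := a.tr.imp fun e he => conj_t (R := F.toRt) (F.N_mem_L _) he (by
    rw [← map_inv, ← map_mul, ← map_mul, ← mul_assoc, mul_assoc _ (X4 e), ← comm_X4, ← mul_assoc])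
  ac := fun v hv => by
    have := conj_conj (g := F.N (X8 b)) (a.ac _ (X8_As hv b))
    have e : F.N (X8 b) * F.N (X8 b * v * (X8 b)⁻¹) * (F.N (X8 b))⁻¹ = F.N v := by
      rw [← map_inv, ← map_mul, ← map_mul]
      nth_rewrite 1 [← X8_inv b]
      nth_rewrite 2 [X8_inv b]
      congr 1; group
    rwa [e, map_mul _ _ (X4 _), ← conj_mul (a := F.N _), e, Loc.comm_Z (F.N_mem _), mul_inv_cancel_right,
      ← map_mul] at this
  z := fun s => comm_conj (a.z s) rfl (by rw [← map_inv, ← map_mul, ← map_mul, comm_X4, mul_inv_cancel_right])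
  c := fun g hg c e => by
    have h1 := conj_conj (g := g) (x := F.N (X8 b)) (y := x) rfl
    have h2 := a.ac (X6 (κ * θ (b * c))) ⟨rfl, rfl, rfl, rfl, rfl, rfl, rfl⟩
    rw [← h1, k.c8 g hg c e, a.c g hg c e]
    generalize κ * θ (b * c) = m at h2 ⊢
    have i6 : (F.N (X6 m))⁻¹ = F.N (X6 m) := by rw [← map_inv]; congr 1; ext <;> simp only [UE]
    have h3 : F.N (X6 m) * x * (F.N (X6 m))⁻¹ = x * F.N (X4 (f (X6 m))) := by
      rw [i6, mul_assoc, eq_mul_of_mul_inv_eq h2, map_mul, (a.z _).eq, ← mul_assoc, ← mul_assoc,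
        mul_eq_one_iff_inv_eq.2 i6, one_mul]
    rw [map_mul, mul_inv_rev, mul_assoc (F.N _), ← mul_assoc, mul_assoc (F.N _), ← conj_mul (a := x), h3,
      Loc.comm_Z (F.N_mem _), mul_inv_cancel_right, mul_assoc x, ← map_mul, ← x4a, ← conj_mul,
      Loc.comm_Z (F.N_mem _), mul_inv_cancel_right, add_comm]

theorem cA (h : Pre F Γ) (k : Kap F Γ κ) (hg : g ∈ Γ) {q : U K} (hq : q ∈ Qs) (h4 : q.y4 = 0) : Commute g (F.N q) := by
  obtain ⟨c, e⟩ := h.tr g hg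
  have := k.cQ g hg c e q hq
  rw [h4, zero_mul, map_zero, mul_zero, X4_zero, mul_one] at this
  exact mul_inv_eq_iff_eq_mul.1 this

theorem el6 (h : Pre F Γ) (k : Kap F Γ κ) (d : K) :
    ∃ x, El F Γ x (X6 d) (fun v => κ * θ (v.x2 * d)) fun _ => 0 := by
  obtain ⟨g, hg, e⟩ := h.ex d
  have key : ∀ q ∈ Rs, ψ q ∈ Qs → (ψ q).y4 = 0 → Commute (F.n * g * F.n⁻¹) (F.N q) := fun q h1 h2 h3 =>
    comm_conj (cA h k hg h2 h3) rfl (Re.n_symm (F.nN h1))
  refine ⟨F.n * g * F.n⁻¹, ⟨rfl, rfl, rfl, rfl, rfl, rfl, rfl⟩,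
    ⟨0, conj_t (R := F.toRt) F.n_mem e (by rw [F.nX4, X4_zero, mul_one])⟩, fun v hv => ?_,
    fun s => comm_conj (cA h k hg (q := X6 s) ⟨rfl, rfl⟩ rfl) rfl (F.nX6 s), fun g' hg' c _ => ?_⟩
  · have h1 := conj_conj (g := F.n) (k.c8 g hg d e v.x2)
    rw [F.nX8, map_mul, ← conj_mul (a := F.N _), F.nX8, F.nX6] at h1
    rw [mem_As] at hv
    have h2 := key ((X2 v.x2)⁻¹ * v) (by simp only [mem_Rs, UE, hv]) (by simp only [mem_Qs, ψ, UE, hv, and_self])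
      (by simp only [ψ, UE, hv])
    rw [← mul_inv_cancel_left (X2 v.x2) v, map_mul, ← conj_mul, h1, h2.mul_inv_cancel, ← map_mul, ← map_mul,
      mul_assoc, ← comm_X4, ← mul_assoc, mul_inv_cancel_left]
  · rw [k.c46 g' hg' g hg, mul_inv_cancel_right, X4_zero, map_one, mul_one]

theorem κ_zero (h : Pre F Γ) (k : Kap F Γ κ) : κ = 0 := by
  obtain ⟨x, h0, h1⟩ := F.big
  obtain ⟨p₁, a₁⟩ := el6 h k x
  obtain ⟨p₂, a₂⟩ := el6 h k 1
  obtain ⟨p₃, a₃⟩ := el6 h k (x + 1)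
  obtain ⟨p₄, a₄⟩ := el6 h k (x + σ x)
  have a := ((((a₁.w h).x8 k 1).mul ((a₂.w h).x8 k x)).mul (a₃.w h)).mul a₄
  generalize _ * p₄ = ρ at a
  obtain ⟨e, he⟩ := a.tr
  replace he : ρ * F.t * ρ⁻¹ = F.t * F.N (X4 (σ x + x + e)) :=
    he.trans (congrArg (F.t * F.N ·) (by ext <;> simp only [UE] <;> grind))
  obtain ⟨g, hg, e'⟩ := h.ex (σ x + x + e)
  have cy : ∀ v ∈ As, g⁻¹ * ρ * F.N v = F.N v * (g⁻¹ * ρ) := fun v hv => by
    refine Commute.mul_left (cA h k hg (As_Qs hv) hv.2.2.1).inv_left (mul_inv_eq_iff_eq_mul.1 ((a.ac v hv).trans ?_))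
    rw [mem_As] at hv
    simp only [UE, hv, map_add, map_mul, θσ, map_one]
    rw [mul_eq_left, ← map_one F.N, ← X4_zero]
    congr 2
    grind
  have ty : g⁻¹ * ρ * F.t = F.t * (g⁻¹ * ρ) := by
    rw [mul_assoc, eq_mul_of_mul_inv_eq he, ← e']; group
  obtain ⟨u, hu⟩ := F.cen6 ty (fun s => cy _ ⟨rfl, rfl, rfl, rfl, rfl, rfl, rfl⟩) (cy _ ⟨rfl, rfl, rfl, rfl, rfl, rfl, rfl⟩)
  have cu : ∀ v ∈ As, u * v = v * u := fun r hr => F.inj (by
    have := cy r hr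
    rcases hu with hu | hu <;> rw [hu] at this
    · rw [map_mul, map_mul, this]
    · rw [mul_assoc, F.toRt.tN, ← mul_assoc, ← mul_assoc, mul_left_inj] at this
      rw [map_mul, map_mul, this])
  have hQ : u ∈ Qs := by
    have h3 := congrArg U.x6 (cu (X5 1) ⟨rfl, rfl, rfl, rfl, rfl, rfl, rfl⟩)
    have h4 := congrArg U.x6 (cu (X3 1) ⟨rfl, rfl, rfl, rfl, rfl, rfl, rfl⟩)
    simp only [UE] at h3
    have e3 : u.y8 = 0 := by grind
    simp only [UE, e3] at h4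
    exact ⟨e3, by grind⟩
  obtain ⟨ε, hε⟩ : ∃ ε : K, ∀ c, κ * θ (κ * θ c * x) + κ * θ (κ * θ (x * c)) = κ * θ (u.y4 * c) + ε * c := by
    have key : ∀ c, ∃ g' ∈ Γ, g' * F.t * g'⁻¹ = F.t * F.N (X4 c) ∧ g' * (g⁻¹ * ρ) * g'⁻¹ =
        g⁻¹ * ρ * F.N (X4 (κ * θ (κ * θ c * x) + κ * θ (κ * θ (x * c)))) := fun c => by
      obtain ⟨g', hg', e⟩ := h.ex c
      refine ⟨g', hg', e, ?_⟩
      rw [← conj_mul, a.c g' hg' c e, h.comm g' hg' _ (inv_mem hg), mul_inv_cancel_right, mul_assoc]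
      simp only [UE]
    rcases hu with hu | hu
    · refine ⟨0, fun c => ?_⟩
      obtain ⟨g', hg', e, e2⟩ := key c
      rw [hu, k.cQ g' hg' c e u hQ, map_mul, mul_right_inj] at e2
      simpa only [UE] using congrArg U.x4 (F.inj e2).symm
    · refine ⟨1, fun c => ?_⟩
      obtain ⟨g', hg', e, e2⟩ := key c
      rw [hu, ← conj_mul, k.cQ g' hg' c e u hQ, e, map_mul, mul_assoc, mul_assoc, mul_right_inj, ← mul_assoc,
        ← F.toRt.tN, mul_assoc, mul_right_inj, ← map_mul] at e2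
      simpa only [UE] using congrArg U.x4 (F.inj e2).symm
  have e1 := hε 1
  have e2 := hε (σ (σ x))
  have e3 := hε (σ (σ (x * x)))
  simp only [map_mul, θσ, map_one] at e1 e2 e3
  simp only [σσ] at e2 e3
  have n1 := σ_ne_self h0 h1
  have n2 : θ x + θ (θ x) ≠ 0 := fun e => n1 (by
    have := congrArg (fun y => σ (σ y)) e
    simp only [map_add, σθ, map_zero] at this
    grind)
  have : κ * θ κ * (θ x + θ (θ x)) * (x * (x + 1) * (x + σ x)) = 0 := by grind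
  have n3 : x * (x + 1) * (x + σ x) ≠ 0 := by grind
  simpa [n2, n3] using this

end Ic2

open Ic2 in
theorem Kap.cC {F : Fr K G} {Γ : Subgroup G} (h : Pre F Γ) {κ : K} (k : Kap F Γ κ) :
    ∀ g ∈ Γ, ∀ m ∈ F.C, m * g = g * m := by
  obtain rfl := κ_zero h k
  have cq : ∀ g ∈ Γ, ∀ q ∈ Qs, g * F.N q * g⁻¹ = F.N q := fun g hg q hq => by
    obtain ⟨c, e⟩ := h.tr g hg
    simpa using k.cQ g hg c e q hq
  let S : Subgroup G := {
    carrier := {m | m ∈ F.C ∧ ∀ g ∈ Γ, ∃ s, g * m * g⁻¹ = m * F.N (X4 s)}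
    one_mem' := ⟨one_mem _, fun g _ => ⟨0, by simp⟩⟩
    mul_mem' := fun {a b} ha hb => ⟨mul_mem ha.1 hb.1, fun g hg => by
      obtain ⟨s, e⟩ := ha.2 g hg
      obtain ⟨s', e'⟩ := hb.2 g hg
      exact ⟨s + s', by
        rw [← conj_mul, e, e', x4a, map_mul, mul_assoc a _ (b * _), ← mul_assoc _ b, ← Loc.comm_Z hb.1]
        simp only [mul_assoc]⟩⟩
    inv_mem' := fun {a} ha => ⟨inv_mem ha.1, fun g hg => by
      obtain ⟨s, e⟩ := ha.2 g hg
      exact ⟨s, by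
        rw [← conj_inv, e, mul_inv_rev, Loc.comm_Z (inv_mem ha.1), ← map_inv]
        congr 2
        ext <;> simp only [UE]⟩⟩ }
  have hN : ∀ u, F.N u ∈ S := fun u => ⟨F.N_mem u, fun g hg => by
    obtain ⟨v, hv, e⟩ := h.cU g hg u
    have c : ∀ q ∈ Qs, pr q v = 0 := fun q hq => by
      have hq' : u * q * u⁻¹ ∈ Qs := by simp only [mem_Qs, UE, hq.1, hq.2]; grind
      have := conj_conj (g := g) (x := F.N u) (y := F.N q) rfl
      rw [e, cq g hg q hq, ← map_inv, ← map_inv, ← map_mul, ← map_mul, ← map_mul, ← map_mul, cq g hg _ hq'] at this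
      have e1 : q * v * q⁻¹ = v := by
        have e2 : v * q * v⁻¹ = q := by
          rw [← mul_right_inj u, ← mul_left_inj u⁻¹, ← F.inj this]; group
        rw [mul_inv_eq_iff_eq_mul] at e2 ⊢
        exact e2.symm
      rw [comm_pr hq hv, mul_eq_left] at e1
      simpa only [UE] using congrArg U.x4 e1
    have c1 := c (X1 1) ⟨rfl, rfl⟩
    have c2 := c (X7 1) ⟨rfl, rfl⟩
    have c3 := c (Y2 1) ⟨rfl, rfl⟩
    have c4 := c (Y6 1) ⟨rfl, rfl⟩
    simp only [pr, UE] at c1 c2 c3 c4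
    rw [mem_As] at hv
    exact ⟨v.x4, by rw [e, map_mul]; congr 2; ext <;> simp only [UE, hv, c1, c2, c3, c4]⟩⟩
  have hw : F.w ∈ S := by
    have : F.w * F.N (X8 1) * F.w⁻¹ ∈ S := ⟨mul_mem (mul_mem F.w_mem (F.N_mem _)) (inv_mem F.w_mem), fun g hg => by
      obtain ⟨s, e⟩ := (hN (X8 1)).2 _ (h.wΓ g hg)
      have := conj_conj (g := F.w) e
      rw [Re.w_symm rfl, ← conj_mul (a := F.N _), F.wX4] at this
      exact ⟨s, this⟩⟩
    rwa [F.rel, mul_mem_cancel_right (hN _), mul_mem_cancel_left (inv_mem (hN _))] at this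
  have hh : ∀ ν, F.h ν ∈ S := fun ν => ⟨F.h_mem ν, fun g hg => ⟨0, by simp [h.hc g hg]⟩⟩
  have hS : F.C ≤ S := Loc.C_le hN fun ν => mul_mem (mul_mem (hh ν) hw) (inv_mem (hh ν))
  intro g hg
  suffices F.C ≤ centralizer {g} from fun m hm => mem_centralizer_singleton_iff.1 (this hm)
  rw [← F.C_perfect, commutator_le]
  intro a ha b hb
  obtain ⟨s, e⟩ := (hS ha).2 g hg
  obtain ⟨s', e'⟩ := (hS hb).2 g hg
  rw [mem_centralizer_singleton_iff, eq_comm, ← mul_inv_eq_iff_eq_mul, conjugate_commutatorElement, e, e']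
  have c1 : ∀ {m}, m ∈ F.C → F.N (X4 s) * m * (F.N (X4 s))⁻¹ = m := fun hm => by
    rw [← Loc.comm_Z hm, mul_inv_cancel_right]
  calc _ = a * (F.N (X4 s) * (b * F.N (X4 s')) * (F.N (X4 s))⁻¹) * a⁻¹ * (F.N (X4 s'))⁻¹ * b⁻¹ := by
        rw [commutatorElement_def]; group
    _ = _ := by
      rw [c1 (mul_mem hb (F.N_mem _)), ← mul_assoc, mul_assoc _ _ a⁻¹, ← Loc.comm_Z (inv_mem ha), commutatorElement_def]
      group

end Cfsg.Agent.S2F
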