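import Cfsg.Agent.S2F.Base2

/-!
The complement `a(K)`.

General remarks (all S2F stubs): read `S2F/Def.lean` (definitions, conventions) and `S2F/Base*.lean` first. Identities in `U K`
are proved by `ext <;> simp only [UE, ...hypotheses] <;> grind` (add `ζ`, `ψ`, `pr` to the simp set); conjugation is `g * x * g⁻¹`;
we write `X4 s` for `F.N (X4 s)` etc.  Weight arguments: `wt_inv`, `wtA`, `wtB` with `x` from `F.big` and `σ_ne_self`, `σ_ne_sq`, `cub_ne`;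
`exists_l2`, `exists_l4`, `exists_lσ` give torus elements with a prescribed weight.
Keep the statements; add lemmas / extra files freely (unique names).

`Γ₆ = n Γ n⁻¹` centralises `N(Rs)` (`nN`) and `n (h ν) n⁻¹`, commutes with `Γ`.  For `g ∈ Γ` with translation `d`, `g₆ = n g n⁻¹`, and `g' ∈ Γ` with translation `a d`:
(1) `k = X1 a g₆ (X1 a)⁻¹ g₆⁻¹ g'⁻¹` centralises `t` (`X1 a X6 d (X1 a)⁻¹ = X6 d X4 (a d)`) and `N(Rs)` (`Rs` is normal in `U`), so `k = N u` or `N u t` (`cen6`),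
`u ∈ Z(Rs) = Ws`.  If `k = N u t`: compare squares in `X1 a g₆ (X1 a)⁻¹ = k g' g₆`: the left side gives `X6 (s₀ d) X4 (s₀ a d)`, the right side this times
`X6 d X4 (a d)`; so `d = 0`, and then `g ∈ V₄`, `k ∈ N(U)`, contradiction with `t_ne_N`.  So `X1 a g₆ (X1 a)⁻¹ = g₆ g' X4 (*) X6 (δ a)`, where `δ a` does not
depend on `g'`.  `δ` is additive in `a` (`X1` commutes with `Γ`), and applying `X1 a` twice: `X4 (s₀ a d) X4 (a δ a) = 1`, so `δ a = s₀ d` for `a ≠ 0`;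
with `a = 1, x, 1 + x`: `s₀ = 0` (take `d = 1`), `δ = 0`.  So `Γ` has exponent `2` and `X1 a g₆ (X1 a)⁻¹ g₆⁻¹ ∈ Γ` has translation `a d`.
(2) Fix `ĝ ∈ Γ₆` with `d = 1`; `a c := X1 c ĝ (X1 c)⁻¹ ĝ⁻¹ ∈ Γ`: additive, `ta`, `aC`, `a46`.  `la`: `τ = l κ * h κ⁻¹ = n (h ν) n⁻¹` for a suitable `ν`
(`exists_nT 1 ν`, `Re.n_symm`; or `nT κ κ⁻¹ 1 ν'`) centralises `ĝ` and maps `X1 c` to `X1 (κ² σ κ c)`; `h` centralises `Γ`.
(3) `A6 c = n (a c) n⁻¹`; `A6 1 = ĝ X6 s`, so `X1 d (A6 1) (X1 d)⁻¹ = A6 1 * a d * X4 (s d)`; conjugating by `h ν` (`h ν A6 c (h ν)⁻¹ = A6 (ν σ ν c)` from `la`, `nT`)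
gives `X1 d (A6 c) (X1 d)⁻¹ = A6 c * a (c d) * X4 (s c d)`.  `nX1` gives `X1 1 * n * X1 1 = n * X1 1 * n`, so
`y = X1 1 (A6 c) (X1 1)⁻¹ = X1 n X1 (a c) X1 n X1 = n y n⁻¹`, i.e. `A6 c a c X4 (s c) = a c A6 c X6 (s c)`, `s = 0`: `L1`.
-/

set_option autoImplicit false
set_option linter.unusedSectionVars false
set_option linter.unusedSimpArgs false
set_option maxRecDepth 20000

namespace Cfsg.Agent.S2F

open Subgroup Cfsg.Agent.Oct Cfsg.Agent.Fus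
open scoped commutatorElement

variable {K : Type*} [Field K] [Tw K] [Finite K] {G : Type*} [Group G] [Finite G]

namespace Ic3

theorem mem_Ws_of_comm {u : U K} (h : ∀ r ∈ Rs, u * r = r * u) : u ∈ Ws := by
  have h1 := congrArg U.x4 (h (X6 1) rfl)
  have h2 := congrArg U.x4 (h (X5 1) rfl)
  have h3 := congrArg U.x6 (h (X5 1) rfl)
  have h4 := congrArg U.x6 (h (X3 1) rfl)
  have h5 := congrArg U.x4 (h (X3 1) rfl)
  have h6 := congrArg U.x4 (h (X7 1) rfl)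
  have h7 := congrArg U.x6 (h (X7 1) rfl)
  have h8 := congrArg U.x4 (h (X2 1) rfl)
  have h9 := congrArg U.x4 (h (Y2 1) rfl)
  have h10 := congrArg U.x4 (h (Y6 1) rfl)
  simp only [UE] at h1 h2 h3
  have e1 : u.x1 = 0 := by grind
  have e2 : u.y2 = 0 := by grind
  have e3 : u.y8 = 0 := by grind
  simp only [UE, e1, e2, e3] at h4 h5 h6 h7
  have e4 : u.x8 = 0 := by grind
  have e5 : u.y6 = 0 := by grind
  have e6 : u.x2 = 0 := by grind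
  have e7 : u.y4 = 0 := by grind
  simp only [UE, e1, e2, e3, e4, e5, e6, e7] at h8
  have e8 : u.x7 = 0 := by grind
  simp only [UE, e1, e2, e3, e4, e5, e6, e7, e8] at h9 h10
  exact ⟨e1, e2, e6, by grind, e7, by grind, e5, e8, e3, e4⟩

theorem x16 (a d : K) : X1 a * X6 d * (X1 a)⁻¹ = X6 d * X4 (a * d) := by ext <;> simp only [UE]; grind
theorem x1a (a d : K) : X1 (a + d) = X1 a * X1 d := by ext <;> simp only [UE]
theorem x4a (a d : K) : X4 (a + d) = X4 a * X4 d := by ext <;> simp only [UE]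
theorem x6a (a d : K) : X6 (a + d) = X6 a * X6 d := by ext <;> simp only [UE]

variable {F : Fr K G} {Γ : Subgroup G} (h : Pre F Γ)
  (c46 : ∀ g ∈ Γ, ∀ g' ∈ Γ, g * (F.n * g' * F.n⁻¹) = F.n * g' * F.n⁻¹ * g)
  (cC : ∀ g ∈ Γ, ∀ m ∈ F.C, m * g = g * m) {g g' : G} {a : K}

include cC in
theorem cN (hg : g ∈ Γ) (u : U K) : Commute (F.N u) g := cC g hg _ (F.N_mem u)

include cC in
theorem cN6 (hg : g ∈ Γ) {u : U K} (hu : u ∈ Rs) : Commute (F.N u) (F.n * g * F.n⁻¹) :=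
  comm_conj (cN cC hg (ψ u)) (Re.n_symm (F.nN hu)) rfl

/-- The conjugate of `n g n⁻¹` by `X1 a`. -/
def yy (F : Fr K G) (g : G) (a : K) : G := F.N (X1 a) * (F.n * g * F.n⁻¹) * (F.N (X1 a))⁻¹

theorem t6 (e : g * F.t * g⁻¹ = F.t * F.N (X4 1)) :
    F.n * g * F.n⁻¹ * F.t * (F.n * g * F.n⁻¹)⁻¹ = F.t * F.N (X6 1) := conj_t (R := F.toRt) F.n_mem e (F.nX4 1)

theorem ty (e : g * F.t * g⁻¹ = F.t * F.N (X4 1)) (a : K) :
    yy F g a * F.t * (yy F g a)⁻¹ = F.t * F.N (X6 1 * X4 a) :=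
  conj_t (R := F.toRt) (F.N_mem_L _) (t6 e) (by rw [← map_inv, ← map_mul, ← map_mul, x16, mul_one])

include cC in
theorem tp (hg : g ∈ Γ) (e : g * F.t * g⁻¹ = F.t * F.N (X4 1)) (e' : g' * F.t * g'⁻¹ = F.t * F.N (X4 a)) :
    F.n * g * F.n⁻¹ * g' * F.t * (F.n * g * F.n⁻¹ * g')⁻¹ = F.t * F.N (X6 1 * X4 a) := by
  have := (cN6 cC hg (u := X4 a) rfl).symm.mul_inv_cancel
  rw [map_mul, ← mul_assoc, ← t6 e, ← this, mul_inv_rev _ g', mul_assoc _ g', ← mul_assoc, mul_assoc _ _ g'⁻¹, e']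
  group

theorem yy_add (a b : K) : yy F g (a + b) = F.N (X1 a) * yy F g b * (F.N (X1 a))⁻¹ := by
  rw [yy, yy, x1a, map_mul]; group

/-- The form of `yy`. -/
def DD (F : Fr K G) (Γ : Subgroup G) (g : G) (a δ : K) : Prop :=
  ∃ g' ∈ Γ, g' * F.t * g'⁻¹ = F.t * F.N (X4 a) ∧ yy F g a = F.n * g * F.n⁻¹ * g' * F.N (X6 δ)

include h cC

theorem tr_mul (hg : g ∈ Γ) {b : K} (e : g * F.t * g⁻¹ = F.t * F.N (X4 a)) (e' : g' * F.t * g'⁻¹ = F.t * F.N (X4 b)) :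
    g * g' * F.t * (g * g')⁻¹ = F.t * F.N (X4 (a + b)) := by
  rw [x4a, map_mul, ← mul_assoc, ← e, ← (cN cC hg (X4 b)).symm.mul_inv_cancel, mul_inv_rev, mul_assoc g g', ← mul_assoc,
    mul_assoc g _ g'⁻¹, e']
  group

theorem DD.add {b δ ε : K} (h1 : DD F Γ g a δ) (h2 : DD F Γ g b ε) :
    ∃ g₁ ∈ Γ, ∃ g₂ ∈ Γ, g₁ * F.t * g₁⁻¹ = F.t * F.N (X4 a) ∧ g₂ * F.t * g₂⁻¹ = F.t * F.N (X4 b) ∧
      yy F g a = F.n * g * F.n⁻¹ * g₁ * F.N (X6 δ) ∧ yy F g b = F.n * g * F.n⁻¹ * g₂ * F.N (X6 ε) ∧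
      yy F g (a + b) = F.n * g * F.n⁻¹ * (g₁ * g₂ * F.N (X4 (a * ε))) * F.N (X6 (δ + ε)) := by
  obtain ⟨g₁, m1, t1, e1⟩ := h1
  obtain ⟨g₂, m2, t2, e2⟩ := h2
  refine ⟨g₁, m1, g₂, m2, t1, t2, e1, e2, ?_⟩
  have e3 : F.N (X1 a) * F.N (X6 ε) * (F.N (X1 a))⁻¹ = F.N (X6 ε * X4 (a * ε)) := by
    rw [← map_inv, ← map_mul, ← map_mul, x16]
  rw [yy_add, e2, ← conj_mul, ← conj_mul, (cN cC m2 _).mul_inv_cancel, e3, ← yy, e1, mul_assoc _ _ g₂, (cN cC m2 _).eq]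
  simp only [mul_assoc, ← map_mul, mul_right_inj]
  exact congrArg _ (by ext <;> simp only [UE])

theorem DD.uniq {δ ε : K} {g₁ g₂ y : G} (m1 : g₁ ∈ Γ) (m2 : g₂ ∈ Γ) (e : y * g₁ * F.N (X6 δ) = y * g₂ * F.N (X6 ε)) :
    δ = ε ∧ g₁ = g₂ := by
  rw [mul_assoc, mul_assoc, mul_right_inj] at e
  have e1 : g₂⁻¹ * g₁ = F.N (X6 ε * (X6 δ)⁻¹) := by
    rw [map_mul, map_inv, inv_mul_eq_iff_eq_mul, ← mul_assoc, ← e, mul_inv_cancel_right]
  obtain ⟨s, hs⟩ := h.ct _ (mul_mem (inv_mem m2) m1) (by rw [e1, F.toRt.tN])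
  have := congrArg U.x6 (F.inj (e1.symm.trans hs))
  simp only [UE] at this
  obtain rfl : δ = ε := by grind
  exact ⟨rfl, mul_right_cancel e⟩

include c46

theorem exD (hg : g ∈ Γ) (e : g * F.t * g⁻¹ = F.t * F.N (X4 1)) (a : K) : ∃ δ, DD F Γ g a δ := by
  obtain ⟨g', m, e'⟩ := h.ex a
  set p := F.n * g * F.n⁻¹ * g' with hp
  have cp : ∀ u ∈ Rs, Commute (F.N u) p := fun u hu => (cN6 cC hg hu).mul_right (cN cC m u)
  have cy : ∀ u ∈ Rs, Commute (F.N u) (yy F g a) := fun u hu =>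
    comm_conj (cN6 cC hg (u := (X1 a)⁻¹ * u * X1 a) (by rw [mem_Rs] at hu ⊢; simp only [UE, hu]))
      (by simp only [map_mul, map_inv]; group) rfl
  have ck : ∀ u ∈ Rs, p⁻¹ * yy F g a * F.N u = F.N u * (p⁻¹ * yy F g a) := fun u hu =>
    ((cp u hu).inv_right.mul_right (cy u hu)).symm
  have tk : p⁻¹ * yy F g a * F.t = F.t * (p⁻¹ * yy F g a) := by
    rw [mul_assoc, eq_mul_of_mul_inv_eq (ty e a), ← tp cC hg e e', ← hp]; group
  obtain ⟨u, hu⟩ := F.cen6 tk (fun s => ck _ rfl) (ck _ rfl)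
  have hW : u ∈ Ws := mem_Ws_of_comm fun r hr => F.inj (by
    have := ck r hr
    rcases hu with hu | hu <;> rw [hu] at this
    · rw [map_mul, map_mul, this]
    · rw [mul_assoc, F.toRt.tN, ← mul_assoc, ← mul_assoc, mul_left_inj] at this
      rw [map_mul, map_mul, this])
  rw [mem_Ws] at hW
  rcases hu with hu | hu
  · refine ⟨u.x6, g' * F.N (X4 u.x4), mul_mem m (h.z_mem _), ?_, ?_⟩
    · rw [← e', mul_assoc g', ← F.toRt.tN]; group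
    · rw [eq_mul_of_inv_mul_eq hu, hp]
      simp only [mul_assoc, ← map_mul, mul_right_inj]
      exact congrArg _ (by ext <;> simp only [UE, hW])
  · exfalso
    obtain ⟨s, hs⟩ := h.sq
    have y2 : yy F g a * yy F g a = F.N (X6 s * X4 (a * s)) := by
      rw [yy, conj_mul, conj_mul, hs g hg 1 e, mul_one, F.nX4, ← map_inv, ← map_mul, ← map_mul, x16]
    have p2 : p * p = F.N (X6 s * X4 (s * a)) := by
      rw [hp, Commute.mul_mul_mul_comm (c46 _ m _ hg), conj_mul, hs g hg 1 e, hs g' m a e', mul_one, F.nX4,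
        map_mul]
    have c1 := cp u hW.1
    have c2 : Commute F.t (F.N u) := F.toRt.tN u
    have y3 : yy F g a * yy F g a = p * F.t * p⁻¹ * (p * p) * F.t * (F.N u * F.N u) := by
      rw [eq_mul_of_inv_mul_eq hu, ← c2.eq, ← mul_assoc p, Commute.mul_mul_mul_comm (c1.mul_right c2.symm)]
      group
    rw [y2, tp cC hg e e', p2, mul_assoc F.t, ← map_mul, F.toRt.tN, mul_assoc _ F.t F.t, F.tt, mul_one,
      ← map_mul, ← map_mul] at y3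
    have := congrArg U.x6 (F.inj y3)
    simp only [UE, hW] at this
    grind

theorem exD0 (hg : g ∈ Γ) (e : g * F.t * g⁻¹ = F.t * F.N (X4 1)) (a : K) : DD F Γ g a 0 := by
  obtain ⟨s, hs⟩ := h.sq
  have D0 : DD F Γ g 0 0 := ⟨1, one_mem _, by simp, by simp [yy]⟩
  have key : ∀ {a δ}, DD F Γ g a δ → a ≠ 0 → δ = s := fun {a δ} d h0 => by
    obtain ⟨g₁, m1, g₂, m2, t1, -, e1, e2, e3⟩ := d.add h cC d
    obtain ⟨-, rfl⟩ := DD.uniq h cC m1 m2 (e1.symm.trans e2)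
    rw [CharTwo.add_self_eq_zero, CharTwo.add_self_eq_zero, hs _ m1 a t1, ← map_mul] at e3
    have := congrArg U.x4 (F.inj (show F.N (X4 (s * a) * X4 (a * δ)) = F.N 1 by simpa [yy] using e3))
    simp only [UE] at this
    grind
  obtain ⟨x, h0, h1⟩ := F.big
  obtain ⟨δ, d⟩ := exD h c46 cC hg e x
  obtain ⟨ε, d'⟩ := exD h c46 cC hg e 1
  obtain ⟨g₁, m1, g₂, m2, t1, t2, -, -, e3⟩ := d.add h cC d'
  have s0 := key ⟨_, mul_mem (mul_mem m1 m2) (h.z_mem _), by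
    rw [← tr_mul h cC m1 t1 t2, mul_assoc _ _ F.t, ← F.toRt.tN]; group, e3⟩ (add_one_ne h1)
  rw [key d h0, key d' one_ne_zero, CharTwo.add_self_eq_zero] at s0
  obtain rfl | h0 := eq_or_ne a 0
  · exact D0
  · obtain ⟨δ, d⟩ := exD h c46 cC hg e a
    rwa [key d h0, ← s0] at d

end Ic3

open Ic3 in
theorem Pre.exists_hat {F : Fr K G} {Γ : Subgroup G} (h : Pre F Γ)
    (c46 : ∀ g ∈ Γ, ∀ g' ∈ Γ, g * (F.n * g' * F.n⁻¹) = F.n * g' * F.n⁻¹ * g)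
    (cC : ∀ g ∈ Γ, ∀ m ∈ F.C, m * g = g * m) : Nonempty (Hat F.toRt) := by
  obtain ⟨g, hg, e⟩ := h.ex 1
  choose a am ta ya using exD0 h c46 cC hg e
  simp only [X6_zero, map_one, mul_one] at ya
  have add : ∀ c d, a (c + d) = a c * a d := fun c d => mul_left_cancel (a := F.n * g * F.n⁻¹) (by
    rw [← ya, yy_add, ya, ← conj_mul, (cN cC (am d) _).mul_inv_cancel, ← yy, ya, mul_assoc])
  have ha : ∀ ν c, F.h ν * a c * (F.h ν)⁻¹ = a c := fun ν c => by rw [← h.hc _ (am c), mul_inv_cancel_right]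
  have la : ∀ (κ : Kˣ) c, F.l κ * a c * (F.l κ)⁻¹ = a ((κ : K) ^ 2 * σ (κ : K) * c) := fun κ c => by
    obtain ⟨κ', ν', h1, -, h3⟩ := F.exists_nT κ κ⁻¹
    obtain rfl : κ' = 1 := Units.ext (σ_inj (by simpa using h1))
    rw [map_one, one_mul] at h3
    have c1 := mul_inv_eq_iff_eq_mul.2 (comm_conj (h.hc g hg ν').symm (Re.n_symm h3) rfl)
    have c2 : F.l κ * F.h κ⁻¹ * F.N (X1 c) * (F.l κ * F.h κ⁻¹)⁻¹ = F.N (X1 ((κ : K) ^ 2 * σ (κ : K) * c)) := by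
      rw [mul_inv_rev, mul_assoc (F.l κ), ← mul_assoc, mul_assoc (F.l κ), F.hN, F.lN]
      exact congrArg _ (by ext <;> simp only [UE, ζ, inv_inv]; ring)
    have c3 := conj_conj (g := F.l κ * F.h κ⁻¹) (ya c)
    rw [c1, c2, ← yy, ya, ← conj_mul, c1, mul_right_inj] at c3
    rw [c3, mul_inv_rev, mul_assoc (F.l κ) (F.h _), ← mul_assoc _ _ (F.l κ)⁻¹, mul_assoc (F.l κ) (_ * _), ha]
  obtain ⟨s, hs⟩ := h.ct _ (mul_mem (inv_mem hg) (am 1)) (by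
    rw [mul_assoc, eq_mul_of_mul_inv_eq (ta 1), ← e]; group)
  have L0 : ∀ d, F.N (X1 d) * (F.n * a 1 * F.n⁻¹) * (F.N (X1 d))⁻¹ = F.n * a 1 * F.n⁻¹ * a d * F.N (X4 (d * s)) := fun d => by
    rw [eq_mul_of_inv_mul_eq hs, ← conj_mul (a := g), F.nX4, ← conj_mul, ← yy, ya, ← map_inv, ← map_mul, ← map_mul, x16,
      map_mul, mul_assoc _ (F.N _) (a d), (cN cC (am d) _).eq]
    simp only [mul_assoc]
  have c6 : ∀ c d, a c * (F.n * a d * F.n⁻¹) = F.n * a d * F.n⁻¹ * a c := fun c d => c46 _ (am c) _ (am d)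
  obtain rfl : s = 0 := by
    have xx : F.N (X1 1) * F.N (X1 1) = 1 := by rw [← map_mul, ← x1a, CharTwo.add_self_eq_zero, X1_zero, map_one]
    have br : F.n * F.N (X1 1) * F.n = F.N (X1 1) * F.n * (F.N (X1 1))⁻¹ := by
      have := F.nX1
      rw [show ∀ n x : G, (n * x) ^ 3 = n * x * n * (x⁻¹⁻¹ * n⁻¹⁻¹ * x⁻¹⁻¹) by intros; rw [pow_three]; group, ← mul_inv_rev,
        ← mul_inv_rev, mul_inv_eq_one, F.n_inv, ← mul_assoc] at this
      rwa [inv_eq_of_mul_eq_one_left xx] at this ⊢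
    have e1 : F.n * (F.N (X1 1) * (F.n * a 1 * F.n⁻¹) * (F.N (X1 1))⁻¹) * F.n⁻¹ =
        F.N (X1 1) * (F.n * a 1 * F.n⁻¹) * (F.N (X1 1))⁻¹ := by
      rw [show ∀ n x a : G, n * (x * (n * a * n⁻¹) * x⁻¹) * n⁻¹ = n * x * n * a * (n * x * n)⁻¹ by intros; group, br]
      nth_rewrite 2 [← (cN cC (am 1) (X1 1)).inv_left.mul_inv_cancel]
      group
    rw [L0, ← conj_mul, ← conj_mul, Re.n_symm rfl, F.nX4, c6, mul_right_inj] at e1
    simpa only [UE] using congrArg U.x6 (F.inj e1)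
  refine ⟨⟨a, add, ta, fun c => cC _ (am c), la, c6, fun c d => ?_⟩⟩
  obtain rfl | h0 := eq_or_ne c 0
  · simp [zero_of_add add]
  obtain ⟨ν, rfl⟩ := exists_l2 h0
  obtain ⟨κ', ν', h1, -, h3⟩ := F.exists_nT 1 ν
  rw [map_one, one_mul] at h3
  have c1 : F.h ν * (F.n * a 1 * F.n⁻¹) * (F.h ν)⁻¹ = F.n * a (ν * σ (ν : K)) * F.n⁻¹ := by
    rw [← Re.n_symm h3, conj_conj rfl, mul_inv_rev, mul_assoc (F.l _) (F.h _),
      ← mul_assoc _ _ (F.l _)⁻¹, mul_assoc (F.l _) (_ * _), ha, la, ← σσ, h1]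
    simp [mul_comm]
  have c3 := conj_conj (g := F.h ν) (L0 (ν * σ (ν : K) * d))
  rw [c1, mul_zero, X4_zero, map_one, mul_one, ← conj_mul (a := F.n * a 1 * F.n⁻¹), c1, ha, F.hN] at c3
  rw [← c3]
  have := σu_ne ν
  congr 3 <;> (ext <;> simp only [UE, Units.val_inv_eq_inv_val, map_inv₀]) <;> field_simp

end Cfsg.Agent.S2F
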