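import Cfsg.Agent.S2F.Base2

/-!
Standard subgroups of type `²F₄(q)`: the group `Ĵ = V̂₄ Û₅ V̂₆`.
-/

set_option autoImplicit false
set_option linter.unusedSectionVars false
set_option linter.unusedSimpArgs false
set_option maxRecDepth 20000

namespace Cfsg.Agent.S2F.D31

open Subgroup Cfsg.Agent.Oct Cfsg.Agent.Fus

variable {K : Type*} [Field K] [Tw K] {G : Type*} [Group G] {R : Rt K G}

theorem Ys_As {v : U K} (h : v ∈ Ys) : v ∈ As := by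
  rw [mem_Ys] at h
  simp only [mem_As, h, and_self]

theorem As_P0 {v : U K} (h : v ∈ As) : v ∈ P0 := ⟨h.1, h.2.1, h.2.2.2.2.2.1⟩

theorem As_Ps {v : U K} (h : v ∈ As) : v ∈ Ps := by
  rw [mem_As] at h
  simp only [mem_Ps, h, and_self]

theorem As_Qs {v : U K} (h : v ∈ As) : v ∈ Qs := ⟨h.2.2.2.2.2.1, h.2.2.2.2.2.2⟩

theorem X4_Ys (s : K) : X4 s ∈ Ys := by simp only [mem_Ys, UE, and_self]
theorem X5_Ys (s : K) : X5 s ∈ Ys := by simp only [mem_Ys, UE, and_self]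
theorem X6_Ys (s : K) : X6 s ∈ Ys := by simp only [mem_Ys, UE, and_self]
theorem X2_As (s : K) : X2 s ∈ As := by simp only [mem_As, UE, and_self]
theorem X3_As (s : K) : X3 s ∈ As := by simp only [mem_As, UE, and_self]
theorem X4_As (s : K) : X4 s ∈ As := Ys_As (X4_Ys s)

theorem ψ_Ys {v : U K} (h : v ∈ Ys) : ψ v ∈ Ys := by
  rw [mem_Ys] at h
  simp only [mem_Ys, ψ, UE, h, and_self]

theorem ψ_P0 {v : U K} (h : v ∈ P0) : ψ v ∈ P0 := by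
  rw [mem_P0] at h
  simp only [mem_P0, ψ, UE, h, and_self]

theorem P0_Ys {p j : U K} (hp : p ∈ P0) (hj : j ∈ Ys) : p * j = j * p := by
  rw [mem_P0] at hp
  rw [mem_Ys] at hj
  ext <;> simp only [UE, hp, hj] <;> grind

variable (H : Hat5 R)

theorem e_mul {v v' : U K} (u u' : U K) (hv : v ∈ As) (hv' : v' ∈ As) (hu : u ∈ As) :
    H.hv v * R.N v' * (H.hv u * R.N u') = H.hv (v * u) * R.N (v' * u') := by
  rw [H.hv_mul hv hu, map_mul, mul_assoc, ← mul_assoc (R.N v'), H.w1.comm _ (H.N_memW hv') _ (H.hv_mem u)]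
  simp only [mul_assoc]

theorem inv_W {x : G} (hx : x ∈ H.Wh) : x⁻¹ = x := inv_eq_of_mul_eq_one_left (H.w1.sq x hx)

/-- The group `Ĵ`. -/
def Jh : Subgroup G where
  carrier := {x | ∃ j ∈ Ys, ∃ j' ∈ Ys, x = H.hv j * R.N j'}
  mul_mem' := by
    rintro _ _ ⟨a, ha, a', ha', rfl⟩ ⟨b, hb, b', hb', rfl⟩
    exact ⟨_, mul_mem ha hb, _, mul_mem ha' hb', e_mul H b b' (Ys_As ha) (Ys_As ha') (Ys_As hb)⟩
  one_mem' := ⟨1, one_mem _, 1, one_mem _, by simp [H.hv_one]⟩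
  inv_mem' := by
    rintro _ ⟨a, ha, a', ha', rfl⟩
    exact ⟨a, ha, a', ha', inv_W H (mul_mem (H.hv_mem a) (H.N_memW (Ys_As ha')))⟩

variable {H}

theorem J_W {x : G} (h : x ∈ Jh H) : x ∈ H.Wh := by
  obtain ⟨a, -, a', ha', rfl⟩ := h
  exact mul_mem (H.hv_mem a) (H.N_memW (Ys_As ha'))

theorem hv_J {j : U K} (h : j ∈ Ys) : H.hv j ∈ Jh H := ⟨j, h, 1, one_mem _, by simp⟩
theorem N_J {j : U K} (h : j ∈ Ys) : R.N j ∈ Jh H := ⟨1, one_mem _, j, h, by simp [H.hv_one]⟩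
theorem a_J (c : K) : H.a c ∈ Jh H := H.hv_X4 c ▸ hv_J (X4_Ys c)
theorem a5_J (c : K) : H.a5 c ∈ Jh H := H.hv_X5 c ▸ hv_J (X5_Ys c)
theorem A6_J (c : K) : H.A6 c ∈ Jh H := H.hv_X6 c ▸ hv_J (X6_Ys c)

variable (H) in
theorem hv_Ys {j : U K} (h : j ∈ Ys) : H.hv j = H.a j.x4 * H.a5 j.x5 * H.A6 j.x6 := by
  rw [H.hv_eq, h.2.2.1, h.2.2.2.1, H.A2_zero, H.A3_zero, one_mul, one_mul]

variable (H) in
theorem hv_split (v : U K) : ∃ j ∈ Jh H, H.hv v = H.A2 v.x2 * H.A3 v.x3 * j :=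
  ⟨_, mul_mem (mul_mem (a_J v.x4) (a5_J v.x5)) (A6_J v.x6), by simp only [H.hv_eq, mul_assoc]⟩

variable (H) in
theorem n_hv {j : U K} (h : j ∈ Ys) : R.n * H.hv j * R.n⁻¹ = H.hv (ψ j) := by
  have e : R.n * H.hv j * R.n⁻¹ = H.A6 j.x4 * H.a5 j.x5 * H.a j.x6 := by
    rw [hv_Ys H h, ← H.n_a j.x4, ← H.n_A6 j.x6]
    conv_rhs => rw [← H.n_a5]
    group
  rw [e, hv_Ys H (ψ_Ys h), H.w1.comm _ (H.A6_mem _) _ (H.mem5 _), mul_assoc, ← H.a_A6, ← mul_assoc,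
    H.w1.comm _ (H.mem5 _) _ (H.a_mem _)]
  rw [mem_Ys] at h
  simp only [ψ, UE, h]

variable (H) in
theorem n_e {j j' : U K} (h : j ∈ Ys) (h' : j' ∈ Ys) :
    R.n * (H.hv j * R.N j') * R.n⁻¹ = H.hv (ψ j) * R.N (ψ j') := by
  rw [← n_hv H h, ← R.nN h'.1]; group

theorem n_J {x : G} (h : x ∈ Jh H) : R.n * x * R.n⁻¹ ∈ Jh H := by
  obtain ⟨a, ha, a', ha', rfl⟩ := h
  exact ⟨_, ψ_Ys ha, _, ψ_Ys ha', n_e H ha ha'⟩

variable (H) in
/-- The centraliser of `Ĵ`. -/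
def Zh : Subgroup G := centralizer (Jh H : Set G)

theorem Zh.comm {x j : G} (hx : x ∈ Zh H) (hj : j ∈ Jh H) : j * x = x * j := hx j hj

theorem W_Z {x : G} (h : x ∈ H.Wh) : x ∈ Zh H := fun j hj => H.w1.comm j (J_W hj) x h

theorem J_Z {x : G} (h : x ∈ Jh H) : x ∈ Zh H := W_Z (J_W h)

theorem n_Z {x : G} (h : x ∈ Zh H) : R.n * x * R.n⁻¹ ∈ Zh H := fun _ hj =>
  comm_conj (h _ (n_J hj)) (Re.n_symm rfl) rfl

theorem N_Z {p : U K} (h : p ∈ P0) : R.N p ∈ Zh H := by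
  rintro _ ⟨j, hj, j', hj', rfl⟩
  rw [hv_Ys H hj]
  exact (((Commute.mul_right (H.N_a p _) (H.c0 _ p ⟨h.2.1, h.2.2⟩)).mul_right (H.N_A6 h.1 _)).mul_right
    (show R.N p * R.N j' = R.N j' * R.N p by rw [← map_mul, P0_Ys h hj', map_mul])).symm

variable (H) in
/-- `g` centralises `x` modulo `Ĵ`. -/
def Cj (g x : G) : Prop := ∃ j ∈ Jh H, g * x * g⁻¹ = x * j

theorem Cj.of_comm {g x : G} (h : g * x = x * g) : Cj H g x := ⟨1, one_mem _, by rw [h]; group⟩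

theorem Cj.mul_left {g g' x : G} (h : Cj H g x) (h' : Cj H g' x) (hg : g ∈ Zh H) : Cj H (g * g') x := by
  obtain ⟨j, hj, e⟩ := h
  obtain ⟨j', hj', e'⟩ := h'
  refine ⟨_, mul_mem hj hj', ?_⟩
  calc _ = g * (g' * x * g'⁻¹) * g⁻¹ := by group
    _ = g * x * g⁻¹ * (g * j' * g⁻¹) := by rw [e']; group
    _ = _ := by rw [e, ← Zh.comm hg hj']; group

theorem Cj.mul_right {g x x' : G} (h : Cj H g x) (h' : Cj H g x') (hx : x' ∈ Zh H) : Cj H g (x * x') := by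
  obtain ⟨j, hj, e⟩ := h
  obtain ⟨j', hj', e'⟩ := h'
  refine ⟨_, mul_mem hj hj', ?_⟩
  calc _ = g * x * g⁻¹ * (g * x' * g⁻¹) := by group
    _ = x * (j * x') * j' := by rw [e, e']; group
    _ = _ := by rw [Zh.comm hx hj]; group

theorem swap {g x j : G} (e : g * x * g⁻¹ = x * j) (hj : j ∈ Jh H) (hg : g ∈ Zh H) (hx : x ∈ Zh H) :
    x * g * x⁻¹ = g * j := by
  have h1 : x * g = g * x * j := by
    calc _ = x * (j * j) * g := by rw [H.w1.sq j (J_W hj), mul_one]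
      _ = x * j * (j * g) := by group
      _ = _ := by rw [Zh.comm hg hj, ← e]; group
  rw [h1, mul_assoc g, ← Zh.comm hx hj]
  group

theorem Cj.symm {g x : G} (h : Cj H g x) (hg : g ∈ Zh H) (hx : x ∈ Zh H) : Cj H x g :=
  let ⟨j, hj, e⟩ := h; ⟨j, hj, swap e hj hg hx⟩

theorem Cj.n {g x : G} (h : Cj H g x) : Cj H (R.n * g * R.n⁻¹) (R.n * x * R.n⁻¹) :=
  let ⟨_, hj, e⟩ := h; ⟨_, n_J hj, by rw [conj_conj e]; group⟩

theorem not_t {c : G} {u : U K} (h : c * H.a 1 = H.a 1 * c) : c ≠ R.N u * R.t := by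
  rintro rfl
  have h1 := H.ta 1
  rw [mul_assoc, ← mul_assoc (H.a 1), ← H.N_a, mul_assoc, mul_right_inj] at h
  rw [← h, mul_inv_cancel_right, left_eq_mul] at h1
  exact Loc.τ_ne h1

theorem t_of_sq {g x : G} (hx : x ∈ H.Wh) (e : g * R.t * g⁻¹ = R.t * x) : x * R.t = R.t * x := by
  have : R.t * x * (R.t * x) = 1 := by rw [← e, conj_mul, R.tt, mul_one, mul_inv_cancel]
  rw [← inv_eq_of_mul_eq_one_left this, mul_inv_rev, inv_W H hx, R.t_inv]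

variable (H) in
theorem hinv {m : G} (hm : m ∈ R.C) {v v' : U K} (hv : v ∈ As) (e : m * R.N v * m⁻¹ = R.N v') :
    ∃ s, m * H.hv v * m⁻¹ = H.hv v' * R.N (X4 s) := H.inv m hm v hv v' e

theorem n_inv (y c : K) : Cj H (R.N (Y2 y)) (H.A7 c) := by
  have h1 : (X3 c)⁻¹ * (Y8 y * X3 c * (Y8 y)⁻¹) ∈ Ys := by simp only [mem_Ys, UE]; grind
  obtain ⟨s, e⟩ := hinv H (R.N_mem (Y8 y)) (X3_As c) (v' := X3 c * ((X3 c)⁻¹ * (Y8 y * X3 c * (Y8 y)⁻¹))) (by simp)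
  rw [H.hv_mul (X3_As c) (Ys_As h1), H.hv_X3, mul_assoc (H.A3 c)] at e
  exact R.nY8 y ▸ Cj.n ⟨_, ⟨_, h1, _, X4_Ys s, rfl⟩, e⟩

end Cfsg.Agent.S2F.D31
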