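import Cfsg.Agent.S2F.Base2

/-!
Lifting the final relations through a central extension of odd order.

General remarks (all S2F stubs): read `S2F/Def.lean` (definitions, conventions) and `S2F/Base*.lean` first. Identities in `U K`
are proved by `ext <;> simp only [UE, ...hypotheses] <;> grind` (add `ζ`, `ψ`, `pr` to the simp set); conjugation is `g * x * g⁻¹`.
Keep the statements; add lemmas / extra files freely (unique names).

(1) Every `y ∈ G'` with `y² = 1` has a unique lift `x ∈ P` with `x² = 1`: if `π x₀ = y` then `z = x₀²` is central of odd order `r`, and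
`x = x₀ ^ r`; if `π x = π x'` with `x² = x'² = 1` then `x' = x z`, `z² = 1`, `z = 1`.  (`uniq`)
(2) Define `a c`, `a5 e` as the lifts of `H.a c`, `H.a5 e` (involutions or `1`: `sq_of_add`).  If `x, y` are lifts of commuting elements with
`x² = 1` then `y x y⁻¹ = x` by `uniq`; a product of pairwise commuting elements of square `1` has square `1`.
(3) Each field has the form `g x g⁻¹ = y₁ ⋯ y_k` (or a commutation, or additivity) with `x² = 1` and pairwise commuting `y_i` of square `1`;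
apply `uniq` to both sides, the images agree by the fields `πN, πw, πn, πt, πh, πl` and the corresponding field of `H`
(`m ∈ R.C` maps into `R'.C` by `bru`).  Build the `Hat` first, then use Base2 (`N_A6`, `N_A2`, `a_A2`, …) upstairs; `a5` commutes with `A6`
(conjugate `c45` by `n`), `w a5 w⁻¹` commutes with `A6` (conjugate `c25` by `w`).
A convenient device: `Lf x y : Prop := ∃ h : x ∈ P, π ⟨x, h⟩ = y`, closed under `*`, `⁻¹`; `uniq : Lf x y → Lf x' y → x*x = 1 → x'*x' = 1 → x = x'`.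
-/

set_option autoImplicit false
set_option linter.unusedSectionVars false
set_option linter.unusedSimpArgs false
set_option maxRecDepth 20000

namespace Cfsg.Agent.S2F

open Subgroup Cfsg.Agent.Oct Cfsg.Agent.Fus
open scoped commutatorElement

variable {K : Type*} [Field K] [Tw K] [Finite K] {G : Type*} [Group G] [Finite G]

namespace CL

variable {G' : Type*} [Group G'] {P : Subgroup G} {π : P →* G'} {x x' g : G} {y y' g' : G'}

/-- `x` is a lift of `y`. -/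
def Lf (π : P →* G') (x : G) (y : G') : Prop := ∃ h : x ∈ P, π ⟨x, h⟩ = y

theorem Lf.mul : Lf π x y → Lf π x' y' → Lf π (x * x') (y * y')
  | ⟨h, e⟩, ⟨h', e'⟩ => ⟨mul_mem h h', e ▸ e' ▸ π.map_mul ⟨x, h⟩ ⟨x', h'⟩⟩

theorem Lf.inv : Lf π x y → Lf π x⁻¹ y⁻¹
  | ⟨h, e⟩ => ⟨inv_mem h, e ▸ π.map_inv ⟨x, h⟩⟩

theorem Lf.conj (h : Lf π g g') (h' : Lf π x y) : Lf π (g * x * g⁻¹) (g' * y * g'⁻¹) := (h.mul h').mul h.inv

/-- `x` is a lift of `y` of square `1`. -/
def In (π : P →* G') (x : G) (y : G') : Prop := Lf π x y ∧ x * x = 1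

theorem In.conj (h : Lf π g g') (h' : In π x y) : In π (g * x * g⁻¹) (g' * y * g'⁻¹) :=
  ⟨h.conj h'.1, by rw [conj_mul, h'.2, mul_one, mul_inv_cancel]⟩

variable {R : Rt K G} {R' : Rt K G'} (h : Cover R R' P π)
include h

theorem uniq (a : In π x y) (b : In π x' y') (e : y = y') : x = x' := by
  obtain ⟨⟨m, e1⟩, s⟩ := a
  obtain ⟨⟨m', e2⟩, s'⟩ := b
  set z : P := (⟨x, m⟩ : P)⁻¹ * ⟨x', m'⟩ with hz
  have z1 : π z = 1 := by rw [hz, map_mul, map_inv, e1, e2, e, inv_mul_cancel]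
  have e3 : (⟨x', m'⟩ : P) = ⟨x, m⟩ * z := (mul_inv_cancel_left _ _).symm
  clear_value z
  have s1 : (⟨x, m⟩ : P) * ⟨x, m⟩ = 1 := Subtype.ext s
  have s2 : (⟨x', m'⟩ : P) * ⟨x', m'⟩ = 1 := Subtype.ext s'
  rw [e3, mul_assoc, ← mul_assoc z, ← h.cent z z1, ← mul_assoc, ← mul_assoc, s1, one_mul, ← pow_two] at s2
  obtain ⟨k, hk⟩ := h.odd z z1
  have := pow_orderOf_eq_one z
  rw [hk, pow_succ, pow_mul, s2, one_pow, one_mul] at this
  rw [this, mul_one] at e3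
  exact (congrArg Subtype.val e3).symm

theorem ex (hy : y * y = 1) : ∃ x, In π x y := by
  obtain ⟨x, rfl⟩ := h.surj y
  obtain ⟨k, hk⟩ := h.odd (x * x) (by rw [map_mul, hy])
  refine ⟨(x ^ (2 * k + 1) : P), ⟨SetLike.coe_mem _, ?_⟩, ?_⟩
  · rw [Subtype.coe_eta, map_pow, pow_succ, pow_mul, pow_two, hy, one_pow, one_mul]
  · rw [← coe_mul, ← (Commute.refl x).mul_pow, ← hk, pow_orderOf_eq_one, coe_one]

theorem comm (a : Lf π g g') (b : In π x y) (e : g' * y = y * g') : g * x = x * g :=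
  mul_inv_eq_iff_eq_mul.1 (uniq h (b.conj a) b (mul_inv_eq_iff_eq_mul.2 e))

theorem mul (a : In π x y) (b : In π x' y') (e : Commute y y') : In π (x * x') (y * y') :=
  ⟨a.1.mul b.1, by rw [mul_assoc, ← mul_assoc x', ← comm h a.1 b e, ← mul_assoc, ← mul_assoc, a.2, one_mul, b.2]⟩

theorem lN (u : U K) : Lf π (R.N u) (R'.N u) := ⟨h.L_le (R.N_mem_L u), h.πN _ _ rfl⟩
theorem lw : Lf π R.w R'.w := ⟨h.L_le R.w_mem_L, h.πw _ rfl⟩
theorem ln : Lf π R.n R'.n := ⟨h.L_le R.n_mem, h.πn _ rfl⟩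
theorem lh (ν : Kˣ) : Lf π (R.h ν) (R'.h ν) := ⟨h.L_le (R.h_mem_L ν), h.πh _ _ rfl⟩
theorem ll (ν : Kˣ) : Lf π (R.l ν) (R'.l ν) := ⟨h.L_le (R.l_mem ν), h.πl _ _ rfl⟩
theorem it : In π R.t R'.t := ⟨⟨h.t_mem, h.πt _ rfl⟩, R.tt⟩

theorem i4 (s : K) : In π (R.N (X4 s)) (R'.N (X4 s)) :=
  ⟨lN h _, by rw [← map_mul, ← map_one R.N]; congr 1; ext <;> simp only [UE]⟩

theorem i5 (s : K) : In π (R.N (X5 s)) (R'.N (X5 s)) :=
  ⟨lN h _, by rw [← map_mul, ← map_one R.N]; congr 1; ext <;> simp only [UE]⟩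

theorem lC {m : G} (hm : m ∈ R.C) : ∃ m' ∈ R'.C, Lf π m m' := by
  rcases R.bru m hm with ⟨u, ν, rfl⟩ | ⟨u, v, ν, rfl⟩
  · exact ⟨_, mul_mem (R'.N_mem u) (R'.h_mem ν), (lN h u).mul (lh h ν)⟩
  · exact ⟨_, mul_mem (mul_mem (mul_mem (R'.N_mem u) R'.w_mem) (R'.N_mem v)) (R'.h_mem ν),
      (((lN h u).mul (lw h)).mul (lN h v)).mul (lh h ν)⟩

theorem add {f : K → G} {f' : K → G'} (hf : ∀ c d, f' (c + d) = f' c * f' d) (i : ∀ c, In π (f c) (f' c))
    (c d : K) : f (c + d) = f c * f d :=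
  uniq h (i _) (mul h (i c) (i d) (by rw [Commute, SemiconjBy, ← hf, ← hf, add_comm])) (hf c d)

end CL

open CL in
theorem Cover.lift {G' : Type*} [Group G'] {R : Rt K G} {R' : Rt K G'} {P : Subgroup G} {π : P →* G'}
    (h : Cover R R' P π) (H : Rel R') : ∃ H' : Rel R, H'.β = H.β := by
  choose a ia using fun c => ex h (H.a_sq c)
  choose b ib using fun c => ex h (sq_of_add H.add5 c)
  have i6 : ∀ c, In π (R.n * a c * R.n⁻¹) (H.A6 c) := fun c => (ia c).conj (ln h)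
  have i2 : ∀ c, In π (R.w * (R.n * a c * R.n⁻¹) * R.w⁻¹) (H.A2 c) := fun c => (i6 c).conj (lw h)
  have i8 : ∀ c, In π (R.n * (R.w * (R.n * a c * R.n⁻¹) * R.w⁻¹) * R.n⁻¹) (H.A8 c) := fun c => (i2 c).conj (ln h)
  have i3 : ∀ c, In π (R.w * b c * R.w⁻¹) (R'.w * H.a5 c * R'.w⁻¹) := fun c => (ib c).conj (lw h)
  have c24 : ∀ c d, Commute (H.A2 c) (H.a d) := fun c d => (H.a_A2 d c).symm
  have c46 : ∀ c d, Commute (H.a c) (H.A6 d) := H.a_A6
  have c56 : ∀ c d, Commute (H.a5 c) (H.A6 d) := fun c d =>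
    comm_conj (H.c45 d c).symm (mul_inv_eq_iff_eq_mul.2 (H.n5 c)) rfl
  have c36 : ∀ c d, Commute (R'.w * H.a5 c * R'.w⁻¹) (H.A6 d) := fun c d =>
    comm_conj (H.c25 d c).symm rfl (H.w_A2 d)
  have c25 : ∀ c d, Commute (H.A2 c) (H.a5 d) := H.c25
  have c45 : ∀ c d, Commute (H.a c) (H.a5 d) := H.c45
  have c26 : ∀ c d, Commute (H.A2 c) (H.A6 d) := H.c26
  exact ⟨{
    a := a, a5 := b, β := H.β, hβ := H.hβ
    add := add h H.add ia
    ta := fun c => uniq h ((it h).conj (ia c).1) (mul h (it h) (i4 h c) (R'.tN _)) (H.ta c)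
    aC := fun c m hm => let ⟨m', h1, h2⟩ := lC h hm; comm h h2 (ia c) (H.aC c m' h1)
    la := fun κ c => uniq h ((ia c).conj (ll h κ)) (ia _) (H.la κ c)
    a46 := fun c d => comm h (ia c).1 (i6 d) (c46 c d)
    L1 := fun c d => uniq h ((i6 c).conj (lN h _)) (mul h (i6 c) (ia _) (c46 _ _).symm) (H.L1 c d)
    add5 := add h H.add5 ib
    ta5 := fun c => uniq h ((it h).conj (ib c).1) (mul h (it h) (i5 h c) (R'.tN _)) (H.ta5 c)
    n5 := fun c => comm h (ln h) (ib c) (H.n5 c)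
    c0 := fun c u hu => comm h (lN h u) (ib c) (H.c0 c u hu)
    c45 := fun c d => comm h (ia c).1 (ib d) (c45 c d)
    c25 := fun c d => comm h (i2 c).1 (ib d) (c25 c d)
    c26 := fun c d => comm h (i2 c).1 (i6 d) (c26 c d)
    L2 := fun c d => uniq h ((i2 c).conj (lN h _)) (mul h (mul h (mul h (mul h (i2 c) (ia _) (c24 _ _)) (i4 h _)
        (Commute.mul_left (H.N_A2 ⟨rfl, rfl⟩ rfl _).symm (H.N_a _ _).symm)) (ib _)
        (((c25 _ _).mul_left (c45 _ _)).mul_left (H.c0 _ _ ⟨rfl, rfl⟩))) (i6 _)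
        ((((c26 _ _).mul_left (c46 _ _)).mul_left (H.N_A6 rfl _)).mul_left (c56 _ _))) (H.L2 c d)
    L3 := fun c d => uniq h ((i3 c).conj (lN h _)) (mul h (i3 c) (i6 _) (c36 _ _)) (H.L3 c d)
    R5 := fun c d => uniq h ((i3 c).conj (i8 d).1) (mul h (i3 c) (i6 _) (c36 _ _)) (H.R5 c d)
    R6 := fun c d => uniq h ((i2 c).conj (i8 d).1) (mul h (mul h (mul h (i2 c) (ia _) (c24 _ _)) (ib _)
        ((c25 _ _).mul_left (c45 _ _))) (i6 _) (((c26 _ _).mul_left (c46 _ _)).mul_left (c56 _ _))) (H.R6 c d) }, rfl⟩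

end Cfsg.Agent.S2F
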