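import Cfsg.Agent.S2F.Base

/-!
Transport of the coordinates along an injective homomorphism.
-/

set_option autoImplicit false
set_option linter.unusedSectionVars false
set_option linter.unusedSimpArgs false
set_option maxRecDepth 20000

namespace Cfsg.Agent.S2F

open Subgroup Cfsg.Agent.Oct Cfsg.Agent.Fus

variable {K : Type*} [Field K] [Tw K] {G G' : Type*} [Group G] [Group G'] [Finite G]

namespace Re

variable (R : Re K G) (φ : R.L →* G') (hφ : Function.Injective φ)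

/-- Transport along an injective homomorphism. -/
def push : Re K G' where
  N := φ.comp (R.N.codRestrict _ R.N_mem_L)
  inj := fun _ _ e => R.inj (congrArg Subtype.val (hφ e))
  w := φ ⟨_, R.w_mem_L⟩
  h := φ.comp (R.h.codRestrict _ R.h_mem_L)
  C := (R.C.subgroupOf R.L).map φ
  ww := by rw [← map_mul, ← map_one φ]; exact congrArg φ (Subtype.ext R.ww)
  wN u hu := by
    simp only [MonoidHom.comp_apply, ← map_inv, ← map_mul]; exact congrArg φ (Subtype.ext (R.wN u hu))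
  hN ν u := by
    simp only [MonoidHom.comp_apply, ← map_inv φ, ← map_mul φ]; exact congrArg φ (Subtype.ext (R.hN ν u))
  wh ν := by
    simp only [MonoidHom.comp_apply, ← map_inv φ, ← map_mul φ]; exact congrArg φ (Subtype.ext (R.wh ν))
  rel := by
    simp only [MonoidHom.comp_apply, ← map_inv φ, ← map_mul φ]; exact congrArg φ (Subtype.ext R.rel)
  N_mem u := ⟨_, R.N_mem u, rfl⟩
  w_mem := ⟨_, R.w_mem, rfl⟩
  h_mem ν := ⟨_, R.h_mem ν, rfl⟩
  bru := by
    rintro _ ⟨c, hc, rfl⟩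
    simp only [MonoidHom.comp_apply, ← map_mul φ]
    exact (R.bru c hc).imp (fun ⟨u, ν, e⟩ => ⟨u, ν, congrArg φ (Subtype.ext e)⟩)
      fun ⟨u, v, ν, e⟩ => ⟨u, v, ν, congrArg φ (Subtype.ext e)⟩
  ti u v ν e := by
    simp only [MonoidHom.comp_apply, ← map_inv φ, ← map_mul φ] at e
    exact R.ti u v ν (congrArg Subtype.val (hφ e))
  n := φ ⟨_, R.n_mem⟩
  l := φ.comp (R.l.codRestrict _ R.l_mem)
  L := φ.range
  big := R.big
  lN κ u := by
    simp only [MonoidHom.comp_apply, ← map_inv φ, ← map_mul φ]; exact congrArg φ (Subtype.ext (R.lN κ u))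
  lw κ := by
    simp only [MonoidHom.comp_apply, ← map_mul φ]; exact congrArg φ (Subtype.ext (R.lw κ))
  lh κ ν := by
    simp only [MonoidHom.comp_apply, ← map_mul φ]; exact congrArg φ (Subtype.ext (R.lh κ ν))
  nn := by rw [← map_mul, ← map_one φ]; exact congrArg φ (Subtype.ext R.nn)
  nY2 s := by
    simp only [MonoidHom.comp_apply, ← map_inv φ, ← map_mul φ]; exact congrArg φ (Subtype.ext (R.nY2 s))
  nX2 s := by
    simp only [MonoidHom.comp_apply, ← map_inv φ, ← map_mul φ]; exact congrArg φ (Subtype.ext (R.nX2 s))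
  nX3 s := by
    simp only [MonoidHom.comp_apply, ← map_inv φ, ← map_mul φ]; exact congrArg φ (Subtype.ext (R.nX3 s))
  nY4 s := by
    simp only [MonoidHom.comp_apply, ← map_inv φ, ← map_mul φ]; exact congrArg φ (Subtype.ext (R.nY4 s))
  nX4 s := by
    simp only [MonoidHom.comp_apply, ← map_inv φ, ← map_mul φ]; exact congrArg φ (Subtype.ext (R.nX4 s))
  nX5 s := by
    simp only [MonoidHom.comp_apply, ← map_inv φ, ← map_mul φ]; exact congrArg φ (Subtype.ext (R.nX5 s))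
  nX1 := by
    simp only [MonoidHom.comp_apply, ← map_mul φ, ← map_pow φ]
    rw [← map_one φ]; exact congrArg φ (Subtype.ext R.nX1)
  nT κ ν κ' ν' h1 h2 := by
    simp only [MonoidHom.comp_apply, ← map_inv φ, ← map_mul φ]
    exact congrArg φ (Subtype.ext (R.nT κ ν κ' ν' h1 h2))
  nw8 := by
    simp only [← map_mul φ, ← map_pow φ]
    rw [← map_one φ]; exact congrArg φ (Subtype.ext R.nw8)
  C_le := map_le_range _ _
  n_mem := ⟨_, rfl⟩
  l_mem κ := ⟨_, rfl⟩
  cen := by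
    rintro _ ⟨g, rfl⟩ e
    simp only [MonoidHom.comp_apply, ← map_mul φ] at e
    exact ⟨g, R.cen g g.2 (congrArg Subtype.val (hφ e)), rfl⟩
  gen P h1 h2 h3 := by
    rintro _ ⟨g, rfl⟩
    obtain ⟨g', h4, h5⟩ := R.gen ((P.comap φ).map R.L.subtype) (fun u => ⟨⟨_, R.N_mem_L u⟩, h1 u, rfl⟩)
      ⟨⟨_, R.w_mem_L⟩, h2, rfl⟩ (fun s => ⟨⟨_, R.n_mem⟩ * ⟨_, R.N_mem_L (X1 s)⟩ * ⟨_, R.n_mem⟩⁻¹, by
        rw [SetLike.mem_coe, mem_comap, map_mul, map_mul, map_inv]; exact h3 s, rfl⟩) g.2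
    exact (Subtype.ext h5 : g' = g) ▸ h4
  simple := by
    have := R.simple
    exact (MonoidHom.ofInjective hφ).symm.isSimpleGroup
  syl := by
    have h1 := ((sylIn_subgroupOf_iff (by rintro _ ⟨u, rfl⟩; exact R.N_mem_L u) le_rfl).2 R.syl).map
      (subgroupOf_mono _ (by rintro _ ⟨u, rfl⟩; exact R.N_mem_L u)) φ
    rw [subgroupOf_self, ← MonoidHom.range_eq_map] at h1
    convert h1 using 1
    ext x
    exact ⟨fun ⟨u, e⟩ => ⟨_, ⟨u, rfl⟩, e⟩, fun ⟨y, ⟨u, e⟩, e'⟩ => ⟨u, e' ▸ congrArg φ (Subtype.ext e)⟩⟩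

theorem push_L : (R.push φ hφ).L = φ.range := rfl
theorem push_C : (R.push φ hφ).C = (R.C.subgroupOf R.L).map φ := rfl
theorem push_N (u : U K) : (R.push φ hφ).N u = φ ⟨_, R.N_mem_L u⟩ := rfl
theorem push_w : (R.push φ hφ).w = φ ⟨_, R.w_mem_L⟩ := rfl
theorem push_n : (R.push φ hφ).n = φ ⟨_, R.n_mem⟩ := rfl
theorem push_h (ν : Kˣ) : (R.push φ hφ).h ν = φ ⟨_, R.h_mem_L ν⟩ := rfl
theorem push_l (κ : Kˣ) : (R.push φ hφ).l κ = φ ⟨_, R.l_mem κ⟩ := rfl

end Re

end Cfsg.Agent.S2F
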