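import Cfsg.Agent.S2F.Base1
import Cfsg.Agent.S2F.Push

/-!
Passage to `C(O)/Z(O)`, `O = O(C(t) ∩ C(L))`.

General remarks (all S2F stubs): read `S2F/Def.lean` (definitions, conventions) and `S2F/Base*.lean` first. Identities in `U K`
are proved by `ext <;> simp only [UE, ...hypotheses] <;> grind` (add `ζ`, `ψ`, `pr` to the simp set); conjugation is `g * x * g⁻¹`.
Keep the statements; add lemmas / extra files freely (unique names).

Let `Kt = C(L) ∩ C(t)`.  By `F.two` and `Re.eq_one_of_central` its `2`-elements are `1, t`, and `t` is central in `Kt`; so the set `O` of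
elements of odd order of `Kt` is a subgroup and `Kt = O ∪ O t` (e.g. `O` = kernel of the transfer `MonoidHom.transferCenterPow`/Burnside,
or: `Kt/⟨t⟩` has odd order, Schur–Zassenhaus complement `O` is normal since `Kt = O × ⟨t⟩`).
`O` = the elements of odd order of `C(T)`, `T = F.T`: if `c` centralises `T` then `c = m k` (`F.aut`), `m ∈ C` centralises `N(U)` so
`m ∈ V₄` (`Loc.mem_Z_of_comm`), `k ∈ Kt`; odd order forces `m = 1` (`m, k` commute, `m² = 1`, `L ∩ C(L) = 1`).  Hence `N(T)` normalises `O`.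
`P := C(O) ≥ L, t`.  Fusion inside `P`: take `g` from `exists_normT` and `κ` with `μ = κ² σ κ ≠ 1`; `x = g⁻¹ (l κ) g ∈ P ∩ N(T)`
(`g` normalises `O`, `l κ ∈ L ≤ P`), and `x t x⁻¹ ≠ t` since `l κ` does not fix `t N(X4 1)`.  `x t x⁻¹ ∈ Z(T) = V₄ ∪ V₄ t` and is not in `V₄`
(`X4 s = (Y4 r)²`, `not_sq`), so `x t x⁻¹ = t N(X4 c)`, `c ≠ 0`; adjust by `l`.
`Z := O ∩ P` (as a subgroup of `P`: central, odd order), `G' = P ⧸ Z`, `π = mk'`, `R' = F.toRe.push (π ∘ inclusion)` (injective as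
`L ∩ O = 1`), `t' = π t`.  If `π x` commutes with an element `π y`, `y² = 1`, then `x y x⁻¹ = y z`, `z ∈ Z`, `z² = 1`, `z = 1`: centralisers of
`t` and of `N (X4 s)` lift.  An element `π k` centralising `π L` : `x ↦ [k, x]` is a hom `L → Z`, trivial on involutions, so (`gen_even`)
`k ∈ C(L)`.  `two`: a `2`-element `π c` is the image of a `2`-element (odd power of `c`).  `cL`: `k ∈ Kt ∩ P = Z ∪ Z t`.
-/

set_option autoImplicit false
set_option linter.unusedSectionVars false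
set_option linter.unusedSimpArgs false
set_option maxRecDepth 20000

namespace Cfsg.Agent.S2F

open Subgroup Cfsg.Agent.Oct Cfsg.Agent.Fus
open scoped commutatorElement

variable {K : Type*} [Field K] [Tw K] [Finite K]

universe u

section general

variable {G G' : Type*} [Group G] [Group G']

theorem quo_eq_one {z : G} (h : Odd (orderOf z)) (h2 : z * z = 1) : z = 1 :=
  orderOf_eq_one_iff.1
    ((Nat.coprime_two_right.2 h).eq_one_of_dvd (orderOf_dvd_of_pow_eq_one (by rw [sq, h2])))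

theorem quo_compl [Finite G] {X : Subgroup G} {t : G} (tt : t * t = 1) (hc : ∀ x ∈ X, x * t = t * x)
    (h2 : ∀ x ∈ X, Two x → x = 1 ∨ x = t) :
    ∃ O ≤ X, (∀ x ∈ O, Odd (orderOf x)) ∧ ∀ x ∈ X, x ∈ O ∨ x * t ∈ O := by
  obtain ⟨P⟩ : Nonempty (Sylow 2 X) := inferInstance
  have h3 : ∀ p ∈ P, (p : G) = 1 ∨ (p : G) = t := fun p hp =>
    h2 p p.2 ((P.2 ⟨p, hp⟩).imp fun k hk => congrArg (fun a : P => a.1.1) hk)
  have hP : normalizer (P : Set X) ≤ centralizer (P : Set X) := fun a _ p hp => Subtype.ext (by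
    rcases h3 p hp with r | r <;> simp [r, hc a a.2])
  refine ⟨(MonoidHom.transferSylow P hP).ker.map X.subtype, map_subtype_le _, ?_, fun x hx => ?_⟩
  · rintro _ ⟨x, hx, rfl⟩
    rw [coe_subtype, orderOf_coe, ← Nat.not_even_iff_odd, even_iff_two_dvd]
    exact fun h => MonoidHom.not_dvd_card_ker_transferSylow P hP (h.trans (orderOf_dvd_natCard _ hx))
  · obtain ⟨⟨m, p⟩, e⟩ := (MonoidHom.ker_transferSylow_isComplement' P hP).2 ⟨x, hx⟩
    obtain rfl : (m : X) * (p : X).1 = x := congrArg Subtype.val e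
    rcases h3 p p.2 with r | r
    · exact .inl ⟨m, m.2, by simp [r]⟩
    · exact .inr ⟨m, m.2, by simp [r, mul_assoc, tt]⟩

theorem quo_comm {π : G →* G'} (hc : ∀ z, π z = 1 → ∀ x, x * z = z * x) (ho : ∀ z, π z = 1 → Odd (orderOf z))
    {x y : G} (hy : y * y = 1) (h : π x * π y = π y * π x) : x * y = y * x := by
  have h1 : π (x * y * x⁻¹ * y⁻¹) = 1 := by simp [h]
  have h2 := quo_eq_one (ho _ h1) (by
    calc _ = x * y * x⁻¹ * (y⁻¹ * (x * y * x⁻¹ * y⁻¹)) * (y * y⁻¹) := by group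
      _ = x * (y * y) * x⁻¹ * (y * y)⁻¹ := by rw [hc _ h1]; group
      _ = 1 := by rw [hy]; group)
  rwa [mul_inv_eq_one, mul_inv_eq_iff_eq_mul] at h2

theorem quo_two {π : G →* G'} (ho : ∀ z, π z = 1 → Odd (orderOf z)) {x : G} (h : Two (π x)) :
    ∃ n : ℕ, π (x ^ n) = π x ∧ Two (x ^ n) := by
  obtain ⟨k, hk⟩ := h
  obtain ⟨m, hm⟩ := exists_pow_eq_self_of_coprime (x := π x) (n := orderOf (x ^ 2 ^ k))
    (((Nat.coprime_two_right.2 (ho _ (by rwa [map_pow]))).pow_right k).coprime_dvd_right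
      (orderOf_dvd_of_pow_eq_one hk))
  exact ⟨_ * m, by rw [map_pow, pow_mul, hm], k, by
    rw [← pow_mul, mul_comm, pow_mul, pow_mul, pow_orderOf_eq_one, one_pow]⟩

end general

theorem quo_X4 (s : K) : X4 s * X4 s = 1 := by ext <;> simp only [UE]

theorem Fz.quo_O {G : Type*} [Group G] [Finite G] (F : Fz K G) :
    ∃ O ≤ centralizer (F.L : Set G), (∀ x ∈ O, x * F.t = F.t * x) ∧ (∀ x ∈ O, Odd (orderOf x)) ∧
      (∀ x ∈ centralizer (F.L : Set G), x * F.t = F.t * x → x ∈ O ∨ x * F.t ∈ O) ∧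
      ∃ y ∈ centralizer (O : Set G), y * F.t * y⁻¹ = F.t * F.N (X4 1) := by
  have tc : F.t ∈ centralizer (F.L : Set G) := fun g hg => (F.tL g hg).symm
  have t1 : F.t ≠ 1 := fun e => F.t_not (e ▸ one_mem _)
  obtain ⟨O, h1, h2, h3⟩ := quo_compl (X := centralizer (F.L : Set G) ⊓ centralizer {F.t}) F.tt
    (fun x hx => mem_centralizer_singleton_iff.1 hx.2) fun x hx h =>
      (F.two x (mem_centralizer_singleton_iff.1 hx.2) h).imp (fun r => F.eq_one_of_central r hx.1) fun r => by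
        rw [← F.t_inv]; exact eq_inv_of_mul_eq_one_left (F.eq_one_of_central r (mul_mem hx.1 tc))
  have h4 : ∀ x ∈ O, x * F.t = F.t * x := fun x hx => mem_centralizer_singleton_iff.1 (h1 hx).2
  have h5 : ∀ x ∈ centralizer (F.L : Set G), x * F.t = F.t * x → x ∈ O ∨ x * F.t ∈ O :=
    fun x hx h => h3 x ⟨hx, mem_centralizer_singleton_iff.2 h⟩
  refine ⟨O, h1.trans inf_le_left, h4, h2, h5, ?_⟩
  have LP : ∀ a ∈ F.L, a ∈ centralizer (O : Set G) := fun a ha c hc => ((h1 hc).1 a ha).symm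
  -- odd-order elements of `C(T)` lie in `O`
  have h6 : ∀ c, (∀ x ∈ F.T, c * x = x * c) → Odd (orderOf c) → c ∈ O := fun c hc ho => by
    have ct := hc F.t ⟨1, .inr (by simp)⟩
    have cN := fun u => hc _ ⟨u, .inl rfl⟩
    obtain ⟨m, hm, k, hk, rfl⟩ := F.aut c ct fun s => cN _
    obtain ⟨s, rfl⟩ := Loc.mem_Z.1 (Loc.mem_Z_of_comm hm fun u => by
      have := cN u
      rwa [mul_assoc, ← hk _ (F.N_mem_L u), ← mul_assoc, ← mul_assoc, mul_left_inj] at this)
    have odd : ∀ {a b : G}, Commute a b → Odd (orderOf (a * b)) → a * a = 1 → a ∈ zpowers b := fun {a b} e ho h => by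
      obtain ⟨r, hr⟩ := ho
      have := pow_orderOf_eq_one (a * b)
      rw [e.mul_pow, hr, pow_succ, pow_mul, sq, h, one_pow, one_mul] at this
      exact eq_inv_of_mul_eq_one_left this ▸ inv_mem (pow_mem (mem_zpowers b) _)
    have e1 : F.N (X4 s) = 1 := F.eq_one_of_central (F.N_mem_L _) ((zpowers_le.2 hk)
      (odd (hk _ (F.N_mem_L _)) ho (by rw [← map_mul, quo_X4, map_one])))
    rw [e1, one_mul] at ct ho ⊢
    refine (h5 k hk ct).resolve_right fun r => t1 (quo_eq_one ?_ F.tt)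
    exact Odd.of_dvd_nat ho ((orderOf_dvd_natCard _ (odd ct.symm (ct ▸ h2 _ r) F.tt)).trans (Nat.card_zpowers k).dvd)
  obtain ⟨g, gT, gt⟩ := F.exists_normT
  have gN : g ∈ normalizer (F.T : Set G) := mem_normalizer_fintype gT
  have gT' : ∀ x ∈ F.T, g⁻¹ * x * g ∈ F.T := fun x hx => (mem_normalizer_iff''.1 gN x).1 hx
  have cT : ∀ c ∈ O, ∀ x ∈ F.T, c * x = x * c := by
    rintro c hc _ ⟨u, rfl | rfl⟩
    · exact ((h1 hc).1 _ (F.N_mem_L u)).symm
    · rw [← mul_assoc, ← (h1 hc).1 _ (F.N_mem_L u), mul_assoc, h4 c hc, mul_assoc]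
  obtain ⟨μ, μ0, μ1⟩ := F.big
  obtain ⟨κ, hκ⟩ := exists_l4 μ0
  have lX : ∀ (κ : Kˣ) s, F.l κ * (F.t * F.N (X4 s)) * (F.l κ)⁻¹ = F.t * F.N (X4 (κ ^ 2 * σ (κ : K) * s)) := fun κ s => by
    calc _ = F.l κ * F.t * (F.l κ)⁻¹ * (F.l κ * F.N (X4 s) * (F.l κ)⁻¹) := by group
      _ = _ := by rw [F.t_conj (F.l_mem κ), F.lN]; exact congrArg _ (congrArg _ (by ext <;> simp only [UE, ζ]))
  have xP : g⁻¹ * F.l κ * g ∈ centralizer (O : Set G) := fun c hc => by
    have := LP _ (F.l_mem κ) _ (h6 (g * c * g⁻¹) (fun x hx => by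
      calc _ = g * (c * (g⁻¹ * x * g)) * g⁻¹ := by group
        _ = _ := by rw [cT c hc _ (gT' x hx)]; group) 
      (SemiconjBy.orderOf_eq g (x := c) (y := g * c * g⁻¹) (by simp [SemiconjBy]) ▸ h2 c hc))
    calc _ = g⁻¹ * (g * c * g⁻¹ * F.l κ) * g := by group
      _ = _ := by rw [this]; group
  have xt : g⁻¹ * F.l κ * g * F.t * (g⁻¹ * F.l κ * g)⁻¹ = g⁻¹ * (F.t * F.N (X4 μ)) * g := by
    rw [← mul_one μ, ← hκ, ← lX, ← gt]; group
  obtain ⟨u, hu | hu⟩ := gT' (F.t * F.N (X4 μ)) ⟨_, .inr (F.tN _)⟩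
  · obtain ⟨y, -, hy⟩ := F.exists_sqrt (F.N_mem_L u) (by
      rw [← hu, ← xt]
      calc _ = g⁻¹ * F.l κ * g * (F.t * F.t) * (g⁻¹ * F.l κ * g)⁻¹ := by group
        _ = _ := by rw [F.tt]; group)
    exact absurd (hy.trans (xt.trans hu).symm) (F.not_sq (isConj_iff.2 ⟨_, rfl⟩) y)
  have hz : u ∈ Zs := mem_Zs_of_comm fun v => F.inj (by
    have e : ∀ x ∈ F.T, F.t * F.N (X4 μ) * x = x * (F.t * F.N (X4 μ)) := by
      rintro _ ⟨u, rfl | rfl⟩ <;> simp only [F.tN, mul_assoc, ← map_mul, comm_X4] <;>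
        simp only [F.tN, ← mul_assoc, ← map_mul, comm_X4, F.tt] 
    have e2 : F.N u * F.t * F.N v = F.N v * (F.N u * F.t) := by
      rw [← hu]
      calc _ = g⁻¹ * (F.t * F.N (X4 μ) * (g * F.N v * g⁻¹)) * g := by group
        _ = _ := by rw [e _ (gT _ ⟨v, .inl rfl⟩)]; group
    rwa [mul_assoc, F.tN, ← mul_assoc, ← mul_assoc, mul_left_inj, ← map_mul, ← map_mul] at e2)
  rw [eq_X4 hz, ← F.tN] at hu
  have c0 : u.x4 ≠ 0 := fun r => μ1 (by
    rw [r, X4_zero, map_one, mul_one, mul_assoc, inv_mul_eq_iff_eq_mul, ← eq_mul_inv_iff_mul_eq, gt, mul_right_inj] at hu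
    exact congrArg U.x4 (F.inj hu))
  obtain ⟨κ', hκ'⟩ := exists_l4 (inv_ne_zero c0)
  refine ⟨F.l κ' * (g⁻¹ * F.l κ * g), mul_mem (LP _ (F.l_mem κ')) xP, ?_⟩
  rw [← inv_mul_cancel₀ c0, ← hκ', ← lX, ← hu, ← xt]
  group

theorem Fz.exists_cover {G : Type u} [Group G] [Finite G] (F : Fz K G) :
    ∃ (G' : Type u) (_ : Group G') (_ : Finite G') (F' : Fr K G') (P : Subgroup G) (π : P →* G'),
      Cover F.toRt F'.toRt P π := by
  obtain ⟨O, h1, h2, h3, h4, y, yP, hy⟩ := F.quo_O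
  set P := centralizer (O : Set G)
  have LP : F.L ≤ P := le_centralizer_iff.1 h1
  have tP : F.t ∈ P := fun c hc => h2 c hc
  have hc : ∀ z : P, z.1 ∈ O → ∀ x : P, x * z = z * x := fun z hz x => Subtype.ext (x.2 z hz).symm
  have : (O.subgroupOf P).Normal := ⟨fun z hz x => by rwa [hc z hz, mul_inv_cancel_right]⟩
  let π := QuotientGroup.mk' (O.subgroupOf P)
  have hπ : ∀ z : P, π z = 1 ↔ z.1 ∈ O := fun z => QuotientGroup.eq_one_iff z
  have hc' : ∀ z : P, π z = 1 → ∀ x : P, x * z = z * x := fun z hz => hc z ((hπ z).1 hz)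
  have ho : ∀ z : P, π z = 1 → Odd (orderOf z) := fun z hz => orderOf_coe z ▸ h3 _ ((hπ z).1 hz)
  have sj : Function.Surjective π := QuotientGroup.mk'_surjective _
  let φ := π.comp (inclusion LP)
  have hφ : Function.Injective φ := (injective_iff_map_eq_one _).2 fun a ha =>
    Subtype.ext (F.eq_one_of_central a.2 (h1 ((hπ _).1 ha)))
  have tt : (⟨F.t, tP⟩ : P) * ⟨F.t, tP⟩ = 1 := Subtype.ext F.tt
  have ct : ∀ c : P, π c * π ⟨F.t, tP⟩ = π ⟨F.t, tP⟩ * π c → c.1 * F.t = F.t * c := fun c h =>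
    congrArg Subtype.val (quo_comm hc' ho tt h)
  have cL : ∀ (c : P) (a : F.L), a.1 * a = 1 → π c * φ a = φ a * π c → c.1 * a = a * c := fun c a ha h =>
    congrArg Subtype.val (quo_comm hc' ho (y := inclusion LP a) (Subtype.ext ha) h)
  have XX : ∀ s, F.N (X4 s) * F.N (X4 s) = 1 := fun s => by rw [← map_mul, quo_X4, map_one]
  refine ⟨P ⧸ O.subgroupOf P, inferInstance, inferInstance,
    { F.toRe.push φ hφ with
      t := π ⟨F.t, tP⟩
      tt := by rw [← map_mul, tt, map_one]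
      tL := ?_
      t_not := ?_
      nrm := ?_
      two := ?_
      aut := ?_
      fus := ⟨π ⟨y, yP⟩, ?_⟩
      cL := ?_ }, P, π, sj, hc', ho, LP, tP, fun x u h => congrArg π (Subtype.ext h),
    fun x h => congrArg π (Subtype.ext h), fun x h => congrArg π (Subtype.ext h), fun x h => congrArg π (Subtype.ext h),
    fun x u h => congrArg π (Subtype.ext h), fun x u h => congrArg π (Subtype.ext h)⟩
  · rintro _ ⟨a, rfl⟩
    exact (map_mul π _ _).symm.trans ((congrArg π (Subtype.ext (F.tL a a.2))).trans (map_mul π _ _))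
  · rintro ⟨a, ha⟩
    have h5 : F.t⁻¹ * a ∈ O := (hπ ((⟨F.t, tP⟩ : P)⁻¹ * inclusion LP a)).1 (by
      rw [map_mul, map_inv, inv_mul_eq_one]; exact ha.symm)
    have h6 : a.1 = 1 := F.eq_one_of_central a.2 (by
      simpa using mul_mem (show F.t ∈ centralizer (F.L : Set G) from fun g hg => (F.tL g hg).symm) (h1 h5))
    rw [h6, mul_one, inv_mem_iff] at h5
    exact F.t_not (quo_eq_one (h3 _ h5) F.tt ▸ one_mem _)
  · rintro c h _ ⟨a, rfl⟩
    obtain ⟨c, rfl⟩ := sj c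
    exact ⟨⟨_, F.nrm c (ct c h) a a.2⟩, by
      rw [← map_inv, MonoidHom.comp_apply π _ a, ← map_mul, ← map_mul]; rfl⟩
  · intro c h h5
    obtain ⟨c, rfl⟩ := sj c
    obtain ⟨n, e, hn⟩ := quo_two ho h5
    rw [← e] at h ⊢
    exact (F.two _ (ct _ h) (hn.imp fun k hk => congrArg Subtype.val hk)).imp (fun r => ⟨⟨_, r⟩, rfl⟩)
      fun r => ⟨⟨_, r⟩, map_mul π _ _⟩
  · intro c h h5
    obtain ⟨c, rfl⟩ := sj c
    obtain ⟨m, hm, k, hk, e⟩ := F.aut c (ct c h) fun s => cL c ⟨_, F.N_mem_L _⟩ (XX s) (h5 s)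
    have kP : k ∈ P := (mul_mem_cancel_left (LP (F.C_le hm))).1 (e ▸ c.2)
    refine ⟨φ ⟨m, F.C_le hm⟩, ⟨_, hm, rfl⟩, π ⟨k, kP⟩, ?_, (congrArg π (Subtype.ext e)).trans (map_mul π _ _)⟩
    rintro _ ⟨a, rfl⟩
    exact (map_mul π _ _).symm.trans ((congrArg π (Subtype.ext (hk a a.2))).trans (map_mul π _ _))
  · rw [← map_inv, ← map_mul, ← map_mul]
    exact (congrArg π (Subtype.ext hy)).trans (map_mul π _ _)
  · intro k hk h
    obtain ⟨k, rfl⟩ := sj k
    have ρL : F.ρ ∈ F.L := mul_mem F.n_mem F.w_mem_L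
    have h5 : F.L ≤ centralizer {k.1} := F.gen_even fun j s => mem_centralizer_singleton_iff.2
      (cL k ⟨_, mul_mem (mul_mem (zpow_mem ρL j) (F.N_mem_L _)) (inv_mem (zpow_mem ρL j))⟩ (by
        calc _ = F.ρ ^ j * (F.N (X4 s) * F.N (X4 s)) * (F.ρ ^ j)⁻¹ := by group
          _ = _ := by rw [XX]; group) (hk _ ⟨_, rfl⟩).symm).symm
    refine (h4 k (fun a ha => mem_centralizer_singleton_iff.1 (h5 ha)) (ct k h)).imp (hπ k).2 fun r => ?_
    have := (hπ (k * ⟨F.t, tP⟩)).2 r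
    rw [← mul_one k, ← tt, ← mul_assoc, map_mul, this, one_mul]

end Cfsg.Agent.S2F
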