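import Cfsg.Agent.S2F.Base1
import Cfsg.Agent.S2F.Base2
import Cfsg.Agent.S2F.IIf
import Cfsg.Agent.FGS.SchurBasic

/-!
The wreathed case `β = 0`.

General remarks (all S2F stubs): read `S2F/Def.lean` (definitions, conventions) and `S2F/Base.lean`, `Base2.lean` first. Identities in `U K`
are proved by `ext <;> simp only [UE, ...hypotheses] <;> grind` (add `ζ`, `ψ`, `pr` to the simp set); conjugation is `g * x * g⁻¹`;
we write `X4 s` for `F.N (X4 s)` etc., `Ŵ = H.Wh`, `τ x = v` if `x t x⁻¹ = t N v`.  Weight arguments: `wt_inv`, `wtA`, `wtB` with `x` from `F.big` and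
`σ_ne_self`, `σ_ne_sq`, `cub_ne`; `exists_l2`, `exists_l4`, `exists_lσ` give torus elements with a prescribed weight; `T_A2`, `T_A6`, `l_hv`, … give
the torus action.  In an abelian subgroup use a local `CommGroup` instance as in `Hat5.hv_mul`.
Keep the statements; add lemmas / extra files freely (unique names).

`A k c = ρ^k (a c) ρ^(-k)` (index `4 + 2k`), `B k c = ρ^k (a c * X4 c) ρ^(-k) = t (A k c) t⁻¹` (`ta`), `X k c = A k c * B k c`; `ρ⁸ = 1`, `w ρ w = ρ⁻¹`, `A6 = A 1`, `A2 = A (-1)`, `A8 = A 2`.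
(1) `A 0 c` commutes with `B k d` for all `k`; conjugating by `w`, only `k = 0, …, 4` are needed.  `k = 0`: `aC`.  `k = 1`: `a46`, `aC`.  `k = 2`: shift of `(A2, B6)`: `c26`, `N_A2`.
`k = 3`: shift of `(A2, B8)`: `R6`, `L2` with `β = 0` (`A8 c` and `X8 c` act in the same way on `A2 b`; they commute with `a, a5, A6`).  `k = 4`: shift of `(A4, B12)`:
with `B3 = A3 X3` one has `B8 c (B3 b) (B8 c)⁻¹ = B3 b B6 (c b)` (`R5`, `L3`, `X3_A8`; or conjugate `R5` by `t`) and `A8` commutes with `B3`.  Reflect and shift: `B12 d = ⁅B14 1, B9 d⁆`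
(shift by `6` of `B6 = ⁅B8, B3⁆`), `A4` commutes with `B14` (`k = -3`) and with `B9` (the pair `(A8, B3)` reflected by `i ↦ 12 - i`, i.e. `ρ² w`).
(2) `L₁ = ⟨A k c⟩` commutes with `t L₁ t⁻¹`, so `δ x = x * t x t⁻¹` is a homomorphism on `L₁`; its image is `L` (`gen_even`), its kernel is central,
`L₁` is perfect, so `δ` is a stem extension, hence injective.  `Φ (x, y) = x * t y t⁻¹` embeds `L₁ × L₁`; `S₀ = Φ (S₁ × S₁)` with `S₁ = δ⁻¹ (N U)`.
-/

set_option autoImplicit false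
set_option linter.unusedSectionVars false
set_option linter.unusedSimpArgs false
set_option maxRecDepth 20000

namespace Cfsg.Agent.S2F

open Subgroup Cfsg.Agent.Oct Cfsg.Agent.Fus
open scoped commutatorElement

variable {K : Type*} [Field K] [Tw K] [Finite K] {G : Type*} [Group G] [Finite G]

namespace WR

open Cfsg.Agent.TIB IIf

variable {R : Rt K G}

theorem tc {g : G} (hg : g ∈ R.L) (x : G) : cn R.t (cn g x) = cn g (cn R.t x) := by
  rw [← mul_cn, R.tL g hg, mul_cn]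

theorem ρ_mem (k : ℤ) : R.ρ ^ k ∈ R.L := zpow_mem (mul_mem R.n_mem R.w_mem_L) k

theorem tflip {x : G} {u : U K} (h : x * R.t * x⁻¹ = R.t * R.N u) (hu : u * u = 1) :
    cn R.t x = R.N u * x := by
  rw [cn_flip h (R.tN u), inv_of_sq (by rw [← map_mul, hu, map_one])]

variable (H : Rel R)

theorem tb (c : K) : cn R.t (H.a c) = H.a c * R.N (X4 c) := by
  rw [tflip (H.ta c) (by ext <;> simp only [UE] <;> grind), H.N_a]

theorem tb5 (c : K) : cn R.t (H.a5 c) = H.a5 c * R.N (X5 c) := by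
  rw [tflip (H.ta5 c) (by ext <;> simp only [UE] <;> grind), H.c0 c _ ⟨rfl, rfl⟩]

theorem wa (c : K) : cn R.w (H.a c) = H.a c := H.w_a c

theorem wb (c : K) : cn R.w (cn R.t (H.a c)) = cn R.t (H.a c) := by rw [← tc R.w_mem_L, wa]

theorem n5 (c : K) : cn R.n (H.a5 c) = H.a5 c := cn_eq (H.n5 c)

theorem nb (c : K) : cn R.n (cn R.t (H.a c)) = H.A6 c * R.N (X6 c) := by
  rw [tb, cn_mul]; congr 1
  exact R.nX4 c

theorem A6_sq (c : K) : H.A6 c * H.A6 c = 1 := sq_of_add H.A6_add c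

theorem q0 (c d : K) : Commute (H.a c) (cn R.t (H.a d)) := by
  rw [tb]
  exact Commute.mul_right (by rw [Commute, SemiconjBy, ← H.add, add_comm, H.add]) (H.N_a _ _).symm

theorem q1 (c d : K) : Commute (H.a c) (cn R.n (cn R.t (H.a d))) := by
  rw [nb]
  exact Commute.mul_right (H.a_A6 c d) (H.N_a _ _).symm

theorem q2 (c d : K) : Commute (H.a c) (cn R.n (cn R.w (cn R.n (cn R.t (H.a d))))) := by
  have : Commute (cn R.w (cn R.n (H.a c))) (cn R.n (cn R.t (H.a d))) := by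
    rw [nb]
    exact Commute.mul_right (H.c26 c d) (H.N_A2 ⟨rfl, rfl⟩ rfl _).symm
  simpa only [mul_cn, nn, ww] using comm_cn (g := R.n * R.w).2 this

theorem c83 (c d : K) : Commute (H.A8 c) (cn R.w (cn R.t (H.a5 d))) := by
  have e : cn (H.A8 c) (R.N (X3 d)) = H.A6 (c * d) * R.N (X3 d) := by
    rw [cn_flip (H.X3_A8 c d) (H.A6_A8 _ _).symm, inv_of_sq (A6_sq H _)]
  refine comm_of_cn ?_
  rw [tb5, cn_mul, show cn R.w (R.N (X5 d)) = _ from R.wX5 d, cn_mul, e,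
    show cn (H.A8 c) (cn R.w (H.a5 d)) = _ from H.R5 d c, mul_assoc, ← mul_assoc (H.A6 _), A6_sq,
    one_mul]
  rfl

variable {H} (hβ : H.β = 0)
include hβ

theorem c28 (b c : K) : Commute (H.A2 b) (cn R.n (cn R.w (cn R.n (cn R.t (H.a c))))) := by
  have e : cn R.n (cn R.w (cn R.n (cn R.t (H.a c)))) = H.A8 c * R.N (X8 c) := by
    rw [nb, cn_mul, cn_mul]; congr 1
    rw [show cn R.w (R.N (X6 _)) = _ from R.wX6 _]; exact R.nX2 _
  have e1 : cn (R.N (X8 c)) (H.A2 b) = _ := H.L2 b c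
  have e2 : cn (H.A8 c) (H.A2 b) = _ := H.R6 b c
  rw [hβ, zero_mul, show X4 (0 : K) = 1 by ext <;> simp only [UE], map_one, mul_one] at e1
  rw [hβ, add_zero, one_mul, one_mul] at e2
  have c84 : ∀ d, Commute (H.A8 c) (H.a d) := fun d => by
    have := comm_cn (g := R.n).2 (H.c26 c d)
    rwa [show cn R.n (H.A6 d) = _ from H.n_A6 d] at this
  have c85 : ∀ d, Commute (H.A8 c) (H.a5 d) := fun d => by
    have := comm_cn (g := R.n).2 (H.c25 c d)
    rwa [n5] at this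
  have c65 : ∀ d e, Commute (H.A6 d) (H.a5 e) := fun d e => by
    have := comm_cn (g := R.n).2 (H.c45 d e)
    rwa [n5] at this
  have z : ∀ x y z, H.a x * H.a5 y * H.A6 z * (H.a x * H.a5 y * H.A6 z) = 1 := fun x y z =>
    sq_mul_one (Commute.mul_left (H.a_A6 _ _) (c65 _ _).symm)
      (sq_mul_one (H.c45 _ _) (H.a_sq _) (sq_of_add H.add5 _)) (A6_sq H _)
  refine (comm_of_cn ?_).symm
  rw [e, mul_cn, e1, cn_mul, cn_mul, cn_mul, e2, cn_eq (c84 _), cn_eq (c85 _),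
    cn_eq (H.A6_A8 _ _).symm]
  simpa only [mul_assoc, mul_one] using congrArg (H.A2 b * ·) (z (c * σ b) (c * b) (σ c * b))

theorem q3 (c d : K) :
    Commute (H.a c) (cn R.n (cn R.w (cn R.n (cn R.w (cn R.n (cn R.t (H.a d))))))) := by
  have : Commute (cn R.w (cn R.n (H.a c))) _ := c28 hβ c d
  simpa only [mul_cn, nn, ww] using comm_cn (g := R.n * R.w).2 this

theorem q4 (c d : K) : Commute (H.a c)
    (cn R.n (cn R.w (cn R.n (cn R.w (cn R.n (cn R.w (cn R.n (cn R.t (H.a d))))))))) := by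
  have e : cn (cn R.n (cn R.w (cn R.n (H.a 1)))) (cn R.w (H.a5 d)) =
      cn R.w (H.a5 d) * cn R.n (H.a (1 * d)) := H.R5 d 1
  have e' := congrArg (cn R.t) e
  rw [← cn_cn_cn, cn_mul, one_mul] at e'
  simp only [tc R.n_mem, tc R.w_mem_L] at e'
  have k1 : Commute (cn R.w (cn R.n (cn R.w (cn R.n (cn R.w (cn R.n (H.a c)))))))
      (cn R.w (cn R.t (H.a5 d))) := by
    have : Commute (cn R.n (cn R.w (cn R.n (H.a c)))) _ := c83 H c d
    have := comm_cn (g := R.w * R.n * R.w).2 this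
    simp only [mul_cn, ww] at this
    rwa [← tc R.n_mem, n5] at this
  have k2 : Commute (cn R.w (cn R.n (cn R.w (cn R.n (cn R.w (cn R.n (H.a c)))))))
      (cn R.n (cn R.w (cn R.n (cn R.t (H.a 1))))) := by
    have := comm_cn (g := R.w * R.n * R.w * R.n * R.w * R.n * R.w).2 (q3 hβ c 1)
    simp only [mul_cn, wa] at this
    rw [braid] at this
    simpa only [nn, ww, wb] using this
  have k3 := k1.inv_right.mul_right ((k2.mul_right k1).mul_right k2.inv_right)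
  rw [show ∀ x y : G, x * y * x⁻¹ = cn x y from fun _ _ => rfl, e', inv_mul_cancel_left] at k3
  simpa only [mul_cn, nn, ww] using comm_cn (g := R.n * R.w * R.n * R.w * R.n * R.w).2 k3

theorem qq (k : ℤ) (c d : K) : Commute (H.a c) (cn (R.ρ ^ k) (cn R.t (H.a d))) := by
  have p : ∀ j : ℕ, j ≤ 4 → Commute (H.a c) (cn (R.ρ ^ j) (cn R.t (H.a d))) := fun j hj => by
    interval_cases j <;> simp only [Re.ρ, pow_succ, pow_zero, one_mul, mul_cn, one_cn, wb]
    exacts [q0 H c d, q1 H c d, q2 H c d, q3 hβ c d, q4 hβ c d]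
  obtain ⟨m, i, h1, h2, rfl⟩ : ∃ m i : ℤ, -4 ≤ i ∧ i ≤ 4 ∧ k = i + (8 : ℕ) * m :=
    ⟨(k + 4) / 8, (k + 4) % 8 - 4, by omega, by omega, by omega⟩
  rw [zpow_add, zpow_mul, zpow_natCast, show R.ρ ^ 8 = 1 from R.nw8, one_zpow, mul_one]
  obtain ⟨j, rfl | rfl⟩ := i.eq_nat_or_neg
  · rw [zpow_natCast]; exact p j (by omega)
  · have e : cn R.w R.ρ = R.ρ⁻¹ := by
      rw [Re.ρ, mul_inv_rev, inv_of_sq R.ww, R.n_inv, cn, mul_assoc, mul_inv_cancel_right]
    have := comm_cn (g := R.w).2 (p j (by omega))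
    rwa [wa, ← cn_cn_cn, wb, cn_pow, e, inv_pow, ← zpow_natCast, ← zpow_neg] at this

omit hβ in
variable (H) in
/-- the group `L₁` -/
def L1 : Subgroup G := closure {x | ∃ (k : ℤ) (c : K), x = cn (R.ρ ^ k) (H.a c)}

omit hβ in
theorem gen_mem (k : ℤ) (c : K) : cn (R.ρ ^ k) (H.a c) ∈ L1 H := subset_closure ⟨k, c, rfl⟩

theorem cm {x y : G} (hx : x ∈ L1 H) (hy : y ∈ L1 H) : Commute x (cn R.t y) := by
  induction hx using closure_induction with
  | one => exact Commute.one_left _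
  | mul _ _ _ _ h1 h2 => exact h1.mul_left h2
  | inv _ _ h1 => exact h1.inv_left
  | mem x hx =>
    obtain ⟨k, c, rfl⟩ := hx
    induction hy using closure_induction with
    | one => simp
    | mul _ _ _ _ h1 h2 => rw [cn_mul]; exact h1.mul_right h2
    | inv _ _ h1 => rw [cn_inv]; exact h1.inv_right
    | mem y hy =>
      obtain ⟨j, d, rfl⟩ := hy
      rw [tc (ρ_mem j), show j = k + (j - k) by ring, zpow_add, mul_cn]
      exact comm_cn.2 (qq hβ _ c d)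

/-- `(x, y) ↦ x * t y t⁻¹` -/
def Φ : L1 H × L1 H →* G :=
  MonoidHom.noncommCoprod (L1 H).subtype ((MulAut.conj R.t).toMonoidHom.comp (L1 H).subtype)
    fun x y => cm hβ x.2 y.2

theorem Φ_eq (x y : L1 H) : Φ hβ (x, y) = x * cn R.t y := rfl

/-- the diagonal -/
def δ : L1 H →* G := (Φ hβ).comp ((MonoidHom.id _).prod (MonoidHom.id _))

theorem δ_eq (x : L1 H) : δ hβ x = x * cn R.t x := rfl

theorem δ_gen (k : ℤ) (c : K) : δ hβ ⟨_, gen_mem k c⟩ = cn (R.ρ ^ k) (R.N (X4 c)) := by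
  rw [δ_eq, tc (ρ_mem k), ← cn_mul, tb, ← mul_assoc, H.a_sq, one_mul]

theorem δ_range : (δ hβ).range = R.L := by
  refine le_antisymm ?_ (R.gen_even fun k s => ⟨_, δ_gen hβ k s⟩)
  rintro _ ⟨⟨x, hx⟩, rfl⟩
  induction hx using closure_induction with
  | one => exact (map_one (δ hβ)).symm ▸ one_mem _
  | mul x y hx hy h1 h2 => exact (map_mul (δ hβ) ⟨x, hx⟩ ⟨y, hy⟩).symm ▸ mul_mem h1 h2
  | inv x hx h1 => exact (map_inv (δ hβ) ⟨x, hx⟩).symm ▸ inv_mem h1
  | mem x hx =>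
    obtain ⟨k, c, rfl⟩ := hx
    rw [δ_gen]
    exact cn_mem' (ρ_mem k) (R.N_mem_L _)

theorem act {g : G} (hg : g ∈ R.L) : ∃ l ∈ L1 H, ∀ x ∈ L1 H, cn g x = cn l x := by
  obtain ⟨l, rfl⟩ := (δ_range hβ).ge hg
  exact ⟨l, l.2, fun x hx => by rw [δ_eq, mul_cn, cn_eq (cm hβ hx l.2).symm]⟩

theorem perf : commutator (L1 H) = ⊤ := by
  have a0 : ∀ c, H.a c ∈ L1 H := fun c => by simpa using gen_mem (H := H) 0 c
  have a6 : ∀ c, H.A6 c ∈ L1 H := fun c => by
    have := gen_mem (H := H) 1 c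
    rwa [zpow_one, Re.ρ, mul_cn, wa] at this
  have k : L1 H ≤ ⁅L1 H, L1 H⁆ := (closure_le _).2 (by
    rintro _ ⟨k, c, rfl⟩
    obtain ⟨l, hl, e⟩ := act hβ (ρ_mem k)
    obtain ⟨m, hm, e'⟩ := act hβ (R.N_mem_L (X1 1))
    have r : H.a c = ⁅(H.A6 c)⁻¹, m⁆ := by
      have := (e' _ (a6 c)).symm.trans (H.X1_A6 c 1)
      rw [mul_one] at this
      rw [commutatorElement_def, inv_inv, mul_assoc, mul_assoc, ← mul_assoc m]
      exact eq_inv_mul_of_mul_eq this.symm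
    rw [SetLike.mem_coe, e _ (a0 c), r]
    exact cn_mem (PLocal.Amb.le_normalizer_commutator le_normalizer le_normalizer hl)
      (commutator_mem_commutator (inv_mem (a6 c)) hm))
  rw [← map_subtype_commutator] at k
  refine eq_top_iff.2 fun x _ => ?_
  obtain ⟨y, hy, e⟩ := k x.2
  exact Subtype.ext e ▸ hy

theorem cen {x y : L1 H} (h : Φ hβ (x, y) = 1) (z : L1 H) : z * x = x * z := by
  have : (x : G) = (cn R.t y)⁻¹ := eq_inv_of_mul_eq_one_left h
  exact Subtype.ext (this ▸ (cm hβ z.2 y.2).inv_right : Commute (z : G) x)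

end WR

open TIB WR in
theorem Rel.out_wr {R : Rt K G} (H : Rel R) (hβ : H.β = 0) {X : Type*} [Group X] (e : R.L ≃* X)
    (hX : HasCyclicSchurMultiplier X 1) : Out R (X × X) := by
  have dL : ∀ x, δ hβ x ∈ R.L := fun x => (δ_range hβ).le ⟨x, rfl⟩
  let f : L1 H →* X := e.toMonoidHom.comp ((δ hβ).codRestrict R.L dL)
  have fs : Function.Surjective f := e.surjective.comp fun g => by
    obtain ⟨x, hx⟩ := (δ_range hβ).ge g.2
    exact ⟨x, Subtype.ext hx⟩
  have fk : ∀ x, f x = 1 ↔ δ hβ x = 1 := fun x => by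
    simp [f, Subtype.ext_iff]
  have fi : Function.Injective f := (MonoidHom.ker_eq_bot_iff f).1
    (FGS.ker_eq_bot_of_trivial_multiplier hX ⟨fs, fun x hx => mem_center_iff.2
      (cen hβ (x := x) (y := x) ((fk x).1 hx)), perf hβ ▸ le_top⟩)
  have di : Function.Injective (δ hβ) := (injective_iff_map_eq_one _).2 fun x hx =>
    (injective_iff_map_eq_one _).1 fi x ((fk x).2 hx)
  have Φi : Function.Injective (Φ hβ) := (injective_iff_map_eq_one _).2 fun ⟨x, y⟩ h => by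
    have x1 : x = 1 := (injective_iff_map_eq_one _).1 di x (R.eq_one_of_central (dL x)
      (mem_centralizer_iff.2 fun g hg => by
        obtain ⟨z, rfl⟩ := (δ_range hβ).ge hg
        rw [← map_mul, cen hβ h, map_mul]))
    rw [x1, Φ_eq, coe_one, one_mul, cn_eq_one] at h
    exact Prod.ext x1 (Subtype.ext h)
  have sw : ∀ x y, R.t * Φ hβ (x, y) * R.t⁻¹ = Φ hβ (y, x) := fun x y => by
    rw [Φ_eq, Φ_eq, (cm hβ y.2 x.2).eq]
    exact (cn_mul _ _ _).trans (by rw [cn_invol R.tt])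
  have rt : ∀ x : L1 H, x * x = 1 → ∃ y, y * y = x := fun x h => by
    obtain ⟨g, hg, r⟩ := R.exists_sqrt (dL x) (by rw [← map_mul, h, map_one])
    obtain ⟨y, rfl⟩ := (δ_range hβ).ge hg
    exact ⟨y, di (by rwa [map_mul])⟩
  let S := R.N.range.comap (δ hβ)
  have pS : IsPGroup 2 S :=
    (isPGroup_U.of_surjective _ R.N.rangeRestrict_surjective).comap_of_injective _ di
  refine ⟨(Φ hβ).range, (S.prod S).map (Φ hβ), map_le_range _ _, IsPGroup.map ?_ _, ?_, ?_, ?_, ?_,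
    ?_, ⟨(MonoidHom.ofInjective Φi).symm.trans
      ((MulEquiv.ofBijective f ⟨fi, fs⟩).prodCongr (MulEquiv.ofBijective f ⟨fi, fs⟩))⟩⟩
  · refine PLocal.Amb.isPGroup_iff.2 fun ⟨x, y⟩ h => ?_
    obtain ⟨i, hi⟩ := PLocal.Amb.isPGroup_iff.1 pS x h.1
    obtain ⟨j, hj⟩ := PLocal.Amb.isPGroup_iff.1 pS y h.2
    refine ⟨i + j, Prod.ext ?_ ?_⟩
    · rw [Prod.pow_fst, pow_add, pow_mul, hi, one_pow, Prod.fst_one]
    · rw [Prod.pow_snd, pow_add, mul_comm, pow_mul, hj, one_pow, Prod.snd_one]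
  · rintro _ ⟨⟨x, y⟩, h, rfl⟩
    exact ⟨(y, x), ⟨h.2, h.1⟩, (sw x y).symm⟩
  · rintro _ ⟨⟨x, y⟩, -, rfl⟩ h
    rw [← map_mul, map_eq_one_iff _ Φi, Prod.ext_iff] at h
    obtain ⟨u, rfl⟩ := rt x h.1
    obtain ⟨v, rfl⟩ := rt y h.2
    exact ⟨Φ hβ (u, v), (map_mul _ _ _).symm⟩
  · rintro _ ⟨⟨x, y⟩, hx, rfl⟩ h
    have e := sw x y
    rw [R.t_inv] at e
    rw [← mul_assoc, e, ← map_mul, map_eq_one_iff _ Φi, Prod.ext_iff] at h
    refine ⟨Φ hβ (1, x), ⟨_, ⟨one_mem _, hx.1⟩, rfl⟩, ?_⟩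
    rw [show y = x⁻¹ from eq_inv_of_mul_eq_one_left h.1, Φ_eq, Φ_eq]
    simp [cn, mul_assoc, R.t_inv, show ∀ z, R.t * (R.t * z) = z from fun z => by
      rw [← mul_assoc, R.tt, one_mul]]
  · rw [← card_U, Nat.card_congr (MonoidHom.ofInjective R.inj).toEquiv]
    refine card_le_of_le ?_
    rintro _ ⟨u, rfl⟩
    obtain ⟨x, hx⟩ := (δ_range hβ).ge (R.N_mem_L u)
    exact ⟨⟨(x, x), ⟨⟨u, hx.symm⟩, ⟨u, hx.symm⟩⟩, hx⟩,
      mem_centralizer_singleton_iff.2 (R.tN u).symm⟩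
  · rw [MonoidHom.range_eq_map, ← map_commutator, ← top_prod_top, commutator_prod_prod,
      ← _root_.commutator_def, perf hβ]

end Cfsg.Agent.S2F
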